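import Cfsg.Agent.H8.M3Iface

/-! Interface: subgroups of `SL₃(F)` generated by transvections. -/

set_option autoImplicit false

namespace Cfsg.Agent.H8
open Cfsg.Geo Matrix

/-- transvection in dimension three -/
def IsTv3 {F : Type*} [Field F] (g : GL (Fin 3) F) : Prop :=
  g ≠ 1 ∧ ((g : Matrix (Fin 3) (Fin 3) F) - 1) * ((g : Matrix (Fin 3) (Fin 3) F) - 1) = 0

/-- `P` is a conjugate of `SL₃(F₀)` -/
def IsSL3 {F : Type*} [Field F] (P : Subgroup (GL (Fin 3) F)) (g : GL (Fin 3) F) (F₀ : Subfield F) : Prop :=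
  ∀ A : GL (Fin 3) F, A ∈ P ↔ (A : Matrix (Fin 3) (Fin 3) F).det = 1 ∧ ∀ i j, (g⁻¹ * A * g) i j ∈ F₀

/-- `P` is a conjugate of `SU₃(q)`, realised over `F₁` -/
def IsSU3 {F : Type*} [Field F] (P : Subgroup (GL (Fin 3) F)) (g : GL (Fin 3) F) (F₁ : Subfield F)
    (q : ℕ) : Prop :=
  Nat.card F₁ = q ^ 2 ∧ ∀ A : GL (Fin 3) F, A ∈ P ↔ (A : Matrix (Fin 3) (Fin 3) F).det = 1 ∧
    (∀ i j, (g⁻¹ * A * g) i j ∈ F₁) ∧
    ((g⁻¹ * A * g : GL (Fin 3) F) : Matrix (Fin 3) (Fin 3) F)ᵀ *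
      ((g⁻¹ * A * g : GL (Fin 3) F) : Matrix (Fin 3) (Fin 3) F).map (· ^ q) = 1

/-- classification of the projectively simple subgroups of `SL₃(F)` generated by transvections -/
def PartA (F : Type*) [Field F] : Prop :=
  ∀ P : Subgroup (GL (Fin 3) F), P = Subgroup.closure {g | g ∈ P ∧ IsTv3 g} →
    (ActsIrreducibly (matrixSet P) ∨ (2 : F) ≠ 0) →
    IsSimpleGroup (ModSc P) → (¬ ∀ a b : ModSc P, a * b = b * a) →
    (∃ g F₀, IsSL3 P g F₀) ∨ (∃ g F₁ q, IsSU3 P g F₁ q) ∨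
    ((2 : F) = 0 ∧ Nonempty (ModSc P ≃* alternatingGroup (Fin 6)) ∧
      ∀ A ∈ P, (A : Matrix (Fin 3) (Fin 3) F).trace ^ 4 = (A : Matrix (Fin 3) (Fin 3) F).trace)

end Cfsg.Agent.H8
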