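import Mathlib
import Cfsg.Agent.H8.Dickson

/-! Consequence of Dickson's theorem: a subgroup of `GL(2, F)` with at least four upper
transvections that does not fix the first coordinate line is a subfield group. -/

set_option autoImplicit false

namespace Cfsg.Agent.H8

open MulAction Matrix OnePoint
open scoped MatrixGroups
open Matrix.ProjGenLinGroup (mk)

variable {F K : Type*} [Field F] [Field K] [Algebra F K]

theorem transl_add (s t : F) : transl (s + t) = transl s * transl t := by
  rw [transl, transl, transl, ← map_mul]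
  congr 1
  ext i j
  fin_cases i <;> fin_cases j <;> simp [Matrix.mul_apply, Fin.sum_univ_two, add_comm]

theorem transl_zero : transl (0 : F) = 1 := mk_eq_one_iff.mpr ⟨rfl, rfl, rfl⟩

theorem transl_eq_one_iff {s : F} : transl s = 1 ↔ s = 0 :=
  ⟨fun h => (mk_eq_one_iff.mp h).1, fun h => h ▸ transl_zero⟩

theorem transl_injective : Function.Injective (transl : F → PGL(2, F)) := by
  intro s t h
  have := transl_smul s 0
  rw [h, transl_smul, coe_eq_coe, zero_add, zero_add] at this
  exact this.symm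

theorem transl_fix {s : F} (hs : s ≠ 0) {x : OnePoint K} (h : transl s • x = x) : x = ∞ := by
  cases x with
  | infty => rfl
  | coe z =>
    rw [transl, smul_coe_eq_coe] at h
    simp only [mat00, map_one, one_mul, mat01, mat10, map_zero, zero_mul, mat11, zero_add, mul_one,
      add_eq_left, map_eq_zero] at h
    exact absurd h hs

theorem transl_mem_PG {k : Subfield F} {s : F} : transl s ∈ PG k ↔ s ∈ k := by
  refine ⟨fun h => ?_, fun h => PS_le_PG k (transl_mem_PS h)⟩
  have := (ratOver_coe.mpr k.zero_mem).smul h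
  rwa [transl_smul, zero_add, ratOver_coe] at this

/-- The parameters of the translations in a subgroup. -/
def translSub (H : Subgroup PGL(2, F)) : AddSubgroup F where
  carrier := {s | transl s ∈ H}
  add_mem' := fun ha hb => by
    rw [Set.mem_ofPred_eq, transl_add]; exact H.mul_mem ha hb
  zero_mem' := by rw [Set.mem_ofPred_eq, transl_zero]; exact H.one_mem
  neg_mem' := fun {a} ha => by
    have : transl (-a) = (transl a)⁻¹ := by
      rw [eq_inv_iff_mul_eq_one, ← transl_add, neg_add_cancel, transl_zero]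
    rw [Set.mem_ofPred_eq, this]; exact H.inv_mem ha

theorem card_translSub_dvd (H : Subgroup PGL(2, F)) : Nat.card (translSub H) ∣ Nat.card H := by
  let f : Multiplicative (translSub H) →* H :=
    { toFun := fun s => ⟨transl (s.toAdd : F), s.toAdd.2⟩
      map_one' := Subtype.ext transl_zero
      map_mul' := fun a b => Subtype.ext (transl_add _ _) }
  have hf : Function.Injective f := fun a b h =>
    Multiplicative.toAdd.injective (Subtype.ext (transl_injective (congrArg Subtype.val h)))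
  exact (Nat.card_congr Multiplicative.toAdd) ▸ Subgroup.card_dvd_of_injective f hf

theorem card_translSub_le_two_of_le_pairStab {H : Subgroup PGL(2, F)} {x y : OnePoint K} (hxy : x ≠ y)
    (h : H ≤ pairStab F x y) : Nat.card (translSub H) ≤ 2 := by
  have key : ∀ s ∈ translSub H, s ≠ 0 → transl s • x = y ∧ transl s • y = x := by
    intro s hs hs0
    rcases h hs with h1 | h1
    · exact absurd ((transl_fix hs0 h1.1).trans (transl_fix hs0 h1.2).symm) hxy
    · exact h1
  by_contra hc
  have hfin : Finite (translSub H) := Nat.finite_of_card_ne_zero (by omega)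
  have := Fintype.ofFinite (translSub H)
  rw [Nat.card_eq_fintype_card, not_le, Fintype.two_lt_card_iff] at hc
  obtain ⟨a, b, c, hab, hac, hbc⟩ := hc
  have h1 := key _ (a - b).2 (fun e => hab (sub_eq_zero.mp (Subtype.ext e)))
  have h2 := key _ (b - c).2 (fun e => hbc (sub_eq_zero.mp (Subtype.ext e)))
  have h3 := key _ (a - c).2 (fun e => hac (sub_eq_zero.mp (Subtype.ext e)))
  have e : ((a - c : translSub H) : F) = (a - b : translSub H) + (b - c : translSub H) := by
    push_cast; ring
  rw [e, transl_add, mul_smul, h2.1, h1.2] at h3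
  exact hxy h3.1

theorem cj_PG_of_mem {k : Subfield F} {g : PGL(2, F)} (hg : g ∈ PG k) : cj g (PG k) = PG k :=
  cj_eq_self_of_mem hg

instance Lsub_normal : (Lsub F).Normal := ⟨fun a ha b => by
  induction a using ProjGenLinGroup.induction_on with | mk a =>
  induction b using ProjGenLinGroup.induction_on with | mk b =>
  rw [← map_inv, ← map_mul, ← map_mul]
  rw [mk_mem_Lsub, ← det_fin_two] at *
  rwa [Units.val_mul, Units.val_mul, det_units_conj]⟩

theorem cj_PS_of_mem {k : Subfield F} {g : PGL(2, F)} (hg : g ∈ PG k) : cj g (PS k) = PS k := by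
  obtain ⟨g, rfl⟩ := hg
  ext x
  rw [mem_cj]
  constructor
  · rintro ⟨y, hy, e⟩
    refine ⟨g * y * g⁻¹, Lsub_normal.conj_mem _ hy g, ?_⟩
    rw [map_mul, map_mul, e, map_inv]; simp [mul_assoc]
  · rintro ⟨y, hy, rfl⟩
    exact ⟨g⁻¹ * y * g, Lsub_normal.conj_mem' _ hy g, by simp⟩

theorem exists_PG_smul_infty {k : Subfield F} {x : OnePoint F} (hx : RatOver k x) :
    ∃ γ ∈ PG k, γ • (∞ : OnePoint F) = x := by
  obtain ⟨x, rfl⟩ := hx
  obtain ⟨a, ha⟩ := exists_smul_eq_infty x
  refine ⟨ProjGenLinGroup.map (algebraMap k F) a⁻¹, ⟨a⁻¹, rfl⟩, ?_⟩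
  rw [pglMap_smul, inv_smul_eq_iff, ← ratPt_smul, ha]; rfl

/-- The unique fixed point of a non-trivial unipotent element of `PGL(2, k)` is `k`-rational. -/
theorem ratOver_of_isUnip {k : Subfield F} [Finite k] {x : OnePoint F} {u : PGL(2, F)}
    (hu : u ∈ PG k) (h1 : u ≠ 1) (h : IsUnip x u) : RatOver k x := by
  obtain ⟨u, rfl⟩ := hu
  have hu1 : u ≠ 1 := fun e => h1 (by rw [e, map_one])
  have hx : u • x = x := (pglMap_smul u x).symm.trans h.1
  rcases rat_or_irr hu1 hx with h2 | ⟨t, a, b, ht, rfl⟩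
  · exact h2
  · exact absurd (h.2 _ (fun e => ht.ne_conj (coe_eq_coe.mp e).symm)
      ((pglMap_smul u _).trans (ht.smul_conj hx))) h1

theorem dickson_core [Finite F] (H : Subgroup PGL(2, F)) (h4 : 4 ≤ Nat.card (translSub H))
    (hne : ∃ γ ∈ H, γ • (∞ : OnePoint F) ≠ ∞) :
    ∃ (k : Subfield F) (α β : F) (hα : α ≠ 0), (∀ s, transl s ∈ H ↔ s / α ∈ k) ∧
      (H = cj (mk (mat α β 0 1 (by simpa using hα))) (PS k) ∨
       H = cj (mk (mat α β 0 1 (by simpa using hα))) (PG k)) := by
  have := Fintype.ofFinite F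
  obtain ⟨p, hp⟩ := CharP.exists F
  obtain ⟨n, hpp, hn⟩ := FiniteField.card F p
  have : Fact p.Prime := ⟨hpp⟩
  have : Nontrivial (translSub H) := Finite.one_lt_card_iff_nontrivial.mp (by omega)
  obtain ⟨s₀, hs₀⟩ := exists_ne (0 : translSub H)
  have hs₀' : (s₀ : F) ≠ 0 := fun e => hs₀ (Subtype.ext e)
  rcases dickson p H with ⟨x, hx⟩ | ⟨x, y, hxy, hx⟩ | ⟨t, a, b, ht, hx⟩ | ⟨k, hk, -, hk'⟩ |
    ⟨k, g, -, hk⟩
  · obtain ⟨γ, hγ, hγ'⟩ := hne
    have := transl_fix hs₀' (hx s₀.2)
    subst this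
    exact absurd (hx hγ) hγ'
  · have := card_translSub_le_two_of_le_pairStab hxy hx
    omega
  · have := card_translSub_le_two_of_le_pairStab (fun e => ht.ne_conj (coe_eq_coe.mp e)) hx
    omega
  · exfalso
    have h1 := card_translSub_dvd H
    obtain ⟨s, -, hs⟩ : ∃ s ≤ (n : ℕ), Nat.card (translSub H) = p ^ s := by
      rw [← Nat.dvd_prime_pow hpp, ← hn, ← Nat.card_eq_fintype_card]
      exact AddSubgroup.card_addSubgroup_dvd_card _
    rw [hs] at h1 h4
    rcases hk' with hk' | ⟨rfl, rfl⟩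
    · rcases s with _ | s
      · simp at h4
      · exact hk' ((dvd_pow_self p s.succ_ne_zero).trans h1)
    · have h60 : Nat.card H = 60 := by omega
      rw [h60] at h1
      rcases s with _ | _ | s
      · omega
      · omega
      · have : 9 ∣ 60 := (Dvd.intro_left (3 ^ s) (by ring)).trans h1
        omega
  · have hle : H ≤ cj g (PG k) := by
      rcases hk with rfl | rfl
      · exact cj_mono g (PS_le_PG k)
      · exact le_rfl
    have h1 : RatOver k (g⁻¹ • (∞ : OnePoint F)) := by
      refine ratOver_of_isUnip (mem_cj.mp (hle s₀.2)) ?_ ?_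
      · intro e
        apply hs₀'
        rw [← transl_eq_one_iff]
        have : transl (s₀ : F) = g * (g⁻¹ * transl (s₀ : F) * g) * g⁻¹ := by group
        rw [this, e]; simp
      · simpa using (isUnip_transl (s₀ : F)).conj g⁻¹
    obtain ⟨γ, hγ, hγ'⟩ := exists_PG_smul_infty h1
    have h2 : (g * γ) • (∞ : OnePoint F) = ∞ := by rw [mul_smul, hγ', smul_inv_smul]
    obtain ⟨a, ha⟩ := ProjGenLinGroup.mk_surjective (g * γ)
    rw [← ha, smul_infty_eq_infty] at h2
    have hd := a.det_ne_zero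
    rw [det_fin_two, h2, mul_zero, sub_zero] at hd
    obtain ⟨a00, a11⟩ := mul_ne_zero_iff.mp hd
    have hα : a 0 0 / a 1 1 ≠ 0 := div_ne_zero a00 a11
    have h3 : mk (mat (a 0 0 / a 1 1) (a 0 1 / a 1 1) 0 1 (by simpa using hα)) = g * γ := by
      rw [← ha]
      refine mk_eq_of_smul (a 1 1) a11 fun i j => ?_
      fin_cases i <;> fin_cases j <;> simp [h2, mul_div_cancel₀ _ a11]
    have hk2 : H = cj (g * γ) (PS k) ∨ H = cj (g * γ) (PG k) := by
      rwa [← cj_cj, ← cj_cj, cj_PS_of_mem hγ, cj_PG_of_mem hγ]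
    refine ⟨k, a 0 0 / a 1 1, a 0 1 / a 1 1, hα, fun s => ?_, h3 ▸ hk2⟩
    have h5 : (g * γ)⁻¹ * transl s * (g * γ) = transl (s / (a 0 0 / a 1 1)) := by
      rw [mul_assoc, inv_mul_eq_iff_eq_mul, ← h3, transl, transl, ← map_mul, ← map_mul]
      congr 1
      ext i j
      fin_cases i <;> fin_cases j <;> simp [Matrix.mul_apply, Fin.sum_univ_two]
      field_simp
      ring
    rcases hk2 with rfl | rfl
    · rw [mem_cj, h5]
      exact ⟨fun h => transl_mem_PG.mp (PS_le_PG k h), transl_mem_PS⟩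
    · rw [mem_cj, h5, transl_mem_PG]

/-- If a scalar multiple of a matrix of order dividing the characteristic lies in a subgroup, so
does the matrix. -/
theorem mem_of_mk_mem_map [Finite F] (p : ℕ) [Fact p.Prime] [CharP F p] {G : Subgroup (GL (Fin 2) F)}
    {u : GL (Fin 2) F} (hu : u ^ p = 1) (h : mk u ∈ G.map mk) : u ∈ G := by
  classical
  have := Fintype.ofFinite F
  obtain ⟨n, -, hn⟩ := FiniteField.card F p
  obtain ⟨g, hg, e⟩ := h
  obtain ⟨c, rfl⟩ := ProjGenLinGroup.mk_eq_mk_iff.mp e.symm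
  have hcomm : Commute u (GeneralLinearGroup.scalar (Fin 2) c) := by
    have : GeneralLinearGroup.scalar (Fin 2) c ∈ Subgroup.center (GL (Fin 2) F) := by
      rw [GeneralLinearGroup.center_eq_range_scalar]; exact ⟨c, rfl⟩
    exact Subgroup.mem_center_iff.mp this u
  have h1 := G.pow_mem hg (Fintype.card F - 1)
  rw [hcomm.mul_pow, ← map_pow, ← Fintype.card_units, pow_card_eq_one, map_one, mul_one,
    Fintype.card_units] at h1
  have h2 : u ^ Fintype.card F = 1 := by
    rw [hn, ← Nat.succ_pred_eq_of_pos n.pos, pow_succ', pow_mul, hu, one_pow]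
  have h3 : u = (u ^ (Fintype.card F - 1))⁻¹ := by
    rw [eq_inv_iff_mul_eq_one, ← pow_succ', Nat.sub_add_cancel Fintype.card_pos, h2]
  rw [h3]
  exact G.inv_mem h1

theorem upper_pow (s : F) (n : ℕ) :
    mat 1 s 0 1 (by simp) ^ n = mat 1 (n * s) 0 1 (by simp) := by
  induction n with
  | zero => ext i j; fin_cases i <;> fin_cases j <;> simp
  | succ n ih =>
    rw [pow_succ, ih]
    ext i j
    fin_cases i <;> fin_cases j <;> simp [Matrix.mul_apply, Fin.sum_univ_two, add_mul, add_comm]

theorem lower_pow (s : F) (n : ℕ) :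
    mat 1 0 s 1 (by simp) ^ n = mat 1 0 (n * s) 1 (by simp) := by
  induction n with
  | zero => ext i j; fin_cases i <;> fin_cases j <;> simp
  | succ n ih =>
    rw [pow_succ, ih]
    ext i j
    fin_cases i <;> fin_cases j <;> simp [Matrix.mul_apply, Fin.sum_univ_two, add_mul, add_comm]

/-- Matrix form of the core of Dickson's theorem. `mat a b c d _` is the matrix `!![a, b; c, d]`. -/
theorem dickson_core_GL [Finite F] (G : Subgroup (GL (Fin 2) F))
    (h4 : 4 ≤ Nat.card {s : F // mat 1 s 0 1 (by simp) ∈ G}) (hne : ∃ g ∈ G, g 1 0 ≠ 0) :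
    ∃ (k : Subfield F) (α β : F) (hα : α ≠ 0), (∀ s, mat 1 s 0 1 (by simp) ∈ G ↔ s / α ∈ k) ∧
      (∀ g ∈ G, ∃ c : F, c ≠ 0 ∧ ∀ i j, c * ((mat α β 0 1 (by simpa using hα))⁻¹ * g *
        mat α β 0 1 (by simpa using hα) : GL (Fin 2) F) i j ∈ k) ∧
      ∀ h : SL(2, k), mat α β 0 1 (by simpa using hα) *
        GeneralLinearGroup.map k.subtype (SpecialLinearGroup.toGL h) *
        (mat α β 0 1 (by simpa using hα))⁻¹ ∈ G := by
  have := Fintype.ofFinite F
  obtain ⟨p, hp⟩ := CharP.exists F
  obtain ⟨n, hpp, hn⟩ := FiniteField.card F p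
  have : Fact p.Prime := ⟨hpp⟩
  have hup : ∀ s : F, mat 1 s 0 1 (by simp) ^ p = 1 := by
    intro s; rw [upper_pow]; ext i j; fin_cases i <;> fin_cases j <;> simp
  have hlo : ∀ s : F, mat 1 0 s 1 (by simp) ^ p = 1 := by
    intro s; rw [lower_pow]; ext i j; fin_cases i <;> fin_cases j <;> simp
  have hiff : ∀ s : F, mat 1 s 0 1 (by simp) ∈ G ↔ transl s ∈ G.map mk :=
    fun s => ⟨fun h => ⟨_, h, rfl⟩, mem_of_mk_mem_map p (hup s)⟩
  obtain ⟨k, α, β, hα, h1, h2⟩ := dickson_core (G.map mk) (by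
    refine h4.trans (le_of_eq (Nat.card_congr (Equiv.subtypeEquivRight hiff)))) (by
    obtain ⟨g, hg, hg'⟩ := hne
    exact ⟨mk g, ⟨g, hg, rfl⟩, fun h => hg' (smul_infty_eq_infty.mp h)⟩)
  set P := mat α β 0 1 (by simpa using hα) with hP
  have hle : G.map mk ≤ cj (mk P) (PG k) := by
    rcases h2 with h2 | h2 <;> rw [h2]
    exact cj_mono _ (PS_le_PG k)
  have hge : cj (mk P) (PS k) ≤ G.map mk := by
    rcases h2 with h2 | h2 <;> rw [h2]
    exact cj_mono _ (PS_le_PG k)
  refine ⟨k, α, β, hα, fun s => (hiff s).trans (h1 s), fun g hg => ?_, fun h => ?_⟩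
  · obtain ⟨a, ha, ha'⟩ := mem_PG.mp (mem_cj.mp (hle ⟨g, hg, rfl⟩))
    rw [← map_inv, ← map_mul, ← map_mul] at ha
    obtain ⟨c, hc, e⟩ := exists_smul_of_mk_eq ha.symm
    exact ⟨c, hc, fun i j => e i j ▸ ha' i j⟩
  · have key : ∀ u : GL (Fin 2) F, u ^ p = 1 → mk u ∈ PS k → P * u * P⁻¹ ∈ G := by
      intro u hu hu'
      refine mem_of_mk_mem_map p (by rw [conj_pow, hu]; simp) (hge (mem_cj.mpr ?_))
      simpa [mul_assoc] using hu'
    induction h using SL2.transvection_induction with
    | htransvec i j h c =>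
      fin_cases i <;> fin_cases j
      · exact absurd rfl h
      · convert key _ (hup c) (transl_mem_PS c.2) using 3
        ext i j
        fin_cases i <;> fin_cases j <;> simp [SpecialLinearGroup.transvection_coe]
      · convert key _ (hlo c) (transl'_mem_PS c.2) using 3
        ext i j
        fin_cases i <;> fin_cases j <;> simp [SpecialLinearGroup.transvection_coe]
      · exact absurd rfl h
    | hmul A B hA hB =>
      have := G.mul_mem hA hB
      simpa [mul_assoc] using this

end Cfsg.Agent.H8
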