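import Cfsg.Agent.H8.M3C
import Cfsg.Agent.H8.Dickson
import Cfsg.Agent.H3.SmallGroups
import Cfsg.Agent.H2.Perf1

/-! Stabilisers of non-incident point-line pairs and Dickson's theorem. -/

set_option autoImplicit false
set_option linter.unusedSectionVars false

namespace Cfsg.Agent.H8.M3
open Matrix Equiv MulAction OnePoint
open scoped MatrixGroups
open Matrix.ProjGenLinGroup (mk)

universe u
variable {K : Type*} [Field K] {G : Type u} [Group G]

theorem SN.fix (hG : SN G) {Y : Type*} (act : G → Y → Y) (h1 : ∀ y, act 1 y = y)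
    (hm : ∀ g h y, act (g * h) y = act g (act h y)) {S : Set Y} (hS : S.Finite) (h4 : S.ncard ≤ 4)
    (hinv : ∀ g, ∀ y ∈ S, act g y ∈ S) (g : G) {y : Y} (hy : y ∈ S) : act g y = y := by
  let _ : MulAction G S :=
    { smul := fun g y => ⟨act g y, hinv g y y.2⟩
      one_smul := fun y => Subtype.ext (h1 y)
      mul_smul := fun g h y => Subtype.ext (hm g h y) }
  have := hS.to_subtype
  have := H2.solvable_perm_of_card_le_four (α := S) (by rwa [Nat.card_coe_set_eq])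
  rcases hG.normal_cases _ (MonoidHom.normal_ker (toPermHom G S)) with e | e
  · have := hG.simple
    exact absurd (IsSimpleGroup.comm_iff_isSolvable.2 (Group.isSolvable_of_isSolvable_injective
      ((MonoidHom.ker_eq_bot_iff _).1 e))) hG.nc
  · have : toPermHom G S g = 1 := (MonoidHom.mem_ker).1 (e ▸ Subgroup.mem_top g)
    exact congrArg Subtype.val (congrArg (fun σ : Perm S => σ ⟨y, hy⟩) this)

abbrev M2 (K : Type*) := Matrix (Fin 2) (Fin 2) K

/-- monomial `2 × 2` matrix -/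
def Mono2 (B : GL (Fin 2) K) : Prop := (B 0 1 = 0 ∧ B 1 0 = 0) ∨ (B 0 0 = 0 ∧ B 1 1 = 0)

theorem mono2_of_pair {H : Subgroup PGL(2, K)} {x y : OnePoint K} (hxy : x ≠ y)
    (h : ∀ g ∈ H, (g • x = x ∧ g • y = y) ∨ (g • x = y ∧ g • y = x)) :
    ∃ g : GL (Fin 2) K, ∀ B : GL (Fin 2) K, mk B ∈ H → Mono2 (g⁻¹ * B * g) := by
  obtain ⟨γ, h1, h2⟩ := exists_smul_two hxy
  obtain ⟨g, rfl⟩ := ProjGenLinGroup.mk_surjective γ
  refine ⟨g⁻¹, fun B hB => ?_⟩
  rw [inv_inv]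
  have e : mk (g * B * g⁻¹) = mk g * mk B * (mk g)⁻¹ := by rw [map_mul, map_mul, map_inv]
  rcases h _ hB with ⟨a, b⟩ | ⟨a, b⟩
  · left
    have a1 : mk (g * B * g⁻¹) • (∞ : OnePoint K) = ∞ := by rw [e, ← h1, conj_smul_smul, a]
    have b1 : mk (g * B * g⁻¹) • ((0 : K) : OnePoint K) = (0 : K) := by rw [e, ← h2, conj_smul_smul, b]
    rw [smul_infty_eq_infty] at a1
    rw [smul_coe_eq_coe] at b1
    exact ⟨by simpa using b1, a1⟩
  · right
    have a1 : mk (g * B * g⁻¹) • (∞ : OnePoint K) = (0 : K) := by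
      rw [e]; conv_lhs => rw [← h1, conj_smul_smul, a, h2]
    have b1 : mk (g * B * g⁻¹) • ((0 : K) : OnePoint K) = ∞ := by
      rw [e]; conv_lhs => rw [← h2, conj_smul_smul, b, h1]
    rw [smul_infty_eq_coe] at a1
    rw [smul_coe_eq_infty] at b1
    exact ⟨by simpa using a1, by simpa using b1⟩

/-- the exceptional subgroups -/
def Exc (X : Type*) [Group X] (k : ℕ) : Prop :=
  ((k = 3 ∧ Nat.card X = 12) ∨ (k = 4 ∧ Nat.card X = 24) ∨ (k = 5 ∧ Nat.card X = 60)) ∧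
      (∀ g : X, g ^ 2 = 1 ∨ g ^ 3 = 1 ∨ g ^ k = 1)

theorem dickson_tame [IsAlgClosed K] (p : ℕ) [Fact p.Prime] [CharP K p] (H : Subgroup PGL(2, K))
    [Finite H] (hp : ¬ p ∣ Nat.card H) :
    (∃ g : GL (Fin 2) K, ∀ B : GL (Fin 2) K, mk B ∈ H → Mono2 (g⁻¹ * B * g)) ∨
    ∃ k, Exc H k := by
  have hM := mobiusLike (F := K) (K := K) p H
  have hu : ∀ (x : OnePoint K) (g : H), IsUnip x g → g = 1 := fun x g hg => by
    by_contra h1
    exact hp (orderOf_eq_prime (hM.unip_pow x g hg) h1 ▸ orderOf_dvd_natCard g)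
  rcases hM.classify Fact.out with ⟨x, hx⟩ | ⟨x, y, hxy, -, h⟩ | ⟨k, h1, h2, -⟩ | ⟨O, x, y, c, Q, h⟩
  · obtain ⟨c, d, c1, c2, -, -, c3, c4⟩ := hM.exists_torus x
    obtain ⟨y, hy, hc⟩ : ∃ y, y ≠ x ∧ c • y = y := by
      rcases c3 with e | e
      · obtain ⟨y, hy⟩ := exists_ne x
        exact ⟨y, hy, by rw [orderOf_eq_one_iff.1 (c2.trans e), one_smul]⟩
      · exact e
    refine Or.inl (mono2_of_pair hy.symm fun g hg => Or.inl ⟨hx ⟨g, hg⟩, ?_⟩)
    obtain ⟨i, hi⟩ := c4 ⟨g, hg⟩ (hx _)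
    have := inv_mul_eq_one.1 (hu _ _ hi)
    change (⟨g, hg⟩ : H) • y = y
    rw [← this]
    exact (stabilizer H y).pow_mem hc i
  · exact Or.inl (mono2_of_pair hxy fun g hg => h ⟨g, hg⟩)
  · exact Or.inr ⟨k, h1, h2⟩
  · exfalso
    have h3 := h.three_le
    have : Subsingleton {u : H // IsUnip x u} :=
      ⟨fun a b => Subtype.ext ((hu _ _ a.2).trans (hu _ _ b.2).symm)⟩
    have := Finite.card_le_one_iff_subsingleton.2 this
    rw [h.card_unip] at this
    omega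

/-- block matrix -/
def blk (B : M2 K) : Mt K := !![1, 0, 0; 0, B 0 0, B 0 1; 0, B 1 0, B 1 1]

theorem blk_mul (B C : M2 K) : blk B * blk C = blk (B * C) := by
  ext i j; fin_cases i <;> fin_cases j <;> simp [blk, mul_apply, Fin.sum_univ_succ]

theorem blk_one : blk (1 : M2 K) = 1 := by
  ext i j; fin_cases i <;> fin_cases j <;> simp [blk]

theorem det_blk (B : M2 K) : (blk B).det = B.det := by
  simp [blk, det_fin_three, det_fin_two]

theorem blk_inj {B C : M2 K} {c : K} (h : blk B = c • blk C) : c = 1 ∧ B = C := by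
  have e := fun i j => congrFun (congrFun h i) j
  have e0 := e 0 0; have e1 := e 1 1; have e2 := e 1 2; have e3 := e 2 1; have e4 := e 2 2
  simp [blk] at e0 e1 e2 e3 e4
  subst e0
  refine ⟨rfl, ?_⟩
  ext i j; fin_cases i <;> fin_cases j <;> simp_all

theorem blk_smul_one (c : K) : blk (c • 1 : M2 K) = diagonal ![1, c, c] := by
  ext i j; fin_cases i <;> fin_cases j <;> simp [blk]

/-- block embedding -/
noncomputable def blkGL (B : GL (Fin 2) K) : GL (Fin 3) K :=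
  ⟨blk B, blk (B⁻¹ : GL (Fin 2) K), by rw [blk_mul, Units.mul_inv, blk_one],
    by rw [blk_mul, Units.inv_mul, blk_one]⟩

variable {ρ : G →* PGL(3, K)} {x y : G}

/-- the stabiliser of the standard anti-flag -/
def Blk (ρ : G →* PGL(3, K)) : Subgroup G where
  carrier := {x | ∃ B : GL (Fin 2) K, Rep ρ x (blk B)}
  mul_mem' := fun ⟨B, h⟩ ⟨C, h'⟩ => ⟨B * C, (h.mul h').congr (blk_mul _ _)⟩
  one_mem' := ⟨1, Rep.one.congr blk_one.symm⟩
  inv_mem' := fun ⟨B, h⟩ => ⟨B⁻¹, h.inv one_ne_zero (by rw [blk_mul, Units.mul_inv, blk_one, one_smul])⟩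

theorem mem_Blk {B : M2 K} (h : Rep ρ x (blk B)) : x ∈ Blk ρ :=
  ⟨GeneralLinearGroup.mkOfDetNeZero B (det_blk B ▸ h.det_ne), h⟩

theorem blk_uniq {B C : M2 K} (h : Rep ρ x (blk B)) (h' : Rep ρ x (blk C)) : B = C := by
  obtain ⟨c, -, hc⟩ := h.uniq h'
  exact (blk_inj hc).2.symm

/-- the block of an element -/
noncomputable def psi (ρ : G →* PGL(3, K)) : Blk ρ →* GL (Fin 2) K :=
  MonoidHom.mk' (fun x => x.2.choose) (fun x y => Units.ext
    (blk_uniq (x * y).2.choose_spec ((x.2.choose_spec.mul y.2.choose_spec).congr (blk_mul _ _))))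

theorem rep_psi (x : Blk ρ) : Rep ρ x (blk (psi ρ x : GL (Fin 2) K)) := x.2.choose_spec

theorem psi_eq {B : M2 K} (h : Rep ρ x (blk B)) : (psi ρ ⟨x, mem_Blk h⟩ : GL (Fin 2) K) = B :=
  blk_uniq (rep_psi _) h

/-- the action on the line -/
noncomputable def chi (ρ : G →* PGL(3, K)) : Blk ρ →* PGL(2, K) := mk.comp (psi ρ)

theorem chi_eq_one {x : Blk ρ} : chi ρ x = 1 ↔ ∃ c : K, (psi ρ x : M2 K) = c • 1 := by
  rw [chi, MonoidHom.comp_apply, mk_eq_one_iff]
  constructor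
  · rintro ⟨h1, h2, h3⟩
    refine ⟨psi ρ x 1 1, ?_⟩
    ext i j; fin_cases i <;> fin_cases j <;> simp [h1, h2, h3]
  · rintro ⟨c, h⟩
    simp [h]

/-- no elations -/
structure NE (ρ : G →* PGL(3, K)) : Prop where
  inj : Function.Injective ρ
  sn : SN G
  noE : ∀ x N, Rep ρ x (1 + N) → N * N = 0 → N = 0

theorem conj_mul_conj (g : GL (Fin 3) K) (A B : Mt K) : (g : Mt K) * A * ((g⁻¹ : GL (Fin 3) K) : Mt K) *
      ((g : Mt K) * B * ((g⁻¹ : GL (Fin 3) K) : Mt K)) = g * (A * B) * ((g⁻¹ : GL (Fin 3) K) : Mt K) := by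
  simp [mul_assoc]

theorem conj_one_add (g : GL (Fin 3) K) (A : Mt K) : (g : Mt K) * (1 + A) * ((g⁻¹ : GL (Fin 3) K) : Mt K) =
    1 + g * A * ((g⁻¹ : GL (Fin 3) K) : Mt K) := by
  simp [mul_add, add_mul]

theorem NE.cjr (h : NE ρ) (g : GL (Fin 3) K) : NE (cjr ρ g) :=
  ⟨cjr_inj h.inj g, h.sn, fun x N h1 h2 => by
    rw [rep_cjr, conj_one_add] at h1
    have := h.noE x _ h1 (by rw [conj_mul_conj, h2]; simp)
    rwa [Units.mul_left_eq_zero, Units.mul_right_eq_zero] at this⟩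

theorem NE.not_isEl (h : NE ρ) {A : Mt K} (h1 : Rep ρ x A) : ¬ IsEl A := by
  rintro ⟨m, s, N, n1, n2, n3⟩
  exact n1 (h.noE _ _ (n3 ▸ h1.pow m).of_smul n2)

theorem sq_zero_of_nilp {N : M2 K} (h : IsNilpotent N) : N * N = 0 := by
  have h1 := (isNilpotent_trace_of_isNilpotent h).eq_zero
  obtain ⟨n, hn⟩ := h
  have h2 : N.det = 0 := by
    have := congrArg det hn
    rw [det_pow, det_zero] at this
    exact pow_eq_zero_iff (by rintro rfl; simp at this) |>.1 this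
  rw [trace_fin_two] at h1
  rw [det_fin_two] at h2
  ext i j; fin_cases i <;> fin_cases j <;> simp [mul_apply, Fin.sum_univ_two] <;> grind

theorem blk_unip (p : ℕ) [Fact p.Prime] [CharP K p] {B : M2 K} (h : B ^ p = 1) :
    ∃ N : Mt K, N * N = 0 ∧ blk B = 1 + N := by
  have h1 : (B - 1) ^ p = 0 := by
    rw [sub_pow_char_of_commute _ (Commute.one_right B), h, one_pow, sub_self]
  have h2 := sq_zero_of_nilp ⟨p, h1⟩
  refine ⟨blk B - 1, ?_, by abel⟩
  have e := fun i j => congrFun (congrFun h2 i) j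
  have e0 := e 0 0; have e1 := e 0 1; have e2 := e 1 0; have e3 := e 1 1
  simp [mul_apply, Fin.sum_univ_two] at e0 e1 e2 e3
  ext i j; fin_cases i <;> fin_cases j <;> simp [blk, mul_apply, Fin.sum_univ_succ] <;> assumption

theorem NE.not_dvd_blk [Finite G] (p : ℕ) [Fact p.Prime] [CharP K p] (h : NE ρ) :
    ¬ p ∣ Nat.card (Blk ρ) := by
  intro hd
  obtain ⟨x, hx⟩ := exists_prime_orderOf_dvd_card' p hd
  have h1 : ((psi ρ x : GL (Fin 2) K) : M2 K) ^ p = 1 := by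
    rw [← Units.val_pow_eq_pow_val, ← map_pow, ← hx, pow_orderOf_eq_one, map_one, Units.val_one]
  obtain ⟨N, n1, n2⟩ := blk_unip p h1
  have h2 := rep_psi x
  rw [n2] at h2
  rw [h.noE _ _ h2 n1, add_zero] at h2
  have : x = 1 := Subtype.ext (h2.eq h.inj Rep.one)
  rw [this, orderOf_one] at hx
  exact (Fact.out : p.Prime).one_lt.ne hx

theorem NE.dickson [Finite G] [IsAlgClosed K] (p : ℕ) [Fact p.Prime] [CharP K p] (h : NE ρ) :
    (∃ g : GL (Fin 2) K, ∀ x : Blk ρ, Mono2 (g⁻¹ * psi ρ x * g)) ∨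
    ∃ k, Exc (chi ρ).range k ∧ ¬ p ∣ Nat.card (chi ρ).range := by
  have hp : ¬ p ∣ Nat.card (chi ρ).range := fun hd =>
    h.not_dvd_blk p (hd.trans (Subgroup.card_range_dvd _))
  have : Finite (chi ρ).range := Finite.Set.finite_range _
  rcases dickson_tame p _ hp with ⟨g, hg⟩ | ⟨k, hk⟩
  · exact Or.inl ⟨g, fun x => hg _ ⟨x, rfl⟩⟩
  · exact Or.inr ⟨k, hk, hp⟩

theorem u2 {B : M2 K} {c : K} (hB : B 1 0 ≠ 0) :
    (B ^ 2 = c • 1 → B.trace = 0) ∧ (B ^ 3 = c • 1 → B.trace ^ 2 = B.det) ∧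
    (B ^ 4 = c • 1 → B.trace * (B.trace ^ 2 - 2 * B.det) = 0) ∧
    (B ^ 5 = c • 1 → B.trace ^ 4 - 3 * B.trace ^ 2 * B.det + B.det ^ 2 = 0) := by
  refine ⟨fun h => ?_, fun h => ?_, fun h => ?_, fun h => ?_⟩ <;>
    have := congrFun (congrFun h 1) 0 <;>
    simp only [pow_succ, pow_zero, one_mul, mul_apply, Fin.sum_univ_two, Matrix.smul_apply, ne_eq,
      one_ne_zero, not_false_eq_true, one_apply_ne, smul_eq_mul, mul_zero] at this <;>
    apply mul_left_cancel₀ hB <;> rw [trace_fin_two] <;> (try rw [det_fin_two]) <;>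
    linear_combination this

theorem sq2 (B : M2 K) : B ^ 2 = B.trace • B - B.det • 1 := by
  ext i j; fin_cases i <;> fin_cases j <;>
    simp [sq, mul_apply, Fin.sum_univ_two, trace_fin_two, det_fin_two] <;> ring

end Cfsg.Agent.H8.M3
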