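import Cfsg.Agent.H8.M3PartA

/-! Interface for the clauses of S5711. -/

set_option autoImplicit false

namespace Cfsg.Agent.H8
open Matrix
open scoped MatrixGroups

/-- clauses 1-4 of S5711 -/
def Cl14 (p α : ℕ) (H : Type*) [Group H] : Prop :=
  (∃ (K : Type) (_ : Field K) (_ : Fintype K) (β : ℕ), Fintype.card K = p ^ β ∧ β ∣ α ∧ Nonempty (H ≃* Matrix.ProjectiveSpecialLinearGroup (Fin 3) K)) ∨
  (∃ (K : Type) (_ : Field K) (_ : Fintype K) (β : ℕ), Fintype.card K = p ^ (2 * β) ∧ 2 * β ∣ α ∧ Nonempty (H ≃* Cfsg.PSU 3 K (p ^ β))) ∨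
  (∃ (K : Type) (_ : Field K) (_ : Fintype K) (β : ℕ), Fintype.card K = p ^ β ∧ 3 ∣ p ^ β - 1 ∧ 3 * β ∣ α ∧ ∃ L : Subgroup H, L.index = 3 ∧ Nonempty (L ≃* Matrix.ProjectiveSpecialLinearGroup (Fin 3) K)) ∨
  (∃ (K : Type) (_ : Field K) (_ : Fintype K) (β : ℕ), Fintype.card K = p ^ (2 * β) ∧ 3 ∣ p ^ β + 1 ∧ 6 * β ∣ α ∧ ∃ L : Subgroup H, L.index = 3 ∧ Nonempty (L ≃* Cfsg.PSU 3 K (p ^ β)))

/-- clauses 5-6 of S5711 -/
def Cl56 (p α : ℕ) (H : Type*) [Group H] : Prop :=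
  (∃ (K : Type) (_ : Field K) (_ : Fintype K) (β : ℕ), Fintype.card K = p ^ β ∧ β ∣ α ∧ p ^ β ≠ 3 ∧ (Nonempty (H ≃* Matrix.ProjectiveSpecialLinearGroup (Fin 2) K) ∨ Nonempty (H ≃* (GL (Fin 2) K ⧸ Subgroup.center (GL (Fin 2) K))))) ∨
  ((p ^ α % 10 = 1 ∨ p ^ α % 10 = 9) ∧ ∃ (K : Type) (_ : Field K) (_ : Fintype K), Fintype.card K = 5 ∧ Nonempty (H ≃* Matrix.ProjectiveSpecialLinearGroup (Fin 2) K))

/-- no non-trivial elementary abelian normal subgroup -/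
def NoEA (H : Type*) [Group H] : Prop :=
  ∀ N : Subgroup H, N.Normal → IsMulCommutative N → (∃ r : ℕ, r.Prime ∧ ∀ x ∈ N, x ^ r = 1) → N = ⊥

/-- `H` contains and normalises a subfield group `SL₃(F₀)` or `SU₃(q₀)` -/
def SubfPart (F : Type*) [Field F] [Fintype F] : Prop :=
  ∀ (p α : ℕ) [Fact p.Prime], p ≠ 2 → Fintype.card F = p ^ α → ∀ (H : Subgroup PSL(3, F))
    (P : Subgroup (GL (Fin 3) F)), ((∃ g F₀, IsSL3 P g F₀) ∨ ∃ g F₁ q, IsSU3 P g F₁ q) →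
    (∀ A : SL(3, F), SpecialLinearGroup.toGL A ∈ P → (A : PSL(3, F)) ∈ H) →
    (∀ A : SL(3, F), (A : PSL(3, F)) ∈ H → ∀ x ∈ P,
      SpecialLinearGroup.toGL A * x * (SpecialLinearGroup.toGL A)⁻¹ ∈ P) → Cl14 p α H

/-- `H` preserves a conic over the algebraic closure -/
def ConicPart (F : Type*) [Field F] [Fintype F] : Prop :=
  ∀ (p α : ℕ) [Fact p.Prime], p ≠ 2 → Fintype.card F = p ^ α → ∀ (H : Subgroup PSL(3, F)), H ≠ ⊥ → NoEA H →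
    ∀ S : Matrix (Fin 3) (Fin 3) (AlgebraicClosure F), Sᵀ = S → S.det ≠ 0 →
    (∀ A : SL(3, F), (A : PSL(3, F)) ∈ H → ∃ c : AlgebraicClosure F,
      (A.1.map (algebraMap F _))ᵀ * S * A.1.map (algebraMap F _) = c • S) → Cl56 p α H

end Cfsg.Agent.H8
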