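import Mathlib
import Cfsg.Agent.H8.M3B

/-! Projective representations of degree three: basic calculus. -/

set_option autoImplicit false
set_option linter.unusedSectionVars false

namespace Cfsg.Agent.H8.M3
open Matrix
open scoped MatrixGroups
open Matrix.ProjGenLinGroup (mk)

universe u
variable {K : Type*} [Field K] {G : Type u} [Group G]

abbrev Mt (K : Type*) := Matrix (Fin 3) (Fin 3) K

/-- the matrix `A` represents the element `x` -/
def Rep (ρ : G →* PGL(3, K)) (x : G) (A : Mt K) : Prop := ∃ g : GL (Fin 3) K, (g : Mt K) = A ∧ mk g = ρ x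

variable {ρ : G →* PGL(3, K)} {x y : G} {A B : Mt K}

theorem exists_rep (ρ : G →* PGL(3, K)) (x : G) : ∃ A, Rep ρ x A := by
  obtain ⟨g, hg⟩ := ProjGenLinGroup.mk_surjective (ρ x)
  exact ⟨g, g, rfl, hg⟩

theorem Rep.det_ne (h : Rep ρ x A) : A.det ≠ 0 := by
  obtain ⟨g, rfl, -⟩ := h
  exact g.det_ne_zero

theorem Rep.ne_zero (h : Rep ρ x A) : A ≠ 0 := fun e => h.det_ne (by rw [e]; simp)

theorem Rep.mul (h : Rep ρ x A) (h' : Rep ρ y B) : Rep ρ (x * y) (A * B) := by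
  obtain ⟨g, rfl, e⟩ := h
  obtain ⟨g', rfl, e'⟩ := h'
  exact ⟨g * g', rfl, by rw [map_mul, map_mul, e, e']⟩

theorem Rep.one : Rep ρ 1 (1 : Mt K) := ⟨1, rfl, by rw [map_one, map_one]⟩

theorem Rep.pow (h : Rep ρ x A) (n : ℕ) : Rep ρ (x ^ n) (A ^ n) := by
  induction n with
  | zero => rw [pow_zero, pow_zero]; exact Rep.one
  | succ n ih => rw [pow_succ, pow_succ]; exact ih.mul h

theorem mk_eq_iff {g h : GL (Fin 3) K} : mk g = mk h ↔ ∃ c : K, c ≠ 0 ∧ (h : Mt K) = c • (g : Mt K) := by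
  rw [ProjGenLinGroup.mk_eq_mk_iff]
  constructor
  · rintro ⟨u, rfl⟩
    exact ⟨u, u.ne_zero, by simp [scalar_apply, ← smul_one_eq_diagonal]⟩
  · rintro ⟨c, hc, e⟩
    exact ⟨Units.mk0 c hc, Units.ext (by simp [scalar_apply, ← smul_one_eq_diagonal, e])⟩

theorem Rep.smul (h : Rep ρ x A) {c : K} (hc : c ≠ 0) : Rep ρ x (c • A) := by
  have hd := h.det_ne
  obtain ⟨g, rfl, e⟩ := h
  refine ⟨GeneralLinearGroup.mkOfDetNeZero (c • (g : Mt K)) (by
    rw [det_smul]; exact mul_ne_zero (pow_ne_zero _ hc) hd), rfl, ?_⟩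
  rw [← e, eq_comm, mk_eq_iff]
  exact ⟨c, hc, rfl⟩

theorem Rep.of_smul {c : K} (h : Rep ρ x (c • A)) : Rep ρ x A := by
  have hc : c ≠ 0 := fun e => h.ne_zero (by rw [e, zero_smul])
  have := h.smul (inv_ne_zero hc)
  rwa [smul_smul, inv_mul_cancel₀ hc, one_smul] at this

theorem Rep.uniq (h : Rep ρ x A) (h' : Rep ρ x B) : ∃ c : K, c ≠ 0 ∧ B = c • A := by
  obtain ⟨g, rfl, e⟩ := h
  obtain ⟨g', rfl, e'⟩ := h'
  exact mk_eq_iff.1 (e.trans e'.symm)

theorem Rep.eq (hρ : Function.Injective ρ) (h : Rep ρ x A) (h' : Rep ρ y A) : x = y := by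
  obtain ⟨g, rfl, e⟩ := h
  obtain ⟨g', e1, e'⟩ := h'
  rw [Units.ext e1] at e'
  exact hρ (e.symm.trans e')

theorem Rep.eq' (hρ : Function.Injective ρ) {c : K} (h : Rep ρ x A) (h' : Rep ρ y (c • A)) : x = y :=
  h.eq hρ h'.of_smul

theorem Rep.congr (h : Rep ρ x A) (e : A = B) : Rep ρ x B := e ▸ h

theorem Rep.inv {c : K} (h : Rep ρ x A) (hc : c ≠ 0) (e : A * B = c • 1) : Rep ρ x⁻¹ B := by
  obtain ⟨g, rfl, e'⟩ := h
  have : B = c • ((g⁻¹ : GL (Fin 3) K) : Mt K) := by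
    rw [← Units.inv_mul_cancel_left g B, e]; simp
  rw [this]
  exact Rep.smul ⟨g⁻¹, rfl, by rw [map_inv, map_inv, e']⟩ hc

theorem Rep.inv' (h : Rep ρ x A) : Rep ρ x⁻¹ A⁻¹ :=
  h.inv one_ne_zero (by rw [mul_nonsing_inv _ (Ne.isUnit h.det_ne), one_smul])

theorem Rep.of_eq_one (h : Rep ρ x A) (e : x = 1) : ∃ c : K, c ≠ 0 ∧ A = c • 1 :=
  Rep.one.uniq (e ▸ h)

theorem Rep.eq_one (hρ : Function.Injective ρ) {c : K} (h : Rep ρ x (c • 1)) : x = 1 :=
  (Rep.one.eq' hρ h).symm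

theorem Rep.of_mul_eq {z w : G} {C D : Mt K} (h1 : Rep ρ x A) (h2 : Rep ρ y B) (h3 : Rep ρ z C)
    (h4 : Rep ρ w D) (e : x * y = z * w) : ∃ c : K, c ≠ 0 ∧ A * B = c • (C * D) :=
  (h3.mul h4).uniq (e ▸ h1.mul h2)

theorem Rep.mul_eq (hρ : Function.Injective ρ) {z w : G} {C D : Mt K} (h1 : Rep ρ x A)
    (h2 : Rep ρ y B) (h3 : Rep ρ z C) (h4 : Rep ρ w D) {c : K} (e : A * B = c • (C * D)) :
    x * y = z * w :=
  ((h3.mul h4).eq' hρ (e ▸ h1.mul h2)).symm

theorem Rep.comm (hρ : Function.Injective ρ) (h1 : Rep ρ x A) (h2 : Rep ρ y B) (e : A * B = B * A) :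
    x * y = y * x := h1.mul_eq hρ h2 h2 h1 (c := 1) (by rw [e, one_smul])

/-- change of frame -/
noncomputable def cjr (ρ : G →* PGL(3, K)) (g : GL (Fin 3) K) : G →* PGL(3, K) :=
  (MulAut.conj (mk g)⁻¹).toMonoidHom.comp ρ

theorem cjr_inj (hρ : Function.Injective ρ) (g : GL (Fin 3) K) : Function.Injective (cjr ρ g) :=
  (MulAut.conj (mk g)⁻¹).injective.comp hρ

theorem rep_cjr {g : GL (Fin 3) K} :
    Rep (cjr ρ g) x B ↔ Rep ρ x ((g : Mt K) * B * ((g⁻¹ : GL (Fin 3) K) : Mt K)) := by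
  constructor
  · rintro ⟨b, rfl, e⟩
    refine ⟨g * b * g⁻¹, rfl, ?_⟩
    rw [map_mul, map_mul, e, map_inv]; simp [cjr, mul_assoc]
  · rintro ⟨b, e1, e⟩
    refine ⟨g⁻¹ * b * g, ?_, ?_⟩
    · rw [Units.val_mul, Units.val_mul, e1]; simp [mul_assoc]
    · rw [map_mul, map_mul, e, map_inv]; simp [cjr]

theorem Rep.cjr {g : GL (Fin 3) K} (h : Rep ρ x A) (e : A * (g : Mt K) = (g : Mt K) * B) :
    Rep (cjr ρ g) x B := by
  rw [rep_cjr, ← e]; simpa [mul_assoc] using h

theorem cjr_cjr (g h : GL (Fin 3) K) : cjr (cjr ρ g) h = cjr ρ (g * h) := by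
  ext x; simp [cjr, mul_assoc]

theorem cjr_one : cjr ρ 1 = ρ := by ext x; simp [cjr]

/-- rank one matrices -/
def vv (v φ : Fin 3 → K) : Mt K := vecMulVec v φ

@[simp] theorem vv_apply (v φ : Fin 3 → K) (i j : Fin 3) : vv v φ i j = v i * φ j := rfl

theorem vv_smul (c : K) (v φ : Fin 3 → K) : vv v (c • φ) = c • vv v φ := vecMulVec_smul _ _ _

theorem smul_vv (c : K) (v φ : Fin 3 → K) : vv (c • v) φ = c • vv v φ := smul_vecMulVec _ _ _

theorem vv_add (v φ ψ : Fin 3 → K) : vv v (φ + ψ) = vv v φ + vv v ψ := vecMulVec_add _ _ _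

theorem add_vv (v w φ : Fin 3 → K) : vv (v + w) φ = vv v φ + vv w φ := add_vecMulVec _ _ _

theorem vv_sub (v φ ψ : Fin 3 → K) : vv v (φ - ψ) = vv v φ - vv v ψ := vecMulVec_sub _ _ _

theorem sub_vv (v w φ : Fin 3 → K) : vv (v - w) φ = vv v φ - vv w φ := sub_vecMulVec _ _ _

theorem vv_eq_zero {v φ : Fin 3 → K} : vv v φ = 0 ↔ v = 0 ∨ φ = 0 := vecMulVec_eq_zero

theorem vv_mul_vv (v φ w ψ : Fin 3 → K) : vv v φ * vv w ψ = (φ ⬝ᵥ w) • vv v ψ := by
  rw [vv, vv, vecMulVec_mul_vecMulVec, vecMulVec_smul, vv]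

theorem vv_mulVec (v φ w : Fin 3 → K) : vv v φ *ᵥ w = (φ ⬝ᵥ w) • v := by
  rw [vv, vecMulVec_mulVec]; ext; simp [mul_comm]

theorem vecMul_vv (ψ v φ : Fin 3 → K) : ψ ᵥ* vv v φ = (ψ ⬝ᵥ v) • φ := vecMul_vecMulVec _ _ _

theorem trace_vv (v φ : Fin 3 → K) : (vv v φ).trace = φ ⬝ᵥ v := by
  rw [vv, trace_vecMulVec, dotProduct_comm]

theorem mul_vv (A : Mt K) (v φ : Fin 3 → K) : A * vv v φ = vv (A *ᵥ v) φ := mul_vecMulVec _ _ _

theorem vv_mul (B : Mt K) (v φ : Fin 3 → K) : vv v φ * B = vv v (φ ᵥ* B) := vecMulVec_mul _ _ _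

theorem conj_vv (A B : Mt K) (v φ : Fin 3 → K) : A * vv v φ * B = vv (A *ᵥ v) (φ ᵥ* B) := by
  rw [mul_vv, vv_mul]

theorem exists_vv_of_adj {A : Mt K} (h : A.adjugate = 0) : ∃ v φ, A = vv v φ := by
  by_cases h0 : A = 0
  · exact ⟨0, 0, by rw [h0]; exact (vv_eq_zero.2 (Or.inl rfl)).symm⟩
  obtain ⟨i, j, hij⟩ : ∃ i j, A i j ≠ 0 := by
    by_contra hh; push Not at hh; exact h0 (Matrix.ext hh)
  refine ⟨fun k => A k j, fun l => A i l / A i j, ?_⟩
  have e := fun k l => congrFun (congrFun h k) l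
  have := e 0 0; have := e 0 1; have := e 0 2; have := e 1 0; have := e 1 1; have := e 1 2
  have := e 2 0; have := e 2 1; have := e 2 2
  simp [adjugate_fin_three] at *
  ext k l
  rw [vv_apply, ← mul_div_assoc, eq_div_iff hij]
  fin_cases i <;> fin_cases j <;> fin_cases k <;> fin_cases l <;> simp <;> grind

/-- second coefficient of the characteristic polynomial -/
def e2 (A : Mt K) : K := A.adjugate.trace

theorem adj_eq (A : Mt K) : A.adjugate = A * A - A.trace • A + e2 A • 1 := by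
  ext i j
  fin_cases i <;> fin_cases j <;>
    simp [e2, adjugate_fin_three, trace_fin_three, mul_apply, Fin.sum_univ_three] <;> ring

theorem cayley (A : Mt K) : A * A * A = A.trace • (A * A) - e2 A • A + A.det • 1 := by
  have := mul_adjugate A
  rw [adj_eq, mul_add, mul_sub, mul_smul_comm, mul_smul_comm, mul_one, ← mul_assoc] at this
  rw [← this]; abel

theorem trace_sub (A : Mt K) (r : K) : (A - r • 1).trace = A.trace - 3 * r := by
  simp [trace_fin_three]; ring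

theorem e2_sub (A : Mt K) (r : K) : e2 (A - r • 1) = e2 A - 2 * r * A.trace + 3 * r ^ 2 := by
  simp [e2, adjugate_fin_three, trace_fin_three]; ring

theorem det_sub (A : Mt K) (r : K) :
    (A - r • 1).det = A.det - r * e2 A + r ^ 2 * A.trace - r ^ 3 := by
  simp [e2, adjugate_fin_three, trace_fin_three, det_fin_three]; ring

theorem e2_smul (A : Mt K) (r : K) : e2 (r • A) = r ^ 2 * e2 A := by
  simp [e2, adjugate_smul]

theorem exists_vv_of_sq {N : Mt K} (h : N * N = 0) : ∃ v φ, φ ⬝ᵥ v = 0 ∧ N = vv v φ := by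
  have hn : IsNilpotent N := ⟨2, by rw [sq, h]⟩
  have ht : N.trace = 0 := (isNilpotent_trace_of_isNilpotent hn).eq_zero
  have hd : N.det = 0 := by
    have := congrArg det h
    rw [det_mul, det_zero] at this
    exact mul_self_eq_zero.1 this
  have h2 : N.adjugate = 0 := by
    by_cases h0 : N = 0
    · rw [h0]; simp
    · have := cayley N
      rw [h, hd] at this
      simp at this
      rw [adj_eq, h, ht, this.resolve_right h0]; simp
  obtain ⟨v, φ, e⟩ := exists_vv_of_adj h2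
  exact ⟨v, φ, by rw [← trace_vv, ← e, ht], e⟩

theorem exists_roots [IsAlgClosed K] (s t u : K) :
    ∃ a b c : K, a + b + c = s ∧ a * b + b * c + c * a = t ∧ a * b * c = u := by
  open Polynomial in
  obtain ⟨a, ha⟩ := IsAlgClosed.exists_root (X ^ 3 - C s * X ^ 2 + C t * X - C u : K[X]) (by
    rw [show (X ^ 3 - C s * X ^ 2 + C t * X - C u : K[X]).degree = 3 by compute_degree!]; decide)
  open Polynomial in
  obtain ⟨b, hb⟩ := IsAlgClosed.exists_root (X ^ 2 - C (s - a) * X + C (t - a * (s - a)) : K[X]) (by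
    rw [show (X ^ 2 - C (s - a) * X + C (t - a * (s - a)) : K[X]).degree = 2 by compute_degree!]
    decide)
  simp at ha hb
  exact ⟨a, b, s - a - b, by ring, by linear_combination -hb, by linear_combination ha - a * hb⟩

theorem exists_eig {A : Mt K} {r : K} (h : (A - r • 1).det = 0) : ∃ v, v ≠ 0 ∧ A *ᵥ v = r • v := by
  obtain ⟨v, hv, e⟩ := exists_mulVec_eq_zero_iff.2 h
  rw [sub_mulVec, smul_mulVec, one_mulVec, sub_eq_zero] at e
  exact ⟨v, hv, e⟩

/-- matrix with given columns -/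
def cols (u v w : Fin 3 → K) : Mt K := of fun i j => ![u, v, w] j i

theorem cols_mulVec (u v w c : Fin 3 → K) : cols u v w *ᵥ c = c 0 • u + c 1 • v + c 2 • w := by
  ext i; simp [cols, mulVec, dotProduct, Fin.sum_univ_three]; ring

theorem det_cols_ne {u v w : Fin 3 → K}
    (h : ∀ a b c : K, a • u + b • v + c • w = 0 → a = 0 ∧ b = 0 ∧ c = 0) : (cols u v w).det ≠ 0 := by
  intro e
  obtain ⟨c, hc, e⟩ := exists_mulVec_eq_zero_iff.2 e
  rw [cols_mulVec] at e
  obtain ⟨h0, h1, h2⟩ := h _ _ _ e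
  exact hc (by ext i; fin_cases i <;> assumption)

theorem mul_cols (A : Mt K) (u v w : Fin 3 → K) : A * cols u v w = cols (A *ᵥ u) (A *ᵥ v) (A *ᵥ w) := by
  ext i j; fin_cases j <;> simp [cols, mul_apply, mulVec, dotProduct]

theorem cols_mul (u v w : Fin 3 → K) (B : Mt K) : cols u v w * B =
    cols (B 0 0 • u + B 1 0 • v + B 2 0 • w) (B 0 1 • u + B 1 1 • v + B 2 1 • w)
      (B 0 2 • u + B 1 2 • v + B 2 2 • w) := by
  ext i j; fin_cases j <;> simp [cols, mul_apply, Fin.sum_univ_three] <;> ring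

/-- the regular unipotent Jordan block -/
def Jb : Mt K := !![1, 1, 0; 0, 1, 1; 0, 0, 1]

theorem pow_eig {A : Mt K} {v : Fin 3 → K} {r : K} (h : A *ᵥ v = r • v) (n : ℕ) :
    (A ^ n) *ᵥ v = r ^ n • v := by
  induction n with
  | zero => simp
  | succ n ih => rw [pow_succ', ← mulVec_mulVec, ih, mulVec_smul, h, smul_smul, pow_succ]

theorem pow_eq_of_eig {A : Mt K} {r s : K} {n : ℕ} (h : (A - r • 1).det = 0) (e : A ^ n = s • 1) :
    r ^ n = s := by
  obtain ⟨v, hv, h⟩ := exists_eig h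
  have := pow_eig h n
  rw [e, smul_mulVec, one_mulVec] at this
  exact (smul_left_injective K hv this).symm

theorem exists_order (p : ℕ) [Fact p.Prime] [CharP K p] {l : K} {n : ℕ} (hn : 0 < n) (h : l ^ n = 1) :
    ∃ m : ℕ, (m : K) ≠ 0 ∧ l ^ m = 1 := by
  have hf : IsOfFinOrder l := isOfFinOrder_iff_pow_eq_one.2 ⟨n, hn, h⟩
  refine ⟨orderOf l, fun e => ?_, pow_orderOf_eq_one l⟩
  obtain ⟨r, hr⟩ := (CharP.cast_eq_zero_iff K p _).1 e
  have h1 : (l ^ r - 1) ^ p = 0 := by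
    rw [sub_pow_char, ← pow_mul, mul_comm, ← hr, pow_orderOf_eq_one, one_pow, sub_self]
  have h2 := orderOf_dvd_of_pow_eq_one (sub_eq_zero.1 (pow_eq_zero_iff (Fact.out : p.Prime).ne_zero |>.1 h1))
  have h3 := hf.orderOf_pos
  have h4 := (Fact.out : p.Prime).two_le
  have hr0 : 0 < r := Nat.pos_of_ne_zero (by rintro rfl; omega)
  have := Nat.le_of_dvd hr0 h2
  nlinarith

/-- the four types of non-scalar elements -/
def IsEl (A : Mt K) : Prop := ∃ (m : ℕ) (s : K) (N : Mt K), N ≠ 0 ∧ N * N = 0 ∧ A ^ m = s • (1 + N)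

def IsHom (A : Mt K) : Prop := ∃ (s l : K) (v φ : Fin 3 → K), l ≠ 0 ∧ l ≠ 1 ∧ φ ⬝ᵥ v = 1 ∧
  A = s • (1 + (l - 1) • vv v φ)

theorem double_case (p : ℕ) [Fact p.Prime] [CharP K p] {A : Mt K} {l s : K} {n : ℕ} (hn : 0 < n)
    (e : A ^ n = s • 1) (hl : l ≠ 1) (hl0 : l ≠ 0) (h1 : A.trace = 2 + l) (h2 : e2 A = 1 + 2 * l)
    (h3 : A.det = l) : IsEl A ∨ IsHom A := by
  have hδ : l - 1 ≠ 0 := sub_ne_zero.2 hl
  set B := A - (1 : K) • 1 with hB
  have t1 : B.trace = l - 1 := by rw [hB, trace_sub, h1]; ring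
  have t2 : e2 B = 0 := by rw [hB, e2_sub, h1, h2]; ring
  have t3 : B.det = 0 := by rw [hB, det_sub, h1, h2, h3]; ring
  have hc := cayley B
  rw [t1, t2, t3, zero_smul, zero_smul, sub_zero, add_zero] at hc
  have hA : A = 1 + B := by rw [hB]; simp
  by_cases hN : B - (l - 1)⁻¹ • (B * B) = 0
  · right
    have : B.adjugate = 0 := by
      rw [adj_eq, t1, t2, zero_smul, add_zero]
      nth_rw 3 [sub_eq_zero.1 hN]
      rw [smul_smul, mul_inv_cancel₀ hδ, one_smul, sub_self]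
    obtain ⟨v, φ, e⟩ := exists_vv_of_adj this
    refine ⟨1, l, v, (l - 1)⁻¹ • φ, hl0, hl, ?_, ?_⟩
    · rw [smul_dotProduct, ← trace_vv, ← e, t1, smul_eq_mul, inv_mul_cancel₀ hδ]
    · rw [hA, e, vv_smul, smul_smul, mul_inv_cancel₀ hδ, one_smul, one_smul]
  · left
    have s1 := pow_eq_of_eig (r := 1) t3 e
    have s2 := pow_eq_of_eig (A := A) (r := l) (by rw [det_sub, h1, h2, h3]; ring) e
    obtain ⟨m, hm, hlm⟩ := exists_order p hn (s2.trans (s1.symm.trans (one_pow n)))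
    have hp : ∀ j : ℕ, A ^ j = 1 + (j : K) • B + ((l ^ j - 1) / (l - 1) ^ 2 - j / (l - 1)) • (B * B) := by
      intro j
      induction j with
      | zero => simp
      | succ j ih =>
        rw [pow_succ, ih]
        nth_rw 1 [hA]
        simp only [mul_add, add_mul, mul_one, one_mul, smul_mul_assoc, hc, smul_smul]
        push_cast
        match_scalars <;> field_simp <;> ring
    refine ⟨m, 1, (m : K) • (B - (l - 1)⁻¹ • (B * B)), smul_ne_zero hm hN, ?_, ?_⟩
    · have hc' : B * (B * B) = (l - 1) • (B * B) := by rw [← mul_assoc, hc]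
      simp only [mul_sub, sub_mul, smul_mul_assoc, mul_smul_comm, hc, hc', ← mul_assoc (B * B),
        smul_smul]
      match_scalars; field_simp; ring
    · rw [hp, hlm]
      match_scalars <;> (field_simp; try ring)

theorem classify [IsAlgClosed K] (p : ℕ) [Fact p.Prime] [CharP K p] {A : Mt K} (hA : A.det ≠ 0) {s : K}
    {n : ℕ} (hn : 0 < n) (e : A ^ n = s • 1) :
    (∃ c : K, A = c • 1) ∨ IsEl A ∨ IsHom A ∨
    (∃ (g : GL (Fin 3) K) (d : Fin 3 → K), Function.Injective d ∧ A * (g : Mt K) = (g : Mt K) * diagonal d) ∨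
    ∃ (g : GL (Fin 3) K) (c : K), A * (g : Mt K) = (g : Mt K) * (c • Jb) := by
  obtain ⟨a, b, c, h1, h2, h3⟩ := exists_roots A.trace (e2 A) A.det
  have ha : a ≠ 0 := by rintro rfl; apply hA; rw [← h3]; ring
  have hb : b ≠ 0 := by rintro rfl; apply hA; rw [← h3]; ring
  have hc : c ≠ 0 := by rintro rfl; apply hA; rw [← h3]; ring
  have dbl : ∀ a c : K, a ≠ 0 → c ≠ 0 → a ≠ c → a + a + c = A.trace → a * a + a * c + c * a = e2 A →
      a * a * c = A.det → IsEl A ∨ IsHom A := by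
    intro a c ha hc hac h1 h2 h3
    rcases double_case p (A := a⁻¹ • A) (l := c / a) (s := a⁻¹ ^ n * s) hn
      (by rw [smul_pow, e, smul_smul]) (fun h => hac ((div_eq_one_iff_eq ha).1 h).symm)
      (div_ne_zero hc ha) (by rw [trace_smul, ← h1, smul_eq_mul]; field_simp; ring)
      (by rw [e2_smul, ← h2]; field_simp; ring) (by rw [det_smul, ← h3]; simp; field_simp) with
      ⟨m, t, N, n1, n2, n3⟩ | ⟨t, l, v, φ, n1, n2, n3, n4⟩
    · refine Or.inl ⟨m, a ^ m * t, N, n1, n2, ?_⟩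
      rw [mul_smul, ← n3, smul_pow, smul_smul, ← mul_pow, mul_inv_cancel₀ ha, one_pow, one_smul]
    · refine Or.inr ⟨a * t, l, v, φ, n1, n2, n3, ?_⟩
      rw [mul_smul, ← n4, smul_smul, mul_inv_cancel₀ ha, one_smul]
  by_cases hab : a = b
  · subst hab
    by_cases hac : a = c
    · subst hac
      set N := a⁻¹ • (A - a • 1) with hN
      have hAN : A = a • (1 + N) := by
        rw [hN, smul_add, smul_smul, mul_inv_cancel₀ ha, one_smul]; abel
      have h3' : N * N * N = 0 := by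
        rw [cayley, hN, trace_smul, e2_smul, det_smul, trace_sub, e2_sub, det_sub, ← h1, ← h2, ← h3]
        simp only [smul_eq_mul]
        rw [show a + a + a - 3 * a = 0 by ring, show a * a + a * a + a * a - 2 * a * (a + a + a) +
          3 * a ^ 2 = 0 by ring, show a * a * a - a * (a * a + a * a + a * a) + a ^ 2 * (a + a + a) -
          a ^ 3 = 0 by ring]
        simp
      by_cases n1 : N = 0
      · exact Or.inl ⟨a, by rw [hAN, n1, add_zero]⟩
      by_cases n2 : N * N = 0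
      · exact Or.inr (Or.inl ⟨1, a, N, n1, n2, by rw [pow_one, hAN]⟩)
      obtain ⟨v, hv⟩ : ∃ v, N *ᵥ N *ᵥ v ≠ 0 := by
        by_contra hh; push Not at hh
        exact n2 (ext_iff_mulVec.2 fun v => by rw [← mulVec_mulVec, hh, zero_mulVec])
      have hv3 : N *ᵥ N *ᵥ N *ᵥ v = 0 := by rw [mulVec_mulVec, mulVec_mulVec, h3', zero_mulVec]
      refine Or.inr (Or.inr (Or.inr (Or.inr ⟨GeneralLinearGroup.mkOfDetNeZero
        (cols (N *ᵥ N *ᵥ v) (N *ᵥ v) v) (det_cols_ne fun x y z h => ?_), a, ?_⟩)))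
      · have e1 := congrArg (N *ᵥ ·) h
        simp only [mulVec_add, mulVec_smul, hv3, smul_zero, zero_add, mulVec_zero] at e1
        have e2 := congrArg (N *ᵥ ·) e1
        simp only [mulVec_add, mulVec_smul, hv3, smul_zero, zero_add, mulVec_zero] at e2
        obtain rfl := (smul_eq_zero.1 e2).resolve_right hv
        rw [zero_smul, add_zero] at e1 h
        obtain rfl := (smul_eq_zero.1 e1).resolve_right hv
        rw [zero_smul, add_zero] at h
        exact ⟨(smul_eq_zero.1 h).resolve_right hv, rfl, rfl⟩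
      · change A * cols _ _ _ = cols _ _ _ * _
        rw [mul_cols, cols_mul, hAN]
        simp only [smul_mulVec, add_mulVec, one_mulVec, hv3]
        congr 1 <;> simp [Jb] <;> module
    · exact Or.inr ((dbl a c ha hc hac h1 h2 h3).imp_right Or.inl)
  by_cases hac : a = c
  · subst hac
    exact Or.inr ((dbl a b ha hb hab (by rw [← h1]; ring) (by rw [← h2]; ring)
      (by rw [← h3]; ring)).imp_right Or.inl)
  by_cases hbc : b = c
  · subst hbc
    exact Or.inr ((dbl b a hb ha (Ne.symm hab) (by rw [← h1]; ring) (by rw [← h2]; ring)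
      (by rw [← h3]; ring)).imp_right Or.inl)
  obtain ⟨u, hu, eu⟩ := exists_eig (A := A) (r := a) (by rw [det_sub, ← h1, ← h2, ← h3]; ring)
  obtain ⟨v, hv, ev⟩ := exists_eig (A := A) (r := b) (by rw [det_sub, ← h1, ← h2, ← h3]; ring)
  obtain ⟨w, hw, ew⟩ := exists_eig (A := A) (r := c) (by rw [det_sub, ← h1, ← h2, ← h3]; ring)
  refine Or.inr (Or.inr (Or.inr (Or.inl ⟨GeneralLinearGroup.mkOfDetNeZero
    (cols u v w) (det_cols_ne fun x y z h => ?_), ![a, b, c], ?_, ?_⟩)))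
  · have e1 := congrArg (A *ᵥ ·) h
    simp only [mulVec_add, mulVec_smul, eu, ev, ew, mulVec_zero] at e1
    have e2 := congrArg (A *ᵥ ·) e1
    simp only [mulVec_add, mulVec_smul, eu, ev, ew, mulVec_zero] at e2
    have k1 : (x * ((a - b) * (a - c))) • u = 0 := by
      linear_combination (norm := module) e2 - (b + c) • e1 + (b * c) • h
    have k2 : (y * ((b - a) * (b - c))) • v = 0 := by
      linear_combination (norm := module) e2 - (a + c) • e1 + (a * c) • h
    have k3 : (z * ((c - a) * (c - b))) • w = 0 := by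
      linear_combination (norm := module) e2 - (a + b) • e1 + (a * b) • h
    simp only [smul_eq_zero, mul_eq_zero, sub_eq_zero] at k1 k2 k3
    grind
  · intro i j h
    fin_cases i <;> fin_cases j <;> simp at h <;> grind
  · change A * cols _ _ _ = cols _ _ _ * _
    rw [mul_cols, cols_mul, eu, ev, ew]
    simp

end Cfsg.Agent.H8.M3
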