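import Cfsg.Agent.H8.M3A

/-! Monomial matrices, tori and commutator scalars. -/

set_option autoImplicit false
set_option linter.unusedSectionVars false

namespace Cfsg.Agent.H8.M3
open Matrix Equiv
open scoped MatrixGroups

universe u
variable {K : Type*} [Field K] {G : Type u} [Group G]

/-- monomial matrix -/
def mono (σ : Perm (Fin 3)) (e : Fin 3 → K) : Mt K := of fun i j => if i = σ j then e j else 0

theorem mono_apply (σ : Perm (Fin 3)) (e : Fin 3 → K) (i j : Fin 3) :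
    mono σ e i j = if i = σ j then e j else 0 := rfl

theorem mono_mul (σ τ : Perm (Fin 3)) (e f : Fin 3 → K) :
    mono σ e * mono τ f = mono (σ * τ) (fun j => e (τ j) * f j) := by
  ext i j
  rw [mul_apply, Finset.sum_eq_single (τ j) (fun k _ hk => by simp [mono_apply, hk]) (by simp)]
  by_cases h : i = σ (τ j) <;> simp [mono_apply, h]

theorem mono_one (e : Fin 3 → K) : mono 1 e = diagonal e := by
  ext i j
  by_cases h : i = j <;> simp [mono_apply, h]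

theorem smul_mono (c : K) (σ : Perm (Fin 3)) (e : Fin 3 → K) : c • mono σ e = mono σ (c • e) := by
  ext i j; simp [mono_apply]

theorem mono_ne {σ : Perm (Fin 3)} {e : Fin 3 → K} (h : (mono σ e).det ≠ 0) (j : Fin 3) : e j ≠ 0 :=
  fun e0 => h (det_eq_zero_of_column_eq_zero j (fun i => by simp [mono_apply, e0]))

theorem mono_inj {σ τ : Perm (Fin 3)} {e f : Fin 3 → K} (he : ∀ j, e j ≠ 0)
    (h : mono σ e = mono τ f) : σ = τ ∧ e = f := by
  have h1 : ∀ j, σ j = τ j ∧ e j = f j := fun j => by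
    have := congrFun (congrFun h (σ j)) j
    simp only [mono_apply, if_true] at this
    split_ifs at this with h2
    · exact ⟨h2, this⟩
    · exact absurd this (he j)
  exact ⟨Perm.ext fun j => (h1 j).1, funext fun j => (h1 j).2⟩

theorem exists_mono {A : Mt K} (hA : A.det ≠ 0) (h : ∀ i j k, A i j ≠ 0 → A i k ≠ 0 → j = k) :
    ∃ σ e, A = mono σ e := by
  have h1 : ∀ j, ∃ i, A i j ≠ 0 := fun j => by
    by_contra hh; push Not at hh
    exact hA (det_eq_zero_of_column_eq_zero j hh)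
  choose f hf using h1
  have hinj : Function.Injective f := fun j k e => h _ _ _ (hf j) (e ▸ hf k)
  let σ : Perm (Fin 3) := Equiv.ofBijective f (Finite.injective_iff_bijective.1 hinj)
  refine ⟨σ, fun j => A (f j) j, ?_⟩
  ext i j
  rw [mono_apply]
  split_ifs with h2
  · rw [h2]; rfl
  · by_contra h3
    obtain ⟨k, rfl⟩ := σ.surjective i
    exact h2 (by rw [h _ _ _ (hf k) h3])

variable {ρ : G →* PGL(3, K)} {x y g : G}

/-- `x` is diagonal with entries `d` -/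
def Dg (ρ : G →* PGL(3, K)) (x : G) (d : Fin 3 → K) : Prop := Rep ρ x (diagonal d)

/-- `x` is monomial with permutation `σ` -/
def Mo (ρ : G →* PGL(3, K)) (x : G) (σ : Perm (Fin 3)) : Prop := ∃ e, Rep ρ x (mono σ e)

variable {d d' : Fin 3 → K} {σ τ : Perm (Fin 3)}

theorem Dg.ne (h : Dg ρ x d) (i : Fin 3) : d i ≠ 0 := mono_ne (σ := 1) (mono_one d ▸ h.det_ne) i

theorem Dg.mul (h : Dg ρ x d) (h' : Dg ρ y d') : Dg ρ (x * y) (d * d') :=
  (Rep.mul h h').congr (diagonal_mul_diagonal _ _)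

theorem Dg.one : Dg ρ 1 (1 : Fin 3 → K) := Rep.one

theorem Dg.pow (h : Dg ρ x d) (n : ℕ) : Dg ρ (x ^ n) (d ^ n) :=
  (Rep.pow h n).congr (diagonal_pow _ _)

theorem Dg.inv (h : Dg ρ x d) : Dg ρ x⁻¹ d⁻¹ :=
  Rep.inv h one_ne_zero (by
    rw [diagonal_mul_diagonal, one_smul, ← diagonal_one]; congr 1; ext i; simp [h.ne i])

theorem Dg.smul (h : Dg ρ x d) {c : K} (hc : c ≠ 0) : Dg ρ x (c • d) :=
  (Rep.smul h hc).congr (diagonal_smul _ _).symm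

theorem Dg.congr (h : Dg ρ x d) (e : ∀ i, d i = d' i) : Dg ρ x d' := funext e ▸ h

theorem Dg.uniq (h : Dg ρ x d) (h' : Dg ρ x d') : ∃ c : K, c ≠ 0 ∧ ∀ i, d' i = c * d i := by
  obtain ⟨c, hc, e⟩ := Rep.uniq h h'
  exact ⟨c, hc, fun i => by simpa using congrFun (congrFun e i) i⟩

theorem Dg.eq (hρ : Function.Injective ρ) (h : Dg ρ x d) (h' : Dg ρ y d') (c : K)
    (e : ∀ i, d' i = c * d i) : x = y :=
  Rep.eq' hρ h (c := c) (by rw [← diagonal_smul]; exact h'.congr e)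

theorem Dg.eq_one (hρ : Function.Injective ρ) (h : Dg ρ x d) (e1 : d 1 = d 0) (e2 : d 2 = d 0) : x = 1 :=
  (Dg.one.eq hρ h (d 0) (fun i => by fin_cases i <;> simp [e1, e2])).symm

theorem Dg.of_eq_one (h : Dg ρ x d) (e : x = 1) (i j : Fin 3) : d i = d j := by
  obtain ⟨c, -, hc⟩ := Dg.one.uniq (e ▸ h)
  rw [hc, hc]; rfl

theorem Dg.normalize (h : Dg ρ x d) : Dg ρ x ![1, d 1 / d 0, d 2 / d 0] :=
  (h.smul (inv_ne_zero (h.ne 0))).congr fun i => by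
    fin_cases i <;> simp [h.ne 0, div_eq_inv_mul]

theorem Dg.comm (hρ : Function.Injective ρ) (h : Dg ρ x d) (h' : Dg ρ y d') : x * y = y * x :=
  Rep.comm hρ h h' (by rw [diagonal_mul_diagonal, diagonal_mul_diagonal]; simp [mul_comm])

theorem Mo.mul (h : Mo ρ x σ) (h' : Mo ρ y τ) : Mo ρ (x * y) (σ * τ) := by
  obtain ⟨e, h⟩ := h
  obtain ⟨f, h'⟩ := h'
  exact ⟨_, (h.mul h').congr (mono_mul _ _ _ _)⟩

theorem mo_one_iff : Mo ρ x 1 ↔ ∃ d, Dg ρ x d := by simp only [Mo, Dg, mono_one]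

theorem Dg.mo (h : Dg ρ x d) : Mo ρ x 1 := mo_one_iff.2 ⟨d, h⟩

theorem Mo.one : Mo ρ 1 1 := Dg.one.mo

theorem Mo.pow (h : Mo ρ x σ) (n : ℕ) : Mo ρ (x ^ n) (σ ^ n) := by
  induction n with
  | zero => rw [pow_zero, pow_zero]; exact Mo.one
  | succ n ih => rw [pow_succ, pow_succ]; exact ih.mul h

theorem rep_mono_inv {e : Fin 3 → K} (h : Rep ρ x (mono σ e)) :
    Rep ρ x⁻¹ (mono σ⁻¹ (fun j => (e (σ⁻¹ j))⁻¹)) :=
  h.inv one_ne_zero (by
    rw [mono_mul, mul_inv_cancel, mono_one, one_smul, ← diagonal_one]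
    congr 1; ext j; exact mul_inv_cancel₀ (mono_ne h.det_ne _))

theorem Mo.inv (h : Mo ρ x σ) : Mo ρ x⁻¹ σ⁻¹ := by
  obtain ⟨e, h⟩ := h
  exact ⟨_, rep_mono_inv h⟩

theorem Mo.uniq (h : Mo ρ x σ) (h' : Mo ρ x τ) : σ = τ := by
  obtain ⟨e, h⟩ := h
  obtain ⟨f, h'⟩ := h'
  obtain ⟨c, -, hc⟩ := h.uniq h'
  rw [smul_mono] at hc
  exact (mono_inj (mono_ne h'.det_ne) hc).1.symm

theorem Mo.conj (h : Mo ρ g σ) (h' : Dg ρ x d) : Dg ρ (g * x * g⁻¹) (fun i => d (σ⁻¹ i)) := by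
  obtain ⟨e, h⟩ := h
  have := (h.mul h').mul (rep_mono_inv h)
  rw [← mono_one, mono_mul, mono_mul, mul_one, mul_inv_cancel, mono_one] at this
  refine Dg.congr this fun i => ?_
  have := mono_ne h.det_ne (σ⁻¹ i)
  simp only [Perm.one_apply]
  field_simp

/-- the diagonal subgroup -/
def Tor (ρ : G →* PGL(3, K)) : Subgroup G where
  carrier := {x | ∃ d, Dg ρ x d}
  mul_mem' := fun ⟨_, h⟩ ⟨_, h'⟩ => ⟨_, h.mul h'⟩
  one_mem' := ⟨_, Dg.one⟩
  inv_mem' := fun ⟨_, h⟩ => ⟨_, h.inv⟩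

/-- the monomial subgroup -/
def Mon (ρ : G →* PGL(3, K)) : Subgroup G where
  carrier := {x | ∃ σ, Mo ρ x σ}
  mul_mem' := fun ⟨_, h⟩ ⟨_, h'⟩ => ⟨_, h.mul h'⟩
  one_mem' := ⟨_, Mo.one⟩
  inv_mem' := fun ⟨_, h⟩ => ⟨_, h.inv⟩

theorem mem_Tor : x ∈ Tor ρ ↔ ∃ d, Dg ρ x d := Iff.rfl

theorem mem_Tor' : x ∈ Tor ρ ↔ ∃ b c, Dg ρ x ![1, b, c] :=
  ⟨fun ⟨_, h⟩ => ⟨_, _, h.normalize⟩, fun ⟨_, _, h⟩ => ⟨_, h⟩⟩

theorem mem_Mon : x ∈ Mon ρ ↔ ∃ σ, Mo ρ x σ := Iff.rfl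

theorem Dg.mem (h : Dg ρ x d) : x ∈ Tor ρ := ⟨d, h⟩

theorem Mo.mem (h : Mo ρ x σ) : x ∈ Mon ρ := ⟨σ, h⟩

theorem Mo.mem_Tor_iff (h : Mo ρ x σ) : x ∈ Tor ρ ↔ σ = 1 :=
  ⟨fun h' => h.uniq (mo_one_iff.2 h'), fun e => mo_one_iff.1 (e ▸ h)⟩

theorem Tor_le_Mon : Tor ρ ≤ Mon ρ := fun _ h => ⟨1, mo_one_iff.2 h⟩

theorem Tor_comm (hρ : Function.Injective ρ) (hx : x ∈ Tor ρ) (hy : y ∈ Tor ρ) : x * y = y * x :=
  hx.choose_spec.comm hρ hy.choose_spec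

theorem conj_mem_Tor (hg : g ∈ Mon ρ) (hx : x ∈ Tor ρ) : g * x * g⁻¹ ∈ Tor ρ :=
  (hg.choose_spec.conj hx.choose_spec).mem

/-- the permutation of a monomial element -/
noncomputable def piM (ρ : G →* PGL(3, K)) : Mon ρ →* Perm (Fin 3) :=
  MonoidHom.mk' (fun x => x.2.choose) (fun x y =>
    (x * y).2.choose_spec.uniq (x.2.choose_spec.mul y.2.choose_spec))

theorem mo_piM (x : Mon ρ) : Mo ρ x (piM ρ x) := x.2.choose_spec

theorem relIndex_Tor_Mon : (Tor ρ).relIndex (Mon ρ) = Nat.card (piM ρ).range := by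
  rw [Subgroup.relIndex, ← Subgroup.index_ker]
  congr 1
  ext x
  rw [Subgroup.mem_subgroupOf, MonoidHom.mem_ker, (mo_piM x).mem_Tor_iff]

theorem mem_range_piM : σ ∈ (piM ρ).range ↔ ∃ x, Mo ρ x σ :=
  ⟨fun ⟨x, e⟩ => ⟨x, e ▸ mo_piM x⟩, fun ⟨x, h⟩ => ⟨⟨x, h.mem⟩, (mo_piM ⟨x, h.mem⟩).uniq h⟩⟩

theorem mon_of_sep (h : ∀ j k, j ≠ k → ∃ x d, Dg ρ x d ∧ d j ≠ d k ∧ g * x * g⁻¹ ∈ Tor ρ) :
    g ∈ Mon ρ := by
  obtain ⟨A, hA⟩ := exists_rep ρ g
  obtain ⟨σ, e, rfl⟩ := exists_mono hA.det_ne (fun i j k hj hk => by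
    by_contra hjk
    obtain ⟨x, d, h1, h2, d', h3⟩ := h j k hjk
    obtain ⟨c, -, hc⟩ := hA.of_mul_eq h1 h3 hA (by group)
    have e1 := congrFun (congrFun hc i) j
    have e2 := congrFun (congrFun hc i) k
    simp only [mul_diagonal, diagonal_mul, Matrix.smul_apply, smul_eq_mul] at e1 e2
    apply h2
    apply mul_left_cancel₀ hj
    apply mul_left_cancel₀ hk
    linear_combination A i k * e1 - A i j * e2)
  exact ⟨σ, e, hA⟩

theorem Dg.mon_of_conj (h : Dg ρ x d) (hd : Function.Injective d) (hg : g * x * g⁻¹ ∈ Tor ρ) :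
    g ∈ Mon ρ := mon_of_sep fun _ _ hjk => ⟨x, d, h, hd.ne hjk, hg⟩

theorem Dg.cen (h : Dg ρ x d) (hd : Function.Injective d) (hy : y ∈ Cen x) :
    y ∈ Tor ρ ∨ ∃ σ c, Mo ρ y σ ∧ (∀ i, σ i ≠ i) ∧ ∀ i, d (σ⁻¹ i) = c * d i := by
  have e : y * x * y⁻¹ = x := by rw [← mem_Cen.1 hy]; group
  obtain ⟨σ, hσ⟩ := h.mon_of_conj hd (e.symm ▸ h.mem)
  obtain ⟨c, -, hc⟩ := h.uniq (e ▸ hσ.conj h)
  by_cases hf : ∀ i, σ i ≠ i
  · exact Or.inr ⟨σ, c, hσ, hf, hc⟩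
  · push Not at hf
    obtain ⟨i, hi⟩ := hf
    have h1 := hc i
    rw [show σ⁻¹ i = i from Perm.inv_eq_iff_eq.2 hi.symm] at h1
    obtain rfl : c = 1 := by
      apply mul_right_cancel₀ (h.ne i); rw [← h1, one_mul]
    left
    rw [hσ.mem_Tor_iff, ← inv_eq_one]
    exact Perm.ext fun j => hd (by rw [hc, one_mul]; rfl)

theorem perm_fpf : ∀ σ : Perm (Fin 3), (∀ i, σ i ≠ i) → σ * σ ≠ 1 := by decide

theorem Dg.inv_cen (h : Dg ρ x d) (hd : Function.Injective d) (hy : y ∈ Cen x) (h2 : y * y = 1) :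
    y ∈ Tor ρ := by
  rcases h.cen hd hy with h1 | ⟨σ, -, h1, h3, -⟩
  · exact h1
  · have := (h1.mul h1).uniq (h2 ▸ Mo.one)
    exact absurd this (perm_fpf σ h3)

/-- commutator scalar -/
def Bt (ρ : G →* PGL(3, K)) (x y : G) (c : K) : Prop :=
  ∀ A B, Rep ρ x A → Rep ρ y B → A * B = c • (B * A)

variable {c c' : K} {z : G}

theorem Bt.of {A B : Mt K} (h1 : Rep ρ x A) (h2 : Rep ρ y B) (e : A * B = c • (B * A)) : Bt ρ x y c := by
  intro A' B' h1' h2'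
  obtain ⟨s, -, rfl⟩ := h1.uniq h1'
  obtain ⟨t, -, rfl⟩ := h2.uniq h2'
  simp only [smul_mul_assoc, mul_smul_comm, e, smul_smul]
  congr 1; ring

theorem exists_bt (e : x * y = y * x) : ∃ c, Bt ρ x y c := by
  obtain ⟨A, h1⟩ := exists_rep ρ x
  obtain ⟨B, h2⟩ := exists_rep ρ y
  obtain ⟨c, -, hc⟩ := h1.of_mul_eq h2 h2 h1 e
  exact ⟨c, Bt.of h1 h2 hc⟩

theorem Bt.comm (hρ : Function.Injective ρ) (h : Bt ρ x y c) : x * y = y * x := by
  obtain ⟨A, h1⟩ := exists_rep ρ x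
  obtain ⟨B, h2⟩ := exists_rep ρ y
  exact h1.mul_eq hρ h2 h2 h1 (h A B h1 h2)

theorem Bt.uniq (h : Bt ρ x y c) (h' : Bt ρ x y c') : c = c' := by
  obtain ⟨A, h1⟩ := exists_rep ρ x
  obtain ⟨B, h2⟩ := exists_rep ρ y
  exact smul_left_injective K (h2.mul h1).ne_zero ((h A B h1 h2).symm.trans (h' A B h1 h2))

theorem Bt.cube (h : Bt ρ x y c) : c ^ 3 = 1 := by
  obtain ⟨A, h1⟩ := exists_rep ρ x
  obtain ⟨B, h2⟩ := exists_rep ρ y
  have := congrArg det (h A B h1 h2)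
  rw [det_smul, det_mul, det_mul, Fintype.card_fin] at this
  apply mul_right_cancel₀ (mul_ne_zero h1.det_ne h2.det_ne)
  linear_combination -this

theorem Bt.ne (h : Bt ρ x y c) : c ≠ 0 := by
  rintro rfl
  simpa using h.cube

theorem Bt.symm (h : Bt ρ x y c) : Bt ρ y x c⁻¹ := fun B A h2 h1 => by
  rw [h A B h1 h2, smul_smul, inv_mul_cancel₀ h.ne, one_smul]

theorem Bt.self : Bt ρ x x 1 := by
  obtain ⟨A, h1⟩ := exists_rep ρ x
  exact Bt.of h1 h1 (one_smul _ _).symm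

theorem Bt.one : Bt ρ x 1 1 := by
  obtain ⟨A, h1⟩ := exists_rep ρ x
  exact Bt.of h1 Rep.one (by simp)

theorem Bt.mul (h : Bt ρ x y c) (h' : Bt ρ x z c') : Bt ρ x (y * z) (c * c') := by
  obtain ⟨A, h1⟩ := exists_rep ρ x
  obtain ⟨B, h2⟩ := exists_rep ρ y
  obtain ⟨C, h3⟩ := exists_rep ρ z
  refine Bt.of h1 (h2.mul h3) ?_
  rw [← mul_assoc, h A B h1 h2, smul_mul_assoc, mul_assoc, h' A C h1 h3, mul_smul_comm, smul_smul,
    mul_assoc]

theorem Bt.pow (h : Bt ρ x y c) (n : ℕ) : Bt ρ x (y ^ n) (c ^ n) := by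
  induction n with
  | zero => rw [pow_zero, pow_zero]; exact Bt.one
  | succ n ih => rw [pow_succ, pow_succ]; exact ih.mul h

theorem Bt.mul_left (h : Bt ρ x y c) (h' : Bt ρ z y c') : Bt ρ (x * z) y (c * c') := by
  have := (h.symm.mul h'.symm).symm
  rwa [mul_inv, inv_inv, inv_inv] at this

theorem Bt.pow_left (h : Bt ρ x y c) (n : ℕ) : Bt ρ (x ^ n) y (c ^ n) := by
  have := (h.symm.pow n).symm
  rwa [inv_pow, inv_inv] at this

theorem Bt.conj (h : Bt ρ x y c) (g : G) : Bt ρ (g * x * g⁻¹) (g * y * g⁻¹) c := by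
  obtain ⟨A, h1⟩ := exists_rep ρ x
  obtain ⟨B, h2⟩ := exists_rep ρ y
  obtain ⟨C, h3⟩ := exists_rep ρ g
  refine Bt.of ((h3.mul h1).mul h3.inv') ((h3.mul h2).mul h3.inv') ?_
  have hC := nonsing_inv_mul C (Ne.isUnit h3.det_ne)
  have : ∀ A B : Mt K, C * A * C⁻¹ * (C * B * C⁻¹) = C * (A * B) * C⁻¹ := fun A B => by
    rw [show C * A * C⁻¹ * (C * B * C⁻¹) = C * A * (C⁻¹ * C) * B * C⁻¹ by simp only [mul_assoc], hC]
    simp only [mul_assoc, one_mul]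
  rw [this, this, h A B h1 h2, mul_smul_comm, smul_mul_assoc]

theorem Bt.cjr (h : Bt ρ x y c) (g : GL (Fin 3) K) : Bt (cjr ρ g) x y c := by
  intro A B h1 h2
  have := h _ _ (rep_cjr.1 h1) (rep_cjr.1 h2)
  have e : ∀ A B : Mt K, (g : Mt K) * A * ((g⁻¹ : GL (Fin 3) K) : Mt K) *
      ((g : Mt K) * B * ((g⁻¹ : GL (Fin 3) K) : Mt K)) = g * (A * B) * ((g⁻¹ : GL (Fin 3) K) : Mt K) := by
    intro A B; simp [mul_assoc]
  rw [e, e, ← smul_mul_assoc, ← mul_smul_comm, Units.mul_left_inj, Units.mul_right_inj] at this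
  exact this

theorem Bt.of_cjr {g : GL (Fin 3) K} (h : Bt (M3.cjr ρ g) x y c) : Bt ρ x y c := by
  have := h.cjr g⁻¹
  rwa [cjr_cjr, mul_inv_cancel, cjr_one] at this

theorem Dg.bt (h : Dg ρ x d) (h' : Dg ρ y d') : Bt ρ x y 1 :=
  Bt.of h h' (by rw [diagonal_mul_diagonal, diagonal_mul_diagonal]; simp [mul_comm])

theorem Bt.trace (h : Bt ρ x y c) (hc : c ≠ 1) {A : Mt K} (h1 : Rep ρ x A) :
    A.trace = 0 ∧ e2 A = 0 := by
  obtain ⟨B, h2⟩ := exists_rep ρ y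
  have hB := Ne.isUnit h2.det_ne
  have e : A = c • (B * A * B⁻¹) := by
    rw [← smul_mul_assoc, ← h A B h1 h2, mul_assoc, mul_nonsing_inv _ hB, mul_one]
  have h3 := h.cube
  have hc2 : c ^ 2 ≠ 1 := fun e => hc (by linear_combination h3 - c * e)
  constructor
  · have := congrArg Matrix.trace e
    rw [trace_smul, trace_mul_cycle, nonsing_inv_mul _ hB, one_mul, smul_eq_mul] at this
    exact (mul_eq_zero.1 (show (c - 1) * A.trace = 0 by linear_combination -this)).resolve_left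
      (sub_ne_zero.2 hc)
  · have := congrArg e2 e
    rw [e2_smul, e2, e2, adjugate_mul_distrib, adjugate_mul_distrib, ← mul_assoc, trace_mul_cycle,
      ← adjugate_mul_distrib, nonsing_inv_mul _ hB, adjugate_one, one_mul] at this
    exact (mul_eq_zero.1 (show (c ^ 2 - 1) * e2 A = 0 by rw [e2]; linear_combination -this)).resolve_left
      (sub_ne_zero.2 hc2)

theorem Bt.pow_three (hρ : Function.Injective ρ) (h : Bt ρ x y c) (hc : c ≠ 1) : x ^ 3 = 1 := by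
  obtain ⟨A, h1⟩ := exists_rep ρ x
  obtain ⟨t1, t2⟩ := h.trace hc h1
  have := h1.pow 3
  rw [show A ^ 3 = A * A * A by rw [pow_succ, sq], cayley, t1, t2, zero_smul, zero_smul, sub_zero,
    zero_add] at this
  exact this.eq_one hρ

theorem Bt.three_ne (h : Bt ρ x y c) (hc : c ≠ 1) : (3 : K) ≠ 0 := fun e => hc (by
  have : (c - 1) ^ 3 = 0 := by linear_combination h.cube + (c - c ^ 2) * e
  exact sub_eq_zero.1 (pow_eq_zero_iff (by norm_num) |>.1 this))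

end Cfsg.Agent.H8.M3
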