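import Cfsg.Agent.H8.M3D

/-! Homologies: pairs. -/

set_option autoImplicit false
set_option linter.unusedSectionVars false

namespace Cfsg.Agent.H8.M3
open Matrix Equiv
open scoped MatrixGroups

universe u
variable {K : Type*} [Field K] {G : Type u} [Group G]

/-- rank one idempotent -/
def R1 (P : Mt K) : Prop := ∃ v φ, φ ⬝ᵥ v = 1 ∧ P = vv v φ

/-- homology matrix -/
def hm (l : K) (P : Mt K) : Mt K := 1 + (l - 1) • P

/-- orthogonal idempotents -/
def Ort (P Q : Mt K) : Prop := P * Q = 0 ∧ Q * P = 0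

variable {P Q R O S : Mt K} {l l' : K}

theorem Ort.symm (h : Ort P Q) : Ort Q P := ⟨h.2, h.1⟩

theorem R1.idem (h : R1 P) : P * P = P := by
  obtain ⟨v, φ, h, rfl⟩ := h
  rw [vv_mul_vv, h, one_smul]

theorem R1.trace (h : R1 P) : P.trace = 1 := by
  obtain ⟨v, φ, h, rfl⟩ := h
  rw [trace_vv, h]

theorem R1.sandwich (h : R1 P) (A : Mt K) : P * A * P = (A * P).trace • P := by
  obtain ⟨v, φ, h, rfl⟩ := h
  rw [mul_assoc, mul_vv A, vv_mul_vv, trace_vv]

theorem R1.not_ort (h : R1 P) : ¬ Ort P P := fun e => by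
  have := h.trace
  rw [← h.idem, e.1, trace_zero] at this
  exact zero_ne_one this

theorem R1.conj (h : R1 P) {A B : Mt K} (e : B * A = 1) : R1 (A * P * B) := by
  obtain ⟨v, φ, h, rfl⟩ := h
  refine ⟨A *ᵥ v, φ ᵥ* B, ?_, conj_vv _ _ _ _⟩
  rw [← dotProduct_mulVec, mulVec_mulVec, e, one_mulVec, h]

theorem R1.compl (h : R1 P) (h' : R1 Q) (e : Ort P Q) : R1 (1 - P - Q) := by
  have h1 : (1 - P - Q) * (1 - P - Q) = 1 - P - Q := by
    simp only [mul_sub, sub_mul, h.idem, h'.idem, e.1, e.2, one_mul, mul_one]; abel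
  have h2 : (1 - P - Q).trace = 1 := by
    rw [Matrix.trace_sub, Matrix.trace_sub, h.trace, h'.trace, trace_one]; simp; ring
  have h3 : (1 - P - Q) * P = 0 := by simp only [sub_mul, h.idem, e.2, one_mul]; abel
  have h4 := cayley (1 - P - Q)
  rw [h1, h1, h2, one_smul] at h4
  have h5 := congrArg (· * P) h4
  simp only [add_mul, sub_mul (1 - P - Q), smul_mul_assoc, h3, one_mul, smul_zero, sub_zero,
    zero_add] at h5
  have hP : P ≠ 0 := fun e => by have := h.trace; rw [e, trace_zero] at this; exact zero_ne_one this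
  rw [(smul_eq_zero.1 h5.symm).resolve_right hP, zero_smul, add_zero, eq_comm, sub_eq_self] at h4
  have h6 := congrArg Matrix.trace h4
  rw [trace_smul, h2, trace_zero, smul_eq_mul, mul_one] at h6
  obtain ⟨v, φ, e⟩ := exists_vv_of_adj (A := 1 - P - Q) (by rw [adj_eq, h1, h2, h6]; simp)
  exact ⟨v, φ, by rw [← trace_vv, ← e, h2], e⟩

theorem ort_compl (h : R1 P) (e : Ort P Q) : Ort P (1 - P - Q) :=
  ⟨by simp only [mul_sub, h.idem, e.1, mul_one]; abel, by simp only [sub_mul, h.idem, e.2, one_mul]; abel⟩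

theorem ort_compl' (h : R1 Q) (e : Ort P Q) : Ort Q (1 - P - Q) := by
  rw [sub_right_comm]; exact ort_compl h e.symm

theorem R1.eq_compl (h : R1 P) (h' : R1 Q) (hR : R1 R) (e : Ort P Q) (e1 : Ort R P) (e2 : Ort R Q) :
    R = 1 - P - Q := by
  have h1 := (h.compl h' e).sandwich R
  have h2 : R * (1 - P - Q) = R := by simp only [mul_sub, e1.1, e2.1, mul_one, sub_zero]
  have h3 : (1 - P - Q) * R = R := by simp only [sub_mul, e1.2, e2.2, one_mul, sub_zero]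
  rwa [h3, h2, hR.trace, one_smul] at h1

theorem hm_mul (h : P * P = P) : hm l P * hm l' P = hm (l * l') P := by
  simp only [hm, mul_add, add_mul, smul_mul_assoc, mul_smul_comm, h, one_mul, mul_one]; module

theorem hm_one : hm 1 P = 1 := by simp [hm]

theorem hm_pow (h : P * P = P) (n : ℕ) : hm l P ^ n = hm (l ^ n) P := by
  induction n with
  | zero => rw [pow_zero, pow_zero, hm_one]
  | succ n ih => rw [pow_succ, ih, hm_mul h, pow_succ]

theorem hm_conj {A B : Mt K} (e : A * B = 1) : A * hm l P * B = hm l (A * P * B) := by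
  simp only [hm, mul_add, add_mul, smul_mul_assoc, mul_smul_comm, mul_one, e]

theorem hm_vv_mulVec (v φ w : Fin 3 → K) : hm l (vv v φ) *ᵥ w = w + ((l - 1) * (φ ⬝ᵥ w)) • v := by
  rw [hm, add_mulVec, one_mulVec, smul_mulVec, vv_mulVec, smul_smul]

theorem vecMul_hm_vv (v φ ψ : Fin 3 → K) : ψ ᵥ* hm l (vv v φ) = ψ + ((l - 1) * (ψ ⬝ᵥ v)) • φ := by
  rw [hm, vecMul_add, vecMul_one, vecMul_smul, vecMul_vv, smul_smul]

variable {ρ : G →* PGL(3, K)} {x y : G}

/-- the group contains the homology with idempotent `P` and ratio `l` -/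
def Hm (ρ : G →* PGL(3, K)) (l : K) (P : Mt K) : Prop := R1 P ∧ ∃ x, Rep ρ x (hm l P)

theorem Hm.pow (h : Hm ρ l P) (n : ℕ) : Hm ρ (l ^ n) P :=
  ⟨h.1, _, (h.2.choose_spec.pow n).congr (hm_pow h.1.idem n)⟩

theorem Hm.ne (h : Hm ρ l P) : l ≠ 0 := by
  rintro rfl
  obtain ⟨h1, x, h⟩ := h
  have h2 : hm 0 P * P = 0 := by simp [hm, add_mul, h1.idem]
  rw [(Ne.isUnit h.det_ne |> (isUnit_iff_isUnit_det _).2).mul_right_eq_zero] at h2
  exact h1.not_ort ⟨by rw [h2, mul_zero], by rw [h2, mul_zero]⟩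

theorem rep_hm_inv (h1 : P * P = P) (hl : l ≠ 0) (h : Rep ρ x (hm l P)) : Rep ρ x⁻¹ (hm l⁻¹ P) :=
  h.inv one_ne_zero (by rw [hm_mul h1, mul_inv_cancel₀ hl, hm_one, one_smul])

theorem Hm.inv (h : Hm ρ l P) : Hm ρ l⁻¹ P := ⟨h.1, _, rep_hm_inv h.1.idem h.ne h.2.choose_spec⟩

theorem Hm.conj (h : Hm ρ l P) {A B : Mt K} (hA : Rep ρ x A) (e : A * B = 1) : Hm ρ l (A * P * B) :=
  ⟨h.1.conj (mul_eq_one_comm.1 e), _, ((hA.mul h.2.choose_spec).mul
    (hA.inv one_ne_zero (by rw [e, one_smul]))).congr (hm_conj e)⟩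

/-- conjugate of `Q` by the homology at `P` -/
def cq (l : K) (P Q : Mt K) : Mt K := hm l P * Q * hm l⁻¹ P

theorem Hm.cq (h : Hm ρ l P) (h' : Hm ρ l' Q) : Hm ρ l' (cq l P Q) :=
  h'.conj h.2.choose_spec (by rw [hm_mul h.1.idem, mul_inv_cancel₀ h.ne, hm_one])

theorem Hm.compl (h : Hm ρ l P) (h' : Hm ρ l Q) (e : Ort P Q) : Hm ρ l (1 - P - Q) := by
  refine ⟨h.1.compl h'.1 e, _, (((h.inv.2.choose_spec).mul h'.inv.2.choose_spec).smul h.ne).congr ?_⟩
  have := h.ne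
  simp only [hm, mul_add, add_mul, smul_mul_assoc, mul_smul_comm, e.1, one_mul, mul_one]
  match_scalars <;> field_simp <;> ring

theorem NE.pair (hG : NE ρ) (hl : l * l ≠ 1) (h : Hm ρ l P) (h' : Hm ρ l Q) :
    P = Q ∨ Ort P Q ∨ ((P * Q).trace ≠ 0 ∧ (P * Q).trace ≠ 1) := by
  have hl0 := h.ne
  have hl1 : l - 1 ≠ 0 := fun e => hl (by rw [sub_eq_zero.1 e, one_mul])
  have key : ∀ {P Q : Mt K}, Hm ρ l P → Hm ρ l Q → Q * P = 0 → P * Q = 0 := by
    intro P Q h h' e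
    have h1 := ((h.2.choose_spec.mul h'.2.choose_spec).mul h.inv.2.choose_spec).mul
      h'.inv.2.choose_spec
    have a1 := h.1.idem
    have a2 := h'.1.idem
    have a3 : ∀ X : Mt K, Q * (P * X) = 0 := fun X => by rw [← mul_assoc, e, zero_mul]
    have a4 : ∀ X : Mt K, P * (P * X) = P * X := fun X => by rw [← mul_assoc, a1]
    have a5 : ∀ X : Mt K, Q * (Q * X) = Q * X := fun X => by rw [← mul_assoc, a2]
    have := hG.noE _ (((l - 1) ^ 2 * l⁻¹) • (P * Q)) (h1.congr (by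
      simp only [hm, mul_add, add_mul, smul_mul_assoc, mul_smul_comm, one_mul, mul_one, mul_assoc,
        a1, a2, e, a3, a4, a5, mul_zero, zero_mul, smul_zero]
      match_scalars <;> field_simp <;> ring)) (by
      simp only [smul_mul_assoc, mul_smul_comm, mul_assoc, a3, mul_zero, smul_zero])
    exact (smul_eq_zero.1 this).resolve_left (mul_ne_zero (pow_ne_zero _ hl1) (inv_ne_zero hl0))
  by_cases e0 : (P * Q).trace = 0
  · right; left
    obtain ⟨v, φ, h1, rfl⟩ := h.1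
    obtain ⟨w, ψ, h2, rfl⟩ := h'.1
    rw [vv_mul_vv, trace_smul, trace_vv, smul_eq_mul, mul_eq_zero] at e0
    rcases e0 with e | e
    · have : vv v φ * vv w ψ = 0 := by rw [vv_mul_vv, e, zero_smul]
      exact ⟨this, key h' h this⟩
    · have : vv w ψ * vv v φ = 0 := by rw [vv_mul_vv, e, zero_smul]
      exact ⟨key h h' this, this⟩
  by_cases e1 : (P * Q).trace = 1
  swap
  · exact Or.inr (Or.inr ⟨e0, e1⟩)
  left
  obtain ⟨v, φ, h1, rfl⟩ := h.1
  obtain ⟨w', ψ', h2, e⟩ := h'.1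
  rw [e, vv_mul_vv, trace_smul, trace_vv, smul_eq_mul] at e1
  obtain ⟨w, ψ, h2, h3, h4, rfl⟩ : ∃ w ψ, ψ ⬝ᵥ w = 1 ∧ φ ⬝ᵥ w = 1 ∧ ψ ⬝ᵥ v = 1 ∧ Q = vv w ψ :=
    ⟨(ψ' ⬝ᵥ v) • w', (φ ⬝ᵥ w') • ψ', by
      rw [smul_dotProduct, dotProduct_smul, h2, smul_eq_mul, smul_eq_mul, mul_one, e1],
      by rw [dotProduct_smul, smul_eq_mul, mul_comm, e1], by rw [smul_dotProduct, smul_eq_mul, e1],
      by rw [smul_vv, vv_smul, smul_smul, mul_comm, e1, one_smul, e]⟩
  obtain ⟨o, rfl⟩ : ∃ o, v = w + o := ⟨v - w, by abel⟩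
  obtain ⟨χ, rfl⟩ : ∃ χ, φ = ψ + χ := ⟨φ - ψ, by abel⟩
  rw [dotProduct_add, h2, add_eq_left] at h4
  rw [add_dotProduct, h2, add_eq_left] at h3
  rw [add_dotProduct, dotProduct_add, dotProduct_add, h2, h3, h4, add_zero, add_eq_left, zero_add] at h1
  have x1 := (h.2.choose_spec.mul h'.inv.2.choose_spec).congr
    (B := 1 + (l - 1) • (vv w χ + l⁻¹ • vv o ψ + vv o χ)) (by
      simp only [hm, vv_add, add_vv, mul_add, add_mul, smul_mul_assoc, mul_smul_comm, one_mul, mul_one,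
        vv_mul_vv, h1, h2, h3, h4]
      match_scalars <;> field_simp <;> ring)
  have x2 := (h'.inv.2.choose_spec.mul h.2.choose_spec).congr
    (B := 1 + (l - 1) • (l⁻¹ • vv w χ + vv o ψ + vv o χ)) (by
      simp only [hm, vv_add, add_vv, mul_add, add_mul, smul_mul_assoc, mul_smul_comm, one_mul, mul_one,
        vv_mul_vv, h1, h2, h3, h4]
      match_scalars <;> field_simp <;> ring)
  have x3 : vv o χ = 0 := by
    have y1 := (x2.mul x1).inv (B := (1 - (l - 1) • (vv w χ + l⁻¹ • vv o ψ + vv o χ) +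
      ((l - 1) ^ 2 * l⁻¹) • vv o χ) * (1 - (l - 1) • (l⁻¹ • vv w χ + vv o ψ + vv o χ) +
      ((l - 1) ^ 2 * l⁻¹) • vv o χ)) one_ne_zero (by
      simp only [mul_add, add_mul, mul_sub, sub_mul, smul_mul_assoc, mul_smul_comm, one_mul, mul_one,
        vv_mul_vv, h1, h2, h3, h4]
      match_scalars <;> field_simp <;> ring)
    have := hG.noE _ (((l - 1) ^ 2 * (l⁻¹ ^ 2 - 1)) • vv o χ) ((y1.mul (x1.mul x2)).congr (by
      simp only [mul_add, add_mul, mul_sub, sub_mul, smul_mul_assoc, mul_smul_comm, one_mul, mul_one,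
        vv_mul_vv, h1, h2, h3, h4]
      match_scalars <;> field_simp <;> ring)) (by
      simp only [smul_mul_assoc, mul_smul_comm, vv_mul_vv, h1, zero_smul, smul_zero])
    refine (smul_eq_zero.1 this).resolve_left (mul_ne_zero (pow_ne_zero _ hl1) (fun e => hl ?_))
    field_simp at e
    linear_combination -e
  rcases vv_eq_zero.1 x3 with rfl | rfl
  · have z : ∀ φ : Fin 3 → K, vv 0 φ = 0 := fun φ => vv_eq_zero.2 (Or.inl rfl)
    simp only [z, smul_zero, add_zero] at x1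
    have := hG.noE _ _ x1 (by
      simp only [smul_mul_assoc, mul_smul_comm, vv_mul_vv, h3, zero_smul, smul_zero])
    rw [add_zero, vv_add, (smul_eq_zero.1 this).resolve_left hl1, add_zero]
  · have z : ∀ v : Fin 3 → K, vv v 0 = 0 := fun φ => vv_eq_zero.2 (Or.inr rfl)
    simp only [z, smul_zero, add_zero, zero_add] at x2
    have := hG.noE _ _ x2 (by
      simp only [smul_mul_assoc, mul_smul_comm, vv_mul_vv, h4, zero_smul, smul_zero])
    rw [add_zero, add_vv, (smul_eq_zero.1 this).resolve_left hl1, add_zero]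

set_option synthInstance.maxSize 1024 in
theorem S4_fact1 : ∀ x y : Perm (Fin 4), x ^ 2 ≠ 1 → y ^ 2 ≠ 1 → x ^ 4 = 1 → y ^ 4 = 1 →
    x * y = y * x ∨ ((x * y) ^ 3 = 1 ∧ (x * y ^ 3) ^ 3 = 1) := by decide +kernel

theorem S4_fact2 : ∀ x y : Perm (Fin 4), x ^ 3 = 1 → y ^ 3 = 1 →
    (x * y) ^ 2 = 1 ∨ (x * y) ^ 3 = 1 := by decide +kernel

theorem S5_fact : ∀ x : Perm (Fin 5), x ^ 5 = 1 → ∀ y : Perm (Fin 5), y ^ 5 = 1 →
    x * y = y * x ∨ (x * y ^ 2) ^ 2 = 1 ∨ (x * y ^ 3) ^ 2 = 1 ∨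
    ((x * y) ^ 2 = 1 ∧ (x * y ^ 4) ^ 3 = 1) ∨ ((x * y ^ 4) ^ 2 = 1 ∧ (x * y) ^ 3 = 1) := by
  decide +kernel

theorem Exc.inj4 {X : Type*} [Group X] [Finite X] (h : Exc X 4) :
    ∃ f : X →* Perm (Fin 4), Function.Bijective f := by
  obtain ⟨e⟩ := H3.iso_S4 (G := X) (by have := h.1; omega) h.2
  exact ⟨e, e.bijective⟩

theorem Exc.inj5 {X : Type*} [Group X] [Finite X] (h : Exc X 5) :
    ∃ f : X →* Perm (Fin 5), Function.Injective f := by
  obtain ⟨e⟩ := H3.iso_A5 (G := X) (by have := h.1; omega) h.2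
  exact ⟨(alternatingGroup (Fin 5)).subtype.comp e, Subtype.val_injective.comp e.injective⟩

theorem Exc.char {X : Type*} [Group X] {k : ℕ} (h : Exc X k) (p : ℕ) [Fact p.Prime] [CharP K p]
    (hp : ¬ p ∣ Nat.card X) : (2 : K) ≠ 0 ∧ (3 : K) ≠ 0 ∧ (k = 5 → (5 : K) ≠ 0) := by
  have key : ∀ n : ℕ, n ∣ Nat.card X → (n : K) ≠ 0 := fun n hn e =>
    hp (((CharP.cast_eq_zero_iff K p n).1 e).trans hn)
  have := h.1
  exact ⟨by exact_mod_cast key 2 (by omega), by exact_mod_cast key 3 (by omega),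
    fun e => by exact_mod_cast key 5 (by omega)⟩

/-- the possible values of the pair invariant -/
def MM (l μ : K) : Prop := (2 : K) ≠ 0 ∧ (3 : K) ≠ 0 ∧ ((l ^ 2 + 1 = 0 ∧ 2 * μ = 1) ∨
  (l ^ 4 + l ^ 3 + l ^ 2 + l + 1 = 0 ∧ (5 : K) ≠ 0 ∧ 5 * μ ^ 2 - 5 * μ + 1 = 0) ∨
  (l ^ 2 + l + 1 = 0 ∧ (3 * μ = 1 ∨ 3 * μ = 2 ∨ (9 * μ ^ 2 - 9 * μ + 1 = 0 ∧ (5 : K) ≠ 0))))

/-- the two generators in the plane -/
def B1 (l a : K) : M2 K := !![l, (l - 1) * a; 0, 1]
def B2 (l b : K) : M2 K := !![1, 0; (l - 1) * b, l]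

theorem B1_pow (a : K) (n : ℕ) : B1 l a ^ n = B1 (l ^ n) a := by
  induction n with
  | zero => ext i j; fin_cases i <;> fin_cases j <;> simp [B1]
  | succ n ih =>
    rw [pow_succ, ih]; ext i j
    fin_cases i <;> fin_cases j <;> simp [B1, mul_apply, Fin.sum_univ_two, pow_succ]; ring

theorem B2_pow (b : K) (n : ℕ) : B2 l b ^ n = B2 (l ^ n) b := by
  induction n with
  | zero => ext i j; fin_cases i <;> fin_cases j <;> simp [B2]
  | succ n ih =>
    rw [pow_succ, ih]; ext i j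
    fin_cases i <;> fin_cases j <;> simp [B2, mul_apply, Fin.sum_univ_two, pow_succ]; ring

theorem B12 (a b : K) : (B1 l a * B2 l' b).trace = l + l' + (l - 1) * (l' - 1) * (a * b) ∧
    (B1 l a * B2 l' b).det = l * l' ∧ (B1 l a * B2 l' b) 1 0 = (l' - 1) * b := by
  refine ⟨?_, ?_, ?_⟩ <;>
    simp [B1, B2, mul_apply, Fin.sum_univ_two, trace_fin_two, det_fin_two] <;> ring

theorem pow_smul_one {B : M2 K} {c : K} {n : ℕ} :
    (n = 2 → B.trace = 0 → B ^ n = (- B.det) • 1) ∧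
    (n = 3 → B.trace ^ 2 = B.det → B ^ n = (- B.det * B.trace) • 1) ∧
    (n = 5 → B.trace ^ 4 - 3 * B.trace ^ 2 * B.det + B.det ^ 2 = 0 →
      B ^ n = (- B.det * (B.trace ^ 3 - 2 * B.trace * B.det)) • 1) := by
  have h2 : B * B = B.trace • B - B.det • 1 := by rw [← sq2, sq]
  have h3 : ∀ x y : K, B * (x • B - y • 1) = (B.trace * x - y) • B - (B.det * x) • 1 := fun x y => by
    rw [mul_sub, mul_smul_comm, mul_smul_comm, h2, mul_one]; module
  refine ⟨?_, ?_, ?_⟩ <;> rintro rfl h <;>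
    simp only [pow_succ', pow_zero, mul_one, h2, h3]
  · rw [h]; module
  · linear_combination (norm := module) h • B
  · linear_combination (norm := module) h • B

end Cfsg.Agent.H8.M3
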