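import Cfsg.Agent.H8.M3E

/-! Homologies: the pair invariant. -/

set_option autoImplicit false
set_option linter.unusedSectionVars false

namespace Cfsg.Agent.H8.M3
open Matrix Equiv
open scoped MatrixGroups

universe u
variable {K : Type*} [Field K] {G : Type u} [Group G]
variable {P Q R O S : Mt K} {l l' : K} {ρ : G →* PGL(3, K)} {x y : G}

theorem alg3 {μ : K} (h0 : μ ≠ 0) (h1 : μ ≠ 1) (c2 : (2 : K) ≠ 0) (c3 : (3 : K) ≠ 0)
    (g1 : 2 - 3 * μ = 0 ∨ (2 - 3 * μ) ^ 2 = 1 ∨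
      ((5 : K) ≠ 0 ∧ (2 - 3 * μ) ^ 4 - 3 * (2 - 3 * μ) ^ 2 + 1 = 0))
    (g2 : 3 * μ - 1 = 0 ∨ (3 * μ - 1) ^ 2 = 1 ∨
      ((5 : K) ≠ 0 ∧ (3 * μ - 1) ^ 4 - 3 * (3 * μ - 1) ^ 2 + 1 = 0)) :
    3 * μ = 1 ∨ 3 * μ = 2 ∨ (9 * μ ^ 2 - 9 * μ + 1 = 0 ∧ (5 : K) ≠ 0) := by
  have q1 : 3 * μ ≠ 0 := mul_ne_zero c3 h0
  have q2 : 3 * μ - 3 ≠ 0 := fun e => mul_ne_zero c3 (sub_ne_zero.2 h1) (by linear_combination e)
  rcases g1 with g | g | ⟨c5, g⟩
  · exact Or.inr (Or.inl (by linear_combination -g))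
  · exact Or.inl (mul_left_cancel₀ q2 (by linear_combination g))
  rcases g2 with g' | g' | ⟨-, g'⟩
  · exact Or.inl (by linear_combination g')
  · exact Or.inr (Or.inl (mul_left_cancel₀ q1 (by linear_combination g')))
  have f1 : (9 * μ ^ 2 - 9 * μ + 1) * (9 * μ ^ 2 - 15 * μ + 5) = 0 := by linear_combination g
  have f2 : (9 * μ ^ 2 - 9 * μ + 1) * (9 * μ ^ 2 - 3 * μ - 1) = 0 := by linear_combination g'
  by_cases f : 9 * μ ^ 2 - 9 * μ + 1 = 0
  · exact Or.inr (Or.inr ⟨f, c5⟩)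
  have f3 := (mul_eq_zero.1 f1).resolve_left f
  have f4 := (mul_eq_zero.1 f2).resolve_left f
  have f5 : 2 * μ = 1 := mul_left_cancel₀ (mul_ne_zero c2 c3) (by linear_combination f4 - f3)
  have f6 : (2 : K) * 2 * (9 * μ ^ 2 - 3 * μ - 1) = -1 := by
    linear_combination (18 * μ + 3) * f5
  rw [f4, mul_zero] at f6
  exact absurd f6 (by simp)

theorem alg4 {μ : K} (c2 : (2 : K) ≠ 0) (e4 : l ^ 2 + 1 = 0)
    (r1 : (l + l ^ 1 + (l - 1) * (l ^ 1 - 1) * μ) ^ 2 = l * l ^ 1)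
    (r2 : (l + l ^ 3 + (l - 1) * (l ^ 3 - 1) * μ) ^ 2 = l * l ^ 3) :
    2 * μ = 1 ∧ (-(l * l ^ 1) * (l + l ^ 1 + (l - 1) * (l ^ 1 - 1) * μ)) ^ 3 * l = 1 := by
  have : 2 * μ = 1 := by
    have a1 : (2 * μ - 1) * (2 * μ - 3) = 0 := by grind
    have a2 : (2 * μ - 1) * (2 * μ + 1) = 0 := by grind
    by_contra h
    have h' := sub_ne_zero.2 h
    exact mul_ne_zero c2 c2 (by
      linear_combination (mul_eq_zero.1 a2).resolve_left h' - (mul_eq_zero.1 a1).resolve_left h')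
  exact ⟨this, by grind⟩

theorem alg5 {μ : K} (c5 : (5 : K) ≠ 0) (e5 : l ^ 4 + l ^ 3 + l ^ 2 + l + 1 = 0) :
    (l + l ^ 2 + (l - 1) * (l ^ 2 - 1) * μ = 0 → 5 * μ ^ 2 - 5 * μ + 1 = 0) ∧
    (l + l ^ 3 + (l - 1) * (l ^ 3 - 1) * μ = 0 → 5 * μ ^ 2 - 5 * μ + 1 = 0) ∧
    (l + l ^ 1 + (l - 1) * (l ^ 1 - 1) * μ = 0 →
      (l + l ^ 4 + (l - 1) * (l ^ 4 - 1) * μ) ^ 2 = l * l ^ 4 → False) ∧
    (l + l ^ 4 + (l - 1) * (l ^ 4 - 1) * μ = 0 →
      (l + l ^ 1 + (l - 1) * (l ^ 1 - 1) * μ) ^ 2 = l * l ^ 1 → False) := by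
  refine ⟨fun h => ?_, fun h => ?_, fun h h' => ?_, fun h h' => ?_⟩ <;> grind

set_option maxHeartbeats 1000000 in
theorem mm_plane [Finite G] [IsAlgClosed K] (p : ℕ) [Fact p.Prime] [CharP K p] (hG : NE ρ)
    (hl : l * l ≠ 1) (hl0 : l ≠ 0) {a b : K} (h0 : a * b ≠ 0) (h1 : a * b ≠ 1) (hx : Rep ρ x (blk (B1 l a)))
    (hy : Rep ρ y (blk (B2 l b))) : MM l (a * b) ∧ ((l ^ 2 + l + 1 = 0 ∧ 3 * (a * b) = 1) ∨
      ∃ z, Rep ρ z (blk (l⁻¹ • 1))) := by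
  have hl1 : l - 1 ≠ 0 := fun e => hl (by rw [sub_eq_zero.1 e, one_mul])
  have hl2 : l + 1 ≠ 0 := fun e => hl (by rw [eq_neg_of_add_eq_zero_left e]; ring)
  have ha : a ≠ 0 := left_ne_zero_of_mul h0
  have hb : b ≠ 0 := right_ne_zero_of_mul h0
  set X : Blk ρ := ⟨x, mem_Blk hx⟩
  set Y : Blk ρ := ⟨y, mem_Blk hy⟩
  have eX : ((psi ρ X : GL (Fin 2) K) : M2 K) = B1 l a := psi_eq hx
  have eY : ((psi ρ Y : GL (Fin 2) K) : M2 K) = B2 l b := psi_eq hy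
  have hnc : ∀ c : K, B1 l a * B2 l b ≠ c • (B2 l b * B1 l a) := fun c e => by
    have e1 := congrFun (congrFun e 0) 1
    have e2 := congrFun (congrFun e 0) 0
    simp [B1, B2, mul_apply, Fin.sum_univ_two] at e1 e2
    have e3 : (l - 1) * a * (l - c) = 0 := by linear_combination e1
    simp only [mul_eq_zero, hl1, ha, false_or, sub_eq_zero] at e3
    subst e3
    have e4 := congrFun (congrFun e 1) 0
    simp [B1, B2, mul_apply, Fin.sum_univ_two] at e4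
    have e5 : (l - 1) * b * (l * l - 1) = 0 := by linear_combination -e4
    simp only [mul_eq_zero, hl1, hb, false_or, sub_eq_zero] at e5
    exact hl e5
  rcases hG.dickson p with ⟨g, hg⟩ | ⟨k, hk, hp⟩
  · exfalso
    have tr : ∀ Z : Blk ρ, ((psi ρ Z : GL (Fin 2) K) : M2 K).trace ≠ 0 →
        (g⁻¹ * psi ρ Z * g) 0 1 = 0 ∧ (g⁻¹ * psi ρ Z * g) 1 0 = 0 := fun Z hZ => by
      refine (hg Z).resolve_right fun h => hZ ?_
      rw [← trace_units_conj' g, trace_fin_two]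
      exact (congrArg₂ (· + ·) h.1 h.2).trans (add_zero 0)
    obtain ⟨a1, a2⟩ := tr X (by rw [eX]; simpa [B1, trace_fin_two] using hl2)
    obtain ⟨b1, b2⟩ := tr Y (by rw [eY]; simpa [B2, trace_fin_two, add_comm] using hl2)
    have : (g⁻¹ * psi ρ X * g) * (g⁻¹ * psi ρ Y * g) = (g⁻¹ * psi ρ Y * g) * (g⁻¹ * psi ρ X * g) := by
      generalize g⁻¹ * psi ρ X * g = U at *
      generalize g⁻¹ * psi ρ Y * g = V at *
      ext i j; fin_cases i <;> fin_cases j <;>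
        simp [mul_apply, Fin.sum_univ_two, a1, a2, b1, b2, mul_comm]
    have h3 : psi ρ X * psi ρ Y = psi ρ Y * psi ρ X := by
      have e : ∀ U V : GL (Fin 2) K, g⁻¹ * U * g * (g⁻¹ * V * g) = g⁻¹ * (U * V) * g := by
        intro U V; group
      rwa [e, e, mul_left_inj, mul_right_inj] at this
    exact hnc 1 (by rw [← eX, ← eY, one_smul, ← Units.val_mul, h3, Units.val_mul])
  have : Finite (chi ρ).range := Finite.Set.finite_range _
  obtain ⟨c2, c3, c5⟩ := hk.char (K := K) p hp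
  let φ := (chi ρ).rangeRestrict
  have hφ : ∀ Z : Blk ρ, φ Z = 1 ↔ ∃ c : K, (psi ρ Z : M2 K) = c • 1 := fun Z => by
    rw [← chi_eq_one, Subtype.ext_iff]; rfl
  have w : ∀ j n : ℕ, (φ X * φ Y ^ j) ^ n = 1 → ∃ c : K, (B1 l a * B2 (l ^ j) b) ^ n = c • 1 := by
    intro j n h
    rw [← map_pow, ← map_mul, ← map_pow, hφ] at h
    simpa [eX, eY, B2_pow] using h
  have oX : ∀ n : ℕ, φ X ^ n = 1 ↔ l ^ n = 1 := fun n => by
    rw [← map_pow, hφ, map_pow, Units.val_pow_eq_pow_val, eX, B1_pow]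
    refine ⟨fun ⟨c, h⟩ => ?_, fun h => ⟨1, ?_⟩⟩
    · have e1 := congrFun (congrFun h 0) 0
      have e2 := congrFun (congrFun h 1) 1
      simp [B1] at e1 e2
      rw [e1, e2]
    · rw [h]; ext i j; fin_cases i <;> fin_cases j <;> simp [B1]
  have oY : ∀ n : ℕ, φ Y ^ n = 1 ↔ l ^ n = 1 := fun n => by
    rw [← map_pow, hφ, map_pow, Units.val_pow_eq_pow_val, eY, B2_pow]
    refine ⟨fun ⟨c, h⟩ => ?_, fun h => ⟨1, ?_⟩⟩
    · have e1 := congrFun (congrFun h 0) 0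
      have e2 := congrFun (congrFun h 1) 1
      simp [B2] at e1 e2
      rw [e2, e1]
    · rw [h]; ext i j; fin_cases i <;> fin_cases j <;> simp [B2]
  have nc : φ X * φ Y ≠ φ Y * φ X := fun e => by
    have : φ (X * Y * (Y * X)⁻¹) = 1 := by rw [map_mul, map_inv, map_mul, map_mul, e, mul_inv_cancel]
    obtain ⟨c, hc⟩ := (hφ _).1 this
    apply hnc c
    rw [map_mul, map_inv, Units.val_mul, Units.mul_inv_eq_iff_eq_mul] at hc
    simpa [eX, eY] using hc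
  have sc : ∀ (j n m : ℕ) (c : K), (B1 l a * B2 (l ^ j) b) ^ n = c • 1 → c ^ m = l⁻¹ →
      ∃ z, Rep ρ z (blk (l⁻¹ • 1)) := fun j n m c h e => by
    have := rep_psi (((X * Y ^ j) ^ n) ^ m)
    simp only [map_pow, map_mul, Units.val_pow_eq_pow_val, Units.val_mul, eX, eY, B2_pow, h,
      smul_pow, one_pow, e] at this
    exact ⟨_, this⟩
  have t := fun j : ℕ => B12 (l := l) (l' := l ^ j) a b
  have u := fun (j : ℕ) (h : l ^ j ≠ 1) (c : K) => u2 (B := B1 l a * B2 (l ^ j) b) (c := c)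
    (by rw [(t j).2.2]; exact mul_ne_zero (sub_ne_zero.2 h) hb)
  have v2 : ∀ j, l ^ j ≠ 1 → (φ X * φ Y ^ j) ^ 2 = 1 → l + l ^ j + (l - 1) * (l ^ j - 1) * (a * b) = 0 :=
    fun j hj h => by obtain ⟨c, hc⟩ := w j _ h; rw [← (t j).1]; exact (u j hj c).1 hc
  have v3 : ∀ j, l ^ j ≠ 1 → (φ X * φ Y ^ j) ^ 3 = 1 →
      (l + l ^ j + (l - 1) * (l ^ j - 1) * (a * b)) ^ 2 = l * l ^ j :=
    fun j hj h => by obtain ⟨c, hc⟩ := w j _ h; rw [← (t j).1, ← (t j).2.1]; exact (u j hj c).2.1 hc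
  have v5 : ∀ j, l ^ j ≠ 1 → (φ X * φ Y ^ j) ^ 5 = 1 →
      (l + l ^ j + (l - 1) * (l ^ j - 1) * (a * b)) ^ 4 -
        3 * (l + l ^ j + (l - 1) * (l ^ j - 1) * (a * b)) ^ 2 * (l * l ^ j) + (l * l ^ j) ^ 2 = 0 :=
    fun j hj h => by obtain ⟨c, hc⟩ := w j _ h; rw [← (t j).1, ← (t j).2.1]; exact (u j hj c).2.2.2 hc
  have n1 : l ^ 1 ≠ 1 := by rw [pow_one]; exact sub_ne_zero.1 hl1
  have n2 : l ^ 2 ≠ 1 := by rwa [sq]
  generalize a * b = μ at *
  have inv_eq : ∀ z : K, z * l = 1 → z = l⁻¹ := fun z h => eq_inv_of_mul_eq_one_left h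
  by_cases e : l ^ 3 = 1
  · skip
    have e3 : l ^ 2 + l + 1 = 0 := by
      apply mul_left_cancel₀ hl1; linear_combination e
    have key : (3 * μ = 1 ∨ 3 * μ = 2 ∨ (9 * μ ^ 2 - 9 * μ + 1 = 0 ∧ (5 : K) ≠ 0)) := by
      have g : ∀ j, (φ X * φ Y ^ j) ^ 2 = 1 ∨ (φ X * φ Y ^ j) ^ 3 = 1 ∨
          (k = 5 ∧ (φ X * φ Y ^ j) ^ 5 = 1) := fun j => by
        rcases hk.1 with ⟨rfl, -⟩ | ⟨rfl, -⟩ | ⟨rfl, -⟩
        · exact (hk.2 (φ X * φ Y ^ j)).imp_right fun h => Or.inl (h.elim id id)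
        · obtain ⟨f, hf⟩ := hk.inj4
          have := S4_fact2 (f (φ X)) (f (φ Y ^ j)) (by rw [← map_pow, (oX 3).2 e, map_one])
            (by rw [← map_pow, ← pow_mul, mul_comm, pow_mul, (oY 3).2 e, one_pow, map_one])
          simp only [← map_mul f, ← map_pow f, map_eq_one_iff f hf.1] at this
          exact this.imp_right Or.inl
        · exact (hk.2 (φ X * φ Y ^ j)).imp_right (Or.imp_right fun h => ⟨rfl, h⟩)
      have g1 : 2 - 3 * μ = 0 ∨ (2 - 3 * μ) ^ 2 = 1 ∨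
          ((5 : K) ≠ 0 ∧ (2 - 3 * μ) ^ 4 - 3 * (2 - 3 * μ) ^ 2 + 1 = 0) := by
        have z : l + l ^ 1 + (l - 1) * (l ^ 1 - 1) * μ = l * (2 - 3 * μ) := by
          linear_combination μ * e3
        rcases g 1 with h | h | ⟨h5, h⟩
        · have := v2 1 n1 h
          rw [z] at this
          exact Or.inl ((mul_eq_zero.1 this).resolve_left hl0)
        · have := v3 1 n1 h
          rw [z] at this
          exact Or.inr (Or.inl (mul_left_cancel₀ (pow_ne_zero 2 hl0) (by linear_combination this)))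
        · have := v5 1 n1 h
          rw [z] at this
          exact Or.inr (Or.inr ⟨c5 h5, mul_left_cancel₀ (pow_ne_zero 4 hl0) (by linear_combination this)⟩)
      have g2 : 3 * μ - 1 = 0 ∨ (3 * μ - 1) ^ 2 = 1 ∨
          ((5 : K) ≠ 0 ∧ (3 * μ - 1) ^ 4 - 3 * (3 * μ - 1) ^ 2 + 1 = 0) := by
        have z : l + l ^ 2 + (l - 1) * (l ^ 2 - 1) * μ = 3 * μ - 1 := by
          linear_combination (1 - μ) * e3 + μ * e
        have z' : l * l ^ 2 = 1 := by linear_combination e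
        rcases g 2 with h | h | ⟨h5, h⟩
        · have := v2 2 n2 h
          rw [z] at this
          exact Or.inl this
        · have := v3 2 n2 h
          rw [z, z'] at this
          exact Or.inr (Or.inl this)
        · have := v5 2 n2 h
          rw [z, z'] at this
          exact Or.inr (Or.inr ⟨c5 h5, by linear_combination this⟩)
      exact alg3 h0 h1 c2 c3 g1 g2
    refine ⟨⟨c2, c3, Or.inr (Or.inr ⟨e3, key⟩)⟩, ?_⟩
    rcases key with h | h | ⟨h, -⟩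
    · exact Or.inl ⟨e3, h⟩
    · refine Or.inr (sc 1 2 4 _ ((pow_smul_one (c := 0)).1 rfl (by
        rw [(t 1).1]; linear_combination μ * e3 - l * h)) (inv_eq _ ?_))
      rw [(t 1).2.1]; linear_combination (l ^ 6 + l ^ 3 + 1) * e
    · have z : l + l ^ 1 + (l - 1) * (l ^ 1 - 1) * μ = l * (2 - 3 * μ) := by
          linear_combination μ * e3
      refine Or.inr (sc 1 5 4 _ ((pow_smul_one (c := 0)).2.2 rfl (by
        rw [(t 1).1, (t 1).2.1, z]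
        linear_combination l ^ 4 * (9 * μ ^ 2 - 15 * μ + 5) * h)) (inv_eq _ ?_))
      rw [(t 1).1, (t 1).2.1, z]
      have : (l * (2 - 3 * μ)) ^ 3 - 2 * (l * (2 - 3 * μ)) * (l * l ^ 1) = 1 := by
        linear_combination l ^ 3 * (3 - 3 * μ) * h + e
      rw [this]; linear_combination (l ^ 6 + l ^ 3 + 1) * e
  · have e3 := e
    replace e := (oX k).1 (((hk.2 (φ X)).resolve_left (mt (oX 2).1 n2)).resolve_left (mt (oX 3).1 e3))
    rcases hk.1 with ⟨rfl, -⟩ | ⟨rfl, -⟩ | ⟨rfl, -⟩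
    · exact absurd e e3
    · have e4 : l ^ 2 + 1 = 0 := by
        apply mul_left_cancel₀ (sub_ne_zero.2 n2); linear_combination e
      have n3 : l ^ 3 ≠ 1 := fun h => n1 (by linear_combination e - l * h)
      obtain ⟨f, hf⟩ := hk.inj4
      have := S4_fact1 (f (φ X)) (f (φ Y))
      simp only [← map_mul f, ← map_pow f, ne_eq, map_eq_one_iff f hf.1, hf.1.eq_iff, oX, oY] at this
      obtain ⟨q1, q2⟩ := (this n2 n2 e e).resolve_left nc
      have r1 := v3 1 n1 (by rwa [pow_one])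
      have r2 := v3 3 n3 q2
      obtain ⟨hμ, hμ'⟩ := alg4 c2 e4 r1 r2
      refine ⟨⟨c2, c3, Or.inl ⟨e4, hμ⟩⟩, Or.inr (sc 1 3 3 _ ((pow_smul_one (c := 0)).2.1 rfl (by
        rw [(t 1).1, (t 1).2.1]; exact r1)) (inv_eq _ ?_))⟩
      rw [(t 1).1, (t 1).2.1]
      exact hμ'
    · have e5 : l ^ 4 + l ^ 3 + l ^ 2 + l + 1 = 0 := by
        apply mul_left_cancel₀ hl1; linear_combination e
      have n3 : l ^ 3 ≠ 1 := fun h => n2 (by linear_combination e - l ^ 2 * h)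
      have n4 : l ^ 4 ≠ 1 := fun h => n1 (by linear_combination e - l * h)
      obtain ⟨f, hf⟩ := hk.inj5
      have := S5_fact (f (φ X)) (by rw [← map_pow, (oX 5).2 e, map_one]) (f (φ Y))
        (by rw [← map_pow, (oY 5).2 e, map_one])
      simp only [← map_mul f, ← map_pow f, map_eq_one_iff f hf, hf.eq_iff] at this
      have c5 := c5 rfl
      rcases this.resolve_left nc with h | h | ⟨h, h'⟩ | ⟨h, h'⟩
      · have r := v2 2 n2 h
        refine ⟨⟨c2, c3, Or.inr (Or.inl ⟨e5, c5, ?_⟩)⟩, Or.inr (sc 2 2 8 _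
          ((pow_smul_one (c := 0)).1 rfl (by rw [(t 2).1]; exact r)) (inv_eq _ ?_))⟩
        · exact (alg5 c5 e5).1 r
        · rw [(t 2).2.1]; linear_combination (l ^ 20 + l ^ 15 + l ^ 10 + l ^ 5 + 1) * e
      · have r := v2 3 n3 h
        refine ⟨⟨c2, c3, Or.inr (Or.inl ⟨e5, c5, ?_⟩)⟩, Or.inr (sc 3 2 6 _
          ((pow_smul_one (c := 0)).1 rfl (by rw [(t 3).1]; exact r)) (inv_eq _ ?_))⟩
        · exact (alg5 c5 e5).2.1 r
        · rw [(t 3).2.1]; linear_combination (l ^ 20 + l ^ 15 + l ^ 10 + l ^ 5 + 1) * e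
      · have r1 := v2 1 n1 (by rwa [pow_one])
        have r2 := v3 4 n4 h'
        exact ((alg5 c5 e5).2.2.1 r1 r2).elim
      · have r1 := v3 1 n1 (by rwa [pow_one])
        have r2 := v2 4 n4 h
        exact ((alg5 c5 e5).2.2.2 r2 r1).elim

end Cfsg.Agent.H8.M3
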