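import Cfsg.Agent.H8.M3E2

/-! No homologies of order greater than two. -/

set_option autoImplicit false
set_option linter.unusedSectionVars false

namespace Cfsg.Agent.H8.M3
open Matrix Equiv
open scoped MatrixGroups

universe u
variable {K : Type*} [Field K] {G : Type u} [Group G]
variable {P Q R O S : Mt K} {l l' : K} {ρ : G →* PGL(3, K)} {x y : G}

theorem rep_of_cjr {g : GL (Fin 3) K} {A B : Mt K} (h : Rep (cjr ρ g) x B)
    (e : A * (g : Mt K) = (g : Mt K) * B) : Rep ρ x A := by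
  rw [rep_cjr, ← e] at h; simpa [mul_assoc] using h

theorem mm_pair [Finite G] [IsAlgClosed K] (p : ℕ) [Fact p.Prime] [CharP K p] (hG : NE ρ)
    (hl : l * l ≠ 1) (h : Hm ρ l P) (h' : Hm ρ l Q) (h0 : (P * Q).trace ≠ 0) (h1 : (P * Q).trace ≠ 1) :
    MM l (P * Q).trace ∧ ((l ^ 2 + l + 1 = 0 ∧ 3 * (P * Q).trace = 1) ∨
      ∃ O, Hm ρ l O ∧ Ort O P ∧ Ort O Q) := by
  have hl0 := h.ne
  obtain ⟨⟨v, φ, e1, rfl⟩, x, hx⟩ := h
  obtain ⟨⟨w, ψ, e2, rfl⟩, y, hy⟩ := h'
  rw [vv_mul_vv, trace_smul, trace_vv, smul_eq_mul] at h0 h1 ⊢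
  set o := crossProduct φ ψ with ho
  have o1 : φ ⬝ᵥ o = 0 := dot_self_cross _ _
  have o2 : ψ ⬝ᵥ o = 0 := dot_cross_self _ _
  have o3 : crossProduct v w ⬝ᵥ o = 1 - φ ⬝ᵥ w * ψ ⬝ᵥ v := by
    rw [ho, cross_dot_cross, dotProduct_comm v, dotProduct_comm w, dotProduct_comm v,
      dotProduct_comm w, e1, e2]; ring
  have h1' : 1 - φ ⬝ᵥ w * ψ ⬝ᵥ v ≠ 0 := sub_ne_zero.2 h1.symm
  have o4 : crossProduct v w ⬝ᵥ v = 0 := by rw [dotProduct_comm]; exact dot_self_cross _ _
  have o5 : crossProduct v w ⬝ᵥ w = 0 := by rw [dotProduct_comm]; exact dot_cross_self _ _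
  let g := GeneralLinearGroup.mkOfDetNeZero (cols o v w) (det_cols_ne fun a b c e => by
    have a1 := congrArg (φ ⬝ᵥ ·) e
    have a2 := congrArg (ψ ⬝ᵥ ·) e
    have a3 := congrArg (crossProduct v w ⬝ᵥ ·) e
    simp only [dotProduct_add, dotProduct_smul, o1, o2, o3, o4, o5, e1, e2, smul_eq_mul,
      dotProduct_zero] at a1 a2 a3
    have b0 : b = 0 := (mul_eq_zero.1 (by linear_combination a1 - φ ⬝ᵥ w * a2)).resolve_right h1'
    exact ⟨(mul_eq_zero.1 (by linear_combination a3)).resolve_right h1', b0,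
      by rw [b0] at a2; linear_combination a2⟩)
  have hg : (g : Mt K) = cols o v w := rfl
  obtain ⟨m1, m2⟩ := mm_plane p (hG.cjr g) hl hl0 h0 h1 (hx.cjr (B := blk (B1 l (φ ⬝ᵥ w))) (by
      rw [hg, mul_cols, cols_mul]
      simp only [hm_vv_mulVec, o1, e1]
      congr 1 <;> simp [blk, B1] <;> module)) (hy.cjr (B := blk (B2 l (ψ ⬝ᵥ v))) (by
      rw [hg, mul_cols, cols_mul]
      simp only [hm_vv_mulVec, o2, e2]
      congr 1 <;> simp [blk, B2] <;> module))
  refine ⟨m1, m2.imp_right fun ⟨z, hz⟩ => ?_⟩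
  set χ := (1 - φ ⬝ᵥ w * ψ ⬝ᵥ v)⁻¹ • crossProduct v w
  have c1 : χ ⬝ᵥ o = 1 := by rw [smul_dotProduct, o3, smul_eq_mul, inv_mul_cancel₀ h1']
  have c2 : χ ⬝ᵥ v = 0 := by rw [smul_dotProduct, o4, smul_zero]
  have c3 : χ ⬝ᵥ w = 0 := by rw [smul_dotProduct, o5, smul_zero]
  refine ⟨vv o χ, ⟨⟨o, χ, c1, rfl⟩, z, rep_of_cjr (hz.smul hl0) ?_⟩, ?_, ?_⟩
  · rw [hg, mul_cols, cols_mul]
    simp only [hm_vv_mulVec, c1, c2, c3]
    congr 1 <;> simp [blk, hl0]; module
  · simp [Ort, vv_mul_vv, c2, o1]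
  · simp [Ort, vv_mul_vv, c3, o2]

theorem MM.tri {a b c : K} (hl : l * l ≠ 1) (ha : MM l a) (hb : MM l b) (hc : MM l c)
    (e : a + b + c = 1) : l ^ 2 + l + 1 = 0 ∧ 3 * a = 1 ∧ 3 * b = 1 ∧ 3 * c = 1 := by
  obtain ⟨c2, c3, ha⟩ := ha
  obtain ⟨-, -, hb⟩ := hb
  obtain ⟨-, -, hc⟩ := hc
  have x1 : l ^ 2 + 1 = 0 → l ^ 4 + l ^ 3 + l ^ 2 + l + 1 ≠ 0 := fun h h' =>
    one_ne_zero (by linear_combination h' - (l ^ 2 + l) * h : (1 : K) = 0)
  have x2 : l ^ 2 + 1 = 0 → l ^ 2 + l + 1 ≠ 0 := fun h h' =>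
    one_ne_zero (by linear_combination (1 + l) * h - l * h' : (1 : K) = 0)
  have x3 : l ^ 4 + l ^ 3 + l ^ 2 + l + 1 = 0 → l ^ 2 + l + 1 ≠ 0 := fun h h' =>
    one_ne_zero (by linear_combination -l * h + (l ^ 3 + 1) * h' : (1 : K) = 0)
  rcases ha with ⟨h, ha⟩ | ⟨h, c5, ha⟩ | ⟨h, ha⟩
  · obtain ⟨-, hb⟩ := (hb.resolve_right fun k => k.elim (fun k => x1 h k.1) fun k => x2 h k.1)
    obtain ⟨-, hc⟩ := (hc.resolve_right fun k => k.elim (fun k => x1 h k.1) fun k => x2 h k.1)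
    exact absurd (by linear_combination 2 * e - ha - hb - hc : (1 : K) = 0) one_ne_zero
  · obtain ⟨-, -, hb⟩ := (hb.resolve_left fun k => x1 k.1 h).resolve_right fun k => x3 h k.1
    obtain ⟨-, -, hc⟩ := (hc.resolve_left fun k => x1 k.1 h).resolve_right fun k => x3 h k.1
    exfalso
    have k : ∀ a b : K, 5 * a ^ 2 - 5 * a + 1 = 0 → 5 * b ^ 2 - 5 * b + 1 = 0 → a = b ∨ a + b = 1 := by
      intro a b ha hb
      have : 5 * ((a - b) * (a + b - 1)) = 0 := by linear_combination ha - hb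
      simpa only [mul_eq_zero, c5, false_or, sub_eq_zero] using this
    have k0 : ∀ a : K, 5 * a ^ 2 - 5 * a + 1 = 0 → a ≠ 0 := fun a ha e => by simp [e] at ha
    rcases k a b ha hb with rfl | h1
    · rcases k a c ha hc with rfl | h1
      · exact one_ne_zero (by linear_combination -9 * ha + (15 * a - 10) * e : (1 : K) = 0)
      · exact k0 a ha (by linear_combination e - h1)
    · exact k0 c hc (by linear_combination e - h1)
  · obtain ⟨-, hb⟩ := (hb.resolve_left fun k => x2 k.1 h).resolve_left fun k => x3 k.1 h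
    obtain ⟨-, hc⟩ := (hc.resolve_left fun k => x2 k.1 h).resolve_left fun k => x3 k.1 h
    refine ⟨h, ?_⟩
    have k : ∀ a : K, (9 * a ^ 2 - 9 * a + 1 = 0 ∧ (5 : K) ≠ 0) → 3 * a ≠ 0 ∧ 3 * a ≠ 1 ∧
        6 * a ≠ 1 ∧ 3 * a ≠ -1 := fun a ⟨h, c5⟩ => ⟨fun e => one_ne_zero (by
          linear_combination h - (3 * a - 3) * e : (1 : K) = 0), fun e => one_ne_zero (by
          linear_combination -h + (3 * a - 2) * e : (1 : K) = 0), fun e => one_ne_zero (by
          linear_combination -4 * h + (6 * a - 5) * e : (1 : K) = 0), fun e => c5 (by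
          linear_combination h - (3 * a - 4) * e)⟩
    have k2 : ∀ a b : K, (9 * a ^ 2 - 9 * a + 1 = 0 ∧ (5 : K) ≠ 0) →
        (9 * b ^ 2 - 9 * b + 1 = 0 ∧ (5 : K) ≠ 0) → a = b ∨ a + b = 1 := by
      intro a b ha hb
      have : 3 * 3 * ((a - b) * (a + b - 1)) = 0 := by linear_combination ha.1 - hb.1
      simpa only [mul_eq_zero, c3, false_or, sub_eq_zero] using this
    have k3 : ∀ a b c : K, a + b + c = 1 → (9 * a ^ 2 - 9 * a + 1 = 0 ∧ (5 : K) ≠ 0) →
        (3 * b = 1 ∨ 3 * b = 2 ∨ (9 * b ^ 2 - 9 * b + 1 = 0 ∧ (5 : K) ≠ 0)) →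
        (3 * c = 1 ∨ 3 * c = 2 ∨ (9 * c ^ 2 - 9 * c + 1 = 0 ∧ (5 : K) ≠ 0)) → False := by
      intro a b c e ha hb hc
      obtain ⟨a0, a1, a2, a3⟩ := k a ha
      have k4 : ∀ b c : K, a + b + c = 1 → (9 * b ^ 2 - 9 * b + 1 = 0 ∧ (5 : K) ≠ 0) →
          (3 * c = 1 ∨ 3 * c = 2) → False := by
        intro b c e hb hc
        rcases k2 a b ha hb with rfl | h1
        · rcases hc with hc | hc
          · exact a1 (mul_left_cancel₀ c2 (by linear_combination 3 * e - hc))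
          · exact a2 (by linear_combination 3 * e - hc)
        · rcases hc with hc | hc
          · exact one_ne_zero (by linear_combination 3 * e - 3 * h1 - hc : (1 : K) = 0)
          · exact c2 (by linear_combination 3 * e - 3 * h1 - hc)
      rcases hb with hb | hb | hb <;> rcases hc with hc | hc | hc
      · exact a1 (by linear_combination 3 * e - hb - hc)
      · exact a0 (by linear_combination 3 * e - hb - hc)
      · exact k4 c b (by linear_combination e) hc (Or.inl hb)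
      · exact a0 (by linear_combination 3 * e - hb - hc)
      · exact a3 (by linear_combination 3 * e - hb - hc)
      · exact k4 c b (by linear_combination e) hc (Or.inr hb)
      · exact k4 b c e hb (Or.inl hc)
      · exact k4 b c e hb (Or.inr hc)
      · rcases k2 a b ha hb with rfl | h1
        · rcases k2 a c ha hc with rfl | h1
          · exact a1 (by linear_combination e)
          · exact a0 (by linear_combination 3 * e - 3 * h1)
        · exact (k c hc).1 (by linear_combination 3 * e - 3 * h1)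
    have ha' := (or_assoc.2 ha).resolve_right fun h => k3 a b c e h hb hc
    have hb' := (or_assoc.2 hb).resolve_right fun h => k3 b a c (by linear_combination e) h ha hc
    have hc' := (or_assoc.2 hc).resolve_right fun h => k3 c a b (by linear_combination e) h ha hb
    clear ha hb hc
    rcases ha' with ha | ha <;> rcases hb' with hb | hb <;> rcases hc' with hc | hc
    all_goals first
      | exact ⟨ha, hb, hc⟩
      | exact absurd (by linear_combination 3 * e - ha - hb - hc : (1 : K) = 0) one_ne_zero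
      | exact absurd (by linear_combination 3 * e - ha - hb - hc : (2 : K) = 0) c2
      | exact absurd (by linear_combination 3 * e - ha - hb - hc : (3 : K) = 0) c3

/-- conjugation action on matrices -/
noncomputable def ac (ρ : G →* PGL(3, K)) (g : G) (X : Mt K) : Mt K :=
  (exists_rep ρ g).choose * X * ((exists_rep ρ g).choose)⁻¹

theorem ac_eq {A B : Mt K} (h : Rep ρ x A) (e : A * B = 1) (X : Mt K) : ac ρ x X = A * X * B := by
  obtain ⟨c, hc, e'⟩ := h.uniq (exists_rep ρ x).choose_spec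
  rw [ac, e', inv_eq_right_inv (B := c⁻¹ • B) (by
    rw [smul_mul_smul_comm, e, mul_inv_cancel₀ hc, one_smul])]
  rw [smul_mul_assoc, smul_mul_smul_comm, mul_inv_cancel₀ hc, one_smul]

theorem exists_rep2 (ρ : G →* PGL(3, K)) (x : G) : ∃ A B, Rep ρ x A ∧ A * B = 1 ∧ B * A = 1 := by
  obtain ⟨A, h⟩ := exists_rep ρ x
  exact ⟨A, A⁻¹, h, mul_nonsing_inv _ (Ne.isUnit h.det_ne), nonsing_inv_mul _ (Ne.isUnit h.det_ne)⟩

theorem ac_one (X : Mt K) : ac ρ 1 X = X := by rw [ac_eq Rep.one (mul_one 1), one_mul, mul_one]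

theorem ac_mul (x y : G) (X : Mt K) : ac ρ (x * y) X = ac ρ x (ac ρ y X) := by
  obtain ⟨A, B, h, e, -⟩ := exists_rep2 ρ x
  obtain ⟨C, D, h', e', -⟩ := exists_rep2 ρ y
  rw [ac_eq h e, ac_eq h' e', ac_eq (h.mul h') (B := D * B) (by
    rw [mul_assoc, ← mul_assoc C, e', one_mul, e])]
  simp only [mul_assoc]

theorem ac_mul_ac (x : G) (X Y : Mt K) : ac ρ x X * ac ρ x Y = ac ρ x (X * Y) := by
  obtain ⟨A, B, h, e, e'⟩ := exists_rep2 ρ x
  simp only [ac_eq h e]
  rw [show A * X * B * (A * Y * B) = A * X * (B * A) * Y * B by simp only [mul_assoc], e', mul_one,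
    mul_assoc A]

theorem ac_zero (x : G) : ac ρ x 0 = 0 := by simp [ac]

theorem ac_inv_ac (x : G) (X : Mt K) : ac ρ x⁻¹ (ac ρ x X) = X := by
  rw [← ac_mul, inv_mul_cancel, ac_one]

theorem ac_ac_inv (x : G) (X : Mt K) : ac ρ x (ac ρ x⁻¹ X) = X := by
  rw [← ac_mul, mul_inv_cancel, ac_one]

theorem Hm.ac (h : Hm ρ l P) (x : G) : Hm ρ l (ac ρ x P) := by
  obtain ⟨A, B, h', e, -⟩ := exists_rep2 ρ x
  rw [ac_eq h' e]; exact h.conj h' e

theorem rep_hm_ac {g : G} (h : Rep ρ x (hm l P)) : Rep ρ (g * x * g⁻¹) (hm l (ac ρ g P)) := by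
  obtain ⟨A, B, h', e, -⟩ := exists_rep2 ρ g
  rw [ac_eq h' e, ← hm_conj e]
  exact (h'.mul h).mul (h'.inv one_ne_zero (by rw [e, one_smul]))

/-- commuting idempotents -/
def Cm (P Q : Mt K) : Prop := P = Q ∨ Ort P Q

theorem Cm.symm (h : Cm P Q) : Cm Q P := h.imp Eq.symm Ort.symm

theorem Cm.ac (h : Cm P Q) (x : G) : Cm (ac ρ x P) (ac ρ x Q) :=
  h.imp (congrArg _) fun h => ⟨by rw [ac_mul_ac, h.1, ac_zero], by rw [ac_mul_ac, h.2, ac_zero]⟩

theorem exists_not_cm (hG : NE ρ) (hl : l ≠ 1) (h : Hm ρ l P) : ∃ g, ¬ Cm P (ac ρ g P) := by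
  by_contra hh
  push Not at hh
  obtain ⟨h1, x, hx⟩ := h
  have h2 : ∀ g, g * x * g⁻¹ ∈ Cen x := fun g => by
    rw [mem_Cen]
    refine hx.comm hG.inj (rep_hm_ac hx) ?_
    rcases hh g with e | e
    · rw [← e]
    · simp only [hm, mul_add, add_mul, smul_mul_assoc, mul_smul_comm, e.1, e.2, one_mul, mul_one]
      module
  have h3 : Subgroup.normalClosure {x} ≤ Cen x := (Subgroup.closure_le _).2 fun y hy => by
    obtain ⟨a, rfl, c, rfl⟩ : ∃ a, a = x ∧ ∃ c, c * a * c⁻¹ = y := by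
      simpa [Group.mem_conjugatesOfSet_iff, isConj_iff] using hy
    exact h2 c
  have h4 : x = 1 := by
    rcases hG.sn.normal_cases (Subgroup.normalClosure {x}) inferInstance with e | e
    · exact Subgroup.mem_bot.1 (e ▸ Subgroup.subset_normalClosure rfl)
    · exact hG.sn.center_eq fun g => (mem_Cen.1 (h3 (e ▸ Subgroup.mem_top g))).symm
  obtain ⟨c, -, e⟩ := hx.of_eq_one h4
  obtain ⟨v, φ, h1, rfl⟩ := h1
  have e1 := fun i j => congrFun (congrFun e i) j
  have a := e1 0 1; have := e1 0 2; have := e1 1 0; have := e1 1 2; have := e1 2 0; have := e1 2 1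
  have := e1 0 0; have := e1 1 1; have := e1 2 2
  have hl' := sub_ne_zero.2 hl
  simp [hm, dotProduct, Fin.sum_univ_three, hl'] at *
  grind

theorem rk1 (h1 : R1 P) (h2 : R1 Q) (e : (P * Q).trace ≠ 0) (X : Mt K) :
    (P * Q * X = 0 → Q * X = 0) ∧ (X * Q * P = 0 → X * Q = 0) := by
  obtain ⟨v, φ, h1, rfl⟩ := h1
  obtain ⟨w, ψ, h2, rfl⟩ := h2
  rw [vv_mul_vv, trace_smul, trace_vv, smul_eq_mul] at e
  have hv : v ≠ 0 := fun e => by simp [e] at h1
  have hφ : φ ≠ 0 := fun e => by simp [e] at h1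
  refine ⟨fun h => ?_, fun h => ?_⟩
  · rw [vv_mul_vv, smul_mul_assoc, vv_mul, smul_eq_zero, vv_eq_zero] at h
    rw [vv_mul, vv_eq_zero]
    exact Or.inr ((h.resolve_left (left_ne_zero_of_mul e)).resolve_left hv)
  · rw [mul_assoc, vv_mul_vv, mul_smul_comm, mul_vv, smul_eq_zero, vv_eq_zero] at h
    rw [mul_vv, vv_eq_zero]
    exact Or.inl ((h.resolve_left (right_ne_zero_of_mul e)).resolve_right hφ)

theorem eq_of_ort2 (hO : R1 O) (hP : R1 P) (hQ : R1 Q) (hR : R1 R) (e1 : Ort O P) (e2 : Ort O Q)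
    (h1 : (P * Q).trace ≠ 1) (r1 : Ort R P) (r2 : Ort R Q) : R = O := by
  have hP' := hO.compl hP e1
  have t : (Q * (1 - O - P)).trace ≠ 0 := by
    rw [mul_sub, mul_sub, e2.2, mul_one, sub_zero, Matrix.trace_sub, hQ.trace, trace_mul_comm]
    exact sub_ne_zero.2 h1.symm
  have := hP.eq_compl hP' hR (ort_compl' hP e1) r1 ⟨(rk1 hQ hP' t R).2 (by
    simp only [mul_sub, sub_mul, mul_one, r1.1, r2.1, mul_assoc R O, e2.1, zero_mul, mul_zero,
      sub_zero]), (rk1 hQ hP' t R).1 (by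
    simp only [mul_sub, sub_mul, mul_one, e2.2, mul_assoc Q P, r1.2, r2.2, zero_mul, mul_zero,
      sub_zero])⟩
  rw [this]; abel

theorem tr_cq (hO : Ort O P) (hO' : Ort O Q) (hP : R1 P) (hP' : R1 (1 - O - P)) (l m : K) (R : Mt K) :
    (R * (hm l P * Q * hm m P)).trace = l * m * ((Q * P).trace * (R * P).trace) +
      (Q * (1 - O - P)).trace * (R * (1 - O - P)).trace + l * (R * P * Q * (1 - O - P)).trace +
      m * (R * (1 - O - P) * Q * P).trace := by
  have e : hm l P * Q * hm m P = (l * m) • (P * Q * P) + (1 - O - P) * Q * (1 - O - P) +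
      l • (P * Q * (1 - O - P)) + m • ((1 - O - P) * Q * P) := by
    simp only [hm, mul_add, add_mul, mul_sub, sub_mul, smul_mul_assoc, mul_smul_comm, one_mul, mul_one,
      hO'.1, hO'.2, mul_assoc P Q O, zero_mul, mul_zero]
    module
  rw [e, hP.sandwich, hP'.sandwich]
  simp only [mul_add, mul_smul_comm, trace_add, trace_smul, smul_eq_mul, mul_assoc]

theorem cyc4 (hR : R1 R) (hP : R1 P) (hQ : R1 Q) (hS : R1 S) :
    (R * P * Q * S).trace * (R * S * Q * P).trace =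
      (R * P).trace * (Q * P).trace * (Q * S).trace * (R * S).trace := by
  obtain ⟨v, φ, -, rfl⟩ := hR
  obtain ⟨w, ψ, -, rfl⟩ := hP
  obtain ⟨v', φ', -, rfl⟩ := hQ
  obtain ⟨w', ψ', -, rfl⟩ := hS
  simp only [vv_mul_vv, smul_mul_assoc, trace_smul, trace_vv, smul_eq_mul]
  ring

theorem cyc3 (hR : R1 R) (hP : R1 P) (hQ : R1 Q) :
    (R * P * Q).trace * (R * Q * P).trace = (R * P).trace * (Q * P).trace * (R * Q).trace := by
  obtain ⟨v, φ, -, rfl⟩ := hR
  obtain ⟨w, ψ, -, rfl⟩ := hP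
  obtain ⟨v', φ', -, rfl⟩ := hQ
  simp only [vv_mul_vv, smul_mul_assoc, trace_smul, trace_vv, smul_eq_mul]
  ring

theorem Ort.cq (h1 : Ort O P) (h2 : Ort O Q) (l : K) : Ort O (cq l P Q) := by
  constructor
  · simp only [M3.cq, hm, ← mul_assoc, mul_add, mul_one, mul_smul_comm, h1.1, smul_zero, add_zero,
      h2.1, zero_mul]
  · simp only [M3.cq, hm, mul_assoc, add_mul, one_mul, smul_mul_assoc, h1.2, smul_zero, add_zero,
      h2.2, mul_zero]

theorem tr_mul_cq (hP : R1 P) (hl : l ≠ 0) (Q : Mt K) : (cq l P Q * P).trace = (Q * P).trace := by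
  have e1 : hm l⁻¹ P * P = l⁻¹ • P := by simp only [hm, add_mul, one_mul, smul_mul_assoc, hP.idem]; module
  have e2 : P * hm l P = l • P := by simp only [hm, mul_add, mul_one, mul_smul_comm, hP.idem]; module
  rw [cq, mul_assoc, e1, mul_smul_comm, trace_smul, mul_assoc, trace_mul_comm, mul_assoc, e2,
    mul_smul_comm, trace_smul, smul_smul, inv_mul_cancel₀ hl, one_smul]

theorem cq_cq (hP : R1 P) (Q : Mt K) : cq l P (cq l' P Q) = cq (l * l') P Q := by
  simp only [cq, ← mul_assoc, hm_mul hP.idem]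
  rw [mul_assoc _ (hm _ _), hm_mul hP.idem, mul_inv, mul_comm l'⁻¹]

theorem stepL (hO : R1 O) (hP : R1 P) (hQ : R1 Q) (hR : R1 R) (e1 : Ort O P) (e2 : Ort O Q)
    (h0 : (Q * P).trace ≠ 0) (h1 : (Q * P).trace ≠ 1) (hl : l * l ≠ 1) (hl0 : l ≠ 0)
    (t1 : 3 * (R * P).trace = 1) (t2 : 3 * (R * (1 - O - P)).trace = 1)
    (t3 : 3 * (R * Q).trace = 1) (t4 : 3 * (R * cq l P Q).trace = 1) : False := by
  have hP' := hO.compl hP e1
  have a1 := tr_cq e1 e2 hP hP' 1 1 R
  have a2 := tr_cq e1 e2 hP hP' l l⁻¹ R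
  have a3 := cyc4 hR hP hQ hP'
  have t : (Q * (1 - O - P)).trace = 1 - (Q * P).trace := by
    rw [mul_sub, mul_sub, e2.2, mul_one, sub_zero, Matrix.trace_sub, hQ.trace]
  rw [hm_one, one_mul, mul_one] at a1
  rw [cq, a2, mul_inv_cancel₀ hl0] at t4
  rw [a1] at t3
  rw [t] at t3 t4 a3
  generalize (R * P * Q * (1 - O - P)).trace = A at *
  generalize (R * (1 - O - P) * Q * P).trace = B at *
  have c3 : (3 : K) ≠ 0 := fun e => by rw [e, zero_mul] at t1; exact zero_ne_one t1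
  have b1 : B = -A := mul_left_cancel₀ c3 (by
    linear_combination t3 - (Q * P).trace * t1 - (1 - (Q * P).trace) * t2)
  have b2 : 3 * (l * A + l⁻¹ * B) = 0 := by
    linear_combination t4 - (Q * P).trace * t1 - (1 - (Q * P).trace) * t2
  have b3 : A = 0 := by
    rw [b1] at b2
    have : 3 * ((l * l - 1) * A) = 0 := by
      field_simp at b2; linear_combination b2
    simpa [c3, sub_ne_zero.2 hl] using this
  rw [b3, zero_mul] at a3
  have : (Q * P).trace * (1 - (Q * P).trace) = 0 := by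
    linear_combination -9 * a3 - (Q * P).trace * (1 - (Q * P).trace) * (3 * (R * (1 - O - P)).trace * t1 + t2)
  exact mul_ne_zero h0 (sub_ne_zero.2 h1.symm) this

theorem ncard_le_four {α : Type*} (a b c d : α) : ({a, b, c, d} : Set α).ncard ≤ 4 :=
  (Set.ncard_insert_le _ _).trans (Nat.succ_le_succ ((Set.ncard_insert_le _ _).trans
    (Nat.succ_le_succ ((Set.ncard_insert_le _ _).trans (by rw [Set.ncard_singleton])))))

section main
variable [Finite G] [IsAlgClosed K] (p : ℕ) [Fact p.Prime] [CharP K p]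
include p

theorem stepA (hG : NE ρ) (hl : l * l ≠ 1) (hO : Hm ρ l O) (hP : Hm ρ l P) (hQ : Hm ρ l Q)
    (e1 : Ort O P) (e2 : Ort O Q) : Cm P Q := by
  by_contra hPQ
  have hl0 := hO.ne
  obtain ⟨g, hR'⟩ := exists_not_cm hG (fun e => hl (by rw [e, one_mul])) hO
  have hR := hO.ac g
  generalize ac ρ g O = R at hR hR'
  have nc : ∀ {P Q}, Hm ρ l P → Hm ρ l Q → ¬ Cm P Q → (P * Q).trace ≠ 0 ∧ (P * Q).trace ≠ 1 :=
    fun h h' e => ((hG.pair hl h h').resolve_left fun k => e (Or.inl k)).resolve_left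
      fun k => e (Or.inr k)
  have mm : ∀ {P Q}, Hm ρ l P → Hm ρ l Q → ¬ Cm P Q → MM l (P * Q).trace := fun h h' e =>
    (mm_pair p hG hl h h' (nc h h' e).1 (nc h h' e).2).1
  -- types
  have ty : ∀ S, Hm ρ l S → Ort O S → (Ort R S ∨ Ort R (1 - O - S)) ∨ (l ^ 2 + l + 1 = 0 ∧
      3 * (R * S).trace = 1 ∧ 3 * (R * (1 - O - S)).trace = 1) := fun S hS e => by
    by_contra hh
    push Not at hh
    have hS' := hO.compl hS e
    have := MM.tri hl (mm hR hO fun k => hR' k.symm) (mm hR hS fun k => k.elim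
      (fun k => hR' (Or.inr (k ▸ e))) hh.1.1) (mm hR hS' fun k => k.elim
      (fun k => hR' (Or.inr (k ▸ ort_compl hO.1 e))) hh.1.2) (by
        rw [← trace_add, ← trace_add, ← mul_add, ← mul_add, show O + S + (1 - O - S) = 1 by abel,
          mul_one, hR.1.trace])
    exact hh.2 this.1 this.2.2.1 this.2.2.2
  have one : ∀ S T, Hm ρ l S → Hm ρ l T → Ort O S → Ort O T → (S * T).trace ≠ 0 → (S * T).trace ≠ 1 →
      (Ort R S ∨ Ort R (1 - O - S)) → (Ort R T ∨ Ort R (1 - O - T)) → False := by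
    intro S T hS hT eS eT t0 t1 k1 k2
    have hS' := hO.compl hS eS
    have hT' := hO.compl hT eT
    have eS' := ort_compl hO.1 eS
    have eT' := ort_compl hO.1 eT
    have u1 : ((1 - O - S) * T).trace = 1 - (S * T).trace := by
      rw [sub_mul, sub_mul, eT.1, one_mul, sub_zero, Matrix.trace_sub, hT.1.trace]
    have u2 : (S * (1 - O - T)).trace = 1 - (S * T).trace := by
      rw [mul_sub, mul_sub, eS.2, mul_one, sub_zero, Matrix.trace_sub, hS.1.trace]
    have u3 : ((1 - O - S) * (1 - O - T)).trace = (S * T).trace := by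
      rw [mul_sub, mul_sub, eS'.2, mul_one, sub_zero, Matrix.trace_sub, hS'.1.trace, u1]; ring
    apply hR'
    left
    symm
    rcases k1 with k1 | k1 <;> rcases k2 with k2 | k2
    · exact eq_of_ort2 hO.1 hS.1 hT.1 hR.1 eS eT t1 k1 k2
    · exact eq_of_ort2 hO.1 hS.1 hT'.1 hR.1 eS eT' (by rw [u2]; simpa using t0) k1 k2
    · exact eq_of_ort2 hO.1 hS'.1 hT.1 hR.1 eS' eT (by rw [u1]; simpa using t0) k1 k2
    · exact eq_of_ort2 hO.1 hS'.1 hT'.1 hR.1 eS' eT' (by rw [u3]; exact t1) k1 k2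
  have key : ∀ P Q, Hm ρ l P → Hm ρ l Q → Ort O P → Ort O Q → ¬ Cm Q P → l ^ 2 + l + 1 = 0 →
      3 * (R * P).trace = 1 → 3 * (R * (1 - O - P)).trace = 1 → False := by
    intro P Q hP hQ e1 e2 hPQ h3 t1 t2
    have l3 : l * (l * l) = 1 := by linear_combination (l - 1) * h3
    have sub : ∀ Q, Hm ρ l Q → Ort O Q → ¬ Cm Q P → ¬ Cm (cq l P Q) P ∧
        (Q * cq l P Q).trace ≠ 0 ∧ (Q * cq l P Q).trace ≠ 1 := fun Q hQ e2 hPQ => by
      obtain ⟨n0, n1⟩ := nc hQ hP hPQ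
      refine ⟨fun k => ?_, ?_⟩
      · have := tr_mul_cq hP.1 hl0 Q
        rcases k with k | k
        · rw [k, hP.1.idem, hP.1.trace] at this; exact n1 this.symm
        · rw [k.1, trace_zero] at this; exact n0 this.symm
      have a := tr_cq e1 e2 hP.1 (hO.compl hP e1).1 l l⁻¹ Q
      have t : (Q * (1 - O - P)).trace = 1 - (Q * P).trace := by
        rw [mul_sub, mul_sub, e2.2, mul_one, sub_zero, Matrix.trace_sub, hQ.1.trace]
      rw [hQ.1.sandwich, hQ.1.sandwich, smul_mul_assoc, smul_mul_assoc, trace_smul, trace_smul,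
        trace_mul_comm P, trace_mul_comm (1 - O - P), t, mul_inv_cancel₀ hl0,
        show l⁻¹ = l * l from (eq_inv_of_mul_eq_one_right l3).symm] at a
      rw [cq, show l⁻¹ = l * l from (eq_inv_of_mul_eq_one_right l3).symm, a]
      obtain ⟨c2, c3, m⟩ := mm hQ hP hPQ
      simp only [smul_eq_mul]
      generalize (Q * P).trace = μ at *
      refine ⟨fun e => ?_, fun e => mul_ne_zero c3 (mul_ne_zero n0 (sub_ne_zero.2 n1.symm))
        (by linear_combination μ * (1 - μ) * h3 - e)⟩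
      have e' : 3 * μ ^ 2 - 3 * μ + 1 = 0 := by linear_combination e - μ * (1 - μ) * h3
      rcases m with m | m | ⟨-, m | m | m⟩
      · exact one_ne_zero (by linear_combination (1 + l) * m.1 - l * h3 : (1 : K) = 0)
      · exact one_ne_zero (by linear_combination -l * m.1 + (l ^ 3 + 1) * h3 : (1 : K) = 0)
      · exact one_ne_zero (by linear_combination 3 * e' - (3 * μ - 2) * m : (1 : K) = 0)
      · exact one_ne_zero (by linear_combination 3 * e' - (3 * μ - 1) * m : (1 : K) = 0)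
      · exact c2 (by linear_combination 3 * e' - m.1)
    have hQ1 := hP.cq hQ
    have f1 := e1.cq e2 l
    obtain ⟨n1, s1, s1'⟩ := sub Q hQ e2 hPQ
    have hQ2 := hP.cq hQ1
    have f2 := e1.cq f1 l
    obtain ⟨n2, s2, s2'⟩ := sub _ hQ1 f1 n1
    obtain ⟨-, s3, s3'⟩ := sub _ hQ2 f2 n2
    have c3 : cq l P (cq l P (cq l P Q)) = Q := by
      rw [cq_cq hP.1, cq_cq hP.1, mul_assoc, l3, cq, inv_one, hm_one, one_mul, mul_one]
    have L : ∀ Q, Hm ρ l Q → Ort O Q → ¬ Cm Q P → 3 * (R * Q).trace = 1 →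
        3 * (R * cq l P Q).trace = 1 → False := fun Q hQ e2 hPQ t3 t4 =>
      stepL hO.1 hP.1 hQ.1 hR.1 e1 e2 (nc hQ hP hPQ).1 (nc hQ hP hPQ).2 hl hl0 t1 t2 t3 t4
    rw [c3] at s3 s3'
    rcases ty Q hQ e2 with k0 | k0 <;> rcases ty _ hQ1 f1 with k1 | k1
    · exact one _ _ hQ hQ1 e2 f1 s1 s1' k0 k1
    · rcases ty _ hQ2 f2 with k2 | k2
      · exact one _ _ hQ2 hQ f2 e2 s3 s3' k2 k0
      · exact L _ hQ1 f1 n1 k1.2.1 k2.2.1
    · rcases ty _ hQ2 f2 with k2 | k2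
      · exact one _ _ hQ1 hQ2 f1 f2 s2 s2' k1 k2
      · exact L _ hQ2 f2 n2 k2.2.1 (by rw [c3]; exact k0.2.1)
    · exact L _ hQ e2 hPQ k0.2.1 k1.2.1
  rcases ty P hP e1 with k0 | k0
  · rcases ty Q hQ e2 with k1 | k1
    · exact one _ _ hP hQ e1 e2 (nc hP hQ hPQ).1 (nc hP hQ hPQ).2 k0 k1
    · exact key Q P hQ hP e2 e1 hPQ k1.1 k1.2.1 k1.2.2
  · exact key P Q hP hQ e1 e2 (fun k => hPQ k.symm) k0.1 k0.2.1 k0.2.2

theorem NE.no_hom (hG : NE ρ) (hP : Hm ρ l P) : l * l = 1 := by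
  by_contra hl
  have hl0 := hP.ne
  have hl1 : l ≠ 1 := fun e => hl (by rw [e, one_mul])
  have third : ∀ {P Q}, Hm ρ l P → Hm ρ l Q → ¬ Cm P Q →
      (2 : K) ≠ 0 ∧ l ^ 2 + l + 1 = 0 ∧ 3 * (P * Q).trace = 1 := fun h h' e => by
    obtain ⟨n0, n1⟩ := ((hG.pair hl h h').resolve_left fun k => e (Or.inl k)).resolve_left
      fun k => e (Or.inr k)
    obtain ⟨m1, m2⟩ := mm_pair p hG hl h h' n0 n1
    exact ⟨m1.1, m2.resolve_right fun ⟨O, hO, e1, e2⟩ => e (stepA p hG hl hO h h' e1 e2)⟩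
  have tr : ∀ {O P Q}, Hm ρ l O → Hm ρ l P → Hm ρ l Q → Cm O P → Cm O Q → Cm P Q := by
    intro O P Q hO hP hQ e1 e2
    rcases e1 with rfl | e1
    · exact e2
    rcases e2 with rfl | e2
    · exact Or.inr e1.symm
    exact stepA p hG hl hO hP hQ e1 e2
  obtain ⟨g, hPQ⟩ := exists_not_cm hG hl1 hP
  have hQ := hP.ac g
  generalize hQe : ac ρ g P = Q at hPQ hQ
  obtain ⟨c2, h3, t0⟩ := third hP hQ hPQ
  have l3 : l * (l * l) = 1 := by linear_combination (l - 1) * h3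
  have hT : ∀ R, Hm ρ l R → Cm R P ∨ Cm R Q ∨ Cm R (cq l P Q) ∨ Cm R (cq (l * l) P Q) := by
    intro R hR
    by_contra hh
    push Not at hh
    obtain ⟨n1, n2, n3, n4⟩ := hh
    have t1 := (third hR hP n1).2.2
    have t2 := (third hR hQ n2).2.2
    have t3 := (third hR (hP.cq hQ) n3).2.2
    have t4 := (third hR (by simpa [sq] using (hP.pow 2).cq hQ) n4).2.2
    have a3 := cyc3 hR.1 hP.1 hQ.1
    have e : ∀ a b : K, (R * (hm a P * Q * hm b P)).trace = (R * Q).trace + (a - 1) * (R * P * Q).trace +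
        (b - 1) * (R * Q * P).trace + (a - 1) * (b - 1) * ((Q * P).trace * (R * P).trace) := by
      intro a b
      have : hm a P * Q * hm b P = Q + (a - 1) • (P * Q) + (b - 1) • (Q * P) +
          ((a - 1) * (b - 1)) • (P * Q * P) := by
        simp only [hm, mul_add, add_mul, smul_mul_assoc, mul_smul_comm, one_mul, mul_one]; module
      rw [this, hP.1.sandwich]
      simp only [mul_add, mul_smul_comm, trace_add, trace_smul, smul_eq_mul, mul_assoc]
    rw [cq, e, show l⁻¹ = l * l from (eq_inv_of_mul_eq_one_right l3).symm] at t3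
    rw [cq, e, show (l * l)⁻¹ = l from (eq_inv_of_mul_eq_one_left l3).symm] at t4
    rw [trace_mul_comm] at t0
    generalize (R * P * Q).trace = A at *
    generalize (R * Q * P).trace = B at *
    generalize (Q * P).trace = a at *
    generalize (R * P).trace = b at *
    generalize (R * Q).trace = c at *
    have c3 : (3 : K) ≠ 0 := fun e => by rw [e, zero_mul] at t1; exact zero_ne_one t1
    have b1 : A = B := by
      have : 3 * (l * (l - 1) * (A - B)) = 0 := by linear_combination t4 - t3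
      simpa [c3, hl0, sub_eq_zero, hl1] using this
    subst b1
    have b2 : 9 * A = 1 := by
      have e1 : (l - 1) * (l * l - 1) = 3 := by linear_combination l3 - h3
      rw [e1] at t3
      linear_combination -t3 + t2 + 3 * A * h3 + 3 * b * t0 + t1
    have b3 : 27 * (b * a * c) = 1 := by
      linear_combination 9 * a * c * t1 + 3 * c * t0 + t2
    exact c2 (by linear_combination (9 * A + 1) * b2 - 81 * a3 - 3 * b3)
  let cls : Mt K → Set (Mt K) := fun X => {Z | Hm ρ l Z ∧ Cm X Z}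
  have cls_eq : ∀ {X Y}, Hm ρ l X → Hm ρ l Y → Cm X Y → cls X = cls Y := fun hX hY e =>
    Set.ext fun Z => ⟨fun h => ⟨h.1, tr hX hY h.1 e h.2⟩, fun h => ⟨h.1, tr hY hX h.1 e.symm h.2⟩⟩
  have cls_ac : ∀ g X, ac ρ g '' cls X = cls (ac ρ g X) := fun g X => Set.ext fun Z =>
    ⟨by rintro ⟨W, hW, rfl⟩; exact ⟨hW.1.ac g, hW.2.ac g⟩, fun h =>
      ⟨ac ρ g⁻¹ Z, ⟨h.1.ac _, by simpa only [ac_inv_ac] using h.2.ac (ρ := ρ) g⁻¹⟩, ac_ac_inv _ _⟩⟩
  have hsub : cls '' {X | Hm ρ l X} ⊆ {cls P, cls Q, cls (cq l P Q), cls (cq (l * l) P Q)} := by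
    rintro _ ⟨R, hR, rfl⟩
    rcases hT R hR with h | h | h | h
    · exact Or.inl (cls_eq hR hP h)
    · exact Or.inr (Or.inl (cls_eq hR hQ h))
    · exact Or.inr (Or.inr (Or.inl (cls_eq hR (hP.cq hQ) h)))
    · exact Or.inr (Or.inr (Or.inr (cls_eq hR (by simpa [sq] using (hP.pow 2).cq hQ) h)))
  have := hG.sn.fix (fun g T => ac ρ g '' T) (fun T => by simp [ac_one])
    (fun g h T => by simp only [ac_mul, Set.image_image]) (S := cls '' {X | Hm ρ l X})
    ((Set.toFinite _).subset hsub) ((Set.ncard_le_ncard hsub).trans (ncard_le_four _ _ _ _))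
    (by rintro g _ ⟨X, hX, rfl⟩; exact ⟨_, Hm.ac hX g, (cls_ac g X).symm⟩) g ⟨P, hP, rfl⟩
  simp only [cls_ac, hQe] at this
  have h : Q ∈ cls Q := ⟨hQ, Or.inl rfl⟩
  rw [this] at h
  exact hPQ h.2

end main

end Cfsg.Agent.H8.M3
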