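import Mathlib

/-! Arithmetic of the class equation for subgroups of `PGL₃`. -/

set_option autoImplicit false
set_option linter.unusedSectionVars false

namespace Cfsg.Agent.H8.M3
open Finset

variable {ι : Type*}

structure Fam (R : Finset ι) (a ν : ι → ℕ) (U : ι → Prop) (g c : ℕ) : Prop where
  odd : ∀ i ∈ R, a i % 2 = 1
  three_le : ∀ i ∈ R, 3 ≤ a i
  nu_dvd : ∀ i ∈ R, ν i ∣ a i - 1
  two_le : ∀ i ∈ R, 2 ≤ ν i
  dvd : ∀ i ∈ R, a i * ν i ∣ g
  cdvd : c ∣ g
  gpos : 0 < g
  cop : ∀ i ∈ R, ∀ j ∈ R, i ≠ j → (a i).Coprime (a j)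
  copc : ∀ i ∈ R, (a i).Coprime c
  kind : ∀ i ∈ R, ν i ≤ 3 ∨ (a i = 9 ∧ ν i = 4 ∧ ¬ U i) ∨ U i
  uniq : ∀ i ∈ R, ∀ j ∈ R, U i → U j → i = j
  uodd : ∀ i ∈ R, U i → 4 ≤ ν i → ν i % 2 = 1 → ∃ j ∈ R, ν j = 2 ∧ a j = ν i

/-- the term -/
def tm (a ν : ℕ) : ℚ := ((a : ℚ) - 1) / (a * ν)

theorem tm_eq {a ν : ℕ} (ha : 0 < a) (hν : 0 < ν) : tm a ν = (1 - 1 / (a : ℚ)) / ν := by
  have : (a : ℚ) ≠ 0 := by positivity
  have : (ν : ℚ) ≠ 0 := by positivity
  rw [tm]; field_simp

theorem inv_le_of {a b : ℕ} (hb : 0 < b) (h : b ≤ a) : 1 / (a : ℚ) ≤ 1 / b :=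
  one_div_le_one_div_of_le (by positivity) (by exact_mod_cast h)

theorem inv_pos' {a : ℕ} (ha : 0 < a) : 0 < 1 / (a : ℚ) := by positivity

variable [DecidableEq ι] {R : Finset ι} {a ν : ι → ℕ} {U : ι → Prop} {g c : ℕ}

theorem Fam.seven_le (h : Fam R a ν U g c) {i : ι} (hi : i ∈ R) (h3 : ν i = 3) :
    7 ≤ a i ∧ a i % 6 = 1 := by
  have := h3 ▸ h.nu_dvd i hi
  have := h.odd i hi
  have := h.three_le i hi
  omega

theorem Fam.u_le (h : Fam R a ν U g c) {i : ι} (hi : i ∈ R) : ∃ v, 1 ≤ v ∧ a i = ν i * v + 1 := by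
  obtain ⟨v, hv⟩ := h.nu_dvd i hi
  have := h.three_le i hi
  refine ⟨v, Nat.pos_of_ne_zero (by rintro rfl; omega), by omega⟩

theorem Fam.adv (h : Fam R a ν U g c) {i : ι} (hi : i ∈ R) : a i ∣ g :=
  (dvd_mul_right _ _).trans (h.dvd i hi)

theorem Fam.dvd1 (h : Fam R a ν U g c) {i : ι} (hi : i ∈ R) : c * a i ∣ g :=
  (h.copc i hi).symm.mul_dvd_of_dvd_of_dvd h.cdvd (h.adv hi)

theorem Fam.dvd2 (h : Fam R a ν U g c) {i j : ι} (hi : i ∈ R) (hj : j ∈ R) (hij : i ≠ j) :
    c * a i * a j ∣ g :=
  (Nat.Coprime.mul_left (h.copc j hj).symm (h.cop i hi j hj hij)).mul_dvd_of_dvd_of_dvd (h.dvd1 hi)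
    (h.adv hj)

/-- the shape of the sum -/
theorem Fam.split (h : Fam R a ν U g c) : ∃ S2 S3 SR SU : Finset ι,
    (∀ i, i ∈ S2 ↔ i ∈ R ∧ ν i = 2) ∧ (∀ i, i ∈ S3 ↔ i ∈ R ∧ ν i = 3) ∧
    (∀ i, i ∈ SR ↔ i ∈ R ∧ a i = 9 ∧ ν i = 4 ∧ ¬ U i) ∧ (∀ i, i ∈ SU ↔ i ∈ R ∧ 4 ≤ ν i ∧ U i) ∧
    (∀ i ∈ R, i ∈ S2 ∨ i ∈ S3 ∨ i ∈ SR ∨ i ∈ SU) ∧
    ∑ i ∈ R, tm (a i) (ν i) = ∑ i ∈ S2, (1 - 1 / (a i : ℚ)) / 2 + ∑ i ∈ S3, (1 - 1 / (a i : ℚ)) / 3 +
      SR.card * (2 / 9) + ∑ i ∈ SU, (1 - 1 / (a i : ℚ)) / ν i ∧
    (SR = ∅ ∨ ∃ i, SR = {i}) ∧ (SU = ∅ ∨ ∃ i, SU = {i}) ∧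
    (S2 = ∅ ∨ (∃ i, S2 = {i}) ∨ (∃ i j, i ≠ j ∧ S2 = {i, j}) ∨
      1 ≤ ∑ i ∈ S2, (1 - 1 / (a i : ℚ)) / 2) ∧
    (S3 = ∅ ∨ (∃ i, S3 = {i}) ∨ 2 / 7 + 4 / 13 ≤ ∑ i ∈ S3, (1 - 1 / (a i : ℚ)) / 3) ∧
    0 ≤ ∑ i ∈ S2, (1 - 1 / (a i : ℚ)) / 2 ∧ 0 ≤ ∑ i ∈ S3, (1 - 1 / (a i : ℚ)) / 3 ∧
    0 ≤ ∑ i ∈ SU, (1 - 1 / (a i : ℚ)) / ν i := by
  classical
  have hx : ∀ i ∈ R, 1 / (a i : ℚ) ≤ 1 / 3 := fun i hi => by
    simpa using inv_le_of (by norm_num) (h.three_le i hi)
  have hall : ∀ i ∈ R, ν i = 2 ∨ ν i = 3 ∨ (a i = 9 ∧ ν i = 4 ∧ ¬ U i) ∨ (4 ≤ ν i ∧ U i) := by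
    intro i hi
    have := h.two_le i hi
    rcases h.kind i hi with h1 | h1 | h1
    · omega
    · tauto
    · by_cases h4 : 4 ≤ ν i
      · tauto
      · omega
  have one : ∀ S : Finset ι, (∀ i ∈ S, ∀ j ∈ S, i = j) → S = ∅ ∨ ∃ i, S = {i} := fun S hS => by
    rcases S.eq_empty_or_nonempty with e | ⟨i, hi⟩
    · exact Or.inl e
    · exact Or.inr ⟨i, eq_singleton_iff_unique_mem.2 ⟨hi, fun j hj => hS j hj i hi⟩⟩
  refine ⟨R.filter (ν · = 2), R.filter (ν · = 3), R.filter (fun i => a i = 9 ∧ ν i = 4 ∧ ¬ U i),
    R.filter (fun i => 4 ≤ ν i ∧ U i), by simp, by simp, by simp, by simp,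
    fun i hi => by simpa [hi] using hall i hi, ?_, one _ ?_, one _ ?_, ?_, ?_,
    sum_nonneg fun i hi => ?_, sum_nonneg fun i hi => ?_, sum_nonneg fun i hi => ?_⟩
  · rw [card_eq_sum_ones, Nat.cast_sum, sum_mul]
    simp only [sum_filter, ← sum_add_distrib]
    refine sum_congr rfl fun i hi => ?_
    have := h.three_le i hi
    have := h.two_le i hi
    rw [tm_eq (by omega) (by omega)]
    rcases hall i hi with h1 | h1 | ⟨h1, h2, h3⟩ | ⟨h1, h2⟩
    · simp [h1]
    · simp [h1]
    · simp [h1, h2, h3]; norm_num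
    · simp [h1, h2, show ν i ≠ 2 by omega, show ν i ≠ 3 by omega]
  · intro i hi j hj
    rw [mem_filter] at hi hj
    by_contra hij
    have := h.cop i hi.1 j hj.1 hij
    rw [hi.2.1, hj.2.1] at this
    exact absurd this (by decide)
  · intro i hi j hj
    rw [mem_filter] at hi hj
    exact h.uniq i hi.1 j hj.1 hi.2.2 hj.2.2
  · set S := R.filter (ν · = 2)
    rcases Nat.lt_or_ge S.card 3 with h3 | h3
    · obtain e | e | e : S.card = 0 ∨ S.card = 1 ∨ S.card = 2 := by omega
      · exact Or.inl (card_eq_zero.1 e)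
      · exact Or.inr (Or.inl (card_eq_one.1 e))
      · exact Or.inr (Or.inr (Or.inl (card_eq_two.1 e)))
    · right; right; right
      have := card_nsmul_le_sum S (fun i => (1 - 1 / (a i : ℚ)) / 2) (1 / 3) (fun i hi => by
        have := hx i (mem_filter.1 hi).1; linarith)
      rw [nsmul_eq_mul] at this
      have : (3 : ℚ) ≤ S.card := by exact_mod_cast h3
      linarith
  · set S := R.filter (ν · = 3) with hS
    rcases Nat.lt_or_ge S.card 2 with h3 | h3
    · obtain e | e : S.card = 0 ∨ S.card = 1 := by omega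
      · exact Or.inl (card_eq_zero.1 e)
      · exact Or.inr (Or.inl (card_eq_one.1 e))
    · right; right
      obtain ⟨i, hi, j, hj, hij⟩ := one_lt_card.1 h3
      have hi' := mem_filter.1 hi
      have hj' := mem_filter.1 hj
      have h1 := h.seven_le hi'.1 hi'.2
      have h2 := h.seven_le hj'.1 hj'.2
      have hne : a i ≠ a j := fun e => by
        have := h.cop i hi'.1 j hj'.1 hij
        rw [e, Nat.coprime_self] at this; omega
      have hs := sum_le_sum_of_subset_of_nonneg (f := fun i => (1 - 1 / (a i : ℚ)) / 3)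
        (show {i, j} ⊆ S by intro x; simp; rintro (rfl | rfl) <;> assumption)
        (fun x hx' _ => by have := hx x (mem_filter.1 hx').1; linarith)
      rw [sum_pair hij] at hs
      have b1 := inv_le_of (a := a i) (b := 7) (by norm_num) h1.1
      have b2 := inv_le_of (a := a j) (b := 7) (by norm_num) h2.1
      rcases Nat.lt_or_ge (a i) 13 with h4 | h4
      · have b3 := inv_le_of (a := a j) (b := 13) (by norm_num) (by omega)
        push_cast at *; linarith
      · have b3 := inv_le_of (a := a i) (b := 13) (by norm_num) (by omega)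
        push_cast at *; linarith
  · have := hx i (mem_filter.1 hi).1; linarith
  · have := hx i (mem_filter.1 hi).1; linarith
  · have := hx i (mem_filter.1 hi).1
    exact div_nonneg (by linarith) (by positivity)

theorem Fam.uterm (h : Fam R a ν U g c) {i : ι} (hi : i ∈ R) :
    1 / ((ν i : ℚ) + 1) ≤ (1 - 1 / (a i : ℚ)) / ν i ∧ (1 - 1 / (a i : ℚ)) / ν i < 1 / ν i := by
  obtain ⟨v, hv, e⟩ := h.u_le hi
  have h2 := h.two_le i hi
  have h3 := h.three_le i hi
  have b := inv_le_of (a := a i) (b := ν i + 1) (by omega) (by nlinarith)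
  have hν : (0 : ℚ) < ν i := by positivity
  have b' := inv_pos' (a := a i) (by omega)
  push_cast at b
  constructor
  · rw [le_div_iff₀ hν]
    have : 1 / ((ν i : ℚ) + 1) * ν i = 1 - 1 / ((ν i : ℚ) + 1) := by field_simp; ring
    linarith
  · exact div_lt_div_of_pos_right (by linarith) hν

theorem Fam.uterm_odd (h : Fam R a ν U g c) {i : ι} (hi : i ∈ R) (ho : ν i % 2 = 1) :
    2 / (2 * (ν i : ℚ) + 1) ≤ (1 - 1 / (a i : ℚ)) / ν i := by
  obtain ⟨v, hv, e⟩ := h.u_le hi
  have h2 := h.two_le i hi
  have h3 := h.odd i hi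
  have hv2 : 2 ≤ v := by
    by_contra hh
    obtain rfl : v = 1 := by omega
    omega
  have b := inv_le_of (a := a i) (b := 2 * ν i + 1) (by omega) (by nlinarith)
  have hν : (0 : ℚ) < ν i := by positivity
  push_cast at b
  rw [le_div_iff₀ hν]
  have : 2 / (2 * (ν i : ℚ) + 1) * ν i = 1 - 1 / (2 * (ν i : ℚ) + 1) := by field_simp; ring
  linarith

theorem Fam.GL (h : Fam R a ν U g 48)
    (he : 1 - 1 / (g : ℚ) = 35 / 48 + ∑ i ∈ R, tm (a i) (ν i)) : False := by
  obtain ⟨S2, S3, SR, SU, m2, m3, mR, mU, hall, hs, cR, cU, c2, c3, n2, n3, nU⟩ := h.split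
  rw [hs] at he
  have hg := inv_pos' h.gpos
  have h5 : ∀ i ∈ R, 5 ≤ a i := fun i hi => by
    have h1 := h.copc i hi
    have := h.odd i hi
    have := h.three_le i hi
    by_contra hh
    rw [show a i = 3 by omega] at h1
    exact absurd h1 (by decide)
  have nR : (0 : ℚ) ≤ SR.card * (2 / 9) := by positivity
  have e2 : S2 = ∅ := by
    by_contra hne
    obtain ⟨i, hi⟩ := nonempty_iff_ne_empty.2 hne
    have := single_le_sum (f := fun i => (1 - 1 / (a i : ℚ)) / 2) (s := S2) (fun j hj => by
      have := inv_le_of (b := 5) (by norm_num) (h5 j ((m2 j).1 hj).1)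
      push_cast at this; linarith) hi
    have := inv_le_of (b := 5) (by norm_num) (h5 i ((m2 i).1 hi).1)
    push_cast at *; linarith
  have e3 : S3 = ∅ := by
    rcases c3 with e | ⟨i, rfl⟩ | e
    · exact e
    · have hi := (m3 i).1 (mem_singleton_self i)
      have := inv_le_of (b := 7) (by norm_num) (h.seven_le hi.1 hi.2).1
      rw [sum_singleton] at he
      push_cast at *; linarith
    · linarith
  have eR : SR = ∅ := by
    rcases cR with e | ⟨i, rfl⟩
    · exact e
    · have hi := (mR i).1 (mem_singleton_self i)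
      have h1 := h.copc i hi.1
      rw [hi.2.1] at h1
      exact absurd h1 (by decide)
  subst e2 e3 eR
  have hg48 := inv_le_of (b := 48) (by norm_num) (Nat.le_of_dvd h.gpos h.cdvd)
  rcases cU with rfl | ⟨i, rfl⟩
  · simp at he; push_cast at *; rw [one_div] at hg48; linarith
  · have hi := (mU i).1 (mem_singleton_self i)
    have := (h.uterm hi.1).2
    have := inv_le_of (b := 4) (by norm_num) hi.2.1
    simp only [sum_empty, sum_singleton, card_empty] at he
    push_cast at *; linarith

theorem pair_le (h : Fam R a ν U g c) {i j : ι} (hi : i ∈ R) (hj : j ∈ R) (hij : i ≠ j) :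
    1 / (a i : ℚ) + 1 / a j ≤ 8 / 15 ∧ (1 / (a i : ℚ) + 1 / a j ≤ 10 / 21 ∨ (a i = 3 ∧ a j = 5) ∨
      (a i = 5 ∧ a j = 3)) := by
  have h1 := h.odd i hi
  have h2 := h.odd j hj
  have h3 := h.three_le i hi
  have h4 := h.three_le j hj
  have hne : a i ≠ a j := fun e => by
    have := h.cop i hi j hj hij
    rw [e, Nat.coprime_self] at this; omega
  have b1 := inv_le_of (b := 3) (by norm_num) h3
  have b2 := inv_le_of (b := 3) (by norm_num) h4
  by_cases e1 : a i = 3 ∧ a j = 5
  · exact ⟨by rw [e1.1, e1.2]; norm_num, by tauto⟩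
  by_cases e2 : a i = 5 ∧ a j = 3
  · exact ⟨by rw [e2.1, e2.2]; norm_num, by tauto⟩
  have : 7 ≤ a i ∨ 7 ≤ a j := by omega
  rcases this with e | e <;> have := inv_le_of (b := 7) (by norm_num) e <;> push_cast at * <;>
    exact ⟨by linarith, Or.inl (by linarith)⟩

theorem eq_of_inv_eq {g n : ℕ} (hg : 0 < g) (hn : 0 < n) (h : 1 / (g : ℚ) = 1 / n) : g = n := by
  have : (g : ℚ) = n := by
    rw [one_div, one_div, inv_inj] at h; exact h
  exact_mod_cast this

theorem Fam.Ab {k : ℕ} (h : Fam R a ν U g (4 * k)) (hk : 0 < k)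
    (he : 1 - 1 / (g : ℚ) = (4 * k - 1) / (12 * k) + ∑ i ∈ R, tm (a i) (ν i))
    (h3 : ∃ i ∈ R, 3 ∣ a i) (hR : ∀ i ∈ R, 4 ≤ ν i → ν i % 2 = 1) :
    k = 1 ∧ g = 60 ∧ ∀ i ∈ R, a i = 3 ∨ a i = 5 := by
  obtain ⟨S2, S3, SR, SU, m2, m3, mR, mU, hall, hs, cR, cU, c2, c3, n2, n3, nU⟩ := h.split
  rw [hs] at he
  have hg := inv_pos' h.gpos
  have hk' := inv_pos' hk
  have hk1 := inv_le_of (b := 1) (by norm_num) hk
  have e0 : (4 * k - 1 : ℚ) / (12 * k) = 1 / 3 - 1 / k / 12 := by field_simp; ring
  rw [e0] at he
  have eR : SR = ∅ := by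
    rcases cR with e | ⟨i, rfl⟩
    · exact e
    · have hi := (mR i).1 (mem_singleton_self i)
      have := hR i hi.1 (by omega)
      omega
  subst eR
  obtain ⟨i3, hi3, h3⟩ := h3
  have hn3 : i3 ∉ S3 := fun hh => by
    have := h.seven_le hi3 ((m3 _).1 hh).2; omega
  have hUo : ∀ i ∈ SU, ∃ j ∈ S2, a j = ν i ∧ 5 ≤ ν i ∧ ν i % 2 = 1 := fun i hi => by
    obtain ⟨h1, h2, h4⟩ := (mU i).1 hi
    have := hR i h1 h2
    obtain ⟨j, j1, j2, j3⟩ := h.uodd i h1 h4 h2 this
    exact ⟨j, (m2 j).2 ⟨j1, j2⟩, j3, by omega, this⟩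
  have hgk : 1 / (g : ℚ) ≤ 1 / k / 12 := by
    have := inv_le_of (a := g) (b := 4 * k * 3) (by omega) (Nat.le_of_dvd h.gpos
      ((Nat.mul_dvd_mul_left _ h3).trans (h.dvd1 hi3)))
    push_cast at this
    rwa [show 1 / (4 * (k : ℚ) * 3) = 1 / k / 12 by field_simp; ring] at this
  simp only [card_empty, Nat.cast_zero, zero_mul, add_zero] at he
  rcases c2 with rfl | ⟨i, rfl⟩ | ⟨i, j, hij, rfl⟩ | e
  · rcases hall i3 hi3 with e | e | e | e
    · simp at e
    · exact absurd e hn3
    · simp at e
    · obtain ⟨j, hj, -⟩ := hUo _ e; simp at hj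
  · exfalso
    have hi := (m2 i).1 (mem_singleton_self i)
    rw [sum_singleton] at he
    have bi := inv_le_of (b := 3) (by norm_num) (h.three_le i hi.1)
    have bi' := inv_pos' (a := a i) (by have := h.three_le i hi.1; omega)
    rcases cU with rfl | ⟨u, rfl⟩
    · have e3 : i3 = i := by
        rcases hall i3 hi3 with e | e | e | e
        · simpa using e
        · exact absurd e hn3
        · simp at e
        · simp at e
      subst e3
      rcases c3 with rfl | ⟨j, rfl⟩ | e
      · simp only [sum_empty] at he; push_cast at *; linarith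
      · have hj := (m3 j).1 (mem_singleton_self j)
        have hj7 := h.seven_le hj.1 hj.2
        have bj := inv_le_of (b := 7) (by norm_num) hj7.1
        have bj' := inv_pos' (a := a j) (by omega)
        simp only [sum_empty, sum_singleton] at he
        have ho := h.odd i3 hi3
        have h33 := h.three_le i3 hi3
        by_cases e : a i3 = 3
        · rw [e] at he; push_cast at *; linarith
        have b9 := inv_le_of (a := a i3) (b := 9) (by norm_num) (by omega)
        have k1 : k = 1 := by
          by_contra hh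
          have := inv_le_of (a := k) (b := 2) (by norm_num) (by omega)
          push_cast at *; linarith
        subst k1
        have e9 : a i3 = 9 := by
          by_contra hh
          have := inv_le_of (a := a i3) (b := 15) (by norm_num) (by omega)
          push_cast at *; linarith
        have hij : i3 ≠ j := fun e => by subst e; omega
        have hd := h.dvd2 hi3 hj.1 hij
        have e7 : a j = 7 := by
          by_contra hh
          have := inv_le_of (a := a j) (b := 13) (by norm_num) (by omega)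
          rw [e9] at he; push_cast at *; linarith
        rw [e9, e7] at he hd
        have := inv_le_of (a := g) (b := 252) (by norm_num) (Nat.le_of_dvd h.gpos hd)
        push_cast at *; linarith
      · push_cast at *; linarith
    · have hu := (mU u).1 (mem_singleton_self u)
      obtain ⟨j, hj, e1, e2, e3⟩ := hUo u (mem_singleton_self u)
      obtain rfl := mem_singleton.1 hj
      have t1 := (h.uterm hu.1).2
      have t2 := h.uterm_odd hu.1 e3
      rw [← e1] at t1 t2 e2
      rw [sum_singleton, ← e1] at he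
      have b5 := inv_le_of (b := 5) (by norm_num) e2
      have t3 : 1 / (a j : ℚ) / 2 ≤ 2 / (2 * (a j : ℚ) + 1) := by
        have : (5 : ℚ) ≤ a j := by exact_mod_cast e2
        rw [div_div, div_le_div_iff₀ (by positivity) (by positivity)]; linarith
      rcases c3 with rfl | ⟨l, rfl⟩ | e
      · simp only [sum_empty] at he; push_cast at *; linarith
      · have hl := (m3 l).1 (mem_singleton_self l)
        have bl := inv_le_of (b := 7) (by norm_num) (h.seven_le hl.1 hl.2).1
        rw [sum_singleton] at he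
        push_cast at *; linarith
      · push_cast at *; linarith
  · have hi := (m2 i).1 (mem_insert_self i _)
    have hj := (m2 j).1 (mem_insert_of_mem (mem_singleton_self j))
    rw [sum_pair hij] at he
    obtain ⟨p1, p2⟩ := pair_le h hi.1 hj.1 hij
    have k1 : k = 1 := by
      by_contra hh
      have := inv_le_of (a := k) (b := 2) (by norm_num) (by omega)
      push_cast at *; linarith
    subst k1
    have p3 : (a i = 3 ∧ a j = 5) ∨ (a i = 5 ∧ a j = 3) := by
      rcases p2 with e | e
      · push_cast at *; linarith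
      · exact e
    have p4 : 1 / (a i : ℚ) + 1 / a j = 8 / 15 := by
      rcases p3 with ⟨e1, e2⟩ | ⟨e1, e2⟩ <;> rw [e1, e2] <;> norm_num
    have e3 : S3 = ∅ := by
      rcases c3 with e | ⟨l, rfl⟩ | e
      · exact e
      · have hl := (m3 l).1 (mem_singleton_self l)
        have bl := inv_le_of (b := 7) (by norm_num) (h.seven_le hl.1 hl.2).1
        rw [sum_singleton] at he
        push_cast at *; linarith
      · push_cast at *; linarith
    have eU : SU = ∅ := by
      rcases cU with e | ⟨u, rfl⟩
      · exact e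
      · have hu := (mU u).1 (mem_singleton_self u)
        obtain ⟨l, hl, e1, e2, e3⟩ := hUo u (mem_singleton_self u)
        have t2 := h.uterm_odd hu.1 e3
        have : ν u = 5 := by
          rcases mem_insert.1 hl with rfl | hl
          · omega
          · obtain rfl := mem_singleton.1 hl; omega
        rw [sum_singleton] at he
        rw [this] at t2 he
        push_cast at *; linarith
    subst e3 eU
    simp only [sum_empty] at he
    refine ⟨rfl, eq_of_inv_eq h.gpos (by norm_num) (by push_cast at *; linarith), fun l hl => ?_⟩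
    rcases hall l hl with e | e | e | e
    · rcases mem_insert.1 e with rfl | e
      · omega
      · obtain rfl := mem_singleton.1 e; omega
    all_goals simp at e
  · push_cast at *; linarith

theorem eq_one_of_mul {h : ℕ} {A B : ℤ} (e : A * h = B * h + 1) : h = 1 := by
  have : (h : ℤ) ∣ 1 := ⟨A - B, by linarith⟩
  exact_mod_cast Int.eq_one_of_dvd_one (by positivity) this

theorem Fam.V3 {o : ℕ} (h : Fam R a ν U g 72) (ho1 : 1 ≤ o) (ho3 : o ≤ 3)
    (he : 1 - 1 / (g : ℚ) = 29 / 72 + o / 9 + ∑ i ∈ R, tm (a i) (ν i))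
    (hU : ∀ i ∈ R, U i → 4 ≤ ν i → ν i % 2 = 0 → ν i = 4) :
    g = 2520 ∧ ((∃ i ∈ R, a i = 35 ∧ ν i = 2) ∨
      ((∃ i ∈ R, U i ∧ a i = 5) ∧ ∀ i ∈ R, a i = 5 ∨ a i = 7)) := by
  obtain ⟨S2, S3, SR, SU, m2, m3, mR, mU, hall, hs, cR, cU, c2, c3, n2, n3, nU⟩ := h.split
  rw [hs] at he
  have hg := inv_pos' h.gpos
  have h5 : ∀ i ∈ R, 5 ≤ a i := fun i hi => by
    have h1 := h.copc i hi
    have := h.odd i hi
    have := h.three_le i hi
    by_contra hh
    rw [show a i = 3 by omega] at h1
    exact absurd h1 (by decide)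
  have eR : SR = ∅ := by
    rcases cR with e | ⟨i, rfl⟩
    · exact e
    · have hi := (mR i).1 (mem_singleton_self i)
      have h1 := h.copc i hi.1
      rw [hi.2.1] at h1
      exact absurd h1 (by decide)
  subst eR
  simp only [card_empty, Nat.cast_zero, zero_mul, add_zero] at he
  have hg72 := inv_le_of (b := 72) (by norm_num) (Nat.le_of_dvd h.gpos h.cdvd)
  have ho1' : (1 : ℚ) ≤ o := by exact_mod_cast ho1
  have ho3' : (o : ℚ) ≤ 3 := by exact_mod_cast ho3
  rcases c2 with rfl | ⟨i, rfl⟩ | ⟨i, j, hij, rfl⟩ | e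
  · have hU4 : ∀ u ∈ SU, ν u = 4 := fun u hu => by
      obtain ⟨h1, h2, h3⟩ := (mU u).1 hu
      by_contra hh
      obtain ⟨j, j1, j2, -⟩ := h.uodd u h1 h3 h2 (by have := hU u h1 h3 h2; omega)
      simpa using (m2 j).2 ⟨j1, j2⟩
    rcases c3 with rfl | ⟨j, rfl⟩ | e
    · exfalso
      rcases cU with rfl | ⟨u, rfl⟩
      · simp only [sum_empty] at he; push_cast at *; linarith
      · have hu := (mU u).1 (mem_singleton_self u)
        have t1 := (h.uterm hu.1).2
        simp only [sum_empty, sum_singleton] at he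
        rw [hU4 u (mem_singleton_self u)] at t1 he
        push_cast at *; linarith
    · have hj := (m3 j).1 (mem_singleton_self j)
      have hj7 := h.seven_le hj.1 hj.2
      have bj := inv_le_of (b := 7) (by norm_num) hj7.1
      have bj' := inv_pos' (a := a j) (by omega)
      rcases cU with rfl | ⟨u, rfl⟩
      · exfalso
        simp only [sum_empty, sum_singleton] at he
        obtain rfl | rfl | rfl : o = 1 ∨ o = 2 ∨ o = 3 := by omega
        all_goals push_cast at *; linarith
      · have hu := (mU u).1 (mem_singleton_self u)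
        have h4 := hU4 u (mem_singleton_self u)
        have bu := inv_le_of (b := 5) (by norm_num) (h5 u hu.1)
        simp only [sum_empty, sum_singleton, h4] at he
        obtain rfl : o = 1 := by
          by_contra hh
          have : (2 : ℚ) ≤ o := by exact_mod_cast (show 2 ≤ o by omega)
          push_cast at *; linarith
        have hju : j ≠ u := fun e => by subst e; omega
        have e7 : a j = 7 := by
          by_contra hh
          have := inv_le_of (a := a j) (b := 13) (by norm_num) (by omega)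
          push_cast at *; linarith
        have e5 : a u = 5 := by
          by_contra hh
          have := h.odd u hu.1
          have := h5 u hu.1
          have := inv_le_of (a := a u) (b := 7) (by norm_num) (by omega)
          push_cast at *; linarith
        rw [e7, e5] at he
        refine ⟨eq_of_inv_eq h.gpos (by norm_num) (by push_cast at *; linarith),
          Or.inr ⟨⟨u, hu.1, hu.2.2, e5⟩, fun l hl => ?_⟩⟩
        rcases hall l hl with e | e | e | e
        · simp at e
        · obtain rfl := mem_singleton.1 e; omega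
        · simp at e
        · obtain rfl := mem_singleton.1 e; omega
    · push_cast at *; linarith
  · have hi := (m2 i).1 (mem_singleton_self i)
    rw [sum_singleton] at he
    have bi := inv_le_of (b := 5) (by norm_num) (h5 i hi.1)
    obtain rfl : o = 1 := by
      by_contra hh
      have : (2 : ℚ) ≤ o := by exact_mod_cast (show 2 ≤ o by omega)
      push_cast at *; linarith
    have e3 : S3 = ∅ := by
      rcases c3 with e | ⟨l, rfl⟩ | e
      · exact e
      · have hl := (m3 l).1 (mem_singleton_self l)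
        have bl := inv_le_of (b := 7) (by norm_num) (h.seven_le hl.1 hl.2).1
        rw [sum_singleton] at he
        push_cast at *; linarith
      · push_cast at *; linarith
    have eU : SU = ∅ := by
      rcases cU with e | ⟨u, rfl⟩
      · exact e
      · have hu := (mU u).1 (mem_singleton_self u)
        rw [sum_singleton] at he
        rcases Nat.mod_two_eq_zero_or_one (ν u) with e | e
        · have t := (h.uterm hu.1).1
          rw [hU u hu.1 hu.2.2 hu.2.1 e] at t he
          push_cast at *; linarith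
        · obtain ⟨j, j1, j2, j3⟩ := h.uodd u hu.1 hu.2.2 hu.2.1 e
          obtain rfl := mem_singleton.1 ((m2 j).2 ⟨j1, j2⟩)
          have t2 := h.uterm_odd hu.1 e
          rw [← j3] at t2 he
          have t3 : 1 / (a j : ℚ) / 2 ≤ 2 / (2 * (a j : ℚ) + 1) := by
            have : (5 : ℚ) ≤ a j := by exact_mod_cast h5 j j1
            rw [div_div, div_le_div_iff₀ (by positivity) (by positivity)]; linarith
          push_cast at *; linarith
    subst e3 eU
    simp only [sum_empty] at he
    obtain ⟨m, hm⟩ := h.dvd1 hi.1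
    have ha : (0 : ℚ) < a i := by have := h5 i hi.1; positivity
    have hm0 : (0 : ℚ) < m := by
      have := h.gpos
      rcases Nat.eq_zero_or_pos m with rfl | h0
      · omega
      · positivity
    have e : (36 * m : ℤ) = a i * m + 1 := by
      rw [hm] at he
      push_cast at he
      field_simp at he
      have : (36 * m : ℚ) = a i * m + 1 := by linarith
      exact_mod_cast this
    obtain rfl := eq_one_of_mul e
    have e35 : a i = 35 := by omega
    exact ⟨by rw [hm, e35], Or.inl ⟨i, hi.1, e35, hi.2⟩⟩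
  · have hi := (m2 i).1 (mem_insert_self i _)
    have hj := (m2 j).1 (mem_insert_of_mem (mem_singleton_self j))
    rw [sum_pair hij] at he
    have := (pair_le h hi.1 hj.1 hij).1
    linarith
  · linarith

theorem dio1 {k a u v : ℤ} (hk : 2 ≤ k) (hv : 1 ≤ v) (hu : u = 2 * k * v + 1)
    (e : 2 * k * u + 2 * a = a * u + 1) : u = 4 * k + 1 ∧ a = 2 * k + 1 := by
  have e1 : (a - 2 * k) * (u - 2) = 4 * k - 1 := by linarith
  have hu2 : 2 * k - 1 ≤ u - 2 := by nlinarith
  have ha : 1 ≤ a - 2 * k := by
    by_contra hh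
    have : (a - 2 * k) * (u - 2) ≤ 0 := mul_nonpos_of_nonpos_of_nonneg (by omega) (by omega)
    omega
  have hv2 : v ≤ 2 := by
    by_contra hh
    have : 6 * k - 1 ≤ u - 2 := by nlinarith
    nlinarith
  obtain rfl | rfl : v = 1 ∨ v = 2 := by omega
  · exfalso
    rcases le_or_gt (a - 2 * k) 2 with h | h <;> nlinarith
  · refine ⟨by linarith, ?_⟩
    have : (a - 2 * k - 1) * (4 * k - 1) = 0 := by rw [hu] at e1; linarith
    rcases mul_eq_zero.1 this with h | h <;> omega

theorem dio2 {k a u v : ℤ} (ha : 5 ≤ a) (hv : 1 ≤ v) (hu : u = a * (2 * v) + 1)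
    (e : a * u + 4 * k = 2 * k * u + 1) : u = 2 * a + 1 ∧ 2 * k = a + 1 := by
  have e1 : (2 * k - a) * (u - 2) = 2 * a - 1 := by linarith
  have hu2 : 2 * a - 1 ≤ u - 2 := by nlinarith
  have hk : 1 ≤ 2 * k - a := by
    by_contra hh
    have : (2 * k - a) * (u - 2) ≤ 0 := mul_nonpos_of_nonpos_of_nonneg (by omega) (by omega)
    omega
  constructor <;> nlinarith

theorem Fam.D {k : ℕ} (h : Fam R a ν U g (4 * k)) (hk : 2 ≤ k)
    (he : 1 - 1 / (g : ℚ) = (2 * k - 1) / (4 * k) + ∑ i ∈ R, tm (a i) (ν i))
    (h3 : 3 ∣ g → ¬ 3 ∣ k → ∃ i ∈ R, 3 ∣ a i)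
    (hR : ∀ i ∈ R, a i = 9 → ν i = 4 → ¬ U i → k % 2 = 0)
    (hU : ∀ i ∈ R, U i → 4 ≤ ν i → ν i % 2 = 0 → ν i = 2 * k) :
    (k = 2 ∧ g = 168 ∧ ∀ i ∈ R, a i = 3 ∨ a i = 7) ∨
    (k = 2 ∧ g = 360 ∧ (∃ i ∈ R, a i = 5 ∧ ν i = 2) ∧ (∃ i ∈ R, a i = 9 ∧ ν i = 4 ∧ ¬ U i) ∧
      ∀ i ∈ R, a i = 5 ∨ (a i = 9 ∧ ν i = 4 ∧ ¬ U i)) ∨
    ∃ i ∈ R, U i ∧ 4 ≤ ν i ∧ a i = 2 * ν i + 1 ∧ g = a i * ν i * (a i + 1) := by
  obtain ⟨S2, S3, SR, SU, m2, m3, mR, mU, hall, hs, cR, cU, c2, c3, n2, n3, nU⟩ := h.split
  rw [hs] at he
  have hg := inv_pos' h.gpos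
  have hk' := inv_pos' (a := k) (by omega)
  have hk2 := inv_le_of (b := 2) (by norm_num) hk
  have hkq : (2 : ℚ) ≤ k := by exact_mod_cast hk
  have e0 : (2 * k - 1 : ℚ) / (4 * k) = 1 / 2 - 1 / k / 4 := by field_simp; ring
  rw [e0] at he
  have nR : (0 : ℚ) ≤ SR.card * (2 / 9) := by positivity
  have hgk : ∀ n, 0 < n → 4 * k * n ≤ g → 1 / (g : ℚ) ≤ 1 / k / 4 / n := fun n hn hle => by
    have := inv_le_of (a := g) (b := 4 * k * n) (by positivity) hle
    push_cast at this
    rwa [show 1 / (4 * (k : ℚ) * n) = 1 / k / 4 / n by field_simp] at this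
  have hg1 := hgk 1 (by norm_num) (by simpa using Nat.le_of_dvd h.gpos h.cdvd)
  have hUe : ∀ u ∈ SU, ν u % 2 = 0 → 1 / k / 4 ≤ (1 - 1 / (a u : ℚ)) / ν u ∧
      (1 - 1 / (a u : ℚ)) / ν u < 1 / k / 2 := fun u hu e => by
    obtain ⟨h1, h2, h4⟩ := (mU u).1 hu
    have t := h.uterm h1
    rw [hU u h1 h4 h2 e] at t ⊢
    push_cast at t ⊢
    refine ⟨le_trans ?_ t.1, t.2.trans_eq (by field_simp)⟩
    rw [div_div, div_le_div_iff₀ (by positivity) (by positivity)]; linarith
  rcases c2 with rfl | ⟨i, rfl⟩ | ⟨i, j, hij, rfl⟩ | e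
  · exfalso
    have hU2 : ∀ u ∈ SU, ν u % 2 = 0 := fun u hu => by
      obtain ⟨h1, h2, h3⟩ := (mU u).1 hu
      by_contra hh
      obtain ⟨j, j1, j2, -⟩ := h.uodd u h1 h3 h2 (by omega)
      simpa using (m2 j).2 ⟨j1, j2⟩
    have bU : ∑ i ∈ SU, (1 - 1 / (a i : ℚ)) / ν i < 1 / k / 2 := by
      rcases cU with rfl | ⟨u, rfl⟩
      · simp only [sum_empty]; linarith
      · rw [sum_singleton]; exact (hUe u (mem_singleton_self u) (hU2 u (mem_singleton_self u))).2
    have bR : (SR.card : ℚ) ≤ 1 := by
      rcases cR with rfl | ⟨r, rfl⟩ <;> simp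
    simp only [sum_empty] at he
    rcases c3 with rfl | ⟨j, rfl⟩ | e
    · simp only [sum_empty] at he; push_cast at *; linarith
    · have hj := (m3 j).1 (mem_singleton_self j)
      have hj7 := h.seven_le hj.1 hj.2
      have bj := inv_le_of (b := 7) (by norm_num) hj7.1
      have bj' := inv_pos' (a := a j) (by omega)
      have hg7 := hgk 7 (by norm_num) (le_trans (Nat.mul_le_mul_left _ hj7.1)
        (Nat.le_of_dvd h.gpos (h.dvd1 hj.1)))
      rw [sum_singleton] at he
      rcases cR with rfl | ⟨r, rfl⟩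
      · simp only [card_empty] at he; push_cast at *; linarith
      · have hr := (mR r).1 (mem_singleton_self r)
        rw [card_singleton] at he
        rcases cU with rfl | ⟨u, rfl⟩
        · have hrj : r ≠ j := fun e => by subst e; omega
          obtain ⟨m, hm⟩ := h.dvd2 hr.1 hj.1 hrj
          rw [hr.2.1] at hm
          have ha : (0 : ℚ) < a j := by have := hj7.1; positivity
          have hm0 : (0 : ℚ) < m := by
            have := h.gpos
            rcases Nat.eq_zero_or_pos m with rfl | h0
            · omega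
            · positivity
          have e : ((9 * a j + 12 * k) * m : ℤ) = (2 * k * a j) * m + 1 := by
            rw [hm] at he
            simp only [sum_empty] at he
            push_cast at he
            field_simp at he
            have : ((9 * a j + 12 * k) * m : ℚ) = (2 * k * a j) * m + 1 := by linarith
            exact_mod_cast this
          obtain rfl := eq_one_of_mul e
          have hk0 := hR r hr.1 hr.2.1 hr.2.2.1 hr.2.2.2
          have e1 : (2 * (k : ℤ) - 9) * (a j - 6) = 53 := by push_cast at e; linarith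
          have h7 : (7 : ℤ) ≤ a j := by exact_mod_cast hj7.1
          have hp : 0 < 2 * (k : ℤ) - 9 := by
            by_contra hh
            have : (2 * (k : ℤ) - 9) * (a j - 6) ≤ 0 :=
              mul_nonpos_of_nonpos_of_nonneg (by omega) (by omega)
            omega
          have hd : (2 * k - 9) ∣ 53 := by
            have : ((2 * k - 9 : ℕ) : ℤ) ∣ (53 : ℕ) := ⟨a j - 6, by
              rw [Nat.cast_sub (by omega)]; push_cast; exact e1.symm⟩
            exact_mod_cast this
          rcases (Nat.dvd_prime (by norm_num)).1 hd with e | e <;> omega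
        · have := (hUe u (mem_singleton_self u) (hU2 u (mem_singleton_self u))).1
          rw [sum_singleton] at he
          push_cast at *; linarith
    · obtain rfl : k = 2 := by
        by_contra hh
        have := inv_le_of (a := k) (b := 3) (by norm_num) (by omega)
        push_cast at *; linarith
      obtain ⟨j, hj⟩ : S3.Nonempty := by
        by_contra hh
        rw [not_nonempty_iff_eq_empty.1 hh, sum_empty] at e
        linarith
      have hj' := (m3 j).1 hj
      obtain ⟨l, hl, hl3⟩ := h3 ((Dvd.intro_left _ (by rw [hj'.2])).trans (h.dvd j hj'.1)) (by decide)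
      rcases hall l hl with e' | e' | e' | e'
      · simp at e'
      · have := h.seven_le hl ((m3 l).1 e').2; omega
      · have : (1 : ℚ) ≤ SR.card := by exact_mod_cast card_pos.2 ⟨l, e'⟩
        push_cast at *; linarith
      · rcases cU with rfl | ⟨u, rfl⟩
        · simp at e'
        · have := (hUe u (mem_singleton_self u) (hU2 u (mem_singleton_self u))).1
          rw [sum_singleton] at he
          push_cast at *; linarith
  · have hi := (m2 i).1 (mem_singleton_self i)
    rw [sum_singleton] at he
    have hi3 := h.three_le i hi.1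
    have hio := h.odd i hi.1
    have bi := inv_le_of (b := 3) (by norm_num) hi3
    have bi' := inv_pos' (a := a i) (by omega)
    have hUo : ∀ u ∈ SU, ν u % 2 = 1 → ν u = a i := fun u hu e => by
      obtain ⟨h1, h2, h4⟩ := (mU u).1 hu
      obtain ⟨j, j1, j2, j3⟩ := h.uodd u h1 h4 h2 e
      obtain rfl := mem_singleton.1 ((m2 j).2 ⟨j1, j2⟩)
      exact j3.symm
    rcases c3 with rfl | ⟨j, rfl⟩ | e
    · simp only [sum_empty] at he
      rcases cR with rfl | ⟨r, rfl⟩
      · simp only [card_empty] at he
        rcases cU with rfl | ⟨u, rfl⟩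
        · simp only [sum_empty] at he; push_cast at *; linarith
        · right; right
          have hu := (mU u).1 (mem_singleton_self u)
          have hiu : i ≠ u := fun e => by subst e; omega
          obtain ⟨m, hm⟩ := h.dvd2 hi.1 hu.1 hiu
          obtain ⟨v, hv, ev⟩ := h.u_le hu.1
          have ha : (0 : ℚ) < a i := by positivity
          have hu0 : (0 : ℚ) < a u := by have := h.three_le u hu.1; positivity
          have hm0 : (0 : ℚ) < m := by
            have := h.gpos
            rcases Nat.eq_zero_or_pos m with rfl | h0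
            · omega
            · positivity
          rw [sum_singleton, hm] at he
          refine ⟨u, hu.1, hu.2.2, hu.2.1, ?_⟩
          rcases Nat.mod_two_eq_zero_or_one (ν u) with e | e
          · have e' := hU u hu.1 hu.2.2 hu.2.1 e
            rw [e'] at he ev ⊢
            have e1 : ((2 * k * a u + 2 * a i) * m : ℤ) = (a i * a u) * m + 1 := by
              push_cast at he
              field_simp at he
              have : ((2 * k * a u + 2 * a i) * m : ℚ) = (a i * a u) * m + 1 := by linarith
              exact_mod_cast this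
            obtain rfl := eq_one_of_mul e1
            obtain ⟨d1, d2⟩ := dio1 (k := k) (a := a i) (u := a u) (v := v) (by omega) (by omega)
              (by exact_mod_cast ev) (by push_cast at e1; linarith)
            have d1' : a u = 4 * k + 1 := by exact_mod_cast d1
            have d2' : a i = 2 * k + 1 := by exact_mod_cast d2
            refine ⟨by omega, ?_⟩
            rw [hm, d1', d2']; ring
          · have e' := hUo u (mem_singleton_self u) e
            rw [e'] at he ev e ⊢
            have e1 : ((a i * a u + 4 * k) * m : ℤ) = (2 * k * a u) * m + 1 := by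
              push_cast at he
              field_simp at he
              have : ((a i * a u + 4 * k) * m : ℚ) = (2 * k * a u) * m + 1 := by linarith
              exact_mod_cast this
            obtain rfl := eq_one_of_mul e1
            have huo := h.odd u hu.1
            obtain ⟨w, rfl⟩ : ∃ w, v = 2 * w := by
              refine ⟨v / 2, ?_⟩
              by_contra hh
              have : (a i * v) % 2 = 1 := by rw [Nat.mul_mod, e, show v % 2 = 1 by omega]
              omega
            have h4 := hu.2.1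
            obtain ⟨d1, d2⟩ := dio2 (k := k) (a := a i) (u := a u) (v := w) (by omega) (by omega)
              (by exact_mod_cast ev) (by push_cast at e1; linarith)
            have d1' : a u = 2 * a i + 1 := by exact_mod_cast d1
            have d2' : 2 * k = a i + 1 := by exact_mod_cast d2
            refine ⟨d1', ?_⟩
            rw [hm, d1', show 4 * k = 2 * (a i + 1) by omega]; ring
      · right; left
        have hr := (mR r).1 (mem_singleton_self r)
        rw [card_singleton] at he
        have hir : i ≠ r := fun e => by subst e; omega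
        have h5 : 5 ≤ a i := by
          have := h.cop i hi.1 r hr.1 hir
          by_contra hh
          rw [show a i = 3 by omega, hr.2.1] at this
          exact absurd this (by decide)
        have b5 := inv_le_of (b := 5) (by norm_num) h5
        obtain rfl : k = 2 := by
          by_contra hh
          have := inv_le_of (a := k) (b := 3) (by norm_num) (by omega)
          push_cast at *; linarith
        have e5 : a i = 5 := by
          by_contra hh
          have := inv_le_of (a := a i) (b := 7) (by norm_num) (by omega)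
          push_cast at *; linarith
        have eU : SU = ∅ := by
          rcases cU with e | ⟨u, rfl⟩
          · exact e
          · have hu := (mU u).1 (mem_singleton_self u)
            rw [sum_singleton] at he
            rcases Nat.mod_two_eq_zero_or_one (ν u) with e | e
            · have := (hUe u (mem_singleton_self u) e).1
              push_cast at *; linarith
            · have t := (h.uterm hu.1).1
              rw [hUo u (mem_singleton_self u) e, e5] at t he
              push_cast at *; linarith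
        subst eU
        rw [e5, sum_empty] at he
        refine ⟨rfl, eq_of_inv_eq h.gpos (by norm_num) (by push_cast at *; linarith),
          ⟨i, hi.1, e5, hi.2⟩, ⟨r, hr⟩, fun l hl => ?_⟩
        rcases hall l hl with e | e | e | e
        · obtain rfl := mem_singleton.1 e; exact Or.inl e5
        · simp at e
        · obtain rfl := mem_singleton.1 e; exact Or.inr hr.2
        · simp at e
    · left
      have hj := (m3 j).1 (mem_singleton_self j)
      have hj7 := h.seven_le hj.1 hj.2
      have bj := inv_le_of (b := 7) (by norm_num) hj7.1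
      rw [sum_singleton] at he
      obtain rfl : k = 2 := by
        by_contra hh
        have := inv_le_of (a := k) (b := 3) (by norm_num) (by omega)
        push_cast at *; linarith
      have e3 : a i = 3 := by
        by_contra hh
        have := inv_le_of (a := a i) (b := 5) (by norm_num) (by omega)
        push_cast at *; linarith
      rw [e3] at he
      have e7 : a j = 7 := by
        by_contra hh
        have := inv_le_of (a := a j) (b := 13) (by norm_num) (by omega)
        push_cast at *; linarith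
      have eR : SR = ∅ := by
        rcases cR with e | ⟨r, rfl⟩
        · exact e
        · rw [card_singleton] at he; push_cast at *; linarith
      have eU : SU = ∅ := by
        rcases cU with e | ⟨u, rfl⟩
        · exact e
        · have hu := (mU u).1 (mem_singleton_self u)
          rw [sum_singleton] at he
          rcases Nat.mod_two_eq_zero_or_one (ν u) with e | e
          · have := (hUe u (mem_singleton_self u) e).1
            push_cast at *; linarith
          · have := hUo u (mem_singleton_self u) e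
            omega
      subst eR eU
      rw [e7, sum_empty, card_empty] at he
      refine ⟨rfl, eq_of_inv_eq h.gpos (by norm_num) (by push_cast at *; linarith), fun l hl => ?_⟩
      rcases hall l hl with e | e | e | e
      · obtain rfl := mem_singleton.1 e; exact Or.inl e3
      · obtain rfl := mem_singleton.1 e; exact Or.inr e7
      · simp at e
      · simp at e
    · push_cast at *; linarith
  · have hi := (m2 i).1 (mem_insert_self i _)
    have hj := (m2 j).1 (mem_insert_of_mem (mem_singleton_self j))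
    rw [sum_pair hij] at he
    have := (pair_le h hi.1 hj.1 hij).1
    push_cast at *; linarith
  · push_cast at *; linarith

end Cfsg.Agent.H8.M3
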