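import Cfsg.Agent.H8.M3E3

/-! Groups without elations: element types. -/

set_option autoImplicit false
set_option linter.unusedSectionVars false

namespace Cfsg.Agent.H8.M3
open Matrix Equiv
open scoped MatrixGroups

universe u
variable {K : Type*} [Field K] {G : Type u} [Group G]
variable {P Q : Mt K} {ρ : G →* PGL(3, K)} {x y t : G} {p : ℕ} {d : Fin 3 → K}

/-- no elations, no homologies except involutions -/
structure HB (p : ℕ) (ρ : G →* PGL(3, K)) : Prop extends NE ρ where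
  noH : ∀ l P, Hm ρ l P → l * l = 1

theorem NE.hb [Finite G] [IsAlgClosed K] (p : ℕ) [Fact p.Prime] [CharP K p] (h : NE ρ) : HB p ρ :=
  ⟨h, fun _ _ h' => h.no_hom p h'⟩

theorem HB.cjr (h : HB p ρ) (g : GL (Fin 3) K) : HB p (cjr ρ g) :=
  ⟨h.toNE.cjr g, fun l P ⟨h1, x, hx⟩ => h.noH l (g * P * ((g⁻¹ : GL (Fin 3) K) : Mt K))
    ⟨h1.conj (by simp), x, by rw [← hm_conj (by simp)]; exact rep_cjr.1 hx⟩⟩

theorem r1_single (k : Fin 3) : R1 (vv (Pi.single k 1) (Pi.single k 1) : Mt K) :=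
  ⟨_, _, by simp, rfl⟩

theorem HB.dg_sq (hG : HB p ρ) (h : Dg ρ x d) {i j : Fin 3} (hij : i ≠ j) (e : d i = d j) (k : Fin 3) :
    d k * d k = d i * d i := by
  by_cases h1 : k = i
  · rw [h1]
  by_cases h2 : k = j
  · rw [h2, e]
  have hi := h.ne i
  have := hG.noH (d k / d i) _ ⟨r1_single k, x, (Rep.smul h (inv_ne_zero hi)).congr (by
    ext a b
    fin_cases i <;> fin_cases j <;> fin_cases k <;> simp at hij h1 h2 <;>
      fin_cases a <;> fin_cases b <;> simp [hm] at hi e ⊢ <;> field_simp <;> simp [e])⟩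
  field_simp at this
  linear_combination this

theorem HB.dg_inj (hG : HB p ρ) (h : Dg ρ x d) (h2 : x * x ≠ 1) : Function.Injective d := by
  intro i j e
  by_contra hij
  exact h2 ((h.mul h).eq_one hG.inj (by simp only [Pi.mul_apply, hG.dg_sq h hij e])
    (by simp only [Pi.mul_apply, hG.dg_sq h hij e]))

theorem frame1 (h : R1 P) : ∃ g : GL (Fin 3) K, P * (g : Mt K) = (g : Mt K) * diagonal ![1, 0, 0] := by
  obtain ⟨v, φ, h, rfl⟩ := h
  have key : ∀ w1 w2 : Fin 3 → K, φ ⬝ᵥ w1 = 0 → φ ⬝ᵥ w2 = 0 → (cols v w1 w2).det ≠ 0 →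
      ∃ g : GL (Fin 3) K, vv v φ * (g : Mt K) = (g : Mt K) * diagonal ![1, 0, 0] :=
    fun w1 w2 h1 h2 hd => ⟨GeneralLinearGroup.mkOfDetNeZero _ hd, by
      change vv v φ * cols _ _ _ = cols _ _ _ * _
      rw [mul_cols, cols_mul]; simp [vv_mulVec, h, h1, h2]⟩
  have h' := h
  simp only [dotProduct, Fin.sum_univ_three] at h'
  by_cases h0 : φ 0 = 0
  · by_cases h1 : φ 1 = 0
    · have h2 : φ 2 ≠ 0 := fun e => by simp [h0, h1, e] at h'
      refine key ![1, 0, 0] ![0, 1, 0] (by simp [dotProduct, Fin.sum_univ_three, h0])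
        (by simp [dotProduct, Fin.sum_univ_three, h1]) ?_
      simp [cols, det_fin_three]
      rintro e; simp [h0, h1, e] at h'
    · refine key ![1, 0, 0] ![0, φ 2, -φ 1] (by simp [dotProduct, Fin.sum_univ_three, h0])
        (by simp [dotProduct, Fin.sum_univ_three]; ring) ?_
      simp [cols, det_fin_three]
      intro e; rw [h0] at h'; exact one_ne_zero (by linear_combination e - h' : (1 : K) = 0)
  · refine key ![φ 1, -φ 0, 0] ![φ 2, 0, -φ 0] (by simp [dotProduct, Fin.sum_univ_three]; ring)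
      (by simp [dotProduct, Fin.sum_univ_three]; ring) ?_
    simp [cols, det_fin_three]
    intro e; exact h0 (by linear_combination e - φ 0 * h')

theorem frame2 (h : R1 P) (h' : R1 Q) (e : Ort P Q) : ∃ g : GL (Fin 3) K,
    P * (g : Mt K) = (g : Mt K) * diagonal ![1, 0, 0] ∧ Q * (g : Mt K) = (g : Mt K) * diagonal ![0, 0, 1] := by
  have h3 := h.compl h' e
  have e1 := ort_compl h e
  have e2 := ort_compl' h' e
  generalize 1 - P - Q = S at *
  obtain ⟨v, φ, h, rfl⟩ := h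
  obtain ⟨w, ψ, h', rfl⟩ := h'
  obtain ⟨r, χ, h3, rfl⟩ := h3
  have z : ∀ {v φ w ψ : Fin 3 → K}, φ ⬝ᵥ v = 1 → ψ ⬝ᵥ w = 1 → vv v φ * vv w ψ = 0 → φ ⬝ᵥ w = 0 := by
    intro v φ w ψ h1 h2 e
    rw [vv_mul_vv, smul_eq_zero, vv_eq_zero] at e
    rcases e with e | e | e
    · exact e
    · simp [e] at h1
    · simp [e] at h2
  have a1 := z h h' e.1; have a2 := z h' h e.2; have a3 := z h h3 e1.1; have a4 := z h3 h e1.2
  have a5 := z h' h3 e2.1; have a6 := z h3 h' e2.2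
  refine ⟨GeneralLinearGroup.mkOfDetNeZero (cols v r w) (det_cols_ne fun a b c e => ?_), ?_, ?_⟩
  · have b1 := congrArg (φ ⬝ᵥ ·) e
    have b2 := congrArg (ψ ⬝ᵥ ·) e
    have b3 := congrArg (χ ⬝ᵥ ·) e
    simp [h, h', h3, a1, a2, a3, a4, a5, a6] at b1 b2 b3
    exact ⟨b1, b3, b2⟩
  all_goals
    change vv _ _ * cols _ _ _ = cols _ _ _ * _
    rw [mul_cols, cols_mul]; simp [vv_mulVec, *]

theorem diag_of_eigs {A : Mt K} (hd : Function.Injective d) (h : ∀ i, (A - d i • 1).det = 0) :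
    ∃ g : GL (Fin 3) K, A * (g : Mt K) = (g : Mt K) * diagonal d := by
  obtain ⟨u, hu, eu⟩ := exists_eig (h 0)
  obtain ⟨v, hv, ev⟩ := exists_eig (h 1)
  obtain ⟨w, hw, ew⟩ := exists_eig (h 2)
  have n1 : d 0 ≠ d 1 := hd.ne (by decide)
  have n2 : d 0 ≠ d 2 := hd.ne (by decide)
  have n3 : d 1 ≠ d 2 := hd.ne (by decide)
  refine ⟨GeneralLinearGroup.mkOfDetNeZero (cols u v w) (det_cols_ne fun x y z h => ?_), ?_⟩
  · have e1 := congrArg (A *ᵥ ·) h
    simp only [mulVec_add, mulVec_smul, eu, ev, ew, mulVec_zero] at e1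
    have e2 := congrArg (A *ᵥ ·) e1
    simp only [mulVec_add, mulVec_smul, eu, ev, ew, mulVec_zero] at e2
    have k1 : (x * ((d 0 - d 1) * (d 0 - d 2))) • u = 0 := by
      linear_combination (norm := module) e2 - (d 1 + d 2) • e1 + (d 1 * d 2) • h
    have k2 : (y * ((d 1 - d 0) * (d 1 - d 2))) • v = 0 := by
      linear_combination (norm := module) e2 - (d 0 + d 2) • e1 + (d 0 * d 2) • h
    have k3 : (z * ((d 2 - d 0) * (d 2 - d 1))) • w = 0 := by
      linear_combination (norm := module) e2 - (d 0 + d 1) • e1 + (d 0 * d 1) • h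
    simp only [smul_eq_zero, mul_eq_zero, sub_eq_zero] at k1 k2 k3
    grind
  · change A * cols _ _ _ = cols _ _ _ * _
    rw [mul_cols, cols_mul, eu, ev, ew]
    simp

section types
variable [Finite G] [IsAlgClosed K] [Fact p.Prime] [CharP K p]

theorem HB.types (hG : HB p ρ) (hx : x ≠ 1) :
    (IsInv x ∧ (2 : K) ≠ 0 ∧ ∃ P, R1 P ∧ Rep ρ x (hm (-1) P)) ∨
    (∃ g d, Function.Injective d ∧ Dg (M3.cjr ρ g) x d) ∨
    ((2 : K) ≠ 0 ∧ ∃ g, Rep (M3.cjr ρ g) x Jb) := by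
  obtain ⟨A, hA⟩ := exists_rep ρ x
  obtain ⟨s, -, e⟩ := (hA.pow (orderOf x)).of_eq_one (pow_orderOf_eq_one x)
  rcases classify p hA.det_ne (orderOf_pos x) e with ⟨c, rfl⟩ | h | ⟨s, l, v, φ, h0, h1, h2, rfl⟩ |
    ⟨g, d, hd, h⟩ | ⟨g, c, h⟩
  · exact absurd (hA.eq_one hG.inj) hx
  · exact absurd h (hG.not_isEl hA)
  · have hr : Rep ρ x (hm l (vv v φ)) := hA.of_smul
    have r1 : R1 (vv v φ) := ⟨v, φ, h2, rfl⟩
    have := hG.noH l _ ⟨r1, x, hr⟩
    obtain rfl : l = -1 := (mul_self_eq_one_iff.1 this).resolve_left h1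
    exact Or.inl ⟨⟨((hr.mul hr).congr (by rw [hm_mul r1.idem, this, hm_one, one_smul])).eq_one
      hG.inj (c := 1), hx⟩, fun e => h1 (by
      linear_combination -e), _, r1, hr⟩
  · exact Or.inr (Or.inl ⟨g, d, hd, hA.cjr h⟩)
  · have h1 : Rep (M3.cjr ρ g) x Jb := (hA.cjr h).of_smul
    refine Or.inr (Or.inr ⟨fun e => ?_, g, h1⟩)
    have := (hG.cjr g).noE _ !![0, 0, 1; 0, 0, 0; 0, 0, 0] ((h1.mul h1).congr (by
      ext i j; fin_cases i <;> fin_cases j <;> simp [Jb, mul_apply, Fin.sum_univ_three] <;>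
        linear_combination e)) (by
      ext i j; fin_cases i <;> fin_cases j <;> simp [mul_apply, Fin.sum_univ_three])
    simpa using congrFun (congrFun this 0) 2

theorem HB.inv_rep (hG : HB p ρ) (ht : IsInv t) : (2 : K) ≠ 0 ∧ ∃ P, R1 P ∧ Rep ρ t (hm (-1) P) := by
  rcases hG.types ht.2 with h | ⟨g, d, hd, h⟩ | ⟨h2, g, h⟩
  · exact h.2
  · exfalso
    have e := (h.mul h).of_eq_one ht.1
    have a := mul_self_eq_mul_self_iff.1 (e 1 0)
    have b := mul_self_eq_mul_self_iff.1 (e 2 0)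
    exact hd.ne (show (1 : Fin 3) ≠ 2 by decide) ((a.resolve_left (hd.ne (by decide))).trans
      (b.resolve_left (hd.ne (by decide))).symm)
  · obtain ⟨c, -, e⟩ := (h.mul h).of_eq_one ht.1
    have := congrFun (congrFun e 0) 2
    simp [Jb, mul_apply, Fin.sum_univ_three] at this

/-- the standard involution -/
abbrev T0 (ρ : G →* PGL(3, K)) (t : G) : Prop := Dg ρ t ![1, -1, -1]

theorem HB.inv_frame (hG : HB p ρ) (ht : IsInv t) : ∃ g, T0 (M3.cjr ρ g) t := by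
  obtain ⟨-, P, h1, h⟩ := hG.inv_rep ht
  obtain ⟨g, e⟩ := frame1 h1
  refine ⟨g, (h.smul (neg_ne_zero.2 one_ne_zero)).cjr ?_⟩
  rw [hm, smul_mul_assoc, add_mul, smul_mul_assoc, e, one_mul]
  ext i j; fin_cases j <;> simp [mul_apply, Fin.sum_univ_three]; ring

theorem HB.inv_frame2 (hG : HB p ρ) (ht : IsInv t) {u : G} (hu : IsInv u) (hne : t ≠ u)
    (hc : t * u = u * t) : ∃ g, T0 (M3.cjr ρ g) t ∧ Dg (M3.cjr ρ g) u ![1, 1, -1] := by
  obtain ⟨h2, P, h1, h⟩ := hG.inv_rep ht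
  obtain ⟨-, Q, h1', h'⟩ := hG.inv_rep hu
  obtain ⟨c, hc⟩ := exists_bt (ρ := ρ) hc
  obtain rfl : c = 1 := by
    by_contra e
    have := hc.pow_three hG.inj e
    rw [pow_three, ht.1, mul_one] at this
    exact ht.2 this
  have e := hc _ _ h h'
  have e' : P * Q = Q * P := by
    have : ((2 : K) * 2) • (P * Q) = ((2 : K) * 2) • (Q * P) := by
      simp only [hm, mul_add, add_mul, smul_mul_assoc, mul_smul_comm, one_mul, mul_one] at e
      linear_combination (norm := module) e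
    exact smul_right_injective _ (mul_ne_zero h2 h2) this
  have e1 := h1.sandwich Q
  have e2 := h1'.sandwich P
  rw [mul_assoc, ← e', ← mul_assoc, h1.idem] at e1
  rw [← e', mul_assoc, h1'.idem, e'] at e2
  have o : Ort P Q := by
    by_cases h0 : (P * Q).trace = 0
    · rw [h0, zero_smul] at e1; exact ⟨e1, e' ▸ e1⟩
    · exfalso; apply hne
      rw [← e'] at e2
      have : P = Q := smul_right_injective _ h0 (e1.symm.trans e2)
      exact h.eq hG.inj (this ▸ h')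
  obtain ⟨g, a1, a2⟩ := frame2 h1 h1' o
  refine ⟨g, (h.smul (neg_ne_zero.2 one_ne_zero)).cjr ?_, h'.cjr ?_⟩
  · rw [hm, smul_mul_assoc, add_mul, smul_mul_assoc, a1, one_mul]
    ext i j; fin_cases j <;> simp [mul_apply, Fin.sum_univ_three]; ring
  · rw [hm, add_mul, smul_mul_assoc, a2, one_mul]
    ext i j; fin_cases j <;> simp [mul_apply, Fin.sum_univ_three]; ring

/-- upper triangular elements -/
def Up (ρ : G →* PGL(3, K)) (x : G) (d : Fin 3 → K) : Prop :=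
  ∃ a b c, Rep ρ x !![d 0, a, c; 0, d 1, b; 0, 0, d 2]

theorem Up.mul {d' : Fin 3 → K} (h : Up ρ x d) (h' : Up ρ y d') : Up ρ (x * y) (d * d') := by
  obtain ⟨a, b, c, h⟩ := h
  obtain ⟨a', b', c', h'⟩ := h'
  exact ⟨d 0 * a' + a * d' 1, d 1 * b' + b * d' 2, d 0 * c' + a * b' + c * d' 2, (h.mul h').congr (by
    ext i j; fin_cases i <;> fin_cases j <;> simp [mul_apply, Fin.sum_univ_three])⟩

theorem Up.ne (h : Up ρ x d) (i : Fin 3) : d i ≠ 0 := by
  obtain ⟨a, b, c, h⟩ := h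
  have := h.det_ne
  simp [det_fin_three] at this
  fin_cases i
  exacts [this.1.1, this.1.2, this.2]

theorem Up.inv (h : Up ρ x d) : Up ρ x⁻¹ d⁻¹ := by
  have h0 := h.ne 0; have h1 := h.ne 1; have h2 := h.ne 2
  obtain ⟨a, b, c, h⟩ := h
  exact ⟨-a / (d 0 * d 1), -b / (d 1 * d 2), (a * b - c * d 1) / (d 0 * d 1 * d 2),
    h.inv one_ne_zero (by
      ext i j; fin_cases i <;> fin_cases j <;> simp [mul_apply, Fin.sum_univ_three] <;> field_simp <;>
        ring)⟩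

theorem Up.one : Up ρ 1 1 := ⟨0, 0, 0, Rep.one.congr (by
  ext i j; fin_cases i <;> fin_cases j <;> simp)⟩

theorem Up.pow (h : Up ρ x d) (n : ℕ) : Up ρ (x ^ n) (d ^ n) := by
  induction n with
  | zero => rw [pow_zero, pow_zero]; exact Up.one
  | succ n ih => rw [pow_succ, pow_succ]; exact ih.mul h

theorem Up.smul (h : Up ρ x d) {c : K} (hc : c ≠ 0) : Up ρ x (c • d) := by
  obtain ⟨a, b, c', h⟩ := h
  exact ⟨c * a, c * b, c * c', (h.smul hc).congr (by
    ext i j; fin_cases i <;> fin_cases j <;> simp)⟩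

theorem Up.uniq {d' : Fin 3 → K} (h : Up ρ x d) (h' : Up ρ x d') : ∃ c, c ≠ 0 ∧ ∀ i, d' i = c * d i := by
  obtain ⟨a, b, c, h⟩ := h
  obtain ⟨a', b', c', h'⟩ := h'
  obtain ⟨c, hc, e⟩ := h.uniq h'
  exact ⟨c, hc, fun i => by have := congrFun (congrFun e i) i; fin_cases i <;> simpa using this⟩

theorem Up.congr {d' : Fin 3 → K} (h : Up ρ x d) (e : ∀ i, d i = d' i) : Up ρ x d' := funext e ▸ h

theorem up_of {A : Mt K} (h : Rep ρ x A) (h1 : A 1 0 = 0) (h2 : A 2 0 = 0) (h3 : A 2 1 = 0) :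
    Up ρ x (fun i => A i i) := ⟨A 0 1, A 1 2, A 0 2, h.congr (by
      ext i j; fin_cases i <;> fin_cases j <;> simp [h1, h2, h3])⟩

theorem up_Jb (h : Rep ρ x Jb) : Up ρ x 1 := ⟨1, 1, 0, h⟩

theorem NE.up_comm (hG : NE ρ) (h : Up ρ x 1) (h' : Up ρ y 1) : x * y = y * x := by
  obtain ⟨a, b, c, h⟩ := h
  obtain ⟨a', b', c', h'⟩ := h'
  have h1 := (h.mul h').mul ((h'.mul h).inv (B := !![1, -(a + a'), (a + a') * (b + b') - (c + c' + a' * b);
    0, 1, -(b + b'); 0, 0, 1]) one_ne_zero (by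
      ext i j; fin_cases i <;> fin_cases j <;> simp [mul_apply, Fin.sum_univ_three] <;> ring))
  have h2 := h1.congr (B := 1 + !![0, 0, a * b' - a' * b; 0, 0, 0; 0, 0, 0]) (by
    ext i j; fin_cases i <;> fin_cases j <;> simp [mul_apply, Fin.sum_univ_three] <;> ring)
  have := hG.noE _ _ h2 (by
    ext i j; fin_cases i <;> fin_cases j <;> simp [mul_apply, Fin.sum_univ_three])
  rw [this, add_zero] at h2
  exact mul_inv_eq_one.1 (h2.eq hG.inj Rep.one)

theorem NE.up_ne (hG : NE ρ) {a b c : K} (h : Rep ρ x !![1, a, c; 0, 1, b; 0, 0, 1]) (hx : x ≠ 1) :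
    a ≠ 0 ∧ b ≠ 0 := by
  by_contra hh
  have h2 := h.congr (B := 1 + !![0, a, c; 0, 0, b; 0, 0, 0]) (by
    ext i j; fin_cases i <;> fin_cases j <;> simp)
  have := hG.noE _ _ h2 (by
    ext i j; fin_cases i <;> fin_cases j <;> simp [mul_apply, Fin.sum_univ_three]; tauto)
  rw [this, add_zero] at h2
  exact hx (h2.eq hG.inj Rep.one)

theorem NE.mem_cen_up (hG : NE ρ) (h : Up ρ x 1) (hx : x ≠ 1) : y ∈ Cen x ↔ Up ρ y 1 := by
  refine ⟨fun hy => ?_, fun hy => mem_Cen.2 (hG.up_comm h hy)⟩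
  obtain ⟨a, b, c, h⟩ := h
  obtain ⟨ha, hb⟩ := hG.up_ne h hx
  obtain ⟨e, he⟩ := exists_bt (ρ := ρ) (mem_Cen.1 hy)
  obtain rfl : e = 1 := by
    by_contra h1
    have := (he.trace h1 h).1
    simp [trace_fin_three] at this
    exact he.three_ne h1 (by linear_combination this)
  obtain ⟨B, hB⟩ := exists_rep ρ y
  have e := he _ _ h hB
  have f := fun i j => congrFun (congrFun e i) j
  have f1 := f 0 0; have f2 := f 0 1; have f3 := f 1 0; have f4 := f 1 1; have f5 := f 1 2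
  have f6 := f 2 2
  simp [mul_apply, Fin.sum_univ_three, ha, hb] at f1 f2 f3 f4 f5 f6
  have g1 : B 1 0 = 0 := by rw [f3] at f1; simpa [ha] using f1
  have g2 : B 2 1 = 0 := by rw [f3] at f6; simpa [hb] using f6
  have g3 : B 1 1 = B 0 0 := mul_left_cancel₀ ha (by rw [g2] at f2; linear_combination f2)
  have g4 : B 2 2 = B 1 1 := mul_left_cancel₀ hb (by rw [g1] at f5; linear_combination f5)
  have h3 := up_of hB g1 f3 g2
  exact (h3.smul (inv_ne_zero (h3.ne 0))).congr fun i => by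
    have := h3.ne 0
    fin_cases i <;> simp [g3, g4, this]

theorem up_pow_char (h2 : (2 : K) ≠ 0) (hρ : Function.Injective ρ) (h : Up ρ x 1) : x ^ p = 1 := by
  obtain ⟨a, b, c, h⟩ := h
  have hp : ∀ n : ℕ, (!![1, a, c; 0, 1, b; 0, 0, 1] : Mt K) ^ n =
      !![1, n * a, n * c + n * (n - 1) / 2 * a * b; 0, 1, n * b; 0, 0, 1] := fun n => by
    induction n with
    | zero => ext i j; fin_cases i <;> fin_cases j <;> simp
    | succ n ih =>
      rw [pow_succ, ih]; ext i j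
      fin_cases i <;> fin_cases j <;> simp [mul_apply, Fin.sum_univ_three] <;> field_simp <;> ring
  refine ((h.pow p).congr ((hp p).trans ?_)).eq hρ Rep.one
  ext i j; fin_cases i <;> fin_cases j <;> simp

/-- unipotent -/
def Un (p : ℕ) (x : G) : Prop := x ≠ 1 ∧ x ^ p = 1

theorem HB.un_frame (hG : HB p ρ) (hx : Un p x) : (2 : K) ≠ 0 ∧ ∃ g, Rep (M3.cjr ρ g) x Jb := by
  rcases hG.types hx.1 with ⟨h, h2, -⟩ | ⟨g, d, hd, h⟩ | h
  · exfalso
    have := orderOf_dvd_of_pow_eq_one hx.2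
    rw [h.orderOf, Nat.prime_dvd_prime_iff_eq Nat.prime_two Fact.out] at this
    subst this
    exact h2 (by exact_mod_cast CharP.cast_eq_zero K 2)
  · exfalso
    have := (h.pow p).of_eq_one hx.2 0 1
    simp only [Pi.pow_apply] at this
    exact hd.ne (show (0 : Fin 3) ≠ 1 by decide) (frobenius_inj K p this)
  · exact h

theorem HB.un_cen (hG : HB p ρ) (hx : Un p x) (hy : y ∈ Cen x) : y ^ p = 1 := by
  obtain ⟨h2, g, h⟩ := hG.un_frame hx
  exact up_pow_char h2 (hG.cjr g).inj (((hG.cjr g).mem_cen_up (up_Jb h) hx.1).1 hy)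

theorem HB.un_cc (hG : HB p ρ) (hx : Un p x) : CC x := by
  obtain ⟨h2, g, h⟩ := hG.un_frame hx
  refine ⟨hx.1, fun y hy h1 => Subgroup.ext fun z => ?_⟩
  rw [(hG.cjr g).mem_cen_up (up_Jb h) hx.1,
    (hG.cjr g).mem_cen_up (((hG.cjr g).mem_cen_up (up_Jb h) hx.1).1 hy) h1]

/-- centralises no involution -/
def NI (x : G) : Prop := ∀ r, IsInv r → r ∉ Cen x

theorem HB.un_ni (hG : HB p ρ) (hx : Un p x) : NI x := fun r hr h => by
  obtain ⟨h2, -⟩ := hG.inv_rep hr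
  have := orderOf_dvd_of_pow_eq_one (hG.un_cen hx h)
  rw [hr.orderOf, Nat.prime_dvd_prime_iff_eq Nat.prime_two Fact.out] at this
  subst this
  exact h2 (by exact_mod_cast CharP.cast_eq_zero K 2)

theorem HB.reg_frame (hG : HB p ρ) (hx : x * x ≠ 1) (hu : ¬ Un p x) :
    ∃ g d, Function.Injective d ∧ Dg (M3.cjr ρ g) x d := by
  have h1 : x ≠ 1 := fun e => hx (by rw [e, one_mul])
  rcases hG.types h1 with ⟨h, -⟩ | h | ⟨h2, g, h⟩
  · exact absurd h.1 hx
  · exact h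
  · exact absurd ⟨h1, up_pow_char h2 (hG.cjr g).inj (up_Jb h)⟩ hu

end types

end Cfsg.Agent.H8.M3
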