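import Cfsg.Agent.H8.M3G

/-! Normalisers of unipotent classes; special elements. -/

set_option autoImplicit false
set_option linter.unusedSectionVars false

namespace Cfsg.Agent.H8.M3
open Matrix Equiv Subgroup
open scoped MatrixGroups

universe u
variable {K : Type*} [Field K] {G : Type u} [Group G]
variable {ρ : G →* PGL(3, K)} {x y z s t n r : G} {p : ℕ} {d : Fin 3 → K} {σ τ : Perm (Fin 3)}
variable [Finite G] [IsAlgClosed K] [Fact p.Prime] [CharP K p]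

theorem fpf_cases : ∀ σ : Perm (Fin 3), (∀ i, σ i ≠ i) →
    (σ⁻¹ 0 = 1 ∧ σ⁻¹ 1 = 2 ∧ σ⁻¹ 2 = 0) ∨ (σ⁻¹ 0 = 2 ∧ σ⁻¹ 1 = 0 ∧ σ⁻¹ 2 = 1) := by decide

theorem inv_cases : ∀ τ : Perm (Fin 3), τ ≠ 1 → τ * τ = 1 → (τ⁻¹ 0 = 0 ∧ τ⁻¹ 1 = 2 ∧ τ⁻¹ 2 = 1) ∨
    (τ⁻¹ 0 = 2 ∧ τ⁻¹ 1 = 1 ∧ τ⁻¹ 2 = 0) ∨ (τ⁻¹ 0 = 1 ∧ τ⁻¹ 1 = 0 ∧ τ⁻¹ 2 = 2) := by decide

theorem fpf_gen : ∀ σ τ : Perm (Fin 3), (∀ i, σ i ≠ i) → (∀ i, τ i ≠ i) → τ * σ = 1 ∨ τ * σ ^ 2 = 1 := by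
  decide

theorem fpf_of_cube : ∀ σ : Perm (Fin 3), σ ≠ 1 → σ ^ 3 = 1 → ∀ i, σ i ≠ i := by decide

theorem Dg.up (h : Dg ρ x d) : Up ρ x d := ⟨0, 0, 0, Rep.congr h (by
  ext i j; fin_cases i <;> fin_cases j <;> simp)⟩

theorem NE.up_ratio (hG : NE ρ) {a b c a' b' c' : K} (h : Rep ρ x !![1, a, c; 0, 1, b; 0, 0, 1])
    (h' : Rep ρ y !![1, a', c'; 0, 1, b'; 0, 0, 1]) : a * b' = a' * b := by
  have h1 := (h.mul h').mul ((h'.mul h).inv (B := !![1, -(a + a'), (a + a') * (b + b') - (c + c' + a' * b);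
    0, 1, -(b + b'); 0, 0, 1]) one_ne_zero (by
      ext i j; fin_cases i <;> fin_cases j <;> simp [mul_apply, Fin.sum_univ_three]; ring))
  have h2 := h1.congr (B := 1 + !![0, 0, a * b' - a' * b; 0, 0, 0; 0, 0, 0]) (by
    ext i j; fin_cases i <;> fin_cases j <;> simp [mul_apply, Fin.sum_univ_three] <;> ring)
  have := hG.noE _ _ h2 (by
    ext i j; fin_cases i <;> fin_cases j <;> simp [mul_apply, Fin.sum_univ_three])
  simpa [sub_eq_zero] using congrFun (congrFun this 0) 2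

theorem NE.up_cc (hG : NE ρ) (h : Up ρ x 1) (hx : x ≠ 1) : CC x :=
  ⟨hx, fun _ hy h1 => Subgroup.ext fun _ => by
    rw [hG.mem_cen_up h hx, hG.mem_cen_up ((hG.mem_cen_up h hx).1 hy) h1]⟩

theorem Up.conj (h : Up ρ x 1) (h' : Up ρ n d) : Up ρ (n * x * n⁻¹) 1 :=
  ((h'.mul h).mul h'.inv).congr fun i => by simp [h'.ne i]

theorem NE.mem_norm_up (hG : NE ρ) (h : Up ρ x 1) (hx : x ≠ 1) :
    n ∈ normalizer (Cen x : Set G) ↔ ∃ d, Up ρ n d := by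
  refine ⟨fun hn => ?_, fun ⟨d, hd⟩ => (hG.up_cc h hx).mem_normalizer (self_mem_Cen x) hx
    ((hG.mem_cen_up h hx).2 (h.conj hd))⟩
  obtain ⟨a', b', c', h'⟩ := (hG.mem_cen_up h hx).1 ((mem_normalizer_iff.1 hn x).1 (self_mem_Cen x))
  obtain ⟨ha', -⟩ := hG.up_ne h' (conj_ne_one hx)
  obtain ⟨a, b, c, h⟩ := h
  obtain ⟨ha, hb⟩ := hG.up_ne h hx
  obtain ⟨B, hB⟩ := exists_rep ρ n
  obtain ⟨e, -, he⟩ := hB.of_mul_eq h h' hB (by group)
  have f := fun i j => congrFun (congrFun he i) j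
  have f1 := f 2 0; have f2 := f 2 1; have f3 := f 2 2; have f4 := f 0 0
  simp [mul_apply, Fin.sum_univ_three, vecMul, dotProduct] at f1 f2 f3 f4
  obtain rfl : e = 1 := by
    by_contra h1
    have h1' := sub_ne_zero.2 h1
    have g1 : B 2 0 = 0 := (mul_eq_zero.1 (by linear_combination -f1)).resolve_left h1'
    have g2 : B 2 1 = 0 := (mul_eq_zero.1 (by rw [g1] at f2; linear_combination -f2)).resolve_left h1'
    have g3 : B 2 2 = 0 := (mul_eq_zero.1 (by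
      rw [g1, g2] at f3; linear_combination -f3)).resolve_left h1'
    exact hB.det_ne (by simp [det_fin_three, g1, g2, g3])
  have g1 : B 2 0 = 0 := (mul_eq_zero.1 (by linear_combination f2)).resolve_right ha
  have g2 : B 2 1 = 0 := (mul_eq_zero.1 (by rw [g1] at f3; linear_combination f3)).resolve_right hb
  have g3 : B 1 0 = 0 := (mul_eq_zero.1 (by rw [g1] at f4; linear_combination -f4)).resolve_left ha'
  exact ⟨_, up_of hB g3 g1 g2⟩

theorem NE.up_geo (hG : NE ρ) (h : Up ρ x 1) (hx : x ≠ 1) (h' : Up ρ n d) : d 0 * d 2 = d 1 * d 1 := by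
  have h0 := h'.ne 0; have h1 := h'.ne 1; have h2 := h'.ne 2
  obtain ⟨a, b, c, h⟩ := h
  obtain ⟨ha, hb⟩ := hG.up_ne h hx
  obtain ⟨a', b', c', h'⟩ := h'
  have := hG.up_ratio h (((h'.mul h).mul (h'.inv (B := !![(d 0)⁻¹, -a' / (d 0 * d 1),
    (a' * b' - c' * d 1) / (d 0 * d 1 * d 2); 0, (d 1)⁻¹, -b' / (d 1 * d 2); 0, 0, (d 2)⁻¹]) one_ne_zero (by
      ext i j; fin_cases i <;> fin_cases j <;> simp [mul_apply, Fin.sum_univ_three] <;> field_simp <;>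
        ring))).congr (B := !![1, d 0 * a / d 1, (d 0 * d 1 * c + a' * b * d 1 - a * b' * d 0) / (d 1 * d 2);
        0, 1, d 1 * b / d 2; 0, 0, 1]) (by
      ext i j; fin_cases i <;> fin_cases j <;> simp [mul_apply, Fin.sum_univ_three] <;> field_simp <;>
        ring))
  field_simp at this
  linear_combination -this

theorem Up.cjr {g : GL (Fin 3) K} {α β γ : K} (hg : (g : Mt K) = !![1, α, γ; 0, 1, β; 0, 0, 1])
    (h : Up ρ x d) : Up (M3.cjr ρ g) x d := by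
  obtain ⟨a, b, c, h⟩ := h
  exact ⟨d 0 * α + a - α * d 1, d 1 * β + b - β * d 2,
    d 0 * γ + a * β + c - α * (d 1 * β + b - β * d 2) - γ * d 2, h.cjr (by
      rw [hg]; ext i j; fin_cases i <;> fin_cases j <;> simp [mul_apply, Fin.sum_univ_three] <;> ring)⟩


theorem NE.up_gen (hG : NE ρ) (h : Up ρ x 1) (hx : x ≠ 1) : ∃ y l, Up ρ y ![l * l, l, 1] ∧
    orderOf l = nu x ∧ ∀ n d, Up ρ n d → ∃ j : ℕ, Up ρ (n * (y ^ j)⁻¹) 1 := by
  have hd : ∀ n : normalizer (Cen x : Set G), ∃ l : Kˣ, Up ρ n ![l * l, l, 1] := fun n => by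
    obtain ⟨d, hd⟩ := (hG.mem_norm_up h hx).1 n.2
    have := hG.up_geo h hx hd
    have h1 := hd.ne 1; have h2 := hd.ne 2
    refine ⟨Units.mk0 (d 1 / d 2) (div_ne_zero h1 h2), (hd.smul (inv_ne_zero h2)).congr fun i => ?_⟩
    fin_cases i <;> simp <;> field_simp
    linear_combination this
  have un : ∀ {n : G} {l l' : K}, Up ρ n ![l * l, l, 1] → Up ρ n ![l' * l', l', 1] → l = l' := by
    intro n l l' h h'
    obtain ⟨c, -, e⟩ := h.uniq h'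
    have e1 := e 1; have e2 := e 2
    simp at e1 e2
    rw [e1, ← e2, one_mul]
  choose f hf using hd
  let φ : normalizer (Cen x : Set G) →* Kˣ := MonoidHom.mk' f fun a b => Units.ext
    (un (hf (a * b)) (((hf a).mul (hf b)).congr fun i => by fin_cases i <;> simp; ring))
  have hk : φ.ker = (Cen x).subgroupOf _ := Subgroup.ext fun n => by
    rw [MonoidHom.mem_ker, mem_subgroupOf, hG.mem_cen_up h hx]
    exact ⟨fun e => (hf n).congr fun i => by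
      rw [show f n = 1 from e]; fin_cases i <;> simp, fun e => Units.ext (un (hf n)
        (e.congr fun i => by fin_cases i <;> simp))⟩
  have hc : Nat.card φ.range = nu x := by rw [← index_ker, hk]; rfl
  have : Finite φ.range := Finite.Set.finite_range _
  obtain ⟨⟨_, y, rfl⟩, hy⟩ := IsCyclic.exists_monoid_generator (α := φ.range)
  refine ⟨y, φ y, hf y, ?_, fun n d hn => ?_⟩
  · rw [← hc, orderOf_units, ← orderOf_eq_card_of_forall_mem_powers hy, ← orderOf_coe]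
  · obtain ⟨j, hj⟩ := hy ⟨_, ⟨n, (hG.mem_norm_up h hx).2 ⟨d, hn⟩⟩, rfl⟩
    refine ⟨j, (hG.mem_cen_up h hx).1 ?_⟩
    have : (⟨n, (hG.mem_norm_up h hx).2 ⟨d, hn⟩⟩ * (y ^ j)⁻¹ : normalizer (Cen x : Set G)) ∈ φ.ker := by
      rw [MonoidHom.mem_ker, map_mul, map_inv, map_pow, mul_inv_eq_one]
      exact (congrArg Subtype.val hj).symm
    rw [hk] at this
    exact this

theorem geo_inj {l : K} (h0 : l ≠ 0) (h : 3 ≤ orderOf l) : Function.Injective ![l * l, l, 1] := by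
  have h1 : l ≠ 1 := fun e => by rw [e, orderOf_one] at h; omega
  have h2 : l * l ≠ 1 := fun e => by
    have := orderOf_le_of_pow_eq_one two_pos (show l ^ 2 = 1 by rw [sq, e]); omega
  intro i j e
  fin_cases i <;> fin_cases j <;> simp_all [eq_comm]

theorem dg_up_one (hρ : Function.Injective ρ) (h : Dg ρ x d) (h' : Up ρ x 1) : x = 1 := by
  obtain ⟨c, -, e⟩ := h'.uniq h.up
  exact h.eq_one hρ (by rw [e, e]; rfl) (by rw [e, e]; rfl)

theorem HB.un_gen (hG : HB p ρ) (hx : Un p x) (h3 : 3 ≤ nu x) : ∃ g y l, Up (M3.cjr ρ g) x 1 ∧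
    Dg (M3.cjr ρ g) y ![l * l, l, 1] ∧ orderOf l = nu x ∧ orderOf y = nu x ∧
    Tor (M3.cjr ρ g) = zpowers y ∧ (∀ n d, Up (M3.cjr ρ g) n d → ∃ j : ℕ, n * (y ^ j)⁻¹ ∈ Cen x) ∧
    (4 ≤ nu x → Cen y = zpowers y) := by
  obtain ⟨h2, g, h⟩ := hG.un_frame hx
  obtain ⟨y, l, hy, hl, -⟩ := (hG.cjr g).up_gen (up_Jb h) hx.1
  have hl0 : l ≠ 0 := by simpa using hy.ne 1
  have hinj := geo_inj hl0 (hl ▸ h3)
  have n1 : l - l * l ≠ 0 := sub_ne_zero.2 (hinj.ne (show (1 : Fin 3) ≠ 0 by decide))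
  have n2 : 1 - l ≠ 0 := sub_ne_zero.2 (hinj.ne (show (2 : Fin 3) ≠ 1 by decide))
  have n3 : 1 - l * l ≠ 0 := sub_ne_zero.2 (hinj.ne (show (2 : Fin 3) ≠ 0 by decide))
  obtain ⟨a, b, c, hy⟩ := hy
  obtain ⟨α, hα⟩ : ∃ α, (l - l * l) * α = a := ⟨a / (l - l * l), mul_div_cancel₀ _ n1⟩
  obtain ⟨β, hβ⟩ : ∃ β, (1 - l) * β = b := ⟨b / (1 - l), mul_div_cancel₀ _ n2⟩
  obtain ⟨γ, hγ⟩ : ∃ γ, (1 - l * l) * γ = a * β + c := ⟨_ / (1 - l * l), mul_div_cancel₀ _ n3⟩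
  let g' : GL (Fin 3) K := GeneralLinearGroup.mkOfDetNeZero
    !![1, α, γ; 0, 1, β; 0, 0, 1] (by simp [det_fin_three])
  have hy' : Dg (M3.cjr ρ (g * g')) y ![l * l, l, 1] := by
    rw [← cjr_cjr]
    refine hy.cjr ?_
    change _ * !![_, _, _; _, _, _; _, _, _] = !![_, _, _; _, _, _; _, _, _] * _
    ext i j; fin_cases i <;> fin_cases j <;> simp [mul_apply, Fin.sum_univ_three]
    · linear_combination -hα
    · linear_combination -hγ
    · linear_combination -hβ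
  have hx' : Up (M3.cjr ρ (g * g')) x 1 := by rw [← cjr_cjr]; exact (up_Jb h).cjr rfl
  have hG' := hG.cjr (g * g')
  generalize g * g' = k at *
  obtain ⟨y', l', hy2, hl', hgen⟩ := hG'.up_gen hx' hx.1
  have hgen' : ∀ n d, Up (M3.cjr ρ k) n d → ∃ j : ℕ, Up (M3.cjr ρ k) (n * (y ^ j)⁻¹) 1 := by
    intro n d hn
    obtain ⟨j, hj⟩ := hgen n d hn
    obtain ⟨i, hi⟩ := hgen y _ hy'.up
    have e1 : l = l' ^ i := by
      obtain ⟨c, -, e⟩ := hi.uniq (hy'.up.mul (hy2.pow i).inv)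
      have e1 := e 1; have e2 := e 2
      simp at e1 e2
      rw [← e2, mul_inv_eq_one₀ (pow_ne_zero _ (by simpa using hy2.ne 1))] at e1
      exact e1
    have hf : IsOfFinOrder l' := orderOf_pos_iff.1 (by omega)
    have : l' ∈ Submonoid.powers l := by
      have hc : i.Coprime (orderOf l') := by
        have := hf.orderOf_pow _ i
        rw [← e1, hl, hl'] at this
        rw [hl', Nat.coprime_comm]
        exact (Nat.div_eq_self.1 this.symm).resolve_left (by omega)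
      obtain ⟨m, hm⟩ := exists_pow_eq_self_of_coprime hc
      exact ⟨m, by rw [e1]; exact hm⟩
    obtain ⟨m, hm⟩ := this
    refine ⟨m * j, ?_⟩
    have := hj.mul ((hy2.pow j).mul (hy'.up.pow (m * j)).inv)
    rw [show n * (y' ^ j)⁻¹ * (y' ^ j * (y ^ (m * j))⁻¹) = n * (y ^ (m * j))⁻¹ by group] at this
    refine this.congr fun i => ?_
    simp only at hm
    subst hm
    fin_cases i <;> simp [mul_pow, ← pow_mul, hl0]
    field_simp
  have hT : Tor (M3.cjr ρ k) = zpowers y := by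
    refine le_antisymm (fun z ⟨d, hz⟩ => ?_) (zpowers_le.2 hy'.mem)
    obtain ⟨j, hj⟩ := hgen' z d hz.up
    rw [mul_inv_eq_one.1 (dg_up_one hG'.inj (hz.mul (hy'.pow j).inv) hj)]
    exact pow_mem (mem_zpowers y) j
  refine ⟨k, y, l, hx', hy', hl, ?_, hT, fun n d hn => ?_, fun h4 => ?_⟩
  · rw [← hl, orderOf_eq_orderOf_iff]
    exact fun j => ⟨fun e => by simpa using (hy'.pow j).of_eq_one e 1 2, fun e =>
      (hy'.pow j).eq_one hG'.inj (by simp [mul_pow, e]) (by simp [mul_pow, e])⟩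
  · obtain ⟨j, hj⟩ := hgen' n d hn
    exact ⟨j, (hG'.mem_cen_up hx' hx.1).2 hj⟩
  · refine le_antisymm (fun z hz => ?_) (zpowers_le.2 (self_mem_Cen y))
    rcases hy'.cen hinj hz with h | ⟨σ, c, -, h1, h2⟩
    · exact hT ▸ h
    exfalso
    have : l ^ 3 = 1 := by
      have a := h2 0; have b := h2 1; have c := h2 2
      rcases fpf_cases σ h1 with ⟨e1, e2, e3⟩ | ⟨e1, e2, e3⟩ <;> rw [e1] at a <;> rw [e2] at b <;> rw [e3] at c <;>
        simp at a b c <;> grind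
    have := orderOf_le_of_pow_eq_one three_pos this
    omega

/-- special elements -/
def Sp (ρ : G →* PGL(3, K)) (x : G) : Prop := ∃ y c, c ≠ 1 ∧ Bt ρ x y c

theorem sp_cjr {g : GL (Fin 3) K} : Sp (cjr ρ g) x ↔ Sp ρ x :=
  ⟨fun ⟨y, c, h, h'⟩ => ⟨y, c, h, h'.of_cjr⟩, fun ⟨y, c, h, h'⟩ => ⟨y, c, h, h'.cjr g⟩⟩

theorem Sp.conj (h : Sp ρ x) (g : G) : Sp ρ (g * x * g⁻¹) :=
  let ⟨_, c, h, h'⟩ := h; ⟨_, c, h, h'.conj g⟩

theorem NI.conj (h : NI x) (g : G) : NI (g * x * g⁻¹) := fun r hr h' =>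
  h _ (by simpa using hr.conj g⁻¹) ((mem_Cen_conj g).1 h')

theorem Un.conj (h : Un p x) (g : G) : Un p (g * x * g⁻¹) :=
  ⟨conj_ne_one h.1, by rw [conj_pow, h.2]; group⟩

variable {c ω : K}

theorem Bt.ne_one (h : Bt ρ z s c) (hc : c ≠ 1) : z ≠ 1 := by
  rintro rfl
  exact hc (h.uniq (by simpa using (Bt.one (ρ := ρ) (x := s)).symm))

theorem sq_ne_of_cube (h : z ^ 3 = 1) (h1 : z ≠ 1) : z * z ≠ 1 := fun e =>
  h1 (by rwa [pow_three, e, mul_one] at h)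

theorem Sp.not_un (hρ : Function.Injective ρ) (h : Sp ρ z) : ¬ Un p z := fun hu => by
  obtain ⟨s, c, hc, h⟩ := h
  have := orderOf_dvd_of_pow_eq_one hu.2
  rw [orderOf_eq_prime (h.pow_three hρ hc) hu.1, Nat.prime_dvd_prime_iff_eq Nat.prime_three
    Fact.out] at this
  subst this
  exact h.three_ne hc (by exact_mod_cast CharP.cast_eq_zero K 3)

theorem Dg.sp_norm (h : Dg ρ z d) (hd : Function.Injective d) (h3 : z ^ 3 = 1) :
    ∃ ω, ω ^ 2 + ω + 1 = 0 ∧ Dg ρ z ![1, ω, ω ^ 2] := by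
  have e := (h.pow 3).of_eq_one h3
  have e1 := e 1 0; have e2 := e 2 0
  have n0 := h.ne 0
  have n1 := hd.ne (show (1 : Fin 3) ≠ 0 by decide)
  have n2 := hd.ne (show (2 : Fin 3) ≠ 0 by decide)
  have n3 := hd.ne (show (1 : Fin 3) ≠ 2 by decide)
  simp only [Pi.pow_apply] at e1 e2
  have a1 : d 1 ^ 2 + d 1 * d 0 + d 0 ^ 2 = 0 :=
    (mul_eq_zero.1 (by linear_combination e1)).resolve_left (sub_ne_zero.2 n1)
  have a2 : d 2 ^ 2 + d 2 * d 0 + d 0 ^ 2 = 0 :=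
    (mul_eq_zero.1 (by linear_combination e2)).resolve_left (sub_ne_zero.2 n2)
  have a3 : d 1 + d 2 + d 0 = 0 :=
    (mul_eq_zero.1 (by linear_combination a1 - a2)).resolve_left (sub_ne_zero.2 n3)
  refine ⟨d 1 / d 0, by field_simp; linear_combination a1, h.normalize.congr fun i => ?_⟩
  fin_cases i <;> simp
  field_simp; linear_combination d 0 * a3 - a1

theorem HB.sp_frame (hG : HB p ρ) (h : Sp ρ z) :
    ∃ g ω, ω ^ 2 + ω + 1 = 0 ∧ (3 : K) ≠ 0 ∧ Dg (M3.cjr ρ g) z ![1, ω, ω ^ 2] := by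
  have hu := h.not_un (p := p) hG.inj
  obtain ⟨s, c, hc, h⟩ := h
  have h3 := h.pow_three hG.inj hc
  obtain ⟨g, d, hd, h'⟩ := hG.reg_frame (sq_ne_of_cube h3 (h.ne_one hc)) hu
  obtain ⟨ω, h1, h2⟩ := h'.sp_norm hd h3
  exact ⟨g, ω, h1, h.three_ne hc, h2⟩

theorem om_inj (h : ω ^ 2 + ω + 1 = 0) (h3 : (3 : K) ≠ 0) : Function.Injective ![1, ω, ω ^ 2] := by
  have h1 : ω ≠ 1 := fun e => h3 (by rw [e] at h; linear_combination h)
  have h2 : ω ^ 2 ≠ 1 := fun e => h3 (by linear_combination (2 - ω) * h + (ω - 1) * e)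
  have h4 : ω ^ 2 ≠ ω := fun e => h3 (by linear_combination (3 - 2 * ω) * h + (2 * ω + 1) * e)
  intro i j e
  fin_cases i <;> fin_cases j <;> simp_all [eq_comm]

theorem Bt.mo (hρ : Function.Injective ρ) (h : Bt ρ z s c) (hc : c ≠ 1) (hz : Dg ρ z d)
    (hd : Function.Injective d) : ∃ σ, Mo ρ s σ ∧ ∀ i, σ i ≠ i := by
  rcases hz.cen hd (mem_Cen.2 (h.comm hρ)) with ⟨d', h'⟩ | ⟨σ, -, h1, h2, -⟩
  · exact absurd (h.uniq (hz.bt h')) hc
  · exact ⟨σ, h1, h2⟩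

theorem HB.tor_cube (hG : HB p ρ) (hω : ω ^ 2 + ω + 1 = 0) (hz : Dg ρ z ![1, ω, ω ^ 2])
    (h : Dg ρ x d) (e1 : d 1 ^ 3 = d 0 ^ 3) (e2 : d 2 ^ 3 = d 0 ^ 3) : ∃ i : ℕ, x = z ^ i := by
  have h3 : x ^ 3 = 1 := (h.pow 3).eq_one hG.inj e1 e2
  by_cases h1 : x = 1
  · exact ⟨0, by rw [h1, pow_zero]⟩
  obtain ⟨b, hb, h'⟩ := h.sp_norm (hG.dg_inj h (sq_ne_of_cube h3 h1)) h3
  have : (b - ω) * (b - ω ^ 2) = 0 := by linear_combination hb - b * hω + (ω - 1) * hω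
  rcases mul_eq_zero.1 this with e | e <;> rw [sub_eq_zero] at e <;> subst e
  · exact ⟨1, by rw [pow_one]; exact h'.eq hG.inj hz 1 (by simp)⟩
  · exact ⟨2, h'.eq hG.inj (hz.pow 2) 1 fun i => by fin_cases i <;> simp⟩

theorem cube_of_comm (hs : Mo ρ s σ) (hσ : ∀ i, σ i ≠ i) (h : Dg ρ x d) (hx : x ∈ Cen s) :
    d 1 ^ 3 = d 0 ^ 3 ∧ d 2 ^ 3 = d 0 ^ 3 := by
  have e : s * x * s⁻¹ = x := by rw [mem_Cen.1 hx]; group
  obtain ⟨c, -, hc⟩ := h.uniq (e ▸ hs.conj h)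
  have a := hc 0; have b := hc 1; have c := hc 2
  have n0 := h.ne 0
  rcases fpf_cases σ hσ with ⟨e1, e2, e3⟩ | ⟨e1, e2, e3⟩ <;> rw [e1] at a <;> rw [e2] at b <;>
    rw [e3] at c <;> constructor <;> grind

theorem cen_sp (hz : Dg ρ z d) (hd : Function.Injective d) (hs : Mo ρ s σ) (hσ : ∀ i, σ i ≠ i)
    (hy : y ∈ Cen z) : ∃ j : ℕ, y * s ^ j ∈ Tor ρ := by
  rcases hz.cen hd hy with h | ⟨τ, -, h1, h2, -⟩
  · exact ⟨0, by rwa [pow_zero, mul_one]⟩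
  · rcases fpf_gen σ τ hσ h2 with e | e
    · exact ⟨1, by rw [pow_one]; exact (h1.mul hs).mem_Tor_iff.2 e⟩
    · exact ⟨2, (h1.mul (hs.pow 2)).mem_Tor_iff.2 e⟩

/-- the group of order nine -/
abbrev RR (z s : G) : Subgroup G := Cen z ⊓ Cen s

theorem Bt.symm_ne (hc : c ≠ 1) : c⁻¹ ≠ 1 := fun e => hc (inv_eq_one.1 e)

theorem Bt.mem_rr (hρ : Function.Injective ρ) (h : Bt ρ z s c) (i j : ℕ) : z ^ i * s ^ j ∈ RR z s :=
  mul_mem (pow_mem (mem_inf.2 ⟨self_mem_Cen z, mem_Cen.2 (h.comm hρ).symm⟩) i)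
    (pow_mem (mem_inf.2 ⟨mem_Cen.2 (h.comm hρ), self_mem_Cen s⟩) j)

theorem HB.rr_cases (hG : HB p ρ) (h : Bt ρ z s c) (hc : c ≠ 1) (hr : r ∈ RR z s) :
    ∃ i j : Fin 3, r = z ^ i.val * s ^ j.val := by
  obtain ⟨g, ω, hω, h3, hz⟩ := hG.sp_frame ⟨s, c, hc, h⟩
  obtain ⟨σ, hs, hσ⟩ := (h.cjr g).mo (hG.cjr g).inj hc hz (om_inj hω h3)
  obtain ⟨j, d, hd⟩ := cen_sp hz (om_inj hω h3) hs hσ hr.1
  obtain ⟨e1, e2⟩ := cube_of_comm hs hσ hd (mul_mem hr.2 (pow_mem (self_mem_Cen s) j))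
  obtain ⟨i, hi⟩ := (hG.cjr g).tor_cube hω hz hd e1 e2
  have z3 := h.pow_three hG.inj hc
  have s3 := h.symm.pow_three hG.inj (Bt.symm_ne hc)
  refine ⟨⟨i % 3, Nat.mod_lt _ three_pos⟩, ⟨2 * j % 3, Nat.mod_lt _ three_pos⟩, ?_⟩
  rw [← pow_eq_pow_mod _ z3, ← pow_eq_pow_mod _ s3, ← hi, mul_assoc, ← pow_add,
    show j + 2 * j = 3 * j by ring, pow_mul, s3, one_pow, mul_one]

theorem Bt.rr (h : Bt ρ z s c) (i j : ℕ) :
    Bt ρ z (z ^ i * s ^ j) (c ^ j) ∧ Bt ρ (z ^ i * s ^ j) s (c ^ i) :=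
  ⟨by simpa using (Bt.self.pow i).mul (h.pow j), by simpa using (h.pow_left i).mul_left (Bt.self.pow_left j)⟩

theorem Bt.pow_inj (h : Bt ρ z s c) (hc : c ≠ 1) {i j : Fin 3} (e : c ^ i.val = c ^ j.val) : i = j :=
  Fin.ext (pow_injOn_Iio_orderOf (by rw [orderOf_eq_prime h.cube hc]; exact i.2)
    (by rw [orderOf_eq_prime h.cube hc]; exact j.2) e)

theorem HB.card_rr (hG : HB p ρ) (h : Bt ρ z s c) (hc : c ≠ 1) : Nat.card (RR z s) = 9 := by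
  rw [← Nat.card_eq_of_bijective (fun x : Fin 3 × Fin 3 =>
    (⟨z ^ x.1.val * s ^ x.2.val, h.mem_rr hG.inj _ _⟩ : RR z s))]
  · simp
  refine ⟨fun x y e => ?_, fun ⟨r, hr⟩ => ?_⟩
  · have e' := congrArg Subtype.val e
    simp only at e'
    have a := h.rr y.1 y.2
    rw [← e'] at a
    exact Prod.ext (h.pow_inj hc ((h.rr _ _).2.uniq a.2)) (h.pow_inj hc ((h.rr _ _).1.uniq a.1))
  · obtain ⟨i, j, rfl⟩ := hG.rr_cases h hc hr
    exact ⟨(i, j), rfl⟩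

theorem HB.rr_comm (hG : HB p ρ) (h : Bt ρ z s c) (hc : c ≠ 1) (hr : r ∈ RR z s) (hx : x ∈ RR z s) :
    r * x = x * r := by
  obtain ⟨i, j, rfl⟩ := hG.rr_cases h hc hr
  exact (mem_Cen.1 (mul_mem (pow_mem (mem_Cen_comm.1 hx.1) _) (pow_mem (mem_Cen_comm.1 hx.2) _))).symm

theorem HB.rr_cube (hG : HB p ρ) (h : Bt ρ z s c) (hc : c ≠ 1) (hr : r ∈ RR z s) : r ^ 3 = 1 := by
  obtain ⟨i, j, rfl⟩ := hG.rr_cases h hc hr
  rw [(Commute.pow_pow (h.comm hG.inj) _ _).mul_pow, ← pow_mul, ← pow_mul, mul_comm _ 3, mul_comm _ 3,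
    pow_mul, pow_mul, h.pow_three hG.inj hc, h.symm.pow_three hG.inj (Bt.symm_ne hc)]
  simp

theorem HB.rr_sym (hG : HB p ρ) (h : Bt ρ z s c) (hc : c ≠ 1) (hr : r ∈ RR z s) (h1 : r ≠ 1) :
    ∃ r' c', c' ≠ 1 ∧ Bt ρ r r' c' ∧ RR r r' = RR z s := by
  obtain ⟨r', c', hr', hc', hb⟩ : ∃ r' c', r' ∈ RR z s ∧ c' ≠ 1 ∧ Bt ρ r r' c' := by
    obtain ⟨i, j, rfl⟩ := hG.rr_cases h hc hr
    by_cases hi : i = 0
    · refine ⟨z, _, by simpa using h.mem_rr hG.inj 1 0, Bt.symm_ne fun e => h1 ?_, (h.rr _ _).1.symm⟩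
      rw [hi, h.pow_inj hc (i := j) (j := 0) (by simpa using e)]; simp
    · exact ⟨s, _, by simpa using h.mem_rr hG.inj 0 1, fun e => hi (h.pow_inj hc (j := 0)
        (by simpa using e)), (h.rr _ _).2⟩
  refine ⟨r', c', hc', hb, (eq_of_le_of_card_ge (fun x hx => mem_inf.2
    ⟨mem_Cen.2 (hG.rr_comm h hc hr hx), mem_Cen.2 (hG.rr_comm h hc hr' hx)⟩) ?_).symm⟩
  rw [hG.card_rr h hc, hG.card_rr hb hc']

theorem HB.rr_semi (hG : HB p ρ) (h : Bt ρ z s c) (hc : c ≠ 1) (hn : n ∈ normalizer (RR z s : Set G))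
    (hr : r ∈ RR z s) (h1 : r ≠ 1) (e : n * r * n⁻¹ = r) : n ∈ RR z s := by
  obtain ⟨s, c, hc, h, e'⟩ := hG.rr_sym h hc hr h1
  rw [← e'] at hn ⊢
  clear e' hr
  obtain ⟨g, ω, hω, h3, hz⟩ := hG.sp_frame ⟨s, c, hc, h⟩
  obtain ⟨σ, hs, hσ⟩ := (h.cjr g).mo (hG.cjr g).inj hc hz (om_inj hω h3)
  have hsR : s ∈ RR r s := by simpa using h.mem_rr hG.inj 0 1
  obtain ⟨j, d, hd⟩ := cen_sp hz (om_inj hω h3) hs hσ (y := n)
    (mem_Cen.2 (mul_inv_eq_iff_eq_mul.1 e).symm)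
  have hm : n * s ^ j ∈ normalizer (RR r s : Set G) := mul_mem hn (le_normalizer (pow_mem hsR j))
  rw [← mul_mem_cancel_right (pow_mem hsR j)]
  generalize n * s ^ j = m at hd hm
  have h2 : m * (s * m⁻¹ * s⁻¹) ∈ RR r s := by
    have := mul_mem ((mem_normalizer_iff.1 hm s).1 hsR) (inv_mem hsR)
    simpa [mul_assoc] using this
  obtain ⟨e1, e2⟩ := cube_of_comm hs hσ (hd.mul (hs.conj hd.inv)) h2.2
  have n0 := hd.ne 0; have n1 := hd.ne 1; have n2 := hd.ne 2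
  obtain ⟨k, hk⟩ := (hG.cjr g).tor_cube hω hz (hd.mul (hs.conj hd.inv)) e1 e2
  obtain ⟨κ, -, hκ⟩ := (hz.pow k).uniq (hk ▸ hd.mul (hs.conj hd.inv))
  have w3 : (ω ^ k) ^ 3 = 1 := by
    rw [← pow_mul, mul_comm, pow_mul, show ω ^ 3 = 1 by linear_combination (ω - 1) * hω, one_pow]
  have b0 := hκ 0; have b1 := hκ 1; have b2 := hκ 2
  have key : d 1 ^ 3 = d 0 ^ 3 ∧ d 2 ^ 3 = d 0 ^ 3 := by
    simp [-Perm.coe_inv] at b0 b1 b2
    rw [← pow_mul, mul_comm 2 k, pow_mul] at b2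
    generalize ω ^ k = v at *
    rw [mul_inv_eq_iff_eq_mul₀ (hd.ne _)] at b0 b1 b2
    rcases fpf_cases σ hσ with ⟨a1, a2, a3⟩ | ⟨a1, a2, a3⟩ <;> rw [a1] at b0 <;> rw [a2] at b1 <;>
      rw [a3] at b2
    · have k3 : κ ^ 3 = 1 := mul_right_cancel₀ n0 (by
        linear_combination -b0 - κ * b1 - κ ^ 2 * v * b2 - κ ^ 3 * d 0 * w3)
      exact ⟨by rw [b0, mul_pow, k3, one_mul], by
        rw [b2]; linear_combination d 0 ^ 3 * v ^ 6 * k3 + d 0 ^ 3 * (v ^ 3 + 1) * w3⟩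
    · have k3 : κ ^ 3 = 1 := mul_right_cancel₀ n0 (by
        linear_combination -b0 - κ * b2 - κ ^ 2 * v ^ 2 * b1 - κ ^ 3 * d 0 * w3)
      exact ⟨by rw [b1]; linear_combination d 0 ^ 3 * v ^ 3 * k3 + d 0 ^ 3 * w3,
        by rw [b0, mul_pow, k3, one_mul]⟩
  obtain ⟨i, rfl⟩ := (hG.cjr g).tor_cube hω hz hd key.1 key.2
  simpa using h.mem_rr hG.inj i 0

theorem HB.rr_nu_dvd (hG : HB p ρ) (h : Bt ρ z s c) (hc : c ≠ 1) :
    (RR z s).relIndex (normalizer (RR z s : Set G)) ∣ 8 := by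
  have := ncard_diff_one (RR z s)
  rw [hG.card_rr h hc] at this
  rw [show 8 = 9 - 1 from rfl, ← this]
  exact relIndex_dvd_ncard le_normalizer _ (fun k hk d hd =>
    ⟨(mem_normalizer_iff.1 hk d).1 hd.1, conj_ne_one hd.2⟩) (fun k hk d hd =>
      ⟨hG.rr_semi h hc hk hd.1 hd.2, fun e => by rw [hG.rr_comm h hc e hd.1]; group⟩)

theorem HB.rr_sylow (hG : HB p ρ) (h : Bt ρ z s c) (hc : c ≠ 1) :
    ∃ P : Sylow 3 G, (P : Subgroup G) = RR z s := by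
  have : Fact (Nat.Prime 3) := ⟨Nat.prime_three⟩
  have h9 : Nat.card (RR z s) = 3 ^ 2 := hG.card_rr h hc
  refine ⟨(IsPGroup.of_card h9).toSylow fun e => ?_, rfl⟩
  have := Sylow.prime_dvd_card_quotient_normalizer (n := 2) (by
    rw [← (RR z s).card_mul_index, h9, pow_succ 3 2]; exact mul_dvd_mul_left _ e) h9
  have := this.trans (hG.rr_nu_dvd h hc)
  omega

theorem card_eq_ncard (A : Subgroup G) : Nat.card A = (A : Set G).ncard := Nat.card_coe_set_eq _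

theorem card_normalizer_eq' (A : Subgroup G) :
    Nat.card (normalizer (A : Set G)) = Nat.card A * A.relIndex (normalizer (A : Set G)) := by
  rw [relIndex, ← Subgroup.card_mul_index (A.subgroupOf (normalizer (A : Set G))),
    Nat.card_congr (subgroupOfEquivOfLe le_normalizer).toEquiv]

theorem HB.rr_inv (hG : HB p ρ) (h : Bt ρ z s c) (hc : c ≠ 1) :
    ∃ w, IsInv w ∧ w ∈ normalizer (RR z s : Set G) ∧ w ∉ RR z s := by
  have h1 : (RR z s).relIndex (normalizer (RR z s : Set G)) ≠ 1 := fun e => by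
    have : Fact (Nat.Prime 3) := ⟨Nat.prime_three⟩
    obtain ⟨P, hP⟩ := hG.rr_sylow h hc
    have := hG.sn.burnside P (by
      rw [show (P : Set G) = (RR z s : Set G) by rw [← hP]; rfl]
      exact fun x hx => mem_centralizer_iff.2 fun y hy => hG.rr_comm h hc hy (relIndex_eq_one.1 e hx))
    have h9 := hG.card_rr h hc
    rw [← hP, this] at h9
    simp at h9
  have h2 : 2 ∣ Nat.card (normalizer (RR z s : Set G)) := by
    rw [card_normalizer_eq']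
    have := (Nat.dvd_prime_pow Nat.prime_two (m := 3)).1 (hG.rr_nu_dvd h hc)
    obtain ⟨k, -, hk⟩ := this
    rw [hk] at h1 ⊢
    exact (dvd_pow_self 2 (by rintro rfl; simp at h1)).mul_left _
  obtain ⟨⟨w, hw⟩, e⟩ := exists_prime_orderOf_dvd_card' 2 h2
  rw [← orderOf_coe] at e
  have hw' : IsInv w := ⟨by rw [← sq, ← e, pow_orderOf_eq_one], fun e' => by simp [e'] at e⟩
  exact ⟨w, hw', hw, fun e => sq_ne_of_cube (hG.rr_cube h hc e) hw'.2 hw'.1⟩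

theorem HB.rr_inverts (hG : HB p ρ) (h : Bt ρ z s c) (hc : c ≠ 1) {w : G} (hw : IsInv w)
    (hn : w ∈ normalizer (RR z s : Set G)) (hr : r ∈ RR z s) : w * r * w⁻¹ = r⁻¹ := by
  have h1 := (mem_normalizer_iff.1 hn r).1 hr
  by_contra e
  have := hG.rr_semi h hc hn (mul_mem hr h1) (fun e' => e (eq_inv_of_mul_eq_one_right e')) (by
    nth_rw 2 [hG.rr_comm h hc hr h1]
    rw [hw.inv_eq]
    calc w * (r * (w * r * w)) * w = w * r * w * r * (w * w) := by group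
      _ = _ := by rw [hw.1, mul_one])
  exact sq_ne_of_cube (hG.rr_cube h hc this) hw.2 hw.1

theorem HB.sp_inv (hG : HB p ρ) (h : Sp ρ z) : ∃ w, IsInv w ∧ w * z * w⁻¹ = z⁻¹ := by
  obtain ⟨s, c, hc, h⟩ := h
  obtain ⟨w, h1, h2, -⟩ := hG.rr_inv h hc
  exact ⟨w, h1, hG.rr_inverts h hc h1 h2 (by simpa using h.mem_rr hG.inj 1 0)⟩

theorem HB.rr_pow4 (hG : HB p ρ) (h : Bt ρ z s c) (hc : c ≠ 1)
    (hn : n ∈ normalizer (RR z s : Set G)) (hn' : n ∉ RR z s) : n ^ 4 = 1 := by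
  have fix : ∀ m ∈ normalizer (RR z s : Set G), ∀ r ∈ RR z s, r ≠ 1 → m * r * m⁻¹ = r → m ∈ RR z s :=
    fun m hm r hr h1 e => hG.rr_semi h hc hm hr h1 e
  have inR : ∀ k : ℕ, n ^ k ∈ RR z s → n ^ k = 1 := fun k hk => by
    by_contra e
    exact hn' (fix n hn _ hk e (by group))
  have h8 : n ^ 8 = 1 := by
    apply inR
    obtain ⟨k, hk⟩ := hG.rr_nu_dvd h hc
    have := ((RR z s).subgroupOf (normalizer (RR z s : Set G))).pow_index_mem ⟨n, hn⟩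
    rw [hk, pow_mul]
    exact pow_mem (mem_subgroupOf.1 this) k
  by_contra h4
  have nk : ∀ k : ℕ, ¬ 8 ∣ k → n ^ k ∉ RR z s := fun k hk e => by
    have := orderOf_dvd_of_pow_eq_one (inR k e)
    rw [orderOf_eq_prime_pow (p := 2) (n := 2) h4 h8] at this
    exact hk this
  have hz : z ∈ RR z s := by simpa using h.mem_rr hG.inj 1 0
  have hz1 := h.ne_one hc
  have w4 := hG.rr_inverts h hc (w := n ^ 4) ⟨by rw [← pow_add, h8], h4⟩ (pow_mem hn 4) hz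
  have cj : ∀ r ∈ RR z s, n * r * n⁻¹ ∈ RR z s := fun r hr => (mem_normalizer_iff.1 hn r).1 hr
  have nf : ∀ k : ℕ, ¬ 8 ∣ k → n ^ k * z * (n ^ k)⁻¹ ≠ z := fun k hk e =>
    nk k hk (fix _ (pow_mem hn k) z hz hz1 e)
  have nf' : ∀ k : ℕ, ¬ 8 ∣ k + 4 → n ^ k * z * (n ^ k)⁻¹ ≠ z⁻¹ := fun k hk e =>
    nf (k + 4) hk (by
      rw [pow_add, show n ^ k * n ^ 4 * z * (n ^ k * n ^ 4)⁻¹ = n ^ k * (n ^ 4 * z * (n ^ 4)⁻¹) * (n ^ k)⁻¹
        by group, w4,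
        show n ^ k * z⁻¹ * (n ^ k)⁻¹ = (n ^ k * z * (n ^ k)⁻¹)⁻¹ by group, e, inv_inv])
  set z1 := n * z * n⁻¹ with hz1'
  obtain ⟨β, hβ⟩ := exists_bt (ρ := ρ) (hG.rr_comm h hc hz (cj z hz))
  have z3 := h.pow_three hG.inj hc
  have hβ1 : β ≠ 1 := fun e => by
    obtain ⟨i, j, e'⟩ := hG.rr_cases h hc (cj z hz)
    have := (h.rr i j).1
    rw [← e'] at this
    obtain rfl : j = 0 := h.pow_inj hc (by simpa [e] using this.uniq hβ)
    fin_cases i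
    · exact conj_ne_one (g := n) hz1 (e'.trans (by simp))
    · exact nf 1 (by decide) (by simpa using e')
    · exact nf' 1 (by decide) (by
        rw [pow_one, e', eq_inv_iff_mul_eq_one]; simpa [pow_succ] using z3)
  have hRR : RR z z1 = RR z s := (eq_of_le_of_card_ge (fun x hx => mem_inf.2
    ⟨(mem_inf.1 hx).1, mem_Cen.2 (hG.rr_comm h hc (cj z hz) hx)⟩)
    (by rw [hG.card_rr h hc, hG.card_rr hβ hβ1])).symm
  obtain ⟨i, j, e⟩ := hG.rr_cases hβ hβ1 (hRR ▸ cj _ (cj z hz))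
  have b1 : Bt ρ z1 (n * z1 * n⁻¹) β := hβ.conj n
  have b2 := (hβ.rr i j).2.symm
  rw [← e] at b2
  have b3 : β ^ (i.val + 1) = 1 := by
    rw [pow_succ]; nth_rw 2 [b1.uniq b2]; exact mul_inv_cancel₀ (pow_ne_zero _ hβ.ne)
  have b4 := orderOf_dvd_of_pow_eq_one b3
  rw [orderOf_eq_prime hβ.cube hβ1] at b4
  obtain rfl : i = 2 := Fin.ext (by have := i.2; simp; omega)
  have zz : z ^ 2 = z⁻¹ := eq_inv_of_mul_eq_one_left (by rw [← pow_succ, z3])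
  have z13 : z1 ^ 3 = 1 := hG.rr_cube h hc (cj z hz)
  have cm : z * z1 = z1 * z := hβ.comm hG.inj
  have p3 : n ^ 3 * z * (n ^ 3)⁻¹ = n * (n * z1 * n⁻¹) * n⁻¹ := by rw [hz1', pow_three]; group
  fin_cases j
  · exact nf' 2 (by decide) (by rw [← zz, sq n]; simpa [hz1', mul_assoc] using e)
  · apply nf' 3 (by decide)
    replace e : n * z1 * n⁻¹ = z⁻¹ * z1 := by rw [← zz]; simpa using e
    rw [p3, e, show n * (z⁻¹ * z1) * n⁻¹ = z1⁻¹ * (n * z1 * n⁻¹) by rw [hz1']; group, e,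
      ← mul_assoc, ← _root_.mul_inv_rev, cm]
    group
  · apply nf 3 (by decide)
    replace e : n * z1 * n⁻¹ = z⁻¹ * z1⁻¹ := by
      rw [← zz, ← show z1 ^ 2 = z1⁻¹ from eq_inv_of_mul_eq_one_left (by rw [← pow_succ, z13])]
      exact e
    rw [p3, e, show n * (z⁻¹ * z1⁻¹) * n⁻¹ = z1⁻¹ * (n * z1 * n⁻¹)⁻¹ by rw [hz1']; group, e]
    group

theorem HB.rr_nu (hG : HB p ρ) (h : Bt ρ z s c) (hc : c ≠ 1) :
    (RR z s).relIndex (normalizer (RR z s : Set G)) = 2 ∨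
    ((RR z s).relIndex (normalizer (RR z s : Set G)) = 4 ∧ ∃ a : G, IsInv (a * a)) ∨
    ∃ a b : G, IsInv (a * a) ∧ b * b = a * a ∧ IsInv (a * b * (a * b)) := by
  obtain ⟨w, hw, hwn, hwR⟩ := hG.rr_inv h hc
  have hcard := card_normalizer_eq' (RR z s)
  have h9 := hG.card_rr h hc
  rw [h9] at hcard
  have ci : ∀ v, IsInv v → v ∈ normalizer (RR z s : Set G) → w * v ∈ RR z s := fun v hv hn => by
    have hz : z ∈ RR z s := by simpa using h.mem_rr hG.inj 1 0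
    refine hG.rr_semi h hc (mul_mem hwn hn) hz (h.ne_one hc) ?_
    rw [show w * v * z * (w * v)⁻¹ = w * (v * z * v⁻¹) * w⁻¹ by group, hG.rr_inverts h hc hv hn hz,
      hG.rr_inverts h hc hw hwn (inv_mem hz), inv_inv]
  have o4 : ∀ a ∈ normalizer (RR z s : Set G), a ∉ RR z s → w * a ∉ RR z s → IsInv (a * a) :=
    fun a ha h1 h2 => ⟨by rw [← hG.rr_pow4 h hc ha h1]; simp [pow_succ, mul_assoc], fun e =>
      h2 (ci a ⟨e, fun e' => h1 (e' ▸ one_mem _)⟩ ha)⟩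
  have cs : ∀ a : G, {x | a * x ∈ RR z s}.ncard = 9 := fun a => by
    rw [← h9, card_eq_ncard]
    exact Set.ncard_preimage_of_injective_subset_range (mul_right_injective a)
      (by rw [(Group.mulLeft_bijective a).2.range_eq]; exact Set.subset_univ _)
  have ex : ∀ T : Set G, T.ncard < 9 * (RR z s).relIndex (normalizer (RR z s : Set G)) →
      ∃ a ∈ normalizer (RR z s : Set G), a ∉ T := fun T hT =>
    Set.exists_mem_notMem_of_ncard_lt_ncard (by rwa [← card_eq_ncard, hcard])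
  have h2 : 2 ≤ (RR z s).relIndex (normalizer (RR z s : Set G)) := by
    have h0 : 0 < 9 * (RR z s).relIndex (normalizer (RR z s : Set G)) := hcard ▸ Nat.card_pos
    have : (RR z s).relIndex (normalizer (RR z s : Set G)) ≠ 1 := fun e => hwR (relIndex_eq_one.1 e hwn)
    omega
  have h8 := hG.rr_nu_dvd h hc
  generalize (RR z s).relIndex (normalizer (RR z s : Set G)) = ν at *
  by_cases e2 : ν = 2
  · exact Or.inl e2
  have h4 : ν = 4 ∨ ν = 8 := by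
    have := Nat.le_of_dvd (by decide) h8
    interval_cases ν <;> omega
  obtain ⟨a, ha, ha'⟩ := ex ({x | 1 * x ∈ RR z s} ∪ {x | w * x ∈ RR z s})
    ((Set.ncard_union_le _ _).trans_lt (by rw [cs, cs]; omega))
  simp only [Set.mem_union, Set.mem_setOf_eq, not_or, one_mul] at ha'
  have a4 := o4 a ha ha'.1 ha'.2
  rcases h4 with e4 | e8
  · exact Or.inr (Or.inl ⟨e4, a, a4⟩)
  obtain ⟨b, hb, hb'⟩ := ex (({x | 1 * x ∈ RR z s} ∪ {x | w * x ∈ RR z s}) ∪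
    ({x | a * x ∈ RR z s} ∪ {x | w * a * x ∈ RR z s})) ((Set.ncard_union_le _ _).trans_lt
      ((add_le_add (Set.ncard_union_le _ _) (Set.ncard_union_le _ _)).trans_lt
        (by rw [cs, cs, cs, cs]; omega)))
  simp only [Set.mem_union, Set.mem_setOf_eq, not_or, one_mul] at hb'
  have b4 := o4 b hb hb'.1.1 hb'.1.2
  have hr : (b * b)⁻¹ * (a * a) ∈ RR z s := by
    have := mul_mem (inv_mem (ci _ b4 (mul_mem hb hb))) (ci _ a4 (mul_mem ha ha))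
    simpa [mul_assoc] using this
  generalize hr0 : (b * b)⁻¹ * (a * a) = r at hr
  have cj : ∀ m ∈ normalizer (RR z s : Set G), ∀ r ∈ RR z s, m * r * m⁻¹ ∈ RR z s :=
    fun m hm r hr => (mem_normalizer_iff.1 hm r).1 hr
  have hb1 : r * b * r⁻¹ ∈ normalizer (RR z s : Set G) :=
    mul_mem (mul_mem (le_normalizer hr) hb) (inv_mem (le_normalizer hr))
  have key : ∀ m : G, m * (r * b * r⁻¹) ∈ RR z s → m * b ∈ RR z s := fun m hm => by
    have := mul_mem (mul_mem hm hr) (inv_mem (cj _ (inv_mem hb) r hr))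
    simpa [mul_assoc] using this
  refine Or.inr (Or.inr ⟨a, r * b * r⁻¹, a4, ?_, o4 _ (mul_mem ha hb1) (fun e => hb'.2.1 (key _ e))
    (fun e => hb'.2.2 (key _ (by rwa [← mul_assoc] at e)))⟩)
  have i1 := hG.rr_inverts h hc b4 (mul_mem hb hb) (inv_mem hr)
  have r3 := hG.rr_cube h hc hr
  rw [inv_inv] at i1
  calc r * b * r⁻¹ * (r * b * r⁻¹) = r * (b * b) * r⁻¹ := by group
    _ = (b * b * r⁻¹ * (b * b)⁻¹) * (b * b) * r⁻¹ := by rw [i1]
    _ = b * b * (r * (r ^ 3)⁻¹) := by group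
    _ = _ := by rw [r3, ← hr0]; group

end Cfsg.Agent.H8.M3
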