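import Cfsg.Agent.H8.M3H
import Cfsg.Agent.H8.M3F

/-! The odd part of the class equation. -/

set_option autoImplicit false
set_option linter.unusedSectionVars false

namespace Cfsg.Agent.H8.M3
open Matrix Equiv Subgroup
open scoped MatrixGroups

universe u
variable {K : Type*} [Field K] {G : Type u} [Group G]
variable {ρ : G →* PGL(3, K)} {x y z s t n r w : G} {p : ℕ} {d : Fin 3 → K} {σ τ : Perm (Fin 3)}
variable [Finite G] [IsAlgClosed K] [Fact p.Prime] [CharP K p] {c ω l : K}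

/-- the torus has odd order -/
def OddT (ρ : G →* PGL(3, K)) : Prop := ∀ r ∈ Tor ρ, r * r = 1 → r = 1

theorem HB.geo_sq (hG : HB p ρ) (hw : Mo ρ w τ) (h1 : τ ≠ 1) (h2 : τ * τ = 1) (h : Dg ρ x d) :
    (x * (w * x * w⁻¹)) * (x * (w * x * w⁻¹)) = 1 := by
  by_contra e
  have := hG.dg_inj (h.mul (hw.conj h)) e
  rcases inv_cases τ h1 h2 with ⟨a, b, c⟩ | ⟨a, b, c⟩ | ⟨a, b, c⟩
  · exact absurd (this (a₁ := 1) (a₂ := 2) (by simp only [Pi.mul_apply, b, c, mul_comm])) (by decide)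
  · exact absurd (this (a₁ := 0) (a₂ := 2) (by simp only [Pi.mul_apply, a, c, mul_comm])) (by decide)
  · exact absurd (this (a₁ := 0) (a₂ := 1) (by simp only [Pi.mul_apply, a, b, mul_comm])) (by decide)

theorem HB.geo_of_swap (hG : HB p ρ) (ho : OddT ρ) (hw : Mo ρ w τ) (h1 : τ ≠ 1) (h2 : τ * τ = 1) :
    ∃ i, ∀ x d, Dg ρ x d → d i ^ 3 = d 0 * d 1 * d 2 := by
  have key : ∀ x d, Dg ρ x d → ∀ i j, d i * d (τ⁻¹ i) = d j * d (τ⁻¹ j) := fun x d h =>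
    (h.mul (hw.conj h)).of_eq_one (ho _ (h.mul (hw.conj h)).mem (hG.geo_sq hw h1 h2 h))
  rcases inv_cases τ h1 h2 with ⟨a, b, c⟩ | ⟨a, b, c⟩ | ⟨a, b, c⟩
  · exact ⟨0, fun x d h => by have := key x d h 0 1; rw [a, b] at this; linear_combination d 0 * this⟩
  · exact ⟨1, fun x d h => by have := key x d h 1 0; rw [a, b] at this; linear_combination d 1 * this⟩
  · exact ⟨2, fun x d h => by have := key x d h 2 0; rw [a, c] at this; linear_combination d 2 * this⟩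

theorem HB.s3_cube (hG : HB p ρ) (ho : OddT ρ) (hw : Mo ρ w τ) (h1 : τ ≠ 1) (h2 : τ * τ = 1)
    (hs : Mo ρ s σ) (hσ : ∀ i, σ i ≠ i) (h : Dg ρ x d) : d 1 ^ 3 = d 0 ^ 3 ∧ d 2 ^ 3 = d 0 ^ 3 := by
  obtain ⟨i, hi⟩ := hG.geo_of_swap ho hw h1 h2
  have a := hi _ _ h
  have b := hi _ _ (hs.conj h)
  have c := hi _ _ (hs.conj (hs.conj h))
  rcases fpf_cases σ hσ with ⟨e1, e2, e3⟩ | ⟨e1, e2, e3⟩ <;> fin_cases i <;>
    simp only [Fin.zero_eta, Fin.mk_one, Fin.reduceFinMk, e1, e2, e3] at a b c <;>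
    constructor <;> first | linear_combination a - b | linear_combination b - a | linear_combination a - c |
      linear_combination c - a | linear_combination b - c | linear_combination c - b

theorem HB.sp_mo (hG : HB p ρ) (hy : Dg ρ y d) (hd : Function.Injective d) (h : Sp ρ y) :
    ∃ w τ, IsInv w ∧ Mo ρ w τ ∧ τ ≠ 1 ∧ τ * τ = 1 := by
  obtain ⟨w, hw, e⟩ := hG.sp_inv h
  obtain ⟨τ, hτ⟩ := hy.mon_of_conj hd (g := w) (e ▸ inv_mem hy.mem)
  refine ⟨w, τ, hw, hτ, fun e' => ?_, (hτ.mul hτ).uniq (hw.1 ▸ Mo.one)⟩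
  obtain ⟨s, c, hc, h⟩ := h
  rw [Tor_comm hG.inj (hτ.mem_Tor_iff.2 e') hy.mem, mul_inv_cancel_right] at e
  exact sq_ne_of_cube (h.pow_three hG.inj hc) (h.ne_one hc) (mul_eq_one_iff_eq_inv.2 e)

theorem HB.tor_of_sp (hG : HB p ρ) (ho : OddT ρ) (hy : Dg ρ y d) (hd : Function.Injective d)
    (h : Sp ρ y) (hx : x ∈ Tor ρ) : ∃ i : ℕ, x = y ^ i := by
  obtain ⟨w, τ, -, hτ, h1, h2⟩ := hG.sp_mo hy hd h
  obtain ⟨s, c, hc, h⟩ := h
  obtain ⟨σ, hs, hσ⟩ := h.mo hG.inj hc hy hd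
  obtain ⟨ω, hω, hy'⟩ := hy.sp_norm hd (h.pow_three hG.inj hc)
  obtain ⟨e, he⟩ := hx
  obtain ⟨e1, e2⟩ := hG.s3_cube ho hτ h1 h2 hs hσ he
  exact hG.tor_cube hω hy' he e1 e2

theorem NI.oddT (hρ : Function.Injective ρ) (h : NI x) (hx : x ∈ Tor ρ) : OddT ρ := fun r hr e => by
  by_contra h1
  exact h r ⟨e, h1⟩ (mem_Cen.2 (Tor_comm hρ hx hr))

theorem HB.sp_cen (hG : HB p ρ) (h : Bt ρ z s c) (hc : c ≠ 1) (hn : NI z) : Cen z = RR z s := by
  refine le_antisymm (fun y hy => ?_) inf_le_left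
  obtain ⟨g, ω, hω, h3, hz⟩ := hG.sp_frame ⟨s, c, hc, h⟩
  obtain ⟨σ, hs, hσ⟩ := (h.cjr g).mo (hG.cjr g).inj hc hz (om_inj hω h3)
  obtain ⟨j, hj⟩ := cen_sp hz (om_inj hω h3) hs hσ hy
  obtain ⟨i, hi⟩ := (hG.cjr g).tor_of_sp (hn.oddT (hG.cjr g).inj hz.mem) hz (om_inj hω h3)
    ⟨s, c, hc, h.cjr g⟩ hj
  rw [← mul_mem_cancel_right (show s ^ j ∈ RR z s by simpa using h.mem_rr hG.inj 0 j), hi]
  simpa using h.mem_rr hG.inj i 0

theorem Dg.cen_eq (hρ : Function.Injective ρ) (h : Dg ρ x d) (hd : Function.Injective d)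
    (hs : ¬ Sp ρ x) : Cen x = Tor ρ := by
  refine le_antisymm (fun y hy => ?_) fun y hy => mem_Cen.2 (Tor_comm hρ h.mem hy)
  obtain ⟨c, hc⟩ := exists_bt (ρ := ρ) (mem_Cen.1 hy)
  obtain rfl : c = 1 := by by_contra e; exact hs ⟨y, c, e, hc⟩
  rcases h.cen hd hy with h' | ⟨σ, -, ⟨e, he⟩, hσ, -⟩
  · exact h'
  have := hc _ _ h he
  rw [one_smul, ← mono_one, mono_mul, mono_mul] at this
  have h2 := congrFun (mono_inj (fun j => mul_ne_zero (h.ne _) (mono_ne he.det_ne j)) this).2 0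
  rw [mul_comm] at h2
  exact absurd (hd (mul_left_cancel₀ (mono_ne he.det_ne 0) h2)) (hσ 0)

theorem Dg.norm_tor (h : Dg ρ x d) (hd : Function.Injective d) :
    normalizer (Tor ρ : Set G) = Mon ρ :=
  le_antisymm (fun _ hn => h.mon_of_conj hd ((mem_normalizer_iff.1 hn x).1 h.mem)) fun g hg =>
    mem_normalizer_iff.2 fun y => ⟨conj_mem_Tor hg, fun hy => by
      simpa [mul_assoc] using conj_mem_Tor (inv_mem hg) hy⟩

theorem Dg.not_un (h : Dg ρ x d) (hd : Function.Injective d) : ¬ Un p x := fun hx => by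
  have := (h.pow p).of_eq_one hx.2 0 1
  simp only [Pi.pow_apply] at this
  exact hd.ne (show (0 : Fin 3) ≠ 1 by decide) (frobenius_inj K p this)

theorem NI.sq_ne (h : NI x) (hy : y ∈ Cen x) (h1 : y ≠ 1) : y * y ≠ 1 := fun e => h y ⟨e, h1⟩ hy

theorem Sp.of_pow (hρ : Function.Injective ρ) {i : ℕ} (h : Sp ρ y) (h1 : y ^ i ≠ 1) : Sp ρ (y ^ i) := by
  obtain ⟨s, c, hc, h⟩ := h
  refine ⟨s, _, fun e => h1 ?_, h.pow_left i⟩
  obtain ⟨k, rfl⟩ : 3 ∣ i := orderOf_eq_prime h.cube hc ▸ orderOf_dvd_of_pow_eq_one e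
  rw [pow_mul, h.pow_three hρ hc, one_pow]

theorem HB.ns_mem (hG : HB p ρ) (h1 : x ≠ 1) (hn : NI x) (hu : ¬ Un p x) (hs : ¬ Sp ρ x)
    (hy : y ∈ Cen x) (hy1 : y ≠ 1) : NI y ∧ ¬ Sp ρ y ∧ Cen y = Cen x := by
  obtain ⟨g, d, hd, h⟩ := hG.reg_frame (hn.sq_ne (self_mem_Cen x) h1) hu
  have hG' := hG.cjr g
  have e := h.cen_eq hG'.inj hd (mt sp_cjr.1 hs)
  obtain ⟨d', h'⟩ := e ▸ hy
  have hd' := hG'.dg_inj h' (hn.sq_ne hy hy1)
  have hs' : ¬ Sp ρ y := fun k => by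
    obtain ⟨i, rfl⟩ := hG'.tor_of_sp (hn.oddT hG'.inj h.mem) h' hd' (sp_cjr.2 k) h.mem
    exact hs (k.of_pow hG.inj h1)
  have e' := (h'.cen_eq hG'.inj hd' (mt sp_cjr.1 hs')).trans e.symm
  exact ⟨fun r hr k => hn r hr (e' ▸ k), hs', e'⟩

theorem nu_eq_card (e : Cen x = Tor ρ) (h : Dg ρ y d) (hd : Function.Injective d) :
    nu x = Nat.card (piM ρ).range := by
  rw [nu, e, h.norm_tor hd, relIndex_Tor_Mon]

theorem exists_fpf (h : 3 ∣ Nat.card (piM ρ).range) : ∃ s σ, Mo ρ s σ ∧ ∀ i, σ i ≠ i := by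
  have : Fact (Nat.Prime 3) := ⟨Nat.prime_three⟩
  obtain ⟨⟨σ, hσ⟩, e⟩ := exists_prime_orderOf_dvd_card' 3 h
  rw [← orderOf_coe] at e
  obtain ⟨s, hs⟩ := mem_range_piM.1 hσ
  exact ⟨s, σ, hs, fpf_of_cube σ (fun e' => by simp [e'] at e) (orderOf_dvd_iff_pow_eq_one.1 e.dvd)⟩

theorem exists_swap (h : 2 ∣ Nat.card (piM ρ).range) : ∃ w τ, Mo ρ w τ ∧ τ ≠ 1 ∧ τ * τ = 1 := by
  obtain ⟨⟨σ, hσ⟩, e⟩ := exists_prime_orderOf_dvd_card' 2 h
  rw [← orderOf_coe] at e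
  obtain ⟨s, hs⟩ := mem_range_piM.1 hσ
  exact ⟨s, σ, hs, fun e' => by simp [e'] at e, by rw [← sq, ← e]; exact pow_orderOf_eq_one σ⟩

theorem card_piM_dvd : Nat.card (piM ρ).range ∣ 6 := by
  have := card_subgroup_dvd_card (piM ρ).range
  rwa [Nat.card_perm, Nat.card_fin] at this

theorem HB.ns_nu (hG : HB p ρ) (h1 : x ≠ 1) (hn : NI x) (hu : ¬ Un p x) (hs : ¬ Sp ρ x) : nu x ≤ 3 := by
  obtain ⟨g, d, hd, h⟩ := hG.reg_frame (hn.sq_ne (self_mem_Cen x) h1) hu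
  have hG' := hG.cjr g
  have e := h.cen_eq hG'.inj hd (mt sp_cjr.1 hs)
  rw [nu_eq_card e h hd]
  by_contra h3
  have h6 : Nat.card (piM (M3.cjr ρ g)).range = 6 := by
    have := card_piM_dvd (ρ := M3.cjr ρ g)
    have := Nat.le_of_dvd (by decide) this
    interval_cases Nat.card (piM (M3.cjr ρ g)).range <;> omega
  obtain ⟨s, σ, h4, h5⟩ := exists_fpf (ρ := M3.cjr ρ g) (by omega)
  obtain ⟨w, τ, h7, h8, h9⟩ := exists_swap (ρ := M3.cjr ρ g) (by omega)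
  obtain ⟨e1, e2⟩ := hG'.s3_cube (hn.oddT hG'.inj h.mem) h7 h8 h9 h4 h5 h
  obtain ⟨ω, hω, h'⟩ := h.sp_norm hd ((h.pow 3).eq_one hG'.inj e1 e2)
  have w3 : ω ^ 3 = 1 := by linear_combination (ω - 1) * hω
  have : s ∈ Cen x := by
    rw [mem_Cen, eq_comm, ← mul_inv_eq_iff_eq_mul]
    rcases fpf_cases σ h5 with ⟨a, b, c⟩ | ⟨a, b, c⟩
    · exact (h'.eq hG'.inj (h4.conj h') ω fun i => by
        fin_cases i <;> simp [a, b, c, -Perm.coe_inv] <;> grind).symm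
    · exact (h'.eq hG'.inj (h4.conj h') (ω ^ 2) fun i => by
        fin_cases i <;> simp [a, b, c, -Perm.coe_inv] <;> grind).symm
  rw [e, h4.mem_Tor_iff] at this
  exact h5 0 (by rw [this]; rfl)

theorem geo_nu (hy : Dg ρ y ![l * l, l, 1]) (h4 : 4 ≤ orderOf l) (hT : Tor ρ = zpowers y)
    (hC : Cen y = zpowers y) : ¬ 3 ∣ nu y := by
  have hl0 : l ≠ 0 := by simpa using hy.ne 1
  rw [nu_eq_card (hC.trans hT.symm) hy (geo_inj hl0 (by omega))]
  intro h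
  obtain ⟨s, σ, h1, h2⟩ := exists_fpf h
  have := (h1.conj hy).mem
  rw [hT] at this
  obtain ⟨j, hj⟩ := (mem_powers_iff_mem_zpowers.2 this)
  obtain ⟨c, -, e⟩ := (hy.pow j).uniq (hj ▸ h1.conj hy)
  have a := e 0; have b := e 1; have c := e 2
  have : l ^ 3 = 1 := by
    rcases fpf_cases σ h2 with ⟨e1, e2, e3⟩ | ⟨e1, e2, e3⟩ <;> rw [e1] at a <;> rw [e2] at b <;>
      rw [e3] at c <;> simp [mul_pow] at a b c <;> generalize l ^ j = v at * <;> grind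
  have := orderOf_le_of_pow_eq_one three_pos this
  omega

theorem nu_conj (g x : G) : nu (g * x * g⁻¹) = nu x := by
  rw [nu, nu, Cen_conj, ← map_equiv_normalizer_eq, relIndex_map_map_of_injective _ _
    (MulAut.conj g).injective]

theorem nu_congr (e : Cen x = Cen y) : nu x = nu y := by rw [nu, nu, e]

theorem ni_zpowers (hC : Cen y = zpowers y) (ho : orderOf y % 2 = 1) : NI y := fun r hr h => by
  have := orderOf_dvd_of_mem_zpowers (hC ▸ h)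
  rw [hr.orderOf] at this
  omega

/-- the part of the group covered by `CC` subgroups -/
def XX (ρ : G →* PGL(3, K)) (B : Prop) : Set G := {x | x ≠ 1 ∧ NI x ∧ (Sp ρ x → B)}

/-- no quaternion group -/
def NoQ (G : Type u) [Group G] : Prop := ∀ a b : G, IsInv (a * a) → b * b = a * a → ¬ IsInv (a * b * (a * b))

variable {B : Prop}

theorem HB.xx_mem (hG : HB p ρ) (hB : B → ∀ z, Sp ρ z → NI z) (hx : x ∈ XX ρ B) (hy : y ∈ Cen x)
    (h1 : y ≠ 1) : y ∈ XX ρ B ∧ Cen y = Cen x := by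
  by_cases hu : Un p x
  · have hy' : Un p y := ⟨h1, hG.un_cen hu hy⟩
    exact ⟨⟨h1, hG.un_ni hy', fun h => absurd hy' (h.not_un hG.inj)⟩, (hG.un_cc hu).2 y hy h1⟩
  by_cases hs : Sp ρ x
  · have hb := hx.2.2 hs
    obtain ⟨s, c, hc, h⟩ := hs
    have e := hG.sp_cen h hc hx.2.1
    obtain ⟨r', c', hc', h', e'⟩ := hG.rr_sym h hc (e ▸ hy) h1
    have := hB hb y ⟨r', c', hc', h'⟩
    exact ⟨⟨h1, this, fun _ => hb⟩, by rw [hG.sp_cen h' hc' this, e', e]⟩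
  · obtain ⟨a, b, c⟩ := hG.ns_mem hx.1 hx.2.1 hu hs hy h1
    exact ⟨⟨h1, a, fun h => absurd h b⟩, c⟩

theorem HB.xx_cc (hG : HB p ρ) (hB : B → ∀ z, Sp ρ z → NI z) (hx : x ∈ XX ρ B) : CC x :=
  ⟨hx.1, fun _ hy h1 => (hG.xx_mem hB hx hy h1).2⟩

theorem xx_conj (hx : x ∈ XX ρ B) (g : G) : g * x * g⁻¹ ∈ XX ρ B :=
  ⟨conj_ne_one hx.1, hx.2.1.conj g, fun h => hx.2.2 (by simpa [mul_assoc] using h.conj g⁻¹)⟩

theorem HB.xx_cop (hG : HB p ρ) (hB : B → ∀ z, Sp ρ z → NI z) (hx : x ∈ XX ρ B) {r : ℕ} (hr : r.Prime)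
    (hd : r ∣ Nat.card (Cen x)) (hy : orderOf y = r) : y ∈ XX ρ B := by
  obtain ⟨g, hg⟩ := (hG.xx_cc hB hx).exists_conj hr hd hy
  have h1 : y ≠ 1 := fun e => hr.one_lt.ne (by rw [← hy, e, orderOf_one])
  simpa [mul_assoc] using xx_conj (hG.xx_mem hB hx hg (conj_ne_one h1)).1 g⁻¹

theorem HB.xx_nu4 (hG : HB p ρ) (hx : x ∈ XX ρ B) (hu : ¬ Un p x) (h4 : 4 ≤ nu x) :
    ∃ a : G, IsInv (a * a) := by
  obtain ⟨s, c, hc, h⟩ : Sp ρ x := by
    by_contra hs; have := hG.ns_nu hx.1 hx.2.1 hu hs; omega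
  have := hG.rr_nu h hc
  rw [← hG.sp_cen h hc hx.2.1] at this
  rcases this with e | ⟨-, e⟩ | ⟨a, -, e, -⟩
  · change nu x = 2 at e; omega
  · exact e
  · exact ⟨a, e⟩

theorem HB.mkFam (hG : HB p ρ) (hB : B → ∀ z, Sp ρ z → NI z) {c : ℕ} (hc : c ∣ Nat.card G)
    (hc' : ∀ r : ℕ, r.Prime → r ∣ c → ∃ y : G, orderOf y = r ∧ ¬ NI y)
    (hQ : 3 ∣ c ∨ NoQ G) : ∃ R : Finset G,
    Fam R (fun x => Nat.card (Cen x)) nu (Un p) (Nat.card G) c ∧ (∀ x ∈ R, x ∈ XX ρ B) ∧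
    (∀ y ∈ XX ρ B, ∀ r : ℕ, orderOf y = r → ∃ x ∈ R, r ∣ Nat.card (Cen x)) ∧
    ((XX ρ B).ncard : ℚ) = Nat.card G * ∑ x ∈ R, tm (Nat.card (Cen x)) (nu x) := by
  obtain ⟨R, h1, h2, h3, h4⟩ := cc_count (XX ρ B) (fun x hx => hG.xx_cc hB hx)
    (fun x hx g => xx_conj hx g) (fun x hx y hy h1 => (hG.xx_mem hB hx hy h1).1)
  have copc : ∀ x ∈ R, (Nat.card (Cen x)).Coprime c := fun x hx =>
    Nat.coprime_of_dvd fun r hr a b => by
      obtain ⟨y, hy, hn⟩ := hc' r hr b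
      exact hn (hG.xx_cop hB (h1 x hx) hr a hy).2.1
  have odd : ∀ x ∈ R, Nat.card (Cen x) % 2 = 1 := fun x hx => by
    by_contra e
    obtain ⟨⟨w, hw⟩, e⟩ := exists_prime_orderOf_dvd_card' (G := Cen x) 2 (by omega)
    rw [← orderOf_coe] at e
    exact (h1 x hx).2.1 w ⟨by rw [← sq, ← e, pow_orderOf_eq_one], fun e' => by simp [e'] at e⟩ hw
  refine ⟨R, ⟨odd, fun x hx => ?_, fun x hx => (hG.xx_cc hB (h1 x hx)).nu_dvd,
    fun x hx => (hG.xx_cc hB (h1 x hx)).two_le_nu hG.sn, fun x _ => mul_nu_dvd x, hc, Nat.card_pos, h3,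
    copc, fun x hx => ?_, fun x hx y hy ux uy => ?_, fun x hx ux n4 no => ?_⟩, h1,
    fun y hy r hr => ?_, h4⟩
  · have := odd x hx
    have : Nontrivial (Cen x) := ⟨⟨⟨x, self_mem_Cen x⟩, 1, fun e => (h1 x hx).1 (congrArg Subtype.val e)⟩⟩
    have := Finite.one_lt_card (α := Cen x)
    omega
  · by_cases hu : Un p x
    · exact Or.inr (Or.inr hu)
    by_cases hs : Sp ρ x
    swap
    · exact Or.inl (hG.ns_nu (h1 x hx).1 (h1 x hx).2.1 hu hs)
    obtain ⟨s, c, hc, h⟩ := hs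
    have := hG.rr_nu h hc
    have h9 := hG.card_rr h hc
    rw [← hG.sp_cen h hc (h1 x hx).2.1] at this h9
    rcases this with e | ⟨e, -⟩ | ⟨a, b, e1, e2, e3⟩
    · exact Or.inl (by change nu x = 2 at e; omega)
    · exact Or.inr (Or.inl ⟨h9, e, hu⟩)
    · rcases hQ with hQ | hQ
      · have := Nat.dvd_gcd (show 3 ∣ Nat.card (Cen x) by omega) hQ
        rw [copc x hx] at this; omega
      · exact absurd e3 (hQ a b e1 e2)
  · by_contra hne
    have k : ∀ x : G, Un p x → p ∣ Nat.card (Cen x) := fun x h => by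
      have := orderOf_dvd_natCard (⟨x, self_mem_Cen x⟩ : Cen x)
      rwa [← orderOf_coe, orderOf_eq_prime h.2 h.1] at this
    have := Nat.dvd_gcd (k x ux) (k y uy)
    rw [h3 x hx y hy hne] at this
    exact (Fact.out : p.Prime).one_lt.ne' (Nat.dvd_one.1 this)
  · obtain ⟨g, y, l, -, hy, hl, ho, hT, -, hC⟩ := hG.un_gen ux (by omega)
    have hC := hC n4
    have y1 : y ≠ 1 := fun e => by rw [e, orderOf_one] at ho; omega
    have ys : ¬ Sp ρ y := fun ⟨s, c, hc, h⟩ => by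
      have := orderOf_le_of_pow_eq_one three_pos (h.pow_three hG.inj hc); omega
    have yn := ni_zpowers hC (ho ▸ no)
    have yX : y ∈ XX ρ B := ⟨y1, yn, fun h => absurd h ys⟩
    obtain ⟨z, hz, k, hk⟩ := h2 y yX
    have e := (hG.xx_mem hB (h1 z hz) hk (conj_ne_one y1)).2
    refine ⟨z, hz, ?_, by simp only [← e, card_Cen_conj, hC, Nat.card_zpowers, ho]⟩
    rw [← nu_congr e, nu_conj]
    have a1 := geo_nu hy (hl ▸ n4) hT hC
    have a2 := hG.ns_nu y1 yn (hy.not_un (geo_inj (by simpa using hy.ne 1) (by omega))) ys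
    have a3 := (hG.xx_cc hB yX).two_le_nu hG.sn
    omega
  · obtain ⟨z, hz, k, hk⟩ := h2 y hy
    refine ⟨z, hz, ?_⟩
    have := (Cen z).orderOf_dvd_natCard hk
    rwa [← MulAut.conj_apply, MulEquiv.orderOf_eq, hr] at this

theorem ni_eq_zero : ni x = 0 ↔ NI x := by
  rw [ni, Set.ncard_eq_zero, Set.eq_empty_iff_forall_notMem]
  exact ⟨fun h r a b => h r ⟨a, b⟩, fun h r a => h r a.1 a.2⟩

/-- non-involutions centralising `m` involutions -/
def ZZ (G : Type u) [Group G] (m : ℕ) : Set G := {x | x ≠ 1 ∧ ¬ IsInv x ∧ ni x = m}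

theorem class_eq (ht : IsInv t) (hI : ∀ r, IsInv r → ∃ g, g * t * g⁻¹ = r)
    (h : ∀ x ∈ Cen t, x ≠ 1 → ¬ IsInv x → ni x = 1 ∨ ni x = 3) :
    1 - 1 / (Nat.card G : ℚ) = (1 + (ZZ G 1 ∩ Cen t).ncard + (ZZ G 3 ∩ Cen t).ncard / 3) /
      Nat.card (Cen t) + {x : G | x ≠ 1 ∧ NI x}.ncard / Nat.card G := by
  have hz : ∀ m x g, x ∈ ZZ G m → g * x * g⁻¹ ∈ ZZ G m := fun m x g h =>
    ⟨conj_ne_one h.1, fun k => h.2.1 k.of_conj, (ni_conj g x).trans h.2.2⟩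
  have e1 := ncard_Inv_mul hI ht
  have e2 := ncard_ni hI (ZZ G 1) (hz 1) (fun x hx => hx.2.2)
  have e3 := ncard_ni hI (ZZ G 3) (hz 3) (fun x hx => hx.2.2)
  have e4 : (Set.univ : Set G) = {1} ∪ (Invs G ∪ (ZZ G 1 ∪ (ZZ G 3 ∪ {x : G | x ≠ 1 ∧ NI x}))) := by
    refine (Set.eq_univ_of_forall fun x => ?_).symm
    by_cases h1 : x = 1
    · exact Or.inl h1
    by_cases h2 : IsInv x
    · exact Or.inr (Or.inl h2)
    by_cases h3 : NI x
    · exact Or.inr (Or.inr (Or.inr (Or.inr ⟨h1, h3⟩)))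
    simp only [NI, not_forall, not_not] at h3
    obtain ⟨r, hr, hx⟩ := h3
    obtain ⟨g, rfl⟩ := hI r hr
    have := h _ ((mem_Cen_conj g).1 (mem_Cen_comm.1 hx)) (by simpa using conj_ne_one (g := g⁻¹) h1)
      (fun k => h2 (by simpa [mul_assoc] using k.conj g))
    have e := ni_conj g⁻¹ x
    rw [inv_inv] at e
    rw [e] at this
    exact Or.inr (Or.inr (this.imp (fun k => ⟨h1, h2, k⟩) fun k => Or.inl ⟨h1, h2, k⟩))
  have e5 := congrArg Set.ncard e4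
  rw [Set.ncard_univ, Set.ncard_union_eq, Set.ncard_union_eq, Set.ncard_union_eq, Set.ncard_union_eq,
    Set.ncard_singleton] at e5
  · have g0 : (Nat.card G : ℚ) ≠ 0 := by exact_mod_cast Nat.card_pos.ne'
    have c0 : (Nat.card (Cen t) : ℚ) ≠ 0 := by exact_mod_cast Nat.card_pos.ne'
    have e1' := congrArg (Nat.cast : ℕ → ℚ) e1
    have e2' := congrArg (Nat.cast : ℕ → ℚ) e2
    have e3' := congrArg (Nat.cast : ℕ → ℚ) e3
    have e5' := congrArg (Nat.cast : ℕ → ℚ) e5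
    push_cast at e1' e2' e3' e5'
    field_simp
    linear_combination 3 * (Nat.card (Cen t) : ℚ) * (e5' + e2') + (Nat.card (Cen t) : ℚ) * e3' +
      (3 + 3 * ((ZZ G 1 ∩ Cen t).ncard : ℚ) + (ZZ G 3 ∩ Cen t).ncard) * e1'
  · exact Set.disjoint_left.2 fun x h h' => by have := ni_eq_zero.2 h'.2; have := h.2.2; omega
  · refine Set.disjoint_left.2 fun x h h' => ?_
    rcases h' with h' | h'
    · have := h'.2.2; have := h.2.2; omega
    · have := ni_eq_zero.2 h'.2; have := h.2.2; omega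
  · refine Set.disjoint_left.2 fun x h h' => ?_
    rcases h' with h' | h' | h'
    · exact h'.2.1 h
    · exact h'.2.1 h
    · exact h'.2 x h (self_mem_Cen x)
  · refine Set.disjoint_left.2 fun x h h' => ?_
    rcases h' with h' | h' | h' | h'
    · exact h'.2 h
    all_goals exact h'.1 h

theorem xx_eq (hB : B) : XX ρ B = {x : G | x ≠ 1 ∧ NI x} :=
  Set.ext fun _ => ⟨fun h => ⟨h.1, h.2.1⟩, fun h => ⟨h.1, h.2, fun _ => hB⟩⟩

theorem ni_eq_one (hr : IsInv r) (hx : r ∈ Cen x) (h : ∀ r', IsInv r' → r' ∈ Cen x → r' = r) :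
    ni x = 1 := Set.ncard_eq_one.2 ⟨r, Set.eq_singleton_iff_unique_mem.2 ⟨⟨hr, hx⟩, fun _ k => h _ k.1 k.2⟩⟩

theorem HB.sp_ni (hG : HB p ρ) (h : Sp ρ z) : ni z ≠ 1 := fun e => by
  obtain ⟨g, ω, hω, h3, hz⟩ := hG.sp_frame h
  obtain ⟨s, c, hc, h⟩ := h
  obtain ⟨σ, hs, hσ⟩ := (h.cjr g).mo (hG.cjr g).inj hc hz (om_inj hω h3)
  obtain ⟨r, hr⟩ := Set.ncard_eq_one.1 e
  obtain ⟨⟨r1, r2⟩, r3⟩ := Set.eq_singleton_iff_unique_mem.1 hr
  have hsz : s ∈ Cen z := mem_Cen.2 (h.comm hG.inj)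
  have e' := r3 (s * r * s⁻¹) ⟨IsInv.conj r1 s, mul_mem (mul_mem hsz r2) (inv_mem hsz)⟩
  obtain ⟨d, hd⟩ := hz.inv_cen (om_inj hω h3) r2 r1.1
  obtain ⟨e1, e2⟩ := cube_of_comm hs hσ hd (mem_Cen.2 (mul_inv_eq_iff_eq_mul.1 e'))
  exact sq_ne_of_cube ((hd.pow 3).eq_one (hG.cjr g).inj e1 e2) r1.2 r1.1

theorem HB.un_even (hG : HB p ρ) (hI : ∀ r, IsInv r → ∃ g, g * t * g⁻¹ = r) (hx : Un p x)
    (h4 : 4 ≤ nu x) (he : nu x % 2 = 0) : ∃ y ∈ Cen t, orderOf y = nu x ∧ Cen y = zpowers y := by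
  obtain ⟨-, y, -, -, -, -, ho, -, -, hC⟩ := hG.un_gen hx (by omega)
  obtain ⟨k, hk⟩ : ∃ k, nu x = k + k := ⟨nu x / 2, by omega⟩
  obtain ⟨g, hg⟩ := hI (y ^ k) ⟨by rw [← pow_add, ← hk, ← ho, pow_orderOf_eq_one], fun e => by
    have := orderOf_le_of_pow_eq_one (by omega) e; omega⟩
  refine ⟨g⁻¹ * y * g⁻¹⁻¹, ?_, ?_, ?_⟩
  · rw [inv_inv, ← mem_Cen_conj, hg, mem_Cen_comm]; exact pow_mem (self_mem_Cen y) k
  · rw [← MulAut.conj_apply, MulEquiv.orderOf_eq, ho]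
  · rw [Cen_conj, hC h4, MonoidHom.map_zpowers]; rfl

theorem Fam.odd_case {ι : Type*} [DecidableEq ι] {R : Finset ι} {a ν : ι → ℕ} {U : ι → Prop} {g : ℕ}
    (h : Fam R a ν U g 1) (hg : g % 2 = 1) (h1 : 1 < g)
    (he : 1 - 1 / (g : ℚ) = ∑ i ∈ R, tm (a i) (ν i)) : False := by
  have odd : ∀ i ∈ R, ν i % 2 = 1 := fun i hi => by
    have := (dvd_mul_left _ _).trans (h.dvd i hi)
    by_contra e
    have : 2 ∣ g := (show 2 ∣ ν i by omega).trans this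
    omega
  have three : ∀ i ∈ R, ν i = 3 := fun i hi => by
    have a1 := odd i hi
    have a2 := h.two_le i hi
    rcases h.kind i hi with e | e | e
    · omega
    · omega
    · by_contra e'
      obtain ⟨j, hj, e2, -⟩ := h.uodd i hi e (by omega) a1
      have := odd j hj
      omega
  have tm_eq' : ∀ i ∈ R, tm (a i) (ν i) = (1 - 1 / (a i : ℚ)) / 3 := fun i hi => by
    rw [tm_eq (by have := h.three_le i hi; omega) (by rw [three i hi]; decide), three i hi]; rfl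
  rw [Finset.sum_congr rfl tm_eq'] at he
  have g3 : 1 / (g : ℚ) ≤ 1 / (3 : ℕ) := inv_le_of (by decide) (by omega)
  have g0 := inv_pos' (a := g) (by omega)
  have lo : ∀ i ∈ R, (2 / 7 : ℚ) ≤ (1 - 1 / (a i : ℚ)) / 3 := fun i hi => by
    have : 1 / (a i : ℚ) ≤ 1 / (7 : ℕ) := inv_le_of (by decide) (h.seven_le hi (three i hi)).1
    push_cast at this; linarith
  have pos : ∀ i ∈ R, 0 < 1 / (a i : ℚ) := fun i hi => inv_pos' (by have := h.three_le i hi; omega)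
  have c1 := Finset.card_nsmul_le_sum R _ _ lo
  rw [nsmul_eq_mul] at c1
  have c2 : R.card ≤ 3 := by
    by_contra e
    have : (4 : ℚ) ≤ R.card := by exact_mod_cast (by omega : 4 ≤ R.card)
    linarith
  push_cast at g3
  by_cases c3 : R.card = 3
  · obtain ⟨i, j, k, n1, n2, n3, rfl⟩ := Finset.card_eq_three.1 c3
    rw [Finset.sum_insert (by simp [n1, n2]), Finset.sum_pair n3] at he
    have hi : i ∈ ({i, j, k} : Finset ι) := by simp
    have hj : j ∈ ({i, j, k} : Finset ι) := by simp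
    have hk : k ∈ ({i, j, k} : Finset ι) := by simp
    have d := Nat.le_of_dvd (by omega) (h.dvd2 hi hj n1)
    have p1 := pos j hj; have p2 := pos k hk
    have := h.three_le j hj
    have l : 1 / (g : ℚ) ≤ 1 / (3 * a i : ℕ) := inv_le_of (by have := h.three_le i hi; omega) (by nlinarith)
    push_cast at l
    rw [one_div (3 * _), mul_inv, ← one_div (a i : ℚ)] at l
    linarith
  · have c4 := Finset.sum_le_card_nsmul R _ _ (fun i hi => show (1 - 1 / (a i : ℚ)) / 3 ≤ 1 / 3 by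
      have := pos i hi; linarith)
    rw [nsmul_eq_mul] at c4
    have : (R.card : ℚ) ≤ 2 := by exact_mod_cast (by omega : R.card ≤ 2)
    have c5 : R.Nonempty := by
      rw [Finset.nonempty_iff_ne_empty]; rintro rfl; rw [Finset.sum_empty] at he; linarith
    have c6 := Finset.sum_lt_sum_of_nonempty c5 (fun i hi => show (1 - 1 / (a i : ℚ)) / 3 < 1 / 3 by
      have := pos i hi; linarith)
    rw [Finset.sum_const, nsmul_eq_mul] at c6
    linarith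

theorem HB.exists_inv (hG : HB p ρ) : ∃ t : G, IsInv t := by
  classical
  by_contra hh
  push Not at hh
  have ni : ∀ x : G, NI x := fun x r hr => absurd hr (hh r)
  obtain ⟨R, h1, -, -, h4⟩ := hG.mkFam (B := True) (fun _ z _ => ni z) (one_dvd _)
    (fun r hr h => absurd (Nat.dvd_one.1 h) hr.one_lt.ne') (Or.inr fun a b h => absurd h (hh _))
  have : Nontrivial G := hG.sn.simple.toNontrivial
  refine h1.odd_case ?_ Finite.one_lt_card ?_
  · by_contra e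
    obtain ⟨w, e⟩ := exists_prime_orderOf_dvd_card' (G := G) 2 (by omega)
    exact hh w ⟨by rw [← sq, ← e, pow_orderOf_eq_one], fun e' => by simp [e'] at e⟩
  · have e : XX ρ True = ((⊤ : Subgroup G) : Set G) \ {1} := Set.ext fun x => by simp [XX, ni]
    rw [e, ncard_diff_one, card_top, Nat.cast_sub Nat.card_pos] at h4
    have g0 : (Nat.card G : ℚ) ≠ 0 := by exact_mod_cast Nat.card_pos.ne'
    field_simp
    exact_mod_cast h4

end Cfsg.Agent.H8.M3
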