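import Cfsg.Prelude.Def_GeometricClasses

/-! Interface for the residual class in dimension three (proved in `H8/M3*`). -/

set_option autoImplicit false

namespace Cfsg.Agent.H8
open Cfsg.Geo

/-- `H` modulo its scalars. -/
abbrev ModSc {F : Type*} [Field F] (H : Subgroup (GL (Fin 3) F)) :=
  H ⧸ (scalars (Fin 3) F).subgroupOf H

/-- no transvections -/
def NoTv {F : Type*} [Field F] (H : Subgroup (GL (Fin 3) F)) : Prop :=
  ∀ g ∈ H, ((g : Matrix (Fin 3) (Fin 3) F) - 1) * ((g : Matrix (Fin 3) (Fin 3) F) - 1) = 0 → g = 1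

/-- residual maximal subgroups of `SL₃(q)` -/
def ResSL3 (F : Type*) [Field F] [Fintype F] : Prop :=
  ∀ H : Subgroup (GL (Fin 3) F), IsMaximalIn (specialLinear (Fin 3) F) H → InLinearResidualClass H →
    (11 ≤ Fintype.card F ∧ Nat.card (ModSc H) = 168) ∨
    ((Fintype.card F = 4 ∨ 19 ≤ Fintype.card F) ∧ Nonempty (ModSc H ≃* alternatingGroup (Fin 6)))

/-- residual maximal subgroups of `SU₃(q)` -/
def ResSU3 (F : Type*) [Field F] [Fintype F] (q : ℕ) : Prop :=
  ∀ H : Subgroup (GL (Fin 3) F), IsMaximalIn (Cfsg.GU 3 F q ⊓ specialLinear (Fin 3) F) H →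
    InUnitaryResidualClass H →
    q.Prime ∧ NoTv H ∧ (q = 5 ∨ ((q = 3 ∨ 13 ≤ q) ∧ Nat.card (ModSc H) = 168) ∨
      (11 ≤ q ∧ Nonempty (ModSc H ≃* alternatingGroup (Fin 6))))

end Cfsg.Agent.H8
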