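import Cfsg.Agent.H8.M3I

/-! Centralisers of involutions, I. -/

set_option autoImplicit false
set_option linter.unusedSectionVars false

namespace Cfsg.Agent.H8.M3
open Matrix Equiv Subgroup
open scoped MatrixGroups

universe u
variable {K : Type*} [Field K] {G : Type u} [Group G]
variable {ρ : G →* PGL(3, K)} {x y z s t u n r w : G} {p : ℕ} {d : Fin 3 → K} {σ τ : Perm (Fin 3)}
variable [Finite G] [IsAlgClosed K] [Fact p.Prime] [CharP K p] {c ω l : K}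

theorem exists_central_inv (ht : IsInv t) : ∃ t : G, IsInv t ∧ (Cen t).index % 2 = 1 := by
  have hp : IsPGroup 2 (zpowers t) := IsPGroup.of_card (n := 1) (by rw [Nat.card_zpowers, ht.orderOf]; rfl)
  obtain ⟨S, hS⟩ := hp.exists_le_sylow
  have : Nontrivial (S : Subgroup G) := ⟨⟨⟨_, hS (mem_zpowers t)⟩, 1, fun e => ht.2 (congrArg Subtype.val e)⟩⟩
  have := S.2.center_nontrivial
  have h2 : 2 ∣ Nat.card (center (S : Subgroup G)) :=
    ((S.2.to_subgroup _).card_eq_or_dvd).resolve_left Finite.one_lt_card.ne'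
  obtain ⟨⟨⟨z, hz⟩, hz'⟩, e⟩ := exists_prime_orderOf_dvd_card' 2 h2
  rw [← orderOf_coe, ← orderOf_coe] at e
  refine ⟨z, ⟨by rw [← sq, ← e, pow_orderOf_eq_one], fun e' => by simp [e'] at e⟩, ?_⟩
  have hle : (S : Subgroup G) ≤ Cen z := fun s hs =>
    mem_Cen.2 (congrArg Subtype.val (mem_center_iff.1 hz' ⟨_, hs⟩)).symm
  by_contra h
  exact S.not_dvd_index ((show 2 ∣ (Cen z).index by omega).trans (index_dvd_of_le hle))

theorem conj_of_odd_index {H : Subgroup G} (h : H.index % 2 = 1) (hr : IsInv r) : ∃ g : G, g⁻¹ * r * g ∈ H := by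
  have hp : IsPGroup 2 (zpowers r) := IsPGroup.of_card (n := 1) (by rw [Nat.card_zpowers, hr.orderOf]; rfl)
  obtain ⟨a, ha⟩ := hp.nonempty_fixed_point_of_prime_not_dvd_card (G ⧸ H) (by
    rw [← index_eq_card]; omega)
  induction a using QuotientGroup.induction_on with | H g => ?_
  have : r • (g : G ⧸ H) = g := ha ⟨r, mem_zpowers r⟩
  rw [MulAction.Quotient.smul_coe, smul_eq_mul, eq_comm, QuotientGroup.eq, ← mul_assoc] at this
  exact ⟨g, this⟩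

theorem cyc_inv_unique {r' : G} (h : r ∈ zpowers y) (h' : r' ∈ zpowers y) (hr : IsInv r) (hr' : IsInv r') :
    r = r' := by
  have key : ∀ r ∈ zpowers y, IsInv r → ∃ i, r = y ^ i ∧ 2 * i = orderOf y := fun r h hr => by
    obtain ⟨i, rfl⟩ := mem_powers_iff_mem_zpowers.2 h
    refine ⟨i % orderOf y, (pow_mod_orderOf y i).symm, ?_⟩
    simp only at hr
    rw [← pow_mod_orderOf] at hr
    have h1 := Nat.mod_lt i (orderOf_pos y)
    generalize i % orderOf y = j at *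
    obtain ⟨a, ha⟩ := orderOf_dvd_of_pow_eq_one (show y ^ (2 * j) = 1 by rw [two_mul, pow_add, hr.1])
    have : j ≠ 0 := fun e => hr.2 (by rw [e, pow_zero])
    have a2 : a < 2 := by
      by_contra e
      have : orderOf y * 2 ≤ orderOf y * a := Nat.mul_le_mul_left _ (by omega)
      omega
    interval_cases a <;> omega
  obtain ⟨i, rfl, e⟩ := key r h hr
  obtain ⟨j, rfl, e'⟩ := key r' h' hr'
  rw [show i = j by omega]

theorem IsInv.bt (hρ : Function.Injective ρ) (ht : IsInv t) (hy : y ∈ Cen t) : Bt ρ t y 1 := by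
  obtain ⟨c, hc⟩ := exists_bt (ρ := ρ) (mem_Cen.1 hy)
  by_contra e
  exact sq_ne_of_cube (hc.pow_three hρ fun e' => e (e' ▸ hc)) ht.2 ht.1

theorem T0.isInv (hρ : Function.Injective ρ) (h2 : (2 : K) ≠ 0) (h : T0 ρ t) : IsInv t :=
  ⟨(h.mul h).eq_one hρ (by simp) (by simp), fun e => h2 (by
    have := h.of_eq_one e 0 1; simp at this; linear_combination this)⟩

theorem T0.cen (hρ : Function.Injective ρ) (h2 : (2 : K) ≠ 0) (h : T0 ρ t) : Cen t = Blk ρ := by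
  refine le_antisymm (fun y hy => ?_) fun y ⟨B, hB⟩ => mem_Cen.2 (Rep.comm hρ h hB ?_)
  · obtain ⟨A, hA⟩ := exists_rep ρ y
    have e := (h.isInv hρ h2).bt hρ hy _ _ h hA
    have f := fun i j => congrFun (congrFun e i) j
    have f1 := f 0 1; have f2 := f 0 2; have f3 := f 1 0; have f4 := f 2 0
    simp at f1 f2 f3 f4
    have k : ∀ a : K, a = -a → a = 0 := fun a h =>
      (mul_eq_zero.1 (by linear_combination h)).resolve_left h2
    have g1 := k _ f1; have g2 := k _ f2; have g3 := k _ f3.symm; have g4 := k _ f4.symm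
    have g0 : A 0 0 ≠ 0 := fun e => hA.det_ne (by simp [det_fin_three, e, g1, g2])
    exact mem_Blk (B := (A 0 0)⁻¹ • !![A 1 1, A 1 2; A 2 1, A 2 2]) ((hA.smul (inv_ne_zero g0)).congr (by
      ext i j; fin_cases i <;> fin_cases j <;> simp [blk, g0, g1, g2, g3, g4]))
  · ext i j; fin_cases i <;> fin_cases j <;> simp [blk]

theorem HB.reg_of_cen (hG : HB p ρ) (ht : IsInv t) (hy : y ∈ Cen t) (h : y * y ≠ 1) :
    ∃ g d, Function.Injective d ∧ Dg (M3.cjr ρ g) y d :=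
  hG.reg_frame h fun hu => hG.un_ni hu t ht (mem_Cen_comm.1 hy)

theorem HB.inv_comm (hG : HB p ρ) (h : x * x ≠ 1) {r' : G} (hr : IsInv r) (hr' : IsInv r')
    (h1 : r ∈ Cen x) (h2 : r' ∈ Cen x) : r * r' = r' * r := by
  obtain ⟨g, d, hd, hx⟩ := hG.reg_of_cen hr (mem_Cen_comm.1 h1) h
  exact Tor_comm (hG.cjr g).inj (hx.inv_cen hd h1 hr.1) (hx.inv_cen hd h2 hr'.1)

theorem HB.second_inv (hG : HB p ρ) (ht : IsInv t) : ∃ u, IsInv u ∧ u ≠ t ∧ u ∈ Cen t := by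
  by_contra hh
  push Not at hh
  have un : ∀ r, IsInv r → r ∈ Cen t → r = t := fun r hr h => by
    by_contra e; exact hh r hr e h
  refine hG.sn.frob (Cen t) (fun e => ht.2 (mem_bot.1 (e ▸ self_mem_Cen t))) (fun e => ht.2
    (hG.sn.center_eq fun g => (mem_Cen.1 (e ▸ mem_top g)).symm)) fun g x hx h1 hg => ?_
  have key : g * t * g⁻¹ = t → g ∈ Cen t := fun e => mem_Cen.2 (mul_inv_eq_iff_eq_mul.1 e).symm
  by_cases h2 : x * x = 1
  · obtain rfl := un x ⟨h2, h1⟩ hx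
    have := un _ (by simpa using IsInv.conj ht g⁻¹) hg
    exact key (by nth_rw 1 [← this]; group)
  · exact key (un _ (ht.conj g) (mem_Cen.2 (hG.inv_comm h2 ht (ht.conj g) (mem_Cen_comm.1 hx)
      (mem_Cen_comm.1 ((mem_Cen_conj g).2 hg)))))

theorem not_ni_conj (hI : ∀ r, IsInv r → ∃ g, g * t * g⁻¹ = r) (h : ¬ NI y) : ∃ g, g * y * g⁻¹ ∈ Cen t := by
  simp only [NI, not_forall, not_not] at h
  obtain ⟨r, hr, hy⟩ := h
  obtain ⟨g, rfl⟩ := hI r hr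
  exact ⟨g⁻¹, by simpa using (mem_Cen_conj g).1 (mem_Cen_comm.1 hy)⟩

theorem exists_not_ni (ht : IsInv t) (r : ℕ) (hr : r.Prime) (h : r ∣ Nat.card (Cen t)) :
    ∃ y : G, orderOf y = r ∧ ¬ NI y := by
  have := Fact.mk hr
  obtain ⟨⟨y, hy⟩, e⟩ := exists_prime_orderOf_dvd_card' r h
  exact ⟨y, by rw [← e, ← orderOf_coe], fun k => k t ht (mem_Cen_comm.1 hy)⟩

theorem ord4_conj (hI : ∀ r, IsInv r → ∃ g, g * t * g⁻¹ = r) {a : G} (h : IsInv (a * a)) :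
    ∃ g : G, g⁻¹ * a * g * (g⁻¹ * a * g) = t := by
  obtain ⟨g, e⟩ := hI _ h
  exact ⟨g, by rw [show g⁻¹ * a * g * (g⁻¹ * a * g) = g⁻¹ * (a * a) * g by group, ← e]; group⟩

theorem mem_cen_sq {a : G} : a ∈ Cen (a * a) := mem_Cen.2 (by group)

/-- Klein four frame -/
structure VF (ρ : G →* PGL(3, K)) (t u : G) : Prop where
  inj : Function.Injective ρ
  two : (2 : K) ≠ 0
  t0 : T0 ρ t
  u0 : Dg ρ u ![1, 1, -1]

theorem VF.tu (h : VF ρ t u) : Dg ρ (t * u) ![1, -1, 1] :=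
  (h.t0.mul h.u0).congr fun i => by fin_cases i <;> simp

theorem VF.ne (h : VF ρ t u) : (1 : K) ≠ -1 := fun e => h.two (by linear_combination e)

theorem VF.it (h : VF ρ t u) : IsInv t := h.t0.isInv h.inj h.two

theorem VF.iu (h : VF ρ t u) : IsInv u := ⟨(h.u0.mul h.u0).eq_one h.inj (by simp) (by simp),
  fun e => h.ne (by simpa using h.u0.of_eq_one e 0 2)⟩

theorem VF.itu (h : VF ρ t u) : IsInv (t * u) := ⟨(h.tu.mul h.tu).eq_one h.inj (by simp) (by simp),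
  fun e => h.ne (by simpa using h.tu.of_eq_one e 0 1)⟩

theorem VF.comm (h : VF ρ t u) : t * u = u * t := h.t0.comm h.inj h.u0

theorem VF.tne (h : VF ρ t u) : t ≠ u := fun e => h.itu.2 (by rw [← e, h.it.1])

theorem VF.tne' (h : VF ρ t u) : t ≠ t * u := fun e => h.iu.2 (by simpa using e)

theorem VF.une (h : VF ρ t u) : u ≠ t * u := fun e => h.it.2 (by simpa using e)

theorem VF.mon (h : VF ρ t u) {g : G} (h1 : g * t * g⁻¹ ∈ Tor ρ) (h2 : g * u * g⁻¹ ∈ Tor ρ) :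
    g ∈ Mon ρ := mon_of_sep fun j k hjk => by
  have := h.ne
  by_cases e : (![1, -1, -1] : Fin 3 → K) j ≠ ![1, -1, -1] k
  · exact ⟨t, _, h.t0, e, h1⟩
  · refine ⟨u, _, h.u0, ?_, h2⟩
    fin_cases j <;> fin_cases k <;> simp_all [eq_comm]

theorem perm_fix : ∀ σ : Perm (Fin 3), σ⁻¹ 0 = 0 → σ = 1 ∨ σ = swap 1 2 := by decide
theorem perm_fix2 : ∀ σ : Perm (Fin 3), σ⁻¹ 2 = 2 → σ = 1 ∨ σ = swap 0 1 := by decide

theorem fix_of_sign (h2 : (2 : K) ≠ 0) {v : Fin 3 → K} {a c : K} {i : Fin 3} (ha : a ≠ 0) (h0 : v i = a)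
    (h1 : ∀ k, k ≠ i → v k = -a) (h : ∀ k, v (σ⁻¹ k) = c * v k) : σ⁻¹ i = i := by
  by_contra e
  have : ∀ (σ : Perm (Fin 3)) (i : Fin 3), ∃ k, k ≠ i ∧ σ k ≠ i := by decide
  obtain ⟨k, k1, k2⟩ := this σ⁻¹ i
  have a1 := h i
  have a2 := h k
  rw [h1 _ e, h0] at a1
  rw [h1 _ k1, h1 _ k2] at a2
  exact mul_ne_zero h2 ha (by linear_combination -a1 - a2)

theorem mo_cen_t (h2 : (2 : K) ≠ 0) (h : T0 ρ t) (hy : y ∈ Cen t) (hm : Mo ρ y σ) :
    σ = 1 ∨ σ = swap 1 2 := by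
  have e : y * t * y⁻¹ = t := by rw [← mem_Cen.1 hy]; group
  obtain ⟨c, -, hc⟩ := h.uniq (e ▸ hm.conj h)
  exact perm_fix σ (fix_of_sign h2 (v := ![1, -1, -1]) (a := 1) one_ne_zero rfl
    (fun k hk => by fin_cases k <;> simp at hk ⊢) hc)

theorem VF.mo_cen_u (h : VF ρ t u) (hy : y ∈ Cen u) (hm : Mo ρ y σ) : σ = 1 ∨ σ = swap 0 1 := by
  have e : y * u * y⁻¹ = u := by rw [← mem_Cen.1 hy]; group
  obtain ⟨c, -, hc⟩ := h.u0.uniq (e ▸ hm.conj h.u0)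
  exact perm_fix2 σ (fix_of_sign h.two (v := ![1, 1, -1]) (a := -1) (neg_ne_zero.2 one_ne_zero) rfl
    (fun k hk => by fin_cases k <;> simp at hk ⊢) hc)

theorem VF.cen2 (h : VF ρ t u) (h1 : y ∈ Cen t) (h2 : y ∈ Cen u) : y ∈ Tor ρ := by
  obtain ⟨σ, hσ⟩ := h.mon (g := y) (by rw [← mem_Cen.1 h1, mul_inv_cancel_right]; exact h.t0.mem)
    (by rw [← mem_Cen.1 h2, mul_inv_cancel_right]; exact h.u0.mem)
  rw [hσ.mem_Tor_iff]
  rcases mo_cen_t h.two h.t0 h1 hσ with e | rfl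
  · exact e
  · exact absurd (h.mo_cen_u h2 hσ) (by decide)

theorem tor_inv (hr : r ∈ Tor ρ) (hρ : Function.Injective ρ) (e : r * r = 1) :
    r = 1 ∨ T0 ρ r ∨ Dg ρ r ![1, 1, -1] ∨ Dg ρ r ![1, -1, 1] := by
  obtain ⟨b, c, h⟩ := mem_Tor'.1 hr
  have e' := (h.mul h).of_eq_one e
  have e1 := e' 1 0; have e2 := e' 2 0
  simp at e1 e2
  rcases mul_self_eq_one_iff.1 e1 with rfl | rfl <;> rcases mul_self_eq_one_iff.1 e2 with rfl | rfl
  · exact Or.inl (h.eq_one hρ rfl rfl)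
  · exact Or.inr (Or.inr (Or.inl h))
  · exact Or.inr (Or.inr (Or.inr h))
  · exact Or.inr (Or.inl h)

theorem VF.inv (h : VF ρ t u) (hr : r ∈ Tor ρ) (e : r * r = 1) : r = 1 ∨ r = t ∨ r = u ∨ r = t * u :=
  (tor_inv hr h.inj e).imp_right (Or.imp (fun k => Rep.eq h.inj k h.t0)
    (Or.imp (fun k => Rep.eq h.inj k h.u0) fun k => Rep.eq h.inj k h.tu))

theorem HB.no4 (hG : HB p ρ) (h : VF ρ t u) (hx : x ∈ Tor ρ) : ¬ IsInv (x * x) := fun e => by
  obtain ⟨b, c, hx⟩ := mem_Tor'.1 hx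
  have k : ∀ v d, Dg ρ v d → v * v = 1 → Function.Injective (![1, b, c] * d) := fun v d hv e' =>
    hG.dg_inj (hx.mul hv) (by
      rw [show x * v * (x * v) = x * (v * x) * v by group, ← hx.comm hG.inj hv,
        show x * (x * v) * v = x * x * (v * v) by group, e', mul_one]; exact e.2)
  have a1 := hG.dg_inj hx e.2
  have a2 := k _ _ h.u0 h.iu.1
  have a3 := k _ _ h.t0 h.it.1
  have e' := ((hx.mul hx).mul (hx.mul hx)).of_eq_one e.1
  have e1 := e' 1 0; have e2 := e' 2 0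
  have n1 := a1.ne (show (1 : Fin 3) ≠ 0 by decide)
  have n2 := a1.ne (show (2 : Fin 3) ≠ 0 by decide)
  have n3 := a1.ne (show (1 : Fin 3) ≠ 2 by decide)
  have n4 := a2.ne (show (1 : Fin 3) ≠ 2 by decide)
  have n5 := a3.ne (show (1 : Fin 3) ≠ 0 by decide)
  have n6 := a3.ne (show (2 : Fin 3) ≠ 0 by decide)
  simp at e1 e2 n1 n2 n3 n4 n5 n6
  have k : ∀ b : K, b * b * (b * b) = 1 → b ≠ 1 → -b ≠ 1 → b * b = -1 := fun b e h1 h2 =>
    (mul_self_eq_one_iff.1 e).resolve_left fun e => (mul_self_eq_one_iff.1 e).elim h1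
      fun e => h2 (by rw [e, neg_neg])
  exact (mul_self_eq_mul_self_iff.1 ((k b e1 n1 n5).trans (k c e2 n2 n6).symm)).elim n3 n4

theorem HB.ni3 (hG : HB p ρ) (h : VF ρ t u) (hx : x ∈ Tor ρ) (h2 : x * x ≠ 1) : ni x = 3 := by
  obtain ⟨d, hd⟩ := hx
  refine Set.ncard_eq_three.2 ⟨t, u, t * u, h.tne, h.tne', h.une, Set.ext fun r => ⟨fun ⟨a, b⟩ =>
    (h.inv (hd.inv_cen (hG.dg_inj hd h2) b a.1) a.1).resolve_left a.2, ?_⟩⟩
  rintro (rfl | rfl | rfl)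
  · exact ⟨h.it, mem_Cen.2 (hd.comm h.inj h.t0)⟩
  · exact ⟨h.iu, mem_Cen.2 (hd.comm h.inj h.u0)⟩
  · exact ⟨h.itu, mem_Cen.2 (hd.comm h.inj h.tu)⟩

theorem VF.ncard4 (h : VF ρ t u) : ({1, t, u, t * u} : Set G).ncard = 4 := by
  rw [Set.ncard_insert_of_notMem (by simp [h.it.2.symm, h.iu.2.symm, h.itu.2.symm]),
    Set.ncard_insert_of_notMem (by simp [h.tne, h.iu.2]), Set.ncard_pair h.une]

/-- squaring on the torus -/
def sqT (hρ : Function.Injective ρ) : Tor ρ →* G := MonoidHom.mk' (fun x => x * x) fun a b => by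
  simp only [coe_mul]
  rw [show (a : G) * b * (a * b) = a * (b * a) * b by group, Tor_comm hρ b.2 a.2]; group

theorem HB.card_tor (hG : HB p ρ) (h : VF ρ t u) : Nat.card (Tor ρ) = 4 * Nat.card (sqT h.inj).range ∧
    Nat.card (sqT h.inj).range % 2 = 1 := by
  constructor
  · rw [← index_ker, ← (sqT h.inj).ker.card_mul_index, ← h.ncard4, card_eq_ncard,
      ← Set.ncard_image_of_injective _ Subtype.val_injective]
    congr 2
    refine Set.ext fun r => ⟨by rintro ⟨⟨r, hr⟩, e, rfl⟩; exact h.inv hr e, ?_⟩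
    rintro (rfl | rfl | rfl | rfl)
    · exact ⟨1, one_mem _, rfl⟩
    · exact ⟨⟨_, h.t0.mem⟩, h.it.1, rfl⟩
    · exact ⟨⟨_, h.u0.mem⟩, h.iu.1, rfl⟩
    · exact ⟨⟨_, h.tu.mem⟩, h.itu.1, rfl⟩
  · by_contra e
    obtain ⟨⟨_, x, rfl⟩, e⟩ := exists_prime_orderOf_dvd_card' (G := (sqT h.inj).range) 2 (by omega)
    rw [← orderOf_coe] at e
    change orderOf ((x : G) * x) = 2 at e
    exact hG.no4 h x.2 ⟨by rw [← sq, ← e, pow_orderOf_eq_one], fun e' => by simp [e'] at e⟩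

theorem HB.ncard_z3 (hG : HB p ρ) (h : VF ρ t u) :
    (ZZ G 3 ∩ Tor ρ).ncard + 4 = Nat.card (Tor ρ) := by
  rw [card_eq_ncard, ← h.ncard4, ← Set.ncard_union_eq]
  · congr 1
    refine Set.ext fun x => ⟨?_, fun hx => ?_⟩
    · rintro (hx | rfl | rfl | rfl | rfl)
      exacts [hx.2, one_mem _, h.t0.mem, h.u0.mem, h.tu.mem]
    · by_cases e : x * x = 1
      · exact Or.inr (h.inv hx e)
      · exact Or.inl ⟨⟨fun e' => e (by rw [e', one_mul]), fun k => e k.1, hG.ni3 h hx e⟩, hx⟩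
  · refine Set.disjoint_left.2 ?_
    rintro x hx (rfl | rfl | rfl | rfl)
    exacts [hx.1.1 rfl, hx.1.2.1 h.it, hx.1.2.1 h.iu, hx.1.2.1 h.itu]

theorem sp_of_cube (hρ : Function.Injective ρ) (h : Dg ρ x d) (hd : Function.Injective d) (h3 : x ^ 3 = 1)
    (hs : Mo ρ s σ) (hσ : ∀ i, σ i ≠ i) : Sp ρ x ∧ s ∈ Cen x := by
  obtain ⟨ω, hω, h'⟩ := h.sp_norm hd h3
  have w3 : ω ^ 3 = 1 := by linear_combination (ω - 1) * hω
  have : s ∈ Cen x := by
    rw [mem_Cen, eq_comm, ← mul_inv_eq_iff_eq_mul]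
    rcases fpf_cases σ hσ with ⟨a, b, c⟩ | ⟨a, b, c⟩
    · exact (h'.eq hρ (hs.conj h') ω fun i => by
        fin_cases i <;> simp [a, b, c, -Perm.coe_inv] <;> grind).symm
    · exact (h'.eq hρ (hs.conj h') (ω ^ 2) fun i => by
        fin_cases i <;> simp [a, b, c, -Perm.coe_inv] <;> grind).symm
  refine ⟨?_, this⟩
  by_contra e
  rw [h.cen_eq hρ hd e, hs.mem_Tor_iff] at this
  exact hσ 0 (by rw [this]; rfl)

theorem fpf_conj (h : VF ρ t u) (hs : Mo ρ s σ) (hσ : ∀ i, σ i ≠ i) (hr : r ∈ Tor ρ) (hi : IsInv r) :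
    ∃ g, g * t * g⁻¹ = r := by
  have a := hs.conj h.t0
  have b := hs.conj a
  have k1 : ∀ {x}, Dg ρ x ![-1, -1, 1] → x = u := fun hx => hx.eq h.inj h.u0 (-1) fun i => by
    fin_cases i <;> simp
  have k2 : ∀ {x}, Dg ρ x ![-1, 1, -1] → x = t * u := fun hx => hx.eq h.inj h.tu (-1) fun i => by
    fin_cases i <;> simp
  have e : s * (s * t * s⁻¹) * s⁻¹ = s * s * t * (s * s)⁻¹ := by group
  rw [e] at b
  rcases (h.inv hr hi.1).resolve_left hi.2 with rfl | rfl | rfl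
  · exact ⟨1, by simp⟩
  · rcases fpf_cases σ hσ with ⟨e1, e2, e3⟩ | ⟨e1, e2, e3⟩
    · exact ⟨s, k1 (a.congr fun i => by fin_cases i <;> simp [e1, e2, e3, -Perm.coe_inv])⟩
    · exact ⟨s * s, k1 (b.congr fun i => by fin_cases i <;> simp [e1, e2, e3, -Perm.coe_inv])⟩
  · rcases fpf_cases σ hσ with ⟨e1, e2, e3⟩ | ⟨e1, e2, e3⟩
    · exact ⟨s * s, k2 (b.congr fun i => by fin_cases i <;> simp [e1, e2, e3, -Perm.coe_inv])⟩
    · exact ⟨s, k2 (a.congr fun i => by fin_cases i <;> simp [e1, e2, e3, -Perm.coe_inv])⟩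

/-- the entry character of the torus -/
noncomputable def ent (ρ : G →* PGL(3, K)) : Tor ρ →* K where
  toFun x := x.2.choose 1 / x.2.choose 0
  map_one' := by
    rw [Dg.of_eq_one (1 : Tor ρ).2.choose_spec rfl 1 0, div_self (Dg.ne (1 : Tor ρ).2.choose_spec 0)]
  map_mul' a b := by
    obtain ⟨c, hc, e⟩ := (a.2.choose_spec.mul b.2.choose_spec).uniq (a * b).2.choose_spec
    rw [e, e, mul_div_mul_left _ _ hc, Pi.mul_apply, Pi.mul_apply, mul_div_mul_comm]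

theorem ent_eq {b c : K} (h : Dg ρ x ![1, b, c]) : ent ρ ⟨x, h.mem⟩ = b := by
  obtain ⟨k, hk, e⟩ := h.uniq h.mem.choose_spec
  change h.mem.choose 1 / h.mem.choose 0 = b
  rw [e, e]; simp [hk]

theorem class_fam {B : Prop} {R : Finset G} {e0 : ℚ} {n : ℕ}
    (h1 : ((XX ρ B).ncard : ℚ) = Nat.card G * ∑ x ∈ R, tm (Nat.card (Cen x)) (nu x))
    (h2 : 1 - 1 / (Nat.card G : ℚ) = e0 + n / Nat.card G) (h3 : n = (XX ρ B).ncard) :
    1 - 1 / (Nat.card G : ℚ) = e0 + ∑ x ∈ R, tm (Nat.card (Cen x)) (nu x) := by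
  have g0 : (Nat.card G : ℚ) ≠ 0 := by exact_mod_cast Nat.card_pos.ne'
  rw [h2, h3, h1, mul_div_cancel_left₀ _ g0]

theorem HB.caseAb (hG : HB p ρ) (h : VF ρ t u) (hC : Cen t = Tor ρ) (ho : (Cen t).index % 2 = 1) :
    Nat.card (Tor ρ) = 4 ∧ Nat.card G = 60 ∧ (∀ r, IsInv r → ∃ g, g * t * g⁻¹ = r) ∧
      ∃ s σ, Mo ρ s σ ∧ ∀ i, σ i ≠ i := by
  classical
  have hd : Nat.card (piM ρ).range ∣ (Cen t).index := by
    rw [← relIndex_Tor_Mon, hC]; exact relIndex_dvd_index_of_le Tor_le_Mon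
  have nsw : ∀ w τ, Mo ρ w τ → τ * τ = 1 → τ = 1 := fun w τ hw e => by
    by_contra h1
    have := (piM ρ).range.orderOf_dvd_natCard (mem_range_piM.2 ⟨w, hw⟩)
    rw [orderOf_eq_prime (p := 2) (by rw [sq, e]) h1] at this
    have := this.trans hd
    omega
  obtain ⟨s, σ, hs, hσ⟩ : ∃ s σ, Mo ρ s σ ∧ ∀ i, σ i ≠ i := by
    by_contra hh
    have key : ∀ g, g⁻¹ * t * g ∈ Tor ρ → g ∈ Tor ρ := fun g hg => by
      have e : Tor ρ = Cen (g⁻¹ * t * g⁻¹⁻¹) := eq_of_le_of_card_ge (fun y hy => mem_Cen.2 (by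
        rw [inv_inv]; exact Tor_comm h.inj hg hy)) (by rw [card_Cen_conj, hC])
      have e' : ∀ y ∈ Tor ρ, g * y * g⁻¹ ∈ Tor ρ := fun y hy => by
        rw [e, mem_Cen_conj, hC, inv_inv] at hy; exact hy
      obtain ⟨σ, hσ⟩ := h.mon (e' _ h.t0.mem) (e' _ h.u0.mem)
      rw [hσ.mem_Tor_iff]
      by_contra h1
      refine hh ⟨g, σ, hσ, fpf_of_cube σ h1 ?_⟩
      have : ∀ σ : Perm (Fin 3), σ * σ ≠ 1 → σ ^ 3 = 1 := by decide
      exact this σ fun e => h1 (nsw g σ hσ e)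
    have := hG.sn.transfer (Tor ρ) (ent ρ).toHomUnits h.t0.mem fun g k hm hg => by
      rcases Nat.even_or_odd' k with ⟨j, rfl | rfl⟩
      · simp only [pow_mul, sq, h.it.1, one_pow, mul_one, inv_mul_cancel]; exact map_one _
      · exact absurd (key g (by simpa [pow_succ, pow_mul, sq, h.it.1] using hm)) hg
    have e := congrArg Units.val this
    rw [MonoidHom.coe_toHomUnits, ent_eq h.t0] at e
    exact h.ne e.symm
  have hI : ∀ r, IsInv r → ∃ g, g * t * g⁻¹ = r := fun r hr => by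
    obtain ⟨g, hg⟩ := conj_of_odd_index ho hr
    obtain ⟨k, hk⟩ := fpf_conj h hs hσ (hC ▸ hg) (by simpa using hr.conj g⁻¹)
    exact ⟨g * k, by rw [show g * k * t * (g * k)⁻¹ = g * (k * t * k⁻¹) * g⁻¹ by group, hk]; group⟩
  have no3 : ∀ y : G, y ^ 3 = 1 → y ≠ 1 → NI y := fun y h3 h1 => by
    by_contra hn
    obtain ⟨g, d, hd⟩ := hC ▸ not_ni_conj hI hn
    have h3' : (g * y * g⁻¹) ^ 3 = 1 := by rw [conj_pow, h3]; group
    have inj := hG.dg_inj hd (sq_ne_of_cube h3' (conj_ne_one h1))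
    obtain ⟨w, τ, -, a, b, c⟩ := hG.sp_mo hd inj (sp_of_cube h.inj hd inj h3' hs hσ).1
    exact b (nsw w τ a c)
  have no4 : ∀ a : G, ¬ IsInv (a * a) := fun a ha => by
    obtain ⟨g, e⟩ := ord4_conj hI ha
    exact hG.no4 h (hC ▸ e ▸ mem_cen_sq) (e ▸ h.it)
  obtain ⟨c1, c2⟩ := hG.card_tor h
  generalize Nat.card (sqT h.inj).range = k at c1 c2
  have hB : True → ∀ z, Sp ρ z → NI z := fun _ z ⟨s, c, hc, hz⟩ =>
    no3 z (hz.pow_three h.inj hc) (hz.ne_one hc)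
  obtain ⟨R, f1, f2, f3, f4⟩ := hG.mkFam hB (c := 4 * k) (c1 ▸ card_subgroup_dvd_card _)
    (fun r hr e => exists_not_ni h.it r hr (by rwa [hC, c1])) (Or.inr fun a _ ha => absurd ha (no4 a))
  have ce := class_eq h.it hI (fun x hx h1 h2 => Or.inr (hG.ni3 h (hC ▸ hx) fun e => h2 ⟨e, h1⟩))
  have z1 : ZZ G 1 ∩ Cen t = ∅ := Set.eq_empty_iff_forall_notMem.2 fun x hx => by
    have := hG.ni3 h (hC ▸ hx.2) fun e => hx.1.2.1 ⟨e, hx.1.1⟩
    have := hx.1.2.2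
    omega
  have z3 := hG.ncard_z3 h
  rw [z1, Set.ncard_empty, hC, c1] at ce
  rw [c1] at z3
  have k0 : 0 < k := by omega
  obtain ⟨e1, e2, -⟩ := f1.Ab k0 (by
    rw [class_fam f4 ce (by rw [xx_eq trivial])]
    have : ((ZZ G 3 ∩ Tor ρ).ncard : ℚ) = 4 * k - 4 := by
      have := congrArg (Nat.cast : ℕ → ℚ) z3; push_cast at this; linarith
    have : (k : ℚ) ≠ 0 := by positivity
    rw [‹((ZZ G 3 ∩ Tor ρ).ncard : ℚ) = _›]; push_cast; field_simp; ring) (by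
      have : Fact (Nat.Prime 3) := ⟨Nat.prime_three⟩
      have h3 := (piM ρ).range.orderOf_dvd_natCard (mem_range_piM.2 ⟨s, hs⟩)
      have : ∀ σ : Perm (Fin 3), (∀ i, σ i ≠ i) → σ ^ 3 = 1 ∧ σ ≠ 1 := by decide
      rw [orderOf_eq_prime (this σ hσ).1 (this σ hσ).2] at h3
      obtain ⟨y, hy⟩ := exists_prime_orderOf_dvd_card' 3 ((h3.trans hd).trans (index_dvd_card _))
      have y1 : y ≠ 1 := fun e => by simp [e] at hy
      exact f3 y ⟨y1, no3 y (orderOf_dvd_iff_pow_eq_one.1 hy.dvd) y1, fun _ => trivial⟩ 3 hy) (by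
      intro x hx h4
      by_contra he
      by_cases hu : Un p x
      · obtain ⟨y, a, -, b⟩ := hG.un_even hI hu h4 (by omega)
        exact h.tne (cyc_inv_unique (b ▸ mem_Cen_comm.1 a) (b ▸ mem_Cen.2
          (Tor_comm h.inj (hC ▸ a) h.u0.mem)) h.it h.iu)
      · obtain ⟨a, ha⟩ := hG.xx_nu4 (f2 x hx) hu h4
        exact no4 a ha)
  exact ⟨by rw [c1, e1], e2, hI, s, σ, hs, hσ⟩

end Cfsg.Agent.H8.M3
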