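import Cfsg.Agent.H8.M3J

/-! Centralisers of involutions, II: exceptional cases. -/

set_option autoImplicit false
set_option linter.unusedSectionVars false

namespace Cfsg.Agent.H8.M3
open Matrix Equiv Subgroup
open scoped MatrixGroups

universe u
variable {K : Type*} [Field K] {G : Type u} [Group G]
variable {ρ : G →* PGL(3, K)} {x y z s t u n r w : G} {p : ℕ} {d : Fin 3 → K} {σ τ : Perm (Fin 3)}
variable [Finite G] [IsAlgClosed K] [Fact p.Prime] [CharP K p] {c ω l : K}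

theorem card_of_relIndex {A B : Subgroup G} (h : A ≤ B) : Nat.card B = Nat.card A * A.relIndex B := by
  rw [relIndex, ← Subgroup.card_mul_index (A.subgroupOf B), Nat.card_congr (subgroupOfEquivOfLe h).toEquiv]

theorem index_mod4 {M H : Subgroup G} (h : M ≤ H) {j : ℕ} (hc : Nat.card H = Nat.card M * (2 * j))
    (hj : j % 2 = 1) (ho : H.index % 2 = 1) : M.index % 4 = 2 := by
  have e := card_of_relIndex h
  rw [hc, Nat.mul_right_inj Nat.card_pos.ne'] at e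
  rw [← relIndex_mul_index h, ← e]
  obtain ⟨a, rfl⟩ : ∃ a, j = 2 * a + 1 := ⟨j / 2, by omega⟩
  obtain ⟨b, hb⟩ : ∃ b, H.index = 2 * b + 1 := ⟨H.index / 2, by omega⟩
  rw [hb, show 2 * (2 * a + 1) * (2 * b + 1) = 4 * (2 * a * b + a + b) + 2 by ring]; omega

theorem SN.cyc_thompson (hG : SN G) {m : G} (h : (zpowers m).index % 4 = 2) (ht : IsInv t)
    (hm : t ∈ zpowers m) (r : G) (hr : IsInv r) : ∃ g, g * t * g⁻¹ = r := by
  obtain ⟨g, hg⟩ := hG.thompson _ h hr.1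
  exact ⟨g, by rw [← cyc_inv_unique hg hm (by simpa using hr.conj g⁻¹) ht]; group⟩

theorem ncard_preimage_hom {H X : Type*} [Group H] [Group X] (f : H →* X) (hf : Function.Surjective f)
    (S : Set X) : (f ⁻¹' S).ncard = Nat.card f.ker * S.ncard := by
  have := QuotientGroup.card_preimage_mk f.ker (QuotientGroup.quotientKerEquivOfSurjective f hf ⁻¹' S)
  rw [Nat.card_coe_set_eq, Nat.card_coe_set_eq, Set.ncard_preimage_of_injective_subset_range
    (MulEquiv.injective _) (by rw [(MulEquiv.surjective _).range_eq]; exact Set.subset_univ _)] at this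
  exact this

/-- determinant of the block -/
noncomputable def dl (ρ : G →* PGL(3, K)) : Blk ρ →* Kˣ := GeneralLinearGroup.det.comp (psi ρ)

theorem dl_val (x : Blk ρ) : (dl ρ x : K) = (psi ρ x : M2 K).det := rfl

theorem HB.blk_scalar (hG : HB p ρ) (h : T0 ρ t) {x : Blk ρ} (e : (psi ρ x : M2 K) = c • 1) :
    c * c = 1 ∧ ((x : G) = 1 ∨ (x : G) = t) := by
  have h1 : Dg ρ x ![1, c, c] := (rep_psi x).congr (by rw [e, blk_smul_one])
  have := hG.dg_sq h1 (i := 1) (j := 2) (by decide) rfl 0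
  simp at this
  refine ⟨this.symm, ?_⟩
  rcases mul_self_eq_one_iff.1 this.symm with rfl | rfl
  · exact Or.inl (h1.eq_one hG.inj rfl rfl)
  · exact Or.inr (Rep.eq hG.inj h1 h)

theorem psi_t0 (h : T0 ρ t) {x : Blk ρ} (e : (x : G) = t) : (psi ρ x : M2 K) = (-1 : K) • 1 :=
  blk_uniq (rep_psi x) (e ▸ Rep.congr h (blk_smul_one _).symm)

theorem HB.chi_ker (hG : HB p ρ) (h : T0 ρ t) {x : Blk ρ} : chi ρ x = 1 ↔ (x : G) = 1 ∨ (x : G) = t :=
  ⟨fun e => let ⟨_, e⟩ := chi_eq_one.1 e; (hG.blk_scalar h e).2, fun e => e.elim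
    (fun e => by rw [show x = 1 from Subtype.ext e, map_one]) fun e => chi_eq_one.2 ⟨_, psi_t0 h e⟩⟩

theorem HB.dl_pow (hG : HB p ρ) (h : T0 ρ t) {x : Blk ρ} {n : ℕ} (e : chi ρ x ^ n = 1) : dl ρ x ^ n = 1 := by
  rw [← map_pow] at e ⊢
  obtain ⟨c, e⟩ := chi_eq_one.1 e
  exact Units.ext (by rw [dl_val, e, det_smul, det_one, Fintype.card_fin, sq, (hG.blk_scalar h e).1]; simp)

theorem sq_scalar {x : Blk ρ} (h1 : chi ρ x ≠ 1) (e : (psi ρ x : M2 K) * psi ρ x = c • 1) :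
    c = - dl ρ x := by
  have := sq2 (psi ρ x : M2 K)
  rw [sq, e] at this
  by_cases h : (psi ρ x : M2 K).trace = 0
  · rw [h, zero_smul] at this
    simpa [dl_val] using congrFun (congrFun this 0) 0
  · refine absurd (chi_eq_one.2 ⟨(psi ρ x : M2 K).trace⁻¹ * (c + (psi ρ x : M2 K).det), ?_⟩) h1
    rw [mul_smul, add_smul, this, sub_add_cancel, smul_smul, inv_mul_cancel₀ h, one_smul]

theorem HB.dl_inv (hG : HB p ρ) (h : T0 ρ t) {x : Blk ρ} (hx : IsInv (x : G)) (hne : (x : G) ≠ t) :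
    (dl ρ x : K) = -1 := by
  have := sq_scalar (c := 1) (fun e => ((hG.chi_ker h).1 e).elim hx.2 hne) (by
    rw [← Units.val_mul, ← map_mul, show x * x = 1 from Subtype.ext hx.1, map_one, one_smul]; rfl)
  rw [this, neg_neg]

theorem HB.sq_of_dl (hG : HB p ρ) {x : Blk ρ} (h1 : chi ρ x ≠ 1) (h2 : chi ρ x * chi ρ x = 1)
    (e : (dl ρ x : K) = -1) : (x : G) * x = 1 := by
  rw [← map_mul] at h2
  obtain ⟨c, hc⟩ := chi_eq_one.1 h2
  have := sq_scalar h1 (by rw [← hc, map_mul, Units.val_mul])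
  rw [e, neg_neg] at this
  exact Rep.eq hG.inj (rep_psi (x * x)) (Rep.one.congr (by rw [hc, this, one_smul, blk_one]))

theorem A4_fact : ∀ x : Perm (Fin 4), Perm.sign x = 1 → ∃ a : Perm (Fin 4), Perm.sign a = 1 ∧ a ^ 3 = 1 ∧
    (a⁻¹ * x) ^ 3 = 1 := by decide +kernel

theorem A5_fact : ∀ x : Perm (Fin 5), Perm.sign x = 1 → x * x = 1 → ∃ a : Perm (Fin 5), a ^ 3 = 1 ∧
    (a⁻¹ * x) ^ 3 = 1 ∧ Perm.sign a = 1 := by decide +kernel

theorem HB.exc_kill (hG : HB p ρ) (h2 : (2 : K) ≠ 0) (h : T0 ρ t) {n : ℕ}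
    (e : (chi ρ).range ≃* alternatingGroup (Fin n)) (hf : ∀ x : Perm (Fin n), Perm.sign x = 1 →
      x * x = 1 → ∃ a : Perm (Fin n), Perm.sign a = 1 ∧ a ^ 3 = 1 ∧ (a⁻¹ * x) ^ 3 = 1) : False := by
  obtain ⟨u, hu, hne, hc⟩ := hG.second_inv (h.isInv hG.inj h2)
  rw [h.cen hG.inj h2] at hc
  have e1 := hG.dl_inv h (x := ⟨u, hc⟩) hu hne
  set U : Blk ρ := ⟨u, hc⟩
  obtain ⟨a, a1, a2, a3⟩ := hf (e ((chi ρ).rangeRestrict U)) (e _).2 (by
    rw [← coe_mul, ← map_mul, ← map_mul, show U * U = 1 from Subtype.ext hu.1, map_one, map_one]; rfl)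
  obtain ⟨⟨_, y, rfl⟩, hy⟩ := e.surjective ⟨a, a1⟩
  have b1 : chi ρ y ^ 3 = 1 := congrArg Subtype.val (e.injective (a₂ := 1) (a₁ := ⟨_, y, rfl⟩ ^ 3) (by
    rw [map_pow, hy, map_one]; exact Subtype.ext a2))
  have b2 : chi ρ (y⁻¹ * U) ^ 3 = 1 := by
    rw [map_mul, map_inv]
    exact congrArg Subtype.val (e.injective (a₂ := 1) (a₁ := (⟨_, y, rfl⟩⁻¹ * ⟨_, U, rfl⟩) ^ 3) (by
      rw [map_pow, map_mul, map_inv, hy, map_one]; exact Subtype.ext a3))
  have b3 := hG.dl_pow h b2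
  rw [map_mul, map_inv, mul_pow, inv_pow, hG.dl_pow h b1, inv_one, one_mul] at b3
  have := congrArg Units.val b3
  rw [Units.val_pow_eq_pow_val, e1, Units.val_one] at this
  exact h2 (by linear_combination -this)

theorem S4_f1 : ∀ x : Perm (Fin 4), ∃ a : Perm (Fin 4), a ^ 2 = 1 ∧ (a⁻¹ * x) ^ 2 = 1 := by decide +kernel

set_option synthInstance.maxSize 1024 in
theorem S4_f3 : ∀ x y : Perm (Fin 4), y * y = 1 → Perm.sign y = -1 → x * y = y * x → x = 1 ∨
    (x * x = 1 ∧ Perm.sign x = -1) ∨ (x * y * (x * y) = 1 ∧ Perm.sign (x * y) = -1) := by decide +kernel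

theorem S4_f4 : {x : Perm (Fin 4) | x ≠ 1 ∧ ¬ (x * x = 1 ∧ Perm.sign x = -1)}.ncard = 17 := by
  rw [Set.ncard_eq_toFinset_card']; decide +kernel

theorem S4_f5 : ∃ x : Perm (Fin 4), x ^ 4 = 1 ∧ x ^ 2 ≠ 1 := by decide +kernel

theorem HB.caseGL (hG : HB p ρ) (h2 : (2 : K) ≠ 0) (h : T0 ρ t) (ho : (Cen t).index % 2 = 1)
    (hk : Exc (chi ρ).range 4) : False := by
  classical
  have : Finite (chi ρ).range := Finite.Set.finite_range _
  have ht := h.isInv hG.inj h2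
  have hC := h.cen hG.inj h2
  obtain ⟨f, hf⟩ := hk.inj4
  let π := f.comp (chi ρ).rangeRestrict
  have πs : Function.Surjective π := hf.2.comp (chi ρ).rangeRestrict_surjective
  have π1 : ∀ x, π x = 1 ↔ chi ρ x = 1 := fun x => by
    rw [MonoidHom.comp_apply, map_eq_one_iff f hf.1, Subtype.ext_iff]; rfl
  have πk : ∀ x, π x = 1 ↔ (x : G) = 1 ∨ (x : G) = t := fun x => (π1 x).trans (hG.chi_ker h)
  have dp : ∀ x n, π x ^ n = 1 → dl ρ x ^ n = 1 := fun x n e =>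
    hG.dl_pow h (by rwa [← map_pow, π1, map_pow] at e)
  have d2 : ∀ x, dl ρ x ^ 2 = 1 := fun x => by
    obtain ⟨a, a1, a2⟩ := S4_f1 (π x)
    obtain ⟨y, rfl⟩ := πs a
    have := dp (y⁻¹ * x) 2 (by rwa [map_mul, map_inv])
    rwa [map_mul, map_inv, mul_pow, inv_pow, dp y 2 a1, inv_one, one_mul] at this
  have de : ∀ x, Perm.sign (π x) = 1 → dl ρ x = 1 := fun x e => by
    obtain ⟨a, -, a1, a2⟩ := A4_fact (π x) e
    obtain ⟨y, rfl⟩ := πs a
    have := dp (y⁻¹ * x) 3 (by rwa [map_mul, map_inv])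
    rwa [map_mul, map_inv, mul_pow, inv_pow, dp y 3 a1, inv_one, one_mul, pow_succ, d2, one_mul] at this
  have iv : ∀ x : Blk ρ, IsInv (x : G) → (x : G) ≠ t → π x * π x = 1 ∧ Perm.sign (π x) = -1 :=
    fun x hx hne => ⟨by rw [← map_mul, show x * x = 1 from Subtype.ext hx.1, map_one], by
      by_contra e
      have := hG.dl_inv h hx hne
      rw [de x ((Int.units_eq_one_or _).resolve_right e)] at this
      exact h2 (by simp at this; linear_combination this)⟩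
  obtain ⟨u, hu, hne, hc⟩ := hG.second_inv ht
  rw [hC] at hc
  have iv' : ∀ x : Blk ρ, π x * π x = 1 → Perm.sign (π x) = -1 → (x : G) * x = 1 := fun x e1 e2 => by
    refine hG.sq_of_dl (fun e => by rw [(π1 x).2 e] at e2; simp at e2) (by rw [← map_mul, ← π1, map_mul, e1]) ?_
    have := de (x * ⟨u, hc⟩) (by rw [map_mul, map_mul, e2, (iv ⟨u, hc⟩ hu hne).2]; simp)
    have e := congrArg Units.val this
    rw [map_mul, Units.val_mul, hG.dl_inv h (x := ⟨u, hc⟩) hu hne, Units.val_one] at e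
    linear_combination -e
  have kc : Nat.card π.ker = 2 := by
    rw [card_eq_ncard, ← Set.ncard_image_of_injective _ Subtype.val_injective, ← Set.ncard_pair ht.2.symm]
    congr 1
    refine Set.ext fun r => ⟨by rintro ⟨x, e, rfl⟩; exact (πk x).1 e, ?_⟩
    rintro (rfl | rfl)
    · exact ⟨1, one_mem _, rfl⟩
    · exact ⟨⟨_, hC ▸ self_mem_Cen r⟩, (πk _).2 (Or.inr rfl), rfl⟩
  have c48 : Nat.card (Cen t) = 48 := by
    rw [hC, ← π.ker.card_mul_index, index_ker, MonoidHom.range_eq_top.2 πs, kc, card_top, Nat.card_perm]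
    simp; rfl
  obtain ⟨a, a4, a2⟩ := S4_f5
  obtain ⟨m, rfl⟩ := πs a
  have m4 : (m : G) ^ 4 = t := ((πk (m ^ 4)).1 (by rw [map_pow, a4])).resolve_left fun e => by
    have := (iv (m ^ 2) ⟨by rw [coe_pow, ← pow_add]; exact e, fun e => a2 (by
      rw [← map_pow, πk]; exact Or.inl e)⟩ fun e => a2 (by rw [← map_pow, πk]; exact Or.inr e)).2
    rw [map_pow, map_pow, Int.units_sq] at this
    exact absurd this (by decide)
  have m8 : orderOf (m : G) = 8 := orderOf_eq_prime_pow (p := 2) (n := 2) (fun e => ht.2 (m4.symm.trans e))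
    (by rw [show 2 ^ (2 + 1) = 4 + 4 from rfl, pow_add, m4, ht.1])
  have hI := hG.sn.cyc_thompson (m := m) (index_mod4 (zpowers_le.2 (hC.ge m.2)) (j := 3)
    (by rw [c48, Nat.card_zpowers, m8]) rfl ho) ht (m4 ▸ pow_mem (mem_zpowers _) 4)
  have n1 : ∀ x ∈ Cen t, x ≠ 1 → ¬ IsInv x → ni x = 1 := fun x hx h1 hi =>
    ni_eq_one ht (mem_Cen_comm.1 hx) fun r hr hrx => by
      by_contra hne
      have x2 : x * x ≠ 1 := fun e => hi ⟨e, h1⟩
      have hr' : r ∈ Blk ρ := hC ▸ mem_Cen.2 (hG.inv_comm x2 ht hr (mem_Cen_comm.1 hx) hrx)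
      rw [hC] at hx
      obtain ⟨r1, r2⟩ := iv ⟨r, hr'⟩ hr hne
      have cm := mem_Cen.1 hrx
      rcases S4_f3 (π ⟨x, hx⟩) _ r1 r2 (by
        rw [← map_mul, ← map_mul]; exact congrArg _ (Subtype.ext cm)) with e | e | e
      · exact ((πk _).1 e).elim h1 fun e : x = t => hi (e ▸ ht)
      · exact x2 (iv' _ e.1 e.2)
      · rw [← map_mul] at e
        have := iv' _ e.1 e.2
        simp only [coe_mul] at this
        rw [show x * r * (x * r) = x * (r * x) * r by group, ← cm,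
          show x * (x * r) * r = x * x * (r * r) by group, hr.1, mul_one] at this
        exact x2 this
  have hB : True → ∀ z, Sp ρ z → NI z := fun _ z hz => by
    by_contra hn
    obtain ⟨g, hg⟩ := not_ni_conj hI hn
    obtain ⟨s, c, hc, hb⟩ := hz.conj g
    exact hG.sp_ni ⟨s, c, hc, hb⟩ (n1 _ hg (hb.ne_one hc) fun e =>
      sq_ne_of_cube (hb.pow_three hG.inj hc) e.2 e.1)
  obtain ⟨R, f1, -, -, f4⟩ := hG.mkFam hB (c := 48) (c48 ▸ card_subgroup_dvd_card _)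
    (fun r hr e => exists_not_ni ht r hr (by rwa [c48])) (Or.inl (by decide))
  have ce := class_eq ht hI (fun x hx h1 h2 => Or.inl (n1 x hx h1 h2))
  have z3 : ZZ G 3 ∩ Cen t = ∅ := Set.eq_empty_iff_forall_notMem.2 fun x hx => by
    have := n1 x hx.2 hx.1.1 hx.1.2.1
    have := hx.1.2.2
    omega
  have z1 : (ZZ G 1 ∩ Cen t).ncard = 34 := by
    have := ncard_preimage_hom π πs {x | x ≠ 1 ∧ ¬ (x * x = 1 ∧ Perm.sign x = -1)}
    rw [kc, S4_f4, ← Set.ncard_image_of_injective _ Subtype.val_injective] at this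
    refine Eq.trans ?_ this
    congr 1
    refine Set.ext fun x => ⟨fun ⟨⟨a, b, _⟩, c⟩ => ⟨⟨x, hC ▸ c⟩, ⟨fun e => ((πk _).1 e).elim a
      fun e : x = t => b (e ▸ ht), fun e => b ⟨iv' _ e.1 e.2, a⟩⟩, rfl⟩, ?_⟩
    rintro ⟨x, ⟨a, b⟩, rfl⟩
    have a1 : (x : G) ≠ 1 := fun e => a ((πk _).2 (Or.inl e))
    have a2 : ¬ IsInv (x : G) := fun e => b (iv x e fun e => a ((πk _).2 (Or.inr e)))
    exact ⟨⟨a1, a2, n1 x (hC.ge x.2) a1 a2⟩, hC.ge x.2⟩
  rw [z3, z1, Set.ncard_empty, c48] at ce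
  exact f1.GL (by rw [class_fam f4 ce (by rw [xx_eq trivial])]; norm_num)

/-- monomial frame for the centraliser -/
structure MF (ρ : G →* PGL(3, K)) (t : G) : Prop where
  two : (2 : K) ≠ 0
  t0 : T0 ρ t
  mono : ∀ x ∈ Cen t, x ∈ Tor ρ ∨ Mo ρ x (swap 1 2)

theorem HB.exists_mf (hG : HB p ρ) (ht : IsInv t) (ho : (Cen t).index % 2 = 1) :
    ∃ g, MF (M3.cjr ρ g) t := by
  obtain ⟨h2, -⟩ := hG.inv_rep ht
  obtain ⟨g, h⟩ := hG.inv_frame ht
  have hG' := hG.cjr g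
  rcases hG'.dickson p with ⟨k, hk⟩ | ⟨k, hk, -⟩
  · refine ⟨g * blkGL k, h2, ?_, fun x hx => ?_⟩
    · rw [← cjr_cjr]
      refine Rep.cjr h ?_
      change _ * blk _ = blk _ * _
      rw [← blk_smul_one, blk_mul, blk_mul]; simp
    · rw [h.cen hG'.inj h2] at hx
      have h1 : Rep (M3.cjr ρ (g * blkGL k)) x (blk (k⁻¹ * psi _ ⟨x, hx⟩ * k : GL (Fin 2) K)) := by
        rw [← cjr_cjr]
        refine (rep_psi ⟨x, hx⟩).cjr ?_
        change _ * blk _ = blk _ * _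
        rw [blk_mul, blk_mul]; simp [mul_assoc]
      have := hk ⟨x, hx⟩
      generalize (k⁻¹ * psi _ ⟨x, hx⟩ * k : GL (Fin 2) K) = B at h1 this
      rcases this with ⟨a, b⟩ | ⟨a, b⟩
      · exact Or.inl ⟨![1, B 0 0, B 1 1], h1.congr (by
          ext i j; fin_cases i <;> fin_cases j <;> simp [blk, a, b])⟩
      · exact Or.inr ⟨![1, B 1 0, B 0 1], h1.congr (by
          ext i j; fin_cases i <;> fin_cases j <;> simp [blk, a, b, mono, swap_apply_def])⟩
  · exfalso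
    have : Finite (chi (M3.cjr ρ g)).range := Finite.Set.finite_range _
    rcases hk.1 with ⟨rfl, e⟩ | ⟨rfl, -⟩ | ⟨rfl, e⟩
    · obtain ⟨f⟩ := H3.iso_A4 e fun x => (hk.2 x).imp_right fun h => h.elim id id
      exact hG'.exc_kill h2 h f fun x a _ => A4_fact x a
    · exact hG'.caseGL h2 h ho hk
    · obtain ⟨f⟩ := H3.iso_A5 e hk.2
      exact hG'.exc_kill h2 h f fun x a b => let ⟨c, c1, c2, c3⟩ := A5_fact x a b; ⟨c, c3, c1, c2⟩

end Cfsg.Agent.H8.M3
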