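import Cfsg.Agent.H8.M3K

/-! Centralisers of involutions, III: monomial cases. -/

set_option autoImplicit false
set_option linter.unusedSectionVars false

namespace Cfsg.Agent.H8.M3
open Matrix Equiv Subgroup
open scoped MatrixGroups

universe u
variable {K : Type*} [Field K] {G : Type u} [Group G]
variable {ρ : G →* PGL(3, K)} {x y z s t u n r w m : G} {p k : ℕ} {d : Fin 3 → K} {σ τ : Perm (Fin 3)}
variable [Finite G] [IsAlgClosed K] [Fact p.Prime] [CharP K p] {c ω l : K}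

theorem CC.exists_inverting (h : CC x) (ho : Nat.card (Cen x) % 2 = 1) (he : 2 ∣ nu x) :
    ∃ w, IsInv w ∧ w ∉ Cen x ∧ ∀ y ∈ Cen x, w * y * w⁻¹ = y⁻¹ := by
  obtain ⟨⟨w, hw⟩, e⟩ := exists_prime_orderOf_dvd_card' (G := normalizer (Cen x : Set G)) 2
    (by rw [card_normalizer_eq]; exact he.mul_left _)
  rw [← orderOf_coe] at e
  have hw' : IsInv w := ⟨by rw [← sq, ← e, pow_orderOf_eq_one], fun e' => by simp [e'] at e⟩
  have hn : w ∉ Cen x := fun k => by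
    have := (Cen x).orderOf_dvd_natCard k
    rw [hw'.orderOf] at this; omega
  refine ⟨w, hw', hn, fun y hy => ?_⟩
  have h1 := (mem_normalizer_iff.1 hw y).1 hy
  by_contra e
  apply hn
  rw [← h.2 _ (mul_mem hy h1) (fun e' => e (eq_inv_of_mul_eq_one_right e')), mem_Cen, eq_comm,
    ← mul_inv_eq_iff_eq_mul]
  nth_rw 2 [h.comm hy h1]
  rw [hw'.inv_eq]
  calc w * (y * (w * y * w)) * w = w * y * w * y * (w * w) := by group
    _ = _ := by rw [hw'.1, mul_one]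

/-- dihedral centraliser -/
structure DC (t m : G) (k : ℕ) : Prop where
  inv : IsInv t
  odd : (Cen t).index % 2 = 1
  ord : orderOf m = 2 * k
  two : 2 ≤ k
  mem : m ∈ Cen t
  card : Nat.card (Cen t) = 4 * k
  out : ∀ y ∈ Cen t, y ∉ zpowers m → y * y = 1

theorem DC.sq_ne (h : DC t m k) : m * m ≠ 1 := fun e => by
  have := orderOf_le_of_pow_eq_one two_pos (show m ^ 2 = 1 by rw [sq, e])
  have := h.ord; have := h.two; omega

theorem DC.le (h : DC t m k) : zpowers m ≤ Cen t := zpowers_le.2 h.mem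

theorem DC.inverts (h : DC t m k) (hy : y ∈ Cen t) (hy' : y ∉ zpowers m) (hx : x ∈ zpowers m) :
    y * x * y⁻¹ = x⁻¹ := by
  have e := h.out _ (mul_mem (h.le hx) hy) (by rwa [mul_mem_cancel_left hx])
  rw [inv_eq_of_mul_eq_one_right (h.out y hy hy'), eq_inv_iff_mul_eq_one,
    show y * x * y * x = x⁻¹ * (x * y * (x * y)) * x by group, e]; group

theorem DC.tmem (h : DC t m k) : t ∈ zpowers m := by
  by_contra e
  have := h.inverts (self_mem_Cen t) e (mem_zpowers m)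
  rw [mem_Cen.1 h.mem, mul_inv_cancel_right] at this
  exact h.sq_ne (mul_eq_one_iff_eq_inv.2 this)

theorem DC.conj (hG : SN G) (h : DC t m k) : ∀ r, IsInv r → ∃ g, g * t * g⁻¹ = r :=
  hG.cyc_thompson (index_mod4 h.le (j := 1) (by rw [h.card, Nat.card_zpowers, h.ord]; ring) rfl h.odd)
    h.inv h.tmem

theorem DC.exists_out (h : DC t m k) : ∃ w ∈ Cen t, w ∉ zpowers m := by
  by_contra e
  push Not at e
  have := card_le_of_le (show Cen t ≤ zpowers m from e)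
  rw [h.card, Nat.card_zpowers, h.ord] at this
  have := h.two; omega

theorem DC.mem_of_sq (h : DC t m k) (hy : y ∈ Cen t) (e : y * y ≠ 1) : y ∈ zpowers m := by
  by_contra e'; exact e (h.out y hy e')

theorem DC.exists_inverting (hG : SN G) (h : DC t m k) (h1 : y * y ≠ 1) (h2 : ¬ NI y) :
    ∃ w, IsInv w ∧ w * y * w⁻¹ = y⁻¹ := by
  obtain ⟨g, hg⟩ := not_ni_conj (h.conj hG) h2
  obtain ⟨w, hw, hw'⟩ := h.exists_out
  have := h.inverts hw hw' (h.mem_of_sq hg fun e => h1 (by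
    rwa [conj_mul, conj_eq_one_iff] at e))
  refine ⟨g⁻¹ * w * g⁻¹⁻¹, IsInv.conj ⟨h.out w hw hw', fun e => hw' (e ▸ one_mem _)⟩ _, ?_⟩
  rw [show g⁻¹ * w * g⁻¹⁻¹ * y * (g⁻¹ * w * g⁻¹⁻¹)⁻¹ = g⁻¹ * (w * (g * y * g⁻¹) * w⁻¹) * g by group, this]
  group

theorem zpowers_comm (hx : x ∈ zpowers m) (hy : y ∈ zpowers m) : x * y = y * x := by
  obtain ⟨i, rfl⟩ := hx; obtain ⟨j, rfl⟩ := hy; exact (Commute.zpow_zpow_self m i j)

theorem HB.caseD (hG : HB p ρ) (h : DC t m k) : (k = 2 ∧ (Nat.card G = 168 ∨ Nat.card G = 360)) ∨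
    ∃ x : G, Un p x ∧ 4 ≤ nu x ∧ Nat.card (Cen x) = 2 * nu x + 1 ∧
      Nat.card G = Nat.card (Cen x) * nu x * (Nat.card (Cen x) + 1) := by
  classical
  have hI := h.conj hG.sn
  have ht := h.inv
  have n1 : ∀ x ∈ Cen t, x ≠ 1 → ¬ IsInv x → ni x = 1 := fun x hx h1 hi =>
    ni_eq_one ht (mem_Cen_comm.1 hx) fun r hr hrx => by
      have x2 : x * x ≠ 1 := fun e => hi ⟨e, h1⟩
      have hr' : r ∈ Cen t := mem_Cen.2 (hG.inv_comm x2 ht hr (mem_Cen_comm.1 hx) hrx)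
      refine cyc_inv_unique ?_ h.tmem hr ht
      by_contra e
      have := h.inverts hr' e (h.mem_of_sq hx x2)
      rw [← mem_Cen.1 hrx, mul_inv_cancel_right] at this
      exact x2 (mul_eq_one_iff_eq_inv.2 this)
  have hB : True → ∀ z, Sp ρ z → NI z := fun _ z hz => by
    by_contra hn
    obtain ⟨g, hg⟩ := not_ni_conj hI hn
    obtain ⟨s, c, hc, hb⟩ := hz.conj g
    exact hG.sp_ni ⟨s, c, hc, hb⟩ (n1 _ hg (hb.ne_one hc) fun e =>
      sq_ne_of_cube (hb.pow_three hG.inj hc) e.2 e.1)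
  have o4 : ∀ a, a * a = t → a ∈ zpowers m := fun a e => h.mem_of_sq (e ▸ mem_cen_sq) (e ▸ ht.2)
  obtain ⟨R, f1, f2, f3, f4⟩ := hG.mkFam hB (c := 4 * k) (h.card ▸ card_subgroup_dvd_card _)
    (fun r hr e => exists_not_ni ht r hr (by rwa [h.card])) (Or.inr fun a b ha e hab => by
      obtain ⟨g, e1⟩ := ord4_conj hI ha
      have e2 : g⁻¹ * b * g * (g⁻¹ * b * g) = t := by
        rw [← e1, show g⁻¹ * b * g * (g⁻¹ * b * g) = g⁻¹ * (b * b) * g by group, e]; group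
      have cm : a * b = b * a := by
        have := zpowers_comm (o4 _ e1) (o4 _ e2)
        rwa [show g⁻¹ * a * g * (g⁻¹ * b * g) = g⁻¹ * (a * b) * g by group,
          show g⁻¹ * b * g * (g⁻¹ * a * g) = g⁻¹ * (b * a) * g by group, mul_left_inj,
          mul_right_inj] at this
      apply hab.2
      rw [show a * b * (a * b) = a * (b * a) * b by group, ← cm,
        show a * (a * b) * b = a * a * (b * b) by group, e, ha.1])
  have ce := class_eq ht hI (fun x hx h1 h2 => Or.inl (n1 x hx h1 h2))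
  have z3 : ZZ G 3 ∩ Cen t = ∅ := Set.eq_empty_iff_forall_notMem.2 fun x hx => by
    have := n1 x hx.2 hx.1.1 hx.1.2.1
    have := hx.1.2.2
    omega
  have z1 : (ZZ G 1 ∩ Cen t).ncard + 2 = 2 * k := by
    rw [← h.ord, ← Nat.card_zpowers, card_eq_ncard, ← Set.ncard_pair ht.2.symm, ← Set.ncard_union_eq]
    · congr 1
      refine Set.ext fun x => ⟨?_, fun hx => ?_⟩
      · rintro (hx | rfl | rfl)
        exacts [h.mem_of_sq hx.2 fun e => hx.1.2.1 ⟨e, hx.1.1⟩, one_mem _, h.tmem]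
      · by_cases h1 : x = 1
        · exact Or.inr (Or.inl h1)
        by_cases h2 : IsInv x
        · exact Or.inr (Or.inr (cyc_inv_unique hx h.tmem h2 ht))
        · exact Or.inl ⟨⟨h1, h2, n1 x (h.le hx) h1 h2⟩, h.le hx⟩
    · refine Set.disjoint_left.2 ?_
      rintro x hx (rfl | rfl)
      exacts [hx.1.1 rfl, hx.1.2.1 ht]
  rw [z3, Set.ncard_empty, h.card] at ce
  have k2 := h.two
  rcases f1.D h.two (by
    rw [class_fam f4 ce (by rw [xx_eq trivial])]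
    have : ((ZZ G 1 ∩ Cen t).ncard : ℚ) = 2 * k - 2 := by
      have := congrArg (Nat.cast : ℕ → ℚ) z1; push_cast at this; linarith
    rw [this]; push_cast; ring) (fun h3 h3' => by
      have : Fact (Nat.Prime 3) := ⟨Nat.prime_three⟩
      obtain ⟨y, hy⟩ := exists_prime_orderOf_dvd_card' 3 h3
      have y1 : y ≠ 1 := fun e => by simp [e] at hy
      refine f3 y ⟨y1, ?_, fun _ => trivial⟩ 3 hy
      by_contra hn
      obtain ⟨g, hg⟩ := not_ni_conj hI hn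
      have := (Cen t).orderOf_dvd_natCard hg
      rw [← MulAut.conj_apply, MulEquiv.orderOf_eq, hy, h.card] at this
      omega) (fun x hx _ h4 hu => by
      obtain ⟨a, ha⟩ := hG.xx_nu4 (f2 x hx) hu h4.ge
      obtain ⟨g, e1⟩ := ord4_conj hI ha
      have := orderOf_dvd_of_mem_zpowers (o4 _ e1)
      rw [h.ord, orderOf_eq_prime_pow (p := 2) (n := 1) (by rw [pow_one, sq, e1]; exact ht.2)
        (by rw [show 2 ^ (1 + 1) = 2 + 2 from rfl, pow_add, sq, e1, ht.1])] at this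
      omega) (fun x hx hu h4 he => by
      obtain ⟨y, a, b, c⟩ := hG.un_even hI hu h4 he
      have y2 := h.mem_of_sq a fun e => by
        have := orderOf_le_of_pow_eq_one two_pos (show y ^ 2 = 1 by rw [sq, e]); omega
      rw [← b, ← h.ord]
      exact Nat.dvd_antisymm (orderOf_dvd_of_mem_zpowers y2) (orderOf_dvd_of_mem_zpowers
        (c ▸ mem_Cen.2 (zpowers_comm y2 (mem_zpowers m))))) with e | e | ⟨x, -, e⟩
  · exact Or.inl ⟨e.1, Or.inl e.2.1⟩
  · exact Or.inl ⟨e.1, Or.inr e.2.1⟩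
  · exact Or.inr ⟨x, e⟩

theorem sw12_conj (hw : Mo ρ w (swap 1 2)) {a b c : K} (h : Dg ρ x ![a, b, c]) :
    Dg ρ (w * x * w⁻¹) ![a, c, b] := (hw.conj h).congr fun i => by
  fin_cases i <;> simp [swap_apply_def]

theorem sw01_conj (hw : Mo ρ w (swap 0 1)) {a b c : K} (h : Dg ρ x ![a, b, c]) :
    Dg ρ (w * x * w⁻¹) ![b, a, c] := (hw.conj h).congr fun i => by
  fin_cases i <;> simp [swap_apply_def]

theorem HB.dg_t (hG : HB p ρ) (h : T0 ρ t) {a e : K} (hx : Dg ρ x ![a, e, e]) :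
    (e = a ∧ x = 1) ∨ (e = -a ∧ x = t) := by
  have := hG.dg_sq hx (i := 1) (j := 2) (by decide) rfl 0
  simp only [cons_val_zero, cons_val_one] at this
  rcases mul_self_eq_mul_self_iff.1 this.symm with rfl | rfl
  · exact Or.inl ⟨rfl, hx.eq_one hG.inj rfl rfl⟩
  · exact Or.inr ⟨rfl, (h.eq hG.inj hx a fun i => by fin_cases i <;> simp).symm⟩

theorem HB.sw_sq (hG : HB p ρ) (h : T0 ρ t) (hw : Mo ρ w (swap 1 2)) : w * w = 1 ∨ w * w = t := by
  obtain ⟨e, he⟩ := hw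
  have : Dg ρ (w * w) ![e 0 * e 0, e 1 * e 2, e 1 * e 2] := (he.mul he).congr (by
    rw [mono_mul, Equiv.swap_mul_self, mono_one]; congr 1; ext i
    fin_cases i <;> simp [swap_apply_def, mul_comm])
  exact (hG.dg_t h this).imp And.right And.right

theorem sw_mul (hw : Mo ρ w (swap 1 2)) (hy : Mo ρ y (swap 1 2)) : w * y ∈ Tor ρ :=
  (hw.mul hy).mem_Tor_iff.2 (swap_mul_self _ _)

theorem sw_not (hw : Mo ρ w (swap 1 2)) : w ∉ Tor ρ := fun e => absurd (hw.mem_Tor_iff.1 e) (by decide)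

theorem T0.tor_le (hρ : Function.Injective ρ) (h : T0 ρ t) : Tor ρ ≤ Cen t :=
  fun _ hy => mem_Cen.2 (Tor_comm hρ h.mem hy)

theorem MF.card (hρ : Function.Injective ρ) (h : MF ρ t) (hw : Mo ρ w (swap 1 2)) (hw' : w ∈ Cen t) :
    Nat.card (Cen t) = Nat.card (Tor ρ) * 2 := by
  rw [card_of_relIndex (h.t0.tor_le hρ), relIndex_eq_two_iff_exists_notMem_and.2 ⟨w, hw', sw_not hw,
    fun b hb => (h.mono b hb).symm.imp_left fun k => sw_mul k hw⟩]

theorem HB.caseCyc (hG : HB p ρ) (h : MF ρ t) (ho : (Cen t).index % 2 = 1)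
    (hna : ¬ ∀ x ∈ Cen t, ∀ y ∈ Cen t, x * y = y * x) (hu : ∀ u, ¬ Dg ρ u ![1, 1, -1]) :
    ∃ m k, DC t m k := by
  have ht := h.t0.isInv hG.inj h.two
  have hC := h.t0.cen hG.inj h.two
  have un : ∀ r ∈ Tor ρ, IsInv r → r = t := fun r hr hi => by
    rcases (tor_inv hr hG.inj hi.1).resolve_left hi.2 with e | e | e
    · exact Rep.eq hG.inj e h.t0
    · exact absurd e (hu r)
    · exact absurd ((h.t0.mul e).congr fun i => by fin_cases i <;> simp) (hu (t * r))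
  obtain ⟨w, hw, hne, hwt⟩ := hG.second_inv ht
  have wm := (h.mono w hwt).resolve_left fun e => hne (un w e hw)
  have hmon : Blk ρ ≤ Mon ρ := fun x hx => (h.mono x (hC.ge hx)).elim (Tor_le_Mon ·) Mo.mem
  let sg : Blk ρ →* Kˣ := (Units.map (Int.castRingHom K).toMonoidHom).comp
    (Perm.sign.comp ((piM ρ).comp (inclusion hmon)))
  have sg_eq : ∀ (x : Blk ρ) σ, Mo ρ x σ → (sg x : K) = (Perm.sign σ : ℤ) := fun x σ hx => by
    rw [← (mo_piM (ρ := ρ) ⟨x, hmon x.2⟩).uniq hx]; rfl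
  have dt : ∀ (x : Blk ρ) b c, Dg ρ x ![1, b, c] → ((dl ρ * sg) x : K) = b * c := fun x b c hx => by
    rw [MonoidHom.mul_apply, Units.val_mul, sg_eq x 1 hx.mo, dl_val, blk_uniq (rep_psi x)
      (C := !![b, 0; 0, c]) (Rep.congr hx (by ext i j; fin_cases i <;> fin_cases j <;> simp [blk]))]
    simp [det_fin_two]
  have key : ∀ x b c, Dg ρ x ![1, b, c] → b * c = 1 := fun x b c hx => by
    have hxB : x ∈ Blk ρ := hC.le (h.t0.tor_le hG.inj hx.mem)
    rw [← dt ⟨x, hxB⟩ b c hx, hG.sn.transfer (Blk ρ) (dl ρ * sg) hxB fun g k hm hg => ?_]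
    · rfl
    by_cases h2 : x ^ k * x ^ k = 1
    · have e2 : g⁻¹ * x ^ k * g * (g⁻¹ * x ^ k * g) = 1 := by
        rw [show g⁻¹ * x ^ k * g * (g⁻¹ * x ^ k * g) = g⁻¹ * (x ^ k * x ^ k) * g by group, h2]; group
      generalize g⁻¹ * x ^ k * g = r at hm e2
      by_cases r1 : r = 1
      · subst r1; exact map_one _
      by_cases r2 : r = t
      · subst r2; exact Units.ext ((dt ⟨r, hm⟩ _ _ h.t0).trans (by simp))
      · refine Units.ext ?_
        rw [MonoidHom.mul_apply, Units.val_mul, hG.dl_inv h.t0 (x := ⟨r, hm⟩) ⟨e2, r1⟩ r2, sg_eq ⟨r, hm⟩ _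
          ((h.mono r (hC.ge hm)).resolve_left fun e => r2 (un r e ⟨e2, r1⟩))]
        simp
    · exfalso
      have := un _ ((hx.pow k).inv_cen (hG.dg_inj (hx.pow k) h2) (mem_Cen_comm.1
        ((mem_Cen_conj g).2 (hC.ge hm))) (ht.conj g).1) (ht.conj g)
      exact hg (hC.le (mem_Cen.2 (mul_inv_eq_iff_eq_mul.1 this).symm))
  have cyc : IsCyclic (Tor ρ) := isCyclic_of_injective_ringHom (ent ρ) ((injective_iff_map_eq_one _).2
    fun ⟨x, hx⟩ e => by
      obtain ⟨b, c, hx'⟩ := mem_Tor'.1 hx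
      have := key x b c hx'
      obtain rfl : b = 1 := (ent_eq hx').symm.trans e
      exact Subtype.ext (hx'.eq_one hG.inj rfl (by simpa using this)))
  obtain ⟨⟨m, hm⟩, hgen⟩ := cyc.exists_generator
  have hT : Tor ρ = zpowers m := le_antisymm (fun x hx => by
    obtain ⟨i, hi⟩ := hgen ⟨x, hx⟩
    exact ⟨i, congrArg Subtype.val hi⟩) (zpowers_le.2 hm)
  have h2 := orderOf_dvd_of_mem_zpowers (hT ▸ h.t0.mem)
  rw [ht.orderOf] at h2
  obtain ⟨k, hk⟩ := h2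
  have out : ∀ y ∈ Cen t, y ∉ zpowers m → y * y = 1 := fun y hy hy' => by
    obtain ⟨b, c, hx⟩ := mem_Tor'.1 (sw_mul ((h.mono y hy).resolve_left (hT ▸ hy')) wm)
    have := (hx.mul (sw12_conj wm hx)).eq_one hG.inj (by simp [key _ _ _ hx])
      (by simp [mul_comm c, key _ _ _ hx])
    rwa [hw.inv_eq, show y * w * (w * (y * w) * w) = y * (w * w) * y * (w * w) by group, hw.1, mul_one,
      mul_one] at this
  refine ⟨m, k, ht, ho, hk, ?_, h.t0.tor_le hG.inj hm, by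
    rw [h.card hG.inj wm hwt, hT, Nat.card_zpowers, hk]; ring, out⟩
  by_contra k2
  have := orderOf_pos m
  obtain rfl : k = 1 := by omega
  have sq : ∀ y ∈ Cen t, y * y = 1 := fun y hy => by
    by_cases e : y ∈ zpowers m
    · rw [← sq, ← orderOf_dvd_iff_pow_eq_one]; exact (orderOf_dvd_of_mem_zpowers e).trans hk.dvd
    · exact out y hy e
  refine hna fun x hx y hy => ?_
  have := sq _ (mul_mem hx hy)
  rw [← inv_eq_of_mul_eq_one_right this, _root_.mul_inv_rev, inv_eq_of_mul_eq_one_right (sq x hx),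
    inv_eq_of_mul_eq_one_right (sq y hy)]

/-- normal frame -/
structure NF (ρ : G →* PGL(3, K)) (t u : G) : Prop extends VF ρ t u where
  mono : ∀ x ∈ Cen t, x ∈ Tor ρ ∨ Mo ρ x (swap 1 2)
  conj : ∀ r, IsInv r → ∃ g, g * t * g⁻¹ = r
  card : Nat.card (Cen t) = Nat.card (Tor ρ) * 2

theorem VF.sw_u (h : VF ρ t u) (hw : Mo ρ w (swap 1 2)) : w * u * w⁻¹ = t * u :=
  Rep.eq h.inj (sw12_conj hw h.u0) h.tu

theorem VF.sw_cen (h : VF ρ t u) (hw : Mo ρ w (swap 1 2)) : w ∈ Cen t :=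
  mem_Cen.2 (mul_inv_eq_iff_eq_mul.1 (Rep.eq h.inj (sw12_conj hw h.t0) h.t0)).symm

theorem VF.sw_sq (h : VF ρ t u) (hw : Mo ρ w (swap 1 2)) : w * u * (w * u) = w * w * t := by
  rw [show w * u * (w * u) = w * u * w⁻¹ * (w * w) * u by group, h.sw_u hw,
    Tor_comm h.inj h.tu.mem (sw_mul hw hw), mul_assoc, mul_assoc t, h.iu.1, mul_one]

theorem HB.exists_w (hG : HB p ρ) (h : VF ρ t u) (hw : Mo ρ w (swap 1 2)) :
    ∃ w, Mo ρ w (swap 1 2) ∧ w * w = 1 := by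
  rcases hG.sw_sq h.t0 hw with e | e
  · exact ⟨w, hw, e⟩
  · exact ⟨w * u, by simpa using hw.mul h.u0.mo, by rw [h.sw_sq hw, e, h.it.1]⟩

theorem normal_of_card {A B : Subgroup G} (h : A ≤ B) (hc : Nat.card B = Nat.card A * 2) (hy : y ∈ B)
    (hx : x ∈ A) : y * x * y⁻¹ ∈ A := by
  have e := card_of_relIndex h
  rw [hc, Nat.mul_right_inj Nat.card_pos.ne'] at e
  exact mem_subgroupOf.1 ((normal_of_index_eq_two e.symm).conj_mem ⟨x, h hx⟩ hx ⟨y, hy⟩)

theorem NF.exists_sw12 (h : NF ρ t u) : ∃ w, Mo ρ w (swap 1 2) := by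
  by_contra e
  have := card_le_of_le (show Cen t ≤ Tor ρ from fun x hx => (h.mono x hx).resolve_right fun k => e ⟨x, k⟩)
  have := Nat.card_pos (α := Tor ρ)
  have := h.card
  omega

theorem NF.exists_sw01 (h : NF ρ t u) : ∃ y, Mo ρ y (swap 0 1) := by
  obtain ⟨g, hg⟩ := h.conj u h.iu
  have hc : Nat.card (Cen u) = Nat.card (Tor ρ) * 2 := by rw [← hg, card_Cen_conj, h.card]
  have le : Tor ρ ≤ Cen u := fun _ hy => mem_Cen.2 (Tor_comm h.inj h.u0.mem hy)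
  obtain ⟨y, hy, hy'⟩ : ∃ y ∈ Cen u, y ∉ Tor ρ := by
    by_contra e
    push Not at e
    have := card_le_of_le (show Cen u ≤ Tor ρ from e)
    have := Nat.card_pos (α := Tor ρ)
    omega
  obtain ⟨σ, hσ⟩ := h.mon (normal_of_card le hc hy h.t0.mem) (normal_of_card le hc hy h.u0.mem)
  exact ⟨y, ((h.mo_cen_u hy hσ).resolve_left fun e => hy' (hσ.mem_Tor_iff.2 e)) ▸ hσ⟩

theorem HB.nf_of_mf (hG : HB p ρ) (h : MF ρ t) (ho : (Cen t).index % 2 = 1)
    (hna : ¬ ∀ x ∈ Cen t, ∀ y ∈ Cen t, x * y = y * x) (hu : Dg ρ u ![1, 1, -1]) : NF ρ t u := by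
  have hV : VF ρ t u := ⟨hG.inj, h.two, h.t0, hu⟩
  obtain ⟨w, hw⟩ : ∃ w, Mo ρ w (swap 1 2) := by
    by_contra e
    have : ∀ x ∈ Cen t, x ∈ Tor ρ := fun x hx => (h.mono x hx).resolve_right fun k => e ⟨x, k⟩
    exact hna fun x hx y hy => Tor_comm hG.inj (this x hx) (this y hy)
  obtain ⟨w, hw, w2⟩ := hG.exists_w hV hw
  have hc := h.card hG.inj hw (hV.sw_cen hw)
  have m2 : w * u * (w * u) = t := by rw [hV.sw_sq hw, w2, one_mul]
  obtain ⟨c1, c2⟩ := hG.card_tor hV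
  refine ⟨hV, h.mono, hG.sn.cyc_thompson (m := w * u) (index_mod4 (zpowers_le.2 (m2 ▸ mem_cen_sq))
    ?_ c2 ho) hV.it (m2 ▸ mul_mem (mem_zpowers _) (mem_zpowers _)), hc⟩
  rw [hc, c1, Nat.card_zpowers, orderOf_eq_prime_pow (p := 2) (n := 1) (by
    rw [pow_one, sq, m2]; exact hV.it.2) (by
    rw [show 2 ^ (1 + 1) = 2 + 2 from rfl, pow_add, sq, m2, hV.it.1])]
  ring

theorem HB.nf_of_dc (hG : HB p ρ) (h : DC t m 2) :
    ∃ g u, NF (M3.cjr ρ g) t u ∧ Nat.card (Tor (M3.cjr ρ g)) = 4 := by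
  obtain ⟨u, hu, hu'⟩ := h.exists_out
  have iu : IsInv u := ⟨h.out u hu hu', fun e => hu' (e ▸ one_mem _)⟩
  obtain ⟨g, h1, h2⟩ := hG.inv_frame2 h.inv iu (fun e => hu' (e ▸ h.tmem)) (mem_Cen.1 hu)
  have hG' := hG.cjr g
  have hV : VF (M3.cjr ρ g) t u := ⟨hG'.inj, (hG.inv_rep iu).1, h1, h2⟩
  have le := h1.tor_le hG'.inj
  have c4 : Nat.card (Tor (M3.cjr ρ g)) = 4 := by
    have a1 := (hG'.card_tor hV)
    have a2 := card_dvd_of_le le
    rw [h.card, a1.1] at a2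
    have := Nat.le_of_dvd two_pos (Nat.dvd_of_mul_dvd_mul_left four_pos a2)
    omega
  have hc : Nat.card (Cen t) = Nat.card (Tor (M3.cjr ρ g)) * 2 := by rw [c4, h.card]
  refine ⟨g, u, ⟨hV, fun x hx => ?_, h.conj hG.sn, hc⟩, c4⟩
  obtain ⟨σ, hσ⟩ := hV.mon (normal_of_card le hc hx h1.mem) (normal_of_card le hc hx h2.mem)
  exact (mo_cen_t hV.two h1 hx hσ).imp hσ.mem_Tor_iff.2 fun e => by rwa [e] at hσ

theorem HB.tor4 (hG : HB p ρ) (h : VF ρ t u) (c4 : Nat.card (Tor ρ) = 4) (hx : x ∈ Tor ρ) :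
    x = 1 ∨ x = t ∨ x = u ∨ x = t * u := by
  have := (hG.card_tor h).1
  have e : (sqT h.inj).range = ⊥ := card_eq_one.1 (by omega)
  exact h.inv hx (mem_bot.1 (e ▸ (⟨⟨x, hx⟩, rfl⟩ : x * x ∈ (sqT h.inj).range)))

theorem HB.dc_of_nf (hG : HB p ρ) (h : NF ρ t u) (ho : (Cen t).index % 2 = 1)
    (c4 : Nat.card (Tor ρ) = 4) : ∃ m, DC t m 2 := by
  obtain ⟨w, hw⟩ := h.exists_sw12
  obtain ⟨w, hw, w2⟩ := hG.exists_w h.toVF hw
  have m2 : w * u * (w * u) = t := by rw [h.sw_sq hw, w2, one_mul]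
  refine ⟨w * u, h.it, ho, orderOf_eq_prime_pow (p := 2) (n := 1) (by
    rw [pow_one, sq, m2]; exact h.it.2) (by
    rw [show 2 ^ (1 + 1) = 2 + 2 from rfl, pow_add, sq, m2, h.it.1]), le_rfl, m2 ▸ mem_cen_sq,
    by rw [h.card, c4], fun y hy hy' => ?_⟩
  rcases h.mono y hy with e | e
  · rcases hG.tor4 h.toVF c4 e with rfl | rfl | rfl | rfl
    exacts [one_mul 1, h.it.1, h.iu.1, h.itu.1]
  · have e' : y = w * (w * y) := by rw [← mul_assoc, w2, one_mul]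
    rcases hG.tor4 h.toVF c4 (sw_mul hw e) with k | k | k | k <;> rw [k] at e' <;> subst e'
    · simp [w2]
    · rw [mul_assoc, ← mul_assoc t, mem_Cen.1 (h.sw_cen hw), mul_assoc, h.it.1, mul_one, w2]
    · exact absurd (mem_zpowers _) hy'
    · refine absurd ?_ hy'
      rw [h.comm, ← mul_assoc]
      exact mul_mem (mem_zpowers _) (m2 ▸ mul_mem (mem_zpowers _) (mem_zpowers _))

theorem cyc_fpf : ∀ i, (swap 1 2 * swap 0 1 : Perm (Fin 3)) i ≠ i := by decide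

theorem HB.nf_cube (hG : HB p ρ) (h : NF ρ t u) (hx : x ∈ Tor ρ) : (x * x) ^ 3 = 1 := by
  obtain ⟨w, hw⟩ := h.exists_sw12
  obtain ⟨y, hy⟩ := h.exists_sw01
  obtain ⟨b, c, hx⟩ := mem_Tor'.1 hx
  have a1 := hG.dg_sq (hx.mul (sw12_conj hw hx)) (i := 1) (j := 2) (by decide) (by simp [mul_comm]) 0
  have a2 := hG.dg_sq (hx.mul (sw01_conj hy hx)) (i := 0) (j := 1) (by decide) (by simp [mul_comm]) 2
  simp at a1 a2
  refine ((hx.mul hx).pow 3).eq_one h.inj ?_ ?_ <;> simp <;> grind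

theorem HB.nf_tor (hG : HB p ρ) (h : NF ρ t u) : Nat.card (Tor ρ) = 4 ∨ (Nat.card (Tor ρ) = 12 ∧
    ∃ z ω, ω ^ 2 + ω + 1 = 0 ∧ (3 : K) ≠ 0 ∧ Dg ρ z ![1, ω, ω ^ 2]) := by
  have c1 := (hG.card_tor h.toVF).1
  by_cases e : (sqT h.inj).range = ⊥
  · exact Or.inl (by rw [c1, e, card_bot])
  obtain ⟨⟨_, ⟨x, hx⟩, rfl⟩, h1⟩ := ne_bot_iff_exists_ne_one.1 e
  have h1' : x * x ≠ 1 := fun e => h1 (Subtype.ext e)
  have h3 := hG.nf_cube h hx
  obtain ⟨d, hd⟩ := mul_mem hx hx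
  have inj := hG.dg_inj hd (sq_ne_of_cube h3 h1')
  obtain ⟨ω, hω, hz⟩ := hd.sp_norm inj h3
  have : Fact (Nat.Prime 3) := ⟨Nat.prime_three⟩
  refine Or.inr ⟨?_, _, ω, hω, fun e => ?_, hz⟩
  · have : (sqT h.inj).range = zpowers (x * x) := le_antisymm (by
      rintro _ ⟨⟨y, hy⟩, rfl⟩
      obtain ⟨d', hd'⟩ := mul_mem hy hy
      have e := (hd'.pow 3).of_eq_one (hG.nf_cube h hy)
      obtain ⟨i, hi⟩ := hG.tor_cube hω hz hd' (e 1 0) (e 2 0)
      exact ⟨i, (zpow_natCast _ _).trans hi.symm⟩) (zpowers_le.2 ⟨⟨x, hx⟩, rfl⟩)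
    rw [c1, this, Nat.card_zpowers, orderOf_eq_prime h3 h1']
  · have e1 : ω = 1 := sub_eq_zero.1 (pow_eq_zero_iff two_ne_zero |>.1 (by linear_combination hω - ω * e))
    exact h1' (hz.eq_one h.inj (by simp [e1]) (by simp [e1]))

theorem ncard_classes (L : List G) {m : ℕ} : ∀ Y : Set G, (∀ y ∈ Y, ∀ g, g * y * g⁻¹ ∈ Y) →
    (∀ y ∈ Y, Nat.card (Cen y) = m) → (∀ y ∈ Y, ∃ r ∈ L, ∃ g, g * r * g⁻¹ = y) →
    ∃ o ≤ L.length, Y.ncard * m = o * Nat.card G := by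
  induction L with
  | nil => intro Y _ _ h; exact ⟨0, le_rfl, by
      rw [show Y = ∅ from Set.eq_empty_iff_forall_notMem.2 fun y hy => by simpa using h y hy]; simp⟩
  | cons r L ih =>
    intro Y h1 h2 h3
    obtain ⟨o, ho, e⟩ := ih (Y \ H3.cls r) (fun y hy g => ⟨h1 y hy.1 g, fun ⟨k, hk⟩ =>
      hy.2 ⟨g⁻¹ * k, by rw [show g⁻¹ * k * r * (g⁻¹ * k)⁻¹ = g⁻¹ * (k * r * k⁻¹) * g by group, hk]; group⟩⟩)
      (fun y hy => h2 y hy.1) (fun y hy => by
        obtain ⟨a, ha, g, e⟩ := h3 y hy.1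
        rcases List.mem_cons.1 ha with rfl | ha
        · exact absurd ⟨g, e⟩ hy.2
        · exact ⟨a, ha, g, e⟩)
    by_cases hr : r ∈ Y
    · refine ⟨o + 1, by simpa using ho, ?_⟩
      have sub : H3.cls r ⊆ Y := by rintro _ ⟨g, rfl⟩; exact h1 r hr g
      rw [← Set.ncard_sdiff_add_ncard_of_subset sub, add_mul, e, ← H3.index_centralizer, ← h2 r hr,
        index_mul_card]; ring
    · refine ⟨o, by simp; omega, ?_⟩
      rwa [Disjoint.sdiff_eq_left (Set.disjoint_left.2 ?_)] at e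
      rintro _ hy ⟨g, rfl⟩
      exact hr (by simpa [mul_assoc] using h1 _ hy g⁻¹)

theorem HB.caseV3 (hG : HB p ρ) (h : NF ρ t u) (c12 : Nat.card (Tor ρ) = 12)
    (hω : ω ^ 2 + ω + 1 = 0) (h3 : (3 : K) ≠ 0) (hz : Dg ρ z ![1, ω, ω ^ 2]) :
    Nat.card G = 2520 ∧ p = 5 := by
  classical
  have : Fact (Nat.Prime 3) := ⟨Nat.prime_three⟩
  have hI := h.conj
  have ht := h.it
  have c24 : Nat.card (Cen t) = 24 := by rw [h.card, c12]
  obtain ⟨w, hw⟩ := h.exists_sw12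
  obtain ⟨y, hy⟩ := h.exists_sw01
  have inj := om_inj hω h3
  have w3 : ω ^ 3 = 1 := by linear_combination (ω - 1) * hω
  have z3 : z ^ 3 = 1 := (hz.pow 3).eq_one h.inj (by simp [w3]) (by simp; linear_combination (ω ^ 3 + 1) * w3)
  have hs := hw.mul hy
  have hsz := (sp_of_cube h.inj hz inj z3 hs cyc_fpf).2
  generalize w * y = s at hs hsz
  obtain ⟨c, hb⟩ := exists_bt (ρ := ρ) (mem_Cen.1 hsz)
  have hc : c ≠ 1 := by
    rintro rfl
    obtain ⟨e, he⟩ := hs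
    have := hb _ _ hz he
    rw [one_smul, ← mono_one, mono_mul, mono_mul] at this
    have h2 := congrFun (mono_inj (fun j => mul_ne_zero (hz.ne _) (mono_ne he.det_ne j)) this).2 0
    rw [mul_comm] at h2
    exact absurd (inj (mul_left_cancel₀ (mono_ne he.det_ne 0) h2)) (cyc_fpf 0)
  have z1 := hb.ne_one hc
  have le := h.t0.tor_le h.inj
  have o4 : ∀ a, a * a = t → Mo ρ a (swap 1 2) := fun a e =>
    (h.mono a (e ▸ mem_cen_sq)).resolve_left fun k => hG.no4 h.toVF k (e ▸ ht)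
  have noQ : NoQ G := fun a b ha e hab => by
    obtain ⟨g, e1⟩ := ord4_conj hI ha
    have e2 : g⁻¹ * b * g * (g⁻¹ * b * g) = t := by
      rw [← e1, show g⁻¹ * b * g * (g⁻¹ * b * g) = g⁻¹ * (b * b) * g by group, e]; group
    refine hG.no4 h.toVF (sw_mul (o4 _ e1) (o4 _ e2)) ?_
    have := hab.conj g⁻¹
    rwa [show g⁻¹ * (a * b * (a * b)) * g⁻¹⁻¹ = g⁻¹ * a * g * (g⁻¹ * b * g) * (g⁻¹ * a * g * (g⁻¹ * b * g))
      by group] at this
  have n1 : ∀ x, x * x = t → ni x = 1 := fun x e => by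
    have xm := o4 x e
    have x2 : x * x ≠ 1 := e ▸ ht.2
    refine ni_eq_one ht (mem_Cen_comm.1 (e ▸ mem_cen_sq)) fun r hr hrx => ?_
    have cm := mem_Cen.1 hrx
    rcases h.mono r (mem_Cen.2 (hG.inv_comm x2 ht hr (mem_Cen_comm.1 (e ▸ mem_cen_sq)) hrx)) with k | k
    · have a := h.sw_u xm
      rcases (h.inv k hr.1).resolve_left hr.2 with e | rfl | rfl
      · exact e
      · rw [cm, mul_inv_cancel_right] at a; exact absurd a h.une
      · rw [← mul_assoc, ← mem_Cen.1 (h.sw_cen xm), mul_assoc, mul_assoc, mul_right_inj] at cm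
        rw [cm, mul_inv_cancel_right] at a; exact absurd a h.une
    · refine absurd ?_ (hG.no4 h.toVF (sw_mul xm k))
      rwa [show x * r * (x * r) = x * (r * x) * r by group, ← cm,
        show x * (x * r) * r = x * x * (r * r) by group, hr.1, mul_one, e]
  have typ : ∀ x ∈ Cen t, x ≠ 1 → ¬ IsInv x → (x * x = t ∧ ni x = 1) ∨ (x ∈ Tor ρ ∧ ni x = 3) :=
    fun x hx h1 hi => (h.mono x hx).symm.imp (fun k => by
      have := (hG.sw_sq h.t0 k).resolve_left fun e => hi ⟨e, h1⟩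
      exact ⟨this, n1 x this⟩) fun k => ⟨k, hG.ni3 h.toVF k fun e => hi ⟨e, h1⟩⟩
  have ce := class_eq ht hI (fun x hx h1 h2 => (typ x hx h1 h2).imp And.right And.right)
  have e3 : (ZZ G 3 ∩ Cen t).ncard = 8 := by
    have := hG.ncard_z3 h.toVF
    rw [show ZZ G 3 ∩ Cen t = ZZ G 3 ∩ Tor ρ from Set.ext fun x => ⟨fun k => ⟨k.1,
      ((typ x k.2 k.1.1 k.1.2.1).resolve_left fun e => by have := k.1.2.2; omega).1⟩,
      fun k => ⟨k.1, le k.2⟩⟩]
    omega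
  have e1 : (ZZ G 1 ∩ Cen t).ncard = 6 := by
    have a1 : ZZ G 1 ∩ Cen t = {x | x * x = t} := Set.ext fun x => ⟨fun k =>
      ((typ x k.2 k.1.1 k.1.2.1).resolve_right fun e => by have := k.1.2.2; omega).1, fun k =>
      ⟨⟨fun e => ht.2 (by rw [← show x * x = t from k, e, one_mul]), fun e => ht.2 (e.1 ▸ k.symm), n1 x k⟩,
        (show x * x = t from k) ▸ mem_cen_sq⟩⟩
    have a2 : {x | x * x = t}.ncard = {x | Mo ρ x (swap 1 2) ∧ x * x = 1}.ncard := by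
      refine Set.ncard_congr (fun x _ => x * u) (fun x hx => ⟨by simpa using (o4 x hx).mul h.u0.mo, ?_⟩)
        (fun a b _ _ e => mul_right_cancel e) fun x hx => ⟨x * u, ?_, by rw [mul_assoc, h.iu.1, mul_one]⟩
      · rw [h.sw_sq (o4 x hx), show x * x = t from hx, ht.1]
      · change _ = _; rw [h.sw_sq hx.1, hx.2, one_mul]
    have a3 : (Cen t : Set G) = (Tor ρ : Set G) ∪ ({x | x * x = t} ∪ {x | Mo ρ x (swap 1 2) ∧ x * x = 1}) :=
      Set.ext fun x => ⟨fun hx => (h.mono x hx).imp_right fun k => (hG.sw_sq h.t0 k).symm.imp_right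
        fun e => ⟨k, e⟩, fun hx => hx.elim (le ·) fun k => h.sw_cen (k.elim (o4 x) And.left)⟩
    have a4 := congrArg Set.ncard a3
    have d2 : Disjoint {x | x * x = t} {x | Mo ρ x (swap 1 2) ∧ x * x = 1} :=
      Set.disjoint_left.2 fun x k k' => ht.2 ((show x * x = t from k).symm.trans k'.2)
    rw [Set.ncard_union_eq (Set.disjoint_left.2 fun x k k' => sw_not (k'.elim (o4 x) And.left) k),
      Set.ncard_union_eq d2, ← card_eq_ncard,
      ← card_eq_ncard, c24, c12, ← a2] at a4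
    rw [a1]; omega
  obtain ⟨P, hP⟩ := hG.rr_sylow hb hc
  have inR : ∀ y : G, y ^ 3 = 1 → ∃ g, g * y * g⁻¹ ∈ RR z s := fun y hy => by
    obtain ⟨Q, hQ⟩ := (show IsPGroup 3 (zpowers y) from fun ⟨x, hx⟩ => ⟨1, Subtype.ext (by
      obtain ⟨i, rfl⟩ := hx
      simp only [pow_one, coe_pow, coe_one]
      rw [← zpow_natCast, ← _root_.zpow_mul, mul_comm, _root_.zpow_mul, zpow_natCast, hy, _root_.one_zpow])⟩).exists_le_sylow
    obtain ⟨g, rfl⟩ := MulAction.exists_smul_eq G Q P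
    exact ⟨g, hP ▸ smul_mem_pointwise_smul y (MulAut.conj g) _ (hQ (mem_zpowers y))⟩
  obtain ⟨v, hv, hvn, -⟩ := hG.rr_inv hb hc
  obtain ⟨o, ho3, ho⟩ := ncard_classes [s, z * s, z ^ 2 * s] (m := 9) {x | x ≠ 1 ∧ NI x ∧ Sp ρ x}
    (fun y hy g => ⟨conj_ne_one hy.1, hy.2.1.conj g, hy.2.2.conj g⟩) (fun y ⟨_, a, s', c', b, e⟩ => by
      rw [hG.sp_cen e b a, hG.card_rr e b]) (fun y ⟨_, a, s', c', b, e⟩ => by
      obtain ⟨g, hg⟩ := inR y (e.pow_three h.inj b)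
      have key : ∀ (g : G) (i : Fin 3), g * y * g⁻¹ = z ^ i.val * s →
          ∃ r ∈ [s, z * s, z ^ 2 * s], ∃ g, g * r * g⁻¹ = y := fun g i e =>
        ⟨z ^ i.val * s, by fin_cases i <;> simp, g⁻¹, by rw [← e]; group⟩
      obtain ⟨i, j, e'⟩ := hG.rr_cases hb hc hg
      fin_cases j
      · refine absurd (mem_Cen_comm.1 (le ?_)) (a.conj g t ht)
        rw [e']; simpa using pow_mem hz.mem i
      · exact key g i (by simpa using e')
      · refine key (v * g) (2 * i) ?_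
        rw [show v * g * y * (v * g)⁻¹ = v * (g * y * g⁻¹) * v⁻¹ by group, hG.rr_inverts hb hc hv hvn hg,
          e', inv_eq_iff_mul_eq_one]
        have s3 := hb.symm.pow_three h.inj (Bt.symm_ne hc)
        have cm : Commute z s := hb.comm h.inj
        rw [mul_assoc, ← mul_assoc (s ^ _), ← (cm.pow_pow _ _).eq, mul_assoc, ← pow_succ, s3, mul_one,
          ← pow_add]
        fin_cases i <;> simp [z3])
  have ho1 : 1 ≤ o := by
    by_contra e
    rw [show o = 0 by omega, zero_mul, mul_eq_zero, Set.ncard_eq_zero] at ho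
    have all : ∀ r ∈ RR z s, r ≠ 1 → ∃ n ∈ normalizer (RR z s : Set G), r = n⁻¹ * z * n := by
      intro r hr r1
      have hzR : z ∈ RR z s := by simpa using hb.mem_rr h.inj 1 0
      obtain ⟨g, hg⟩ : ∃ g, g⁻¹ * z * g = r := by
        obtain ⟨r', c', b, e, -⟩ := hG.rr_sym hb hc hr r1
        obtain ⟨g, hg⟩ := not_ni_conj hI (y := r) fun k => by
          have := (ho.resolve_right (by decide)).le ⟨r1, k, r', c', b, e⟩
          exact this
        have r3 : (g * r * g⁻¹) ^ 3 = 1 := by rw [conj_pow, hG.rr_cube hb hc hr]; group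
        have r2 := sq_ne_of_cube r3 (conj_ne_one r1)
        obtain ⟨d, hd⟩ := ((typ _ hg (conj_ne_one r1) fun k => r2 k.1).resolve_left fun k => by
          rw [pow_succ, sq, k.1] at r3
          exact r2 (by rw [← inv_eq_of_mul_eq_one_right r3, ht.inv_eq, ht.1])).1
        have e := (hd.pow 3).of_eq_one r3
        obtain ⟨i, hi⟩ := hG.tor_cube hω hz hd (e 1 0) (e 2 0)
        rw [pow_eq_pow_mod _ z3] at hi
        have := Nat.mod_lt i three_pos
        generalize i % 3 = j at *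
        interval_cases j
        · exact absurd (hi.trans (pow_zero z)) (conj_ne_one r1)
        · exact ⟨g, by rw [← pow_one z, ← hi]; group⟩
        · refine ⟨v⁻¹ * g, ?_⟩
          rw [show (v⁻¹ * g)⁻¹ * z * (v⁻¹ * g) = g⁻¹ * (v * z * v⁻¹) * g by group,
            hG.rr_inverts hb hc hv hvn hzR, ← eq_inv_of_mul_eq_one_left (show z ^ 2 * z = 1 by
              rw [← pow_succ, z3]), ← hi]; group
      have hP' : (P : Set G) = (RR z s : Set G) := by rw [← hP]; rfl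
      have := P.conj_eq_normalizer_conj_of_mem_centralizer z g (by
        rw [hP']; exact mem_centralizer_iff.2 fun y hy => hG.rr_comm hb hc hy hzR) (by
        rw [hP', hg]; exact mem_centralizer_iff.2 fun y hy => hG.rr_comm hb hc hy hr)
      rwa [hP', hg] at this
    choose! f hf hf' using all
    have := Nat.card_le_card_of_injective (fun x : ((RR z s : Set G) \ {1} : Set G) × RR z s =>
      (⟨x.2 * f x.1, mul_mem (le_normalizer x.2.2) (hf _ x.1.2.1 x.1.2.2)⟩ : normalizer (RR z s : Set G)))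
      fun a b e => by
        have e' : (a.2 : G) * f a.1 = b.2 * f b.1 := congrArg Subtype.val e
        have k : ∀ x : ((RR z s : Set G) \ {1} : Set G) × RR z s,
            (x.1 : G) = ((x.2 : G) * f x.1)⁻¹ * z * (x.2 * f x.1) := fun x => by
          rw [show ((x.2 : G) * f x.1)⁻¹ * z * (x.2 * f x.1) = (f x.1)⁻¹ * ((x.2 : G)⁻¹ * (z * x.2)) * f x.1
            by group, mem_Cen.1 x.2.2.1, inv_mul_cancel_left]
          exact hf' _ x.1.2.1 x.1.2.2
        have e1 : a.1 = b.1 := Subtype.ext (by rw [k a, k b, e'])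
        exact Prod.ext e1 (Subtype.ext (by rw [e1] at e'; exact mul_right_cancel e'))
    rw [Nat.card_prod, Nat.card_coe_set_eq, ncard_diff_one, card_normalizer_eq', hG.card_rr hb hc] at this
    rcases hG.rr_nu hb hc with e | ⟨e, -⟩ | ⟨a, b, e1, e2, e3⟩
    · omega
    · omega
    · exact noQ a b e1 e2 e3
  obtain ⟨R, f1, f2, -, f4⟩ := hG.mkFam (B := False) (fun e => e.elim) (c := 72)
    (Nat.Coprime.mul_dvd_of_dvd_of_dvd (m := 8) (n := 9) (by decide)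
      ((show 8 ∣ Nat.card (Cen t) by rw [c24]; decide).trans (card_subgroup_dvd_card _))
      (hG.card_rr hb hc ▸ card_subgroup_dvd_card _))
    (fun r hr e => exists_not_ni ht r hr (by
      rw [c24]; exact hr.dvd_of_dvd_pow (n := 2) (e.trans (by decide)))) (Or.inr noQ)
  have split : {x : G | x ≠ 1 ∧ NI x}.ncard = (XX ρ False).ncard + {x | x ≠ 1 ∧ NI x ∧ Sp ρ x}.ncard := by
    rw [← Set.ncard_union_eq (Set.disjoint_left.2 fun x a b => a.2.2 b.2.2)]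
    congr 1
    exact Set.ext fun x => ⟨fun k => (em (Sp ρ x)).symm.imp (fun e => ⟨k.1, k.2, e⟩) fun e => ⟨k.1, k.2, e⟩,
      fun k => k.elim (fun k => ⟨k.1, k.2.1⟩) fun k => ⟨k.1, k.2.1⟩⟩
  have g0 : (Nat.card G : ℚ) ≠ 0 := by exact_mod_cast Nat.card_pos.ne'
  obtain ⟨g1, g2⟩ := f1.V3 ho1 ho3 (by
    rw [ce, e1, e3, c24, split, Nat.cast_add, f4]
    have := congrArg (Nat.cast : ℕ → ℚ) ho
    push_cast at this ⊢
    field_simp
    linear_combination 5184 * this) (fun x hx hu h4 he => by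
      obtain ⟨y, a, b, c⟩ := hG.un_even hI hu h4 he
      have k := (h.mono y a).resolve_left fun k => h.tne (cyc_inv_unique (c ▸ mem_Cen_comm.1 a)
        (c ▸ mem_Cen.2 (Tor_comm h.inj k h.u0.mem)) ht h.iu)
      have : y ^ 4 = 1 := by
        rw [show 4 = 2 + 2 from rfl, pow_add, sq]
        rcases hG.sw_sq h.t0 k with e | e <;> rw [e]
        exacts [one_mul 1, ht.1]
      have := orderOf_le_of_pow_eq_one four_pos this
      omega)
  refine ⟨g1, ?_⟩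
  rcases g2 with ⟨x, hx, a, b⟩ | ⟨⟨x, -, a, b⟩, -⟩
  · exfalso
    have cc := hG.xx_cc (fun e => e.elim) (f2 x hx)
    obtain ⟨w, w1, w2, w3⟩ := cc.exists_inverting (by rw [a]) (by rw [b])
    have i1 := CC.pair_ineq w2 w1.1 w3
    have i2 := cc.ncard_ccls
    have i3 := ncard_Inv_mul hI ht
    rw [a, b, g1] at i2
    rw [c24, g1] at i3
    rw [a, show (Invs G).ncard = 105 by omega] at i1
    omega
  · have := (Cen x).orderOf_dvd_natCard (self_mem_Cen x)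
    rw [orderOf_eq_prime a.2 a.1, b] at this
    exact (Nat.prime_dvd_prime_iff_eq Fact.out Nat.prime_five).1 this

theorem HB.local (hG : HB p ρ) :
    (∃ g t u, VF (M3.cjr ρ g) t u ∧ Cen t = Tor (M3.cjr ρ g) ∧ Nat.card (Cen t) = 4 ∧ Nat.card G = 60 ∧
      (∀ r, IsInv r → ∃ g, g * t * g⁻¹ = r) ∧ ∃ s σ, Mo (M3.cjr ρ g) s σ ∧ ∀ i, σ i ≠ i) ∨
    (∃ g t u, NF (M3.cjr ρ g) t u ∧ Nat.card (Tor (M3.cjr ρ g)) = 4 ∧
      (Nat.card G = 168 ∨ Nat.card G = 360)) ∨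
    (∃ g t u z ω, NF (M3.cjr ρ g) t u ∧ Nat.card (Tor (M3.cjr ρ g)) = 12 ∧ ω ^ 2 + ω + 1 = 0 ∧
      Dg (M3.cjr ρ g) z ![1, ω, ω ^ 2] ∧ Nat.card G = 2520 ∧ p = 5) ∨
    ∃ (t m : G) (k : ℕ) (x : G), DC t m k ∧ Un p x ∧ 4 ≤ nu x ∧ Nat.card (Cen x) = 2 * nu x + 1 ∧
      Nat.card G = Nat.card (Cen x) * nu x * (Nat.card (Cen x) + 1) := by
  obtain ⟨t, ht, ho⟩ := exists_central_inv hG.exists_inv.choose_spec
  by_cases hna : ∀ x ∈ Cen t, ∀ y ∈ Cen t, x * y = y * x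
  · obtain ⟨u, hu, hne, hc⟩ := hG.second_inv ht
    obtain ⟨g, h1, h2⟩ := hG.inv_frame2 ht hu hne.symm (mem_Cen.1 hc)
    have hG' := hG.cjr g
    have hV : VF (M3.cjr ρ g) t u := ⟨hG'.inj, (hG.inv_rep hu).1, h1, h2⟩
    have hC : Cen t = Tor (M3.cjr ρ g) := le_antisymm (fun y hy => hV.cen2 hy
      (mem_Cen.2 (hna u hc y hy))) (h1.tor_le hG'.inj)
    obtain ⟨a, b⟩ := hG'.caseAb hV hC ho
    exact Or.inl ⟨g, t, u, hV, hC, hC ▸ a, b⟩
  have dc : ∀ m k, DC t m k → _ := fun m k h => (hG.caseD h).imp (fun ⟨e, e'⟩ => by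
    subst e
    obtain ⟨g, u, a, b⟩ := hG.nf_of_dc h
    exact (⟨g, t, u, a, b, e'⟩ : ∃ g t u, NF (M3.cjr ρ g) t u ∧ Nat.card (Tor (M3.cjr ρ g)) = 4 ∧
      (Nat.card G = 168 ∨ Nat.card G = 360))) fun ⟨x, hx⟩ => (⟨t, m, k, x, h, hx⟩ :
      ∃ (t m : G) (k : ℕ) (x : G), DC t m k ∧ Un p x ∧ 4 ≤ nu x ∧ Nat.card (Cen x) = 2 * nu x + 1 ∧
      Nat.card G = Nat.card (Cen x) * nu x * (Nat.card (Cen x) + 1))
  right
  obtain ⟨g, h⟩ := hG.exists_mf ht ho
  have hG' := hG.cjr g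
  by_cases hu : ∃ u, Dg (M3.cjr ρ g) u ![1, 1, -1]
  · obtain ⟨u, hu⟩ := hu
    have hN := hG'.nf_of_mf h ho hna hu
    rcases hG'.nf_tor hN with c4 | ⟨c12, z, ω, hω, h3, hz⟩
    · obtain ⟨m, hm⟩ := hG'.dc_of_nf hN ho c4
      exact (dc m 2 hm).imp_right Or.inr
    · exact Or.inr (Or.inl ⟨g, t, u, z, ω, hN, c12, hω, hz, hG'.caseV3 hN c12 hω h3 hz⟩)
  · obtain ⟨m, k, hm⟩ := hG'.caseCyc h ho hna fun u e => hu ⟨u, e⟩
    exact (dc m k hm).imp_right Or.inr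

end Cfsg.Agent.H8.M3
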