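import Cfsg.Agent.H8.M3L

/-! Invariant forms; the conic cases. -/

set_option autoImplicit false
set_option linter.unusedSectionVars false

namespace Cfsg.Agent.H8.M3
open Matrix Equiv Subgroup
open scoped MatrixGroups

universe u
variable {K : Type*} [Field K] {G : Type u} [Group G]
variable {ρ : G →* PGL(3, K)} {x y z s t u n r w m : G} {p k : ℕ} {d : Fin 3 → K} {σ τ : Perm (Fin 3)}

theorem Rep.mul_inv {A : Mt K} (h : Rep ρ x A) : A * A⁻¹ = 1 :=
  mul_nonsing_inv _ (Ne.isUnit h.det_ne)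

/-- elements preserving a sesquilinear form up to scalars -/
def TS (ρ : G →* PGL(3, K)) (φ : K →+* K) (S : Mt K) : Subgroup G where
  carrier := {x | ∃ A, ∃ c : K, c ≠ 0 ∧ Rep ρ x A ∧ Aᵀ * S * A.map φ = c • S}
  mul_mem' := fun ⟨A, c, hc, h, e⟩ ⟨B, c', hc', h', e'⟩ => ⟨A * B, c * c', mul_ne_zero hc hc', h.mul h', by
    rw [transpose_mul, Matrix.map_mul, show Bᵀ * Aᵀ * S * (A.map φ * B.map φ) =
      Bᵀ * (Aᵀ * S * A.map φ) * B.map φ by simp only [mul_assoc], e, Matrix.mul_smul, Matrix.smul_mul, e',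
      smul_smul]⟩
  one_mem' := ⟨1, 1, one_ne_zero, Rep.one, by simp⟩
  inv_mem' := fun ⟨A, c, hc, h, e⟩ => ⟨A⁻¹, c⁻¹, inv_ne_zero hc, h.inv', by
    rw [eq_inv_smul_iff₀ hc, ← Matrix.smul_mul, ← Matrix.mul_smul, ← e, show A⁻¹ᵀ * (Aᵀ * S * A.map φ) *
      A⁻¹.map φ = (A * A⁻¹)ᵀ * S * (A * A⁻¹).map φ by simp only [mul_assoc, transpose_mul, Matrix.map_mul],
      h.mul_inv]; simp⟩

/-- elements fixed by a field endomorphism -/
def FS (ρ : G →* PGL(3, K)) (φ : K →+* K) : Subgroup G where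
  carrier := {x | ∃ A, ∃ c : K, c ≠ 0 ∧ Rep ρ x A ∧ A.map φ = c • A}
  mul_mem' := fun ⟨A, c, hc, h, e⟩ ⟨B, c', hc', h', e'⟩ => ⟨A * B, c * c', mul_ne_zero hc hc', h.mul h', by
    rw [Matrix.map_mul, e, e', Matrix.mul_smul, Matrix.smul_mul, smul_smul, mul_comm]⟩
  one_mem' := ⟨1, 1, one_ne_zero, Rep.one, by simp⟩
  inv_mem' := fun ⟨A, c, hc, h, e⟩ => ⟨A⁻¹, c⁻¹, inv_ne_zero hc, h.inv', by
    have : A.map φ * A⁻¹.map φ = 1 := by rw [← Matrix.map_mul, h.mul_inv]; simp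
    rw [e, Matrix.smul_mul, ← Matrix.mul_smul] at this
    rw [eq_inv_smul_iff₀ hc]; exact (inv_eq_right_inv this).symm⟩

theorem mem_TS {φ : K →+* K} {S A : Mt K} (h : Rep ρ x A) {c : K} (hc : c ≠ 0)
    (e : Aᵀ * S * A.map φ = c • S) : x ∈ TS ρ φ S := ⟨A, c, hc, h, e⟩

theorem TS.all {φ : K →+* K} {S A : Mt K} (hx : x ∈ TS ρ φ S) (h : Rep ρ x A) :
    ∃ c : K, c ≠ 0 ∧ Aᵀ * S * A.map φ = c • S := by
  obtain ⟨B, c, hc, h', e⟩ := hx
  obtain ⟨a, ha, rfl⟩ := h'.uniq h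
  refine ⟨a * φ a * c, by simp [ha, hc], ?_⟩
  rw [show (a • B).map φ = φ a • B.map φ by ext; simp, transpose_smul, Matrix.smul_mul, Matrix.smul_mul,
    Matrix.mul_smul, e, smul_smul, smul_smul]

theorem FS.all {φ : K →+* K} {A : Mt K} (hx : x ∈ FS ρ φ) (h : Rep ρ x A) :
    ∃ c : K, c ≠ 0 ∧ A.map φ = c • A := by
  obtain ⟨B, c, hc, h', e⟩ := hx
  obtain ⟨a, ha, rfl⟩ := h'.uniq h
  refine ⟨φ a * c / a, by simp [ha, hc], ?_⟩
  rw [show (a • B).map φ = φ a • B.map φ by ext; simp, e, smul_smul, smul_smul, div_mul_cancel₀ _ ha]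

theorem TS_cjr {φ : K →+* K} {S : Mt K} (g : GL (Fin 3) K) (hx : x ∈ TS ρ φ S) :
    x ∈ TS (cjr ρ g) φ ((g : Mt K)ᵀ * S * (g : Mt K).map φ) := by
  obtain ⟨A, c, hc, h, e⟩ := hx
  have e0 : A * g = g * ((g⁻¹ : GL (Fin 3) K) * A * g) := by
    rw [← mul_assoc, ← mul_assoc, Units.mul_inv, one_mul]
  refine ⟨_, c, hc, h.cjr e0, ?_⟩
  generalize ((g⁻¹ : GL (Fin 3) K) : Mt K) * A * g = B at e0
  rw [show Bᵀ * ((g : Mt K)ᵀ * S * (g : Mt K).map φ) * B.map φ = ((g : Mt K) * B)ᵀ * S * ((g : Mt K) * B).map φ by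
    simp only [mul_assoc, transpose_mul, Matrix.map_mul], ← e0, show (A * (g : Mt K))ᵀ * S * (A * (g : Mt K)).map φ =
    (g : Mt K)ᵀ * (Aᵀ * S * A.map φ) * (g : Mt K).map φ by
      simp only [mul_assoc, transpose_mul, Matrix.map_mul], e, Matrix.mul_smul, Matrix.smul_mul]

/-- the standard conic -/
def S0 : Mt K := !![0, 0, -1; 0, 2, 0; -1, 0, 0]

def Conic (ρ : G →* PGL(3, K)) : Prop := ∃ g, TS (cjr ρ g) (RingHom.id K) S0 = ⊤

theorem Conic.of_cjr {g : GL (Fin 3) K} (h : Conic (cjr ρ g)) : Conic ρ := by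
  obtain ⟨g', h⟩ := h
  exact ⟨g * g', by rwa [← cjr_cjr]⟩

theorem conic_of {S g : Mt K} (h : TS ρ (RingHom.id K) S = ⊤) (hg : g.det ≠ 0) (e : gᵀ * S * g = S0) :
    Conic ρ := ⟨GeneralLinearGroup.mkOfDetNeZero g hg, (eq_top_iff' _).2 fun x => by
  have := TS_cjr (GeneralLinearGroup.mkOfDetNeZero g hg) (h.ge (mem_top x))
  rwa [show ((GeneralLinearGroup.mkOfDetNeZero g hg : GL (Fin 3) K) : Mt K) = g from rfl,
    RingHom.coe_id, Matrix.map_id, e] at this⟩

theorem e2_of_inv {C C' : Mt K} (h : C * C' = 1) : e2 C = C.det * C'.trace := by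
  have : C.adjugate = C.det • C' := by
    rw [← one_mul C.adjugate, ← mul_eq_one_comm.1 h, mul_assoc, mul_adjugate, Matrix.mul_smul, mul_one]
  rw [e2, this, trace_smul, smul_eq_mul]

theorem real_step {C : Mt K} {τ a b c : K} {n : ℕ} (h1 : C.trace = τ) (h2 : e2 C = τ) (h3 : C.det = 1)
    (h : C ^ n = a • (C * C) + b • C + c • 1) :
    C ^ (n + 1) = (a * τ + b) • (C * C) + (c - a * τ) • C + a • 1 := by
  rw [pow_succ, h, add_mul, add_mul, Matrix.smul_mul, Matrix.smul_mul, Matrix.smul_mul, cayley, h1, h2, h3]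
  simp only [one_mul]; module

theorem real_one {C : Mt K} {τ c : K} {n : ℕ} (h1 : C.trace = τ) (h2 : e2 C = τ) (h3 : C.det = 1)
    (h : C ^ n = c • 1) : c = 1 := by
  rw [← pow_eq_of_eig (r := 1) (by rw [det_sub, h1, h2, h3]; ring) h, one_pow]

variable [Finite G] [IsAlgClosed K] [Fact p.Prime] [CharP K p] {c ω l : K}

theorem conic_diag {s : Fin 3 → K} (h : TS ρ (RingHom.id K) (diagonal s) = ⊤) (hs : ∀ i, s i ≠ 0)
    (h2 : (2 : K) ≠ 0) : Conic ρ := by
  obtain ⟨β, hβ⟩ := IsAlgClosed.exists_eq_mul_self (2 / s 1)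
  obtain ⟨γ, hγ⟩ := IsAlgClosed.exists_eq_mul_self (- s 0 / s 2)
  have a0 := hs 0; have a1 := hs 1; have a2 := hs 2
  rw [div_eq_iff (hs _)] at hβ hγ
  have b0 : β ≠ 0 := by rintro rfl; simp [h2] at hβ
  have c0 : γ ≠ 0 := by rintro rfl; simp [a0] at hγ
  refine conic_of h (g := !![1, 0, -1 / (2 * s 0); 0, β, 0; γ, 0, γ / (2 * s 0)]) ?_ ?_
  · simp only [det_fin_three]; simp; field_simp; norm_num; simp [b0, c0, h2, a0, ← mul_two]
  · ext i j; fin_cases i <;> fin_cases j <;> simp [mul_apply, Fin.sum_univ_three, S0, diagonal] <;>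
      field_simp <;> grind

theorem SN.five_le (hG : SN G) {H : Subgroup G} (h : H ≠ ⊤) : 5 ≤ H.index := by
  by_contra e
  refine h ((eq_top_iff' _).2 fun g => ?_)
  have := hG.fix (Y := G ⧸ H) (fun g y => g • y) (one_smul _) mul_smul (S := Set.univ) Set.finite_univ
    (by rw [Set.ncard_univ, ← index]; omega) (fun _ _ _ => trivial) g⁻¹ (y := ((1 : G) : G ⧸ H)) trivial
  simpa using QuotientGroup.eq.1 this

theorem NI.card_odd (h : NI x) : Nat.card (Cen x) % 2 = 1 := by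
  by_contra e
  obtain ⟨⟨w, hw⟩, e⟩ := exists_prime_orderOf_dvd_card' (G := Cen x) 2 (by omega)
  rw [← orderOf_coe] at e
  exact h w ⟨by rw [← sq, ← e, pow_orderOf_eq_one], fun e' => by simp [e'] at e⟩ hw

theorem NI.pow (h : NI x) {a b : ℕ} (e : x ^ (2 ^ a * b) = 1) : x ^ b = 1 := by
  have h1 := (Cen x).orderOf_dvd_natCard (self_mem_Cen x)
  have h2 := h.card_odd
  refine orderOf_dvd_iff_pow_eq_one.1 (Nat.Coprime.dvd_of_dvd_mul_left (Nat.Coprime.pow_right _ ?_)
    (orderOf_dvd_of_pow_eq_one e))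
  exact (Nat.coprime_two_right.2 (Odd.of_dvd_nat (Nat.odd_iff.2 h2) h1))

theorem NE.refl_pair (hG : NE ρ) {P Q : Mt K} (hP : P * P = P) (hQ : Q * Q = Q) (h2 : (2 : K) ≠ 0)
    (hx : Rep ρ x (hm (-1) P)) (hy : Rep ρ y (hm (-1) Q)) (e : Q * P = 0) : x * y = y * x := by
  have a : ∀ A, P * (P * A) = P * A := fun A => by rw [← mul_assoc, hP]
  have b : ∀ A, Q * (Q * A) = Q * A := fun A => by rw [← mul_assoc, hQ]
  have c : ∀ A, Q * (P * A) = 0 := fun A => by rw [← mul_assoc, e, zero_mul]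
  have := hG.noE _ ((-4 : K) • (P * Q)) (((hx.mul hy).mul (hx.mul hy)).congr (by
    simp only [hm, mul_add, add_mul, Matrix.smul_mul, Matrix.mul_smul, one_mul, mul_one, mul_assoc, a, b, c,
      hP, hQ, e, mul_zero, smul_zero]; module)) (by
    simp only [Matrix.smul_mul, Matrix.mul_smul, mul_assoc, c, mul_zero, smul_zero])
  have e' : P * Q = 0 := (smul_eq_zero.1 this).resolve_left fun k => h2 (pow_eq_zero_iff two_ne_zero |>.1
    (by linear_combination -k))
  refine hx.comm hG.inj hy ?_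
  simp only [hm, mul_add, add_mul, Matrix.smul_mul, Matrix.mul_smul, one_mul, mul_one, e, e']; module

theorem hm_single (i : Fin 3) : hm (-1) (vv (Pi.single i 1) (Pi.single i 1) : Mt K) =
    diagonal (Function.update 1 i (-1)) := by
  ext a b; fin_cases i <;> fin_cases a <;> fin_cases b <;> simp [hm, Function.update] <;> ring

theorem HB.conic60 (hG : HB p ρ) (h : VF ρ t u) (hC : Cen t = Tor ρ) (c4 : Nat.card (Cen t) = 4)
    (c60 : Nat.card G = 60) (hI : ∀ r, IsInv r → ∃ g, g * t * g⁻¹ = r) : Conic ρ := by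
  have h2 := h.two
  obtain ⟨r, hr, hrT⟩ : ∃ r, IsInv r ∧ r ∉ Tor ρ := by
    by_contra! k
    have a := ncard_Inv_mul hI h.it
    have b := Set.ncard_le_ncard (s := Invs G) (t := Tor ρ) k
    rw [← card_eq_ncard, ← hC] at b
    rw [c4, c60] at a
    omega
  have hV : ∀ i, ∃ a ∈ Tor ρ, IsInv a ∧ Rep ρ a (hm (-1) (vv (Pi.single i 1) (Pi.single i 1))) := fun i => by
    rw [hm_single]
    fin_cases i
    · exact ⟨t, h.t0.mem, h.it, (h.t0.smul (c := -1) (by simp)).congr fun i => by fin_cases i <;> simp⟩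
    · exact ⟨_, h.tu.mem, h.itu, h.tu.congr fun i => by fin_cases i <;> simp⟩
    · exact ⟨_, h.u0.mem, h.iu, h.u0.congr fun i => by fin_cases i <;> simp⟩
  choose a aT ai aR using hV
  have nc : ∀ i, r * a i ≠ a i * r := fun i e => by
    obtain ⟨g, hg⟩ := hI _ (ai i)
    refine hrT ((eq_of_le_of_card_ge (fun y hy => mem_Cen.2 (Tor_comm h.inj (aT i) hy)) ?_).ge
      (mem_Cen.2 e.symm))
    rw [← hg, card_Cen_conj, hC]
  obtain ⟨-, _, ⟨v, φ, hv, rfl⟩, hR⟩ := hG.inv_rep hr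
  have pp : vv v φ * vv v φ = vv v φ := R1.idem ⟨v, φ, hv, rfl⟩
  have v0 : ∀ i, v i ≠ 0 := fun i e => nc i (hG.refl_pair pp (r1_single i).idem h2 hR (aR i)
    (by simp [vv_mul_vv, e]))
  have φ0 : ∀ i, φ i ≠ 0 := fun i e => nc i (hG.refl_pair (r1_single i).idem pp h2 (aR i) hR
    (by simp [vv_mul_vv, e])).symm
  refine conic_diag (s := fun i => φ i / v i) ?_ (fun i => div_ne_zero (φ0 i) (v0 i)) h2
  by_contra ne
  set H := TS ρ (RingHom.id K) (diagonal fun i => φ i / v i)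
  simp only [dotProduct, Fin.sum_univ_three] at hv
  have rH : r ∈ H := mem_TS hR one_ne_zero (by
    have a0 := v0 0; have a1 := v0 1; have a2 := v0 2
    ext i j; fin_cases i <;> fin_cases j <;>
      simp [mul_apply, Fin.sum_univ_three, diagonal, hm, one_apply] <;> field_simp <;> grind)
  have TH : Tor ρ ≤ H := fun x hx => by
    have k1 : t ∈ H := mem_TS h.t0 one_ne_zero (by
      ext i j; fin_cases i <;> fin_cases j <;> simp [mul_apply, Fin.sum_univ_three, diagonal])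
    have k2 : u ∈ H := mem_TS h.u0 one_ne_zero (by
      ext i j; fin_cases i <;> fin_cases j <;> simp [mul_apply, Fin.sum_univ_three, diagonal])
    rcases hG.tor4 h (hC ▸ c4) hx with rfl | rfl | rfl | rfl
    exacts [one_mem _, k1, k2, mul_mem k1 k2]
  have c12 : Nat.card H = 12 := by
    have a := hG.sn.five_le ne
    have b := H.card_mul_index
    obtain ⟨j, c⟩ := card_dvd_of_le TH
    have d : Nat.card H ≠ 4 := fun e => hrT ((eq_of_le_of_card_ge TH (by rw [e, ← hC, c4])).ge rH)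
    rw [← hC, c4] at c
    rw [c60, c] at b
    have : j ≤ 3 := by nlinarith
    interval_cases j <;> omega
  have key : ∀ i, 4 * (φ i * v i) = 1 := fun i => by
    have x3 : (r * a i) ^ 3 = 1 := by
      by_cases hn : NI (r * a i)
      · exact hn.pow (a := 2) (by
          rw [show 2 ^ 2 * 3 = 12 from rfl, ← c12]
          exact congrArg Subtype.val (pow_card_eq_one' (x := (⟨_, mul_mem rH (TH (aT i))⟩ : H))))
      · obtain ⟨g, hg⟩ := not_ni_conj hI hn
        have : g * (r * a i) * g⁻¹ * (g * (r * a i) * g⁻¹) = 1 := by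
          rcases hG.tor4 h (hC ▸ c4) (hC.le hg) with e | e | e | e <;> rw [e]
          exacts [one_mul 1, h.it.1, h.iu.1, h.itu.1]
        refine absurd ?_ (nc i)
        rw [show g * (r * a i) * g⁻¹ * (g * (r * a i) * g⁻¹) = g * (r * a i * (r * a i)) * g⁻¹ by group,
          mul_inv_eq_one, mul_eq_left] at this
        rw [eq_inv_of_mul_eq_one_left this, _root_.mul_inv_rev, hr.inv_eq, (ai i).inv_eq]
    obtain ⟨c, -, e⟩ := ((hR.mul (aR i)).pow 3).of_eq_one x3
    have qq := (r1_single (K := K) i).idem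
    have t1 := R1.trace ⟨v, φ, by simpa [dotProduct, Fin.sum_univ_three] using hv, rfl⟩
    have t2 := (r1_single (K := K) i).trace
    have t3 : (vv v φ * vv (Pi.single i 1) (Pi.single i 1)).trace = φ i * v i := by
      simp [vv_mul_vv, trace_vv]
    have d1 := hR.mul (aR i)
    generalize vv v φ = P at *
    generalize (vv (Pi.single i 1) (Pi.single i 1) : Mt K) = Q at *
    have i1 : hm (-1 : K) P * hm (-1 : K) P = 1 := by rw [hm_mul pp]; simp [hm_one]
    have i2 : hm (-1 : K) Q * hm (-1 : K) Q = 1 := by rw [hm_mul qq]; simp [hm_one]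
    have dd : ∀ P : Mt K, hm (-1 : K) P * hm (-1 : K) P = 1 → P.trace = 1 → (hm (-1 : K) P).det = -1 :=
      fun P e t => by
        have t' : (hm (-1 : K) P).trace = 1 := by simp [hm, t]; ring
        have a := congrArg trace (cayley (hm (-1 : K) P))
        rw [e2_of_inv e, e] at a
        simp [t'] at a
        exact mul_left_cancel₀ h2 (by linear_combination -a)
    have inv : hm (-1 : K) P * hm (-1 : K) Q * (hm (-1 : K) Q * hm (-1 : K) P) = 1 := by
      rw [mul_assoc, ← mul_assoc (hm _ Q), i2, one_mul, i1]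
    have dt : (hm (-1 : K) P * hm (-1 : K) Q).det = 1 := by rw [det_mul, dd P i1 t1, dd Q i2 t2]; ring
    have ee := e2_of_inv inv
    rw [dt, one_mul, trace_mul_comm] at ee
    have tt : (hm (-1 : K) P * hm (-1 : K) Q).trace = 4 * (φ i * v i) - 1 := by
      simp [hm, mul_add, add_mul, t1, t2, t3]; ring
    rw [tt] at ee
    have c1 := real_one tt ee dt e
    have c3 := real_step (n := 2) (a := 1) (b := 0) (c := 0) tt ee dt (by simp [sq])
    by_contra k
    generalize hm (-1 : K) P * hm (-1 : K) Q = C at *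
    have : C * C = C := by
      rw [← sub_eq_zero]
      refine (smul_eq_zero.1 ?_).resolve_left (sub_ne_zero.2 k)
      rw [c3, c1] at e
      rw [← sub_eq_zero.2 e]; module
    have c2 : C = 1 := by rw [← mul_one C, ← inv, ← mul_assoc, this]
    have := Rep.eq_one h.inj (c := 1) (d1.congr (by rw [c2, one_smul]))
    exact nc i (by rw [eq_inv_of_mul_eq_one_left this, inv_mul_cancel, mul_inv_cancel])
  exact one_ne_zero (α := K) (by linear_combination key 0 + key 1 + key 2 - 4 * hv)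

theorem CC.mem_of_norm (h : CC x) {r : ℕ} (hr : r.Prime) (hd : r ∣ Nat.card (Cen x))
    (hy : y ∈ normalizer (Cen x : Set G)) (e : y ^ r = 1) : y ∈ Cen x := by
  have h1 : y ^ nu x ∈ Cen x := by
    have := normal_in_normalizer (H := Cen x)
    exact pow_index_mem ((Cen x).subgroupOf (normalizer (Cen x : Set G))) ⟨y, hy⟩
  have h2 : (orderOf y).Coprime (nu x) := by
    refine Nat.Coprime.of_dvd_left (orderOf_dvd_of_pow_eq_one e) ((Nat.Prime.coprime_iff_not_dvd hr).2 fun k => ?_)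
    have := (Nat.dvd_sub_iff_right Nat.card_pos hd).1 (k.trans h.nu_dvd)
    exact hr.one_lt.ne' (Nat.dvd_one.1 this)
  obtain ⟨m, hm⟩ := exists_pow_eq_self_of_coprime h2.symm
  exact hm ▸ pow_mem h1 m

theorem CC.index_mod (h : CC x) {r : ℕ} (hr : r.Prime) (hd : r ∣ Nat.card (Cen x)) :
    (normalizer (Cen x : Set G)).index % r = 1 := by
  have : Fact r.Prime := ⟨hr⟩
  obtain ⟨⟨y, hy⟩, e⟩ := exists_prime_orderOf_dvd_card' (G := Cen x) r hd
  rw [← orderOf_coe] at e
  have y1 : y ≠ 1 := fun k => hr.one_lt.ne (by simpa [k] using e)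
  have pg : IsPGroup r (zpowers y) := IsPGroup.of_card (n := 1) (by rw [Nat.card_zpowers, pow_one]; exact e)
  have := pg.card_modEq_card_fixedPoints (G ⧸ normalizer (Cen x : Set G))
  rw [show MulAction.fixedPoints (zpowers y) (G ⧸ normalizer (Cen x : Set G)) = {((1 : G) : G ⧸ _)} from ?_,
    Nat.card_coe_set_eq, Set.ncard_singleton] at this
  · exact Eq.trans this (Nat.mod_eq_of_lt hr.one_lt)
  refine Set.ext fun q => ⟨fun k => ?_, ?_⟩
  · induction q using QuotientGroup.induction_on with | H g => ?_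
    have k1 : (y * g)⁻¹ * g ∈ normalizer (Cen x : Set G) := QuotientGroup.eq.1 (k ⟨y, mem_zpowers y⟩)
    rw [← inv_mem_iff, show ((y * g)⁻¹ * g)⁻¹ = g⁻¹ * y * g⁻¹⁻¹ by group] at k1
    refine QuotientGroup.eq.2 (by simpa using h.mem_normalizer hy y1 (h.mem_of_norm hr hd k1 (by
      rw [conj_pow, ← e, pow_orderOf_eq_one]; group)))
  · rintro rfl ⟨z, hz⟩
    exact QuotientGroup.eq.2 (by simpa using le_normalizer (zpowers_le.2 hy hz))

def UE (ρ : G →* PGL(3, K)) (n : G) (a b c : K) : Prop := Rep ρ n !![1, a, c; 0, 1, b; 0, 0, 1]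

section
variable {a b a' b' c' : K}

theorem UE.mul (h : UE ρ x a b c) (h' : UE ρ y a' b' c') :
    UE ρ (x * y) (a + a') (b + b') (c + c' + a * b') := (Rep.mul h h').congr (by
  ext i j; fin_cases i <;> fin_cases j <;> simp [mul_apply, Fin.sum_univ_three] <;> ring)

theorem UE.inv (h : UE ρ x a b c) : UE ρ x⁻¹ (-a) (-b) (a * b - c) := Rep.inv h one_ne_zero (by
  ext i j; fin_cases i <;> fin_cases j <;> simp [mul_apply, Fin.sum_univ_three]; ring)

theorem UE.conj (h : UE ρ x a b c) (hy : Dg ρ y ![l * l, l, 1]) (j : ℕ) :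
    UE ρ (y ^ j * x * (y ^ j)⁻¹) (l ^ j * a) (l ^ j * b) (l ^ j * l ^ j * c) := by
  have := pow_ne_zero j (show l ≠ 0 by simpa using hy.ne 1)
  refine ((Rep.mul (hy.pow j) h).mul (hy.pow j).inv).congr ?_
  ext i j; fin_cases i <;> fin_cases j <;> simp [mul_apply, Fin.sum_univ_three, diagonal, mul_pow] <;>
    field_simp

theorem UE.uniq (h : UE ρ x a b c) (h' : UE ρ x a' b' c') : a = a' ∧ b = b' ∧ c = c' := by
  obtain ⟨e, -, k⟩ := Rep.uniq h h'
  have k0 := congrFun (congrFun k 0) 0; have k1 := congrFun (congrFun k 0) 1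
  have k2 := congrFun (congrFun k 1) 2; have k3 := congrFun (congrFun k 0) 2
  simp at k0 k1 k2 k3
  simp [k1, k2, k3, ← k0]

theorem NE.ue_eq (hG : NE ρ) (h : UE ρ x a b c) (h' : UE ρ y a' b c') : x = y := by
  by_contra e
  exact (hG.up_ne (h.mul h'.inv) (by rwa [Ne, mul_inv_eq_one])).2 (by ring)
end

theorem HB.conic2T (hG : HB p ρ) (h : DC t m k) (hx : Un p x) (h4 : 4 ≤ nu x)
    (hc : Nat.card (Cen x) = 2 * nu x + 1)
    (hg : Nat.card G = Nat.card (Cen x) * nu x * (Nat.card (Cen x) + 1)) : Conic ρ := by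
  classical
  have h2 := (hG.un_frame hx).1
  have cc := hG.un_cc hx
  obtain ⟨g, y, l, ux, hy, ol, oy, hT, hB, hC⟩ := hG.un_gen hx (by omega)
  specialize hC h4
  have hG := hG.cjr g
  refine Conic.of_cjr (g := g) ?_
  generalize M3.cjr ρ g = ρ at *
  have l0 : l ≠ 0 := by simpa using hy.ne 1
  have inj := geo_inj l0 (by omega)
  have l3 : l ^ 3 ≠ 1 := fun e => by have := orderOf_le_of_pow_eq_one three_pos e; omega
  have l1 : l + 1 ≠ 0 := fun e => by
    have := orderOf_le_of_pow_eq_one two_pos (show l ^ 2 = 1 by linear_combination (l - 1) * e); omega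
  have mU : ∀ {n}, n ∈ Cen x ↔ ∃ a b c, UE ρ n a b c := fun {n} => by
    rw [hG.mem_cen_up ux hx.1]; simp [Up, UE]
  have key : ∀ n a b c, UE ρ n a b c → 2 * c = a * b := fun n a b c hn => by
    by_cases n1 : n = 1
    · obtain ⟨e1, e2, e3⟩ := hn.uniq (a' := 0) (b' := 0) (c' := 0) (n1 ▸ Rep.one.congr (by
        ext i j; fin_cases i <;> fin_cases j <;> simp))
      simp [e1, e3]
    have b0 := (hG.up_ne hn n1).2
    by_cases hl : ∃ j, l ^ j = -1
    · obtain ⟨j, hj⟩ := hl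
      have k1 := hn.conj hy j
      rw [hj, neg_one_mul b] at k1
      have := (k1.uniq (hG.ue_eq k1 hn.inv ▸ hn.inv)).2.2
      linear_combination this
    push Not at hl
    have k1 : ∀ j : ℕ, y ^ j * n * (y ^ j)⁻¹ ∈ ((Cen x : Set G) \ {1} : Set G) := fun j =>
      ⟨mU.2 ⟨_, _, _, hn.conj hy j⟩, conj_ne_one n1⟩
    have k2 : ∀ j : ℕ, y ^ j * n⁻¹ * (y ^ j)⁻¹ ∈ ((Cen x : Set G) \ {1} : Set G) := fun j =>
      ⟨mU.2 ⟨_, _, _, hn.inv.conj hy j⟩, conj_ne_one (inv_ne_one.2 n1)⟩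
    have pi : ∀ i j : Fin (nu x), l ^ i.1 = l ^ j.1 → i = j := fun i j e =>
      Fin.ext (pow_injOn_Iio_orderOf (i.2.trans_eq ol.symm) (j.2.trans_eq ol.symm) e)
    have pj : ∀ i j : Fin (nu x), l ^ i.1 * b ≠ l ^ j.1 * -b := fun i j e => hl (i + (nu x - j)) (by
      have : l ^ i.1 = -l ^ j.1 := mul_right_cancel₀ b0 (by linear_combination e)
      rw [pow_add, this, neg_mul, ← pow_add, Nat.add_sub_cancel' j.2.le, ← ol, pow_orderOf_eq_one])
    have sj := (Function.Injective.bijective_of_nat_card_le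
      (f := Sum.elim (fun j : Fin (nu x) => (⟨_, k1 j⟩ : ((Cen x : Set G) \ {1} : Set G)))
        fun j : Fin (nu x) => ⟨_, k2 j⟩) (by
      rintro (i | i) (j | j) e <;> have e' := congrArg Subtype.val e <;> simp only [Sum.elim] at e'
      · rw [pi i j (mul_right_cancel₀ b0 ((hn.conj hy i).uniq (e' ▸ hn.conj hy j)).2.1)]
      · exact absurd ((hn.conj hy i).uniq (e' ▸ hn.inv.conj hy j)).2.1 (pj i j)
      · exact absurd ((hn.conj hy j).uniq (e' ▸ hn.inv.conj hy i)).2.1 (pj j i)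
      · rw [pi i j (mul_right_cancel₀ (neg_ne_zero.2 b0)
          ((hn.inv.conj hy i).uniq (e' ▸ hn.inv.conj hy j)).2.1)]) (by
      rw [Nat.card_coe_set_eq, ncard_diff_one, hc]; simp; omega)).2
    have k3 := hn.mul (hn.conj hy 1)
    have k4 : n * (y ^ 1 * n * (y ^ 1)⁻¹) ≠ 1 := fun e => by
      have := (k3.uniq (a' := 0) (b' := 0) (c' := 0) (e ▸ Rep.one.congr (by
        ext i j; fin_cases i <;> fin_cases j <;> simp))).2.1
      exact mul_ne_zero l1 b0 (by linear_combination this)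
    by_contra ne
    rw [← sub_eq_zero] at ne
    obtain ⟨j | j, e⟩ := sj ⟨_, mU.2 ⟨_, _, _, k3⟩, k4⟩ <;> have e' := congrArg Subtype.val e <;>
      simp only [Sum.elim] at e'
    · obtain ⟨e1, e2, e3⟩ := (hn.conj hy j).uniq (e' ▸ k3)
      have : l ^ j.1 = 1 + l := mul_right_cancel₀ b0 (by linear_combination e2)
      rw [this] at e3
      exact mul_ne_zero l0 ne (by linear_combination e3)
    · obtain ⟨e1, e2, e3⟩ := (hn.inv.conj hy j).uniq (e' ▸ k3)
      have : l ^ j.1 = -(1 + l) := mul_right_cancel₀ b0 (by linear_combination -e2)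
      rw [this] at e3
      exact mul_ne_zero (sub_ne_zero.2 l3) ne (by linear_combination (1 - l) * e3)
  obtain ⟨w, hw, hwy⟩ : ∃ w, IsInv w ∧ w * y * w⁻¹ = y⁻¹ := by
    have y3 : y ^ 3 ≠ 1 := fun e => by have := orderOf_le_of_pow_eq_one three_pos e; omega
    have y1 : y ≠ 1 := fun e => y3 (by rw [e, one_pow])
    by_cases hn : NI y
    · have hs : ¬ Sp ρ y := fun ⟨s, c, hc, hb⟩ => y3 (hb.pow_three hG.inj hc)
      have cy : CC y := ⟨y1, fun z hz z1 => (hG.ns_mem y1 hn (hy.not_un inj) hs hz z1).2.2⟩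
      have a1 := hG.ns_nu y1 hn (hy.not_un inj) hs
      have a2 := geo_nu hy (ol ▸ h4) hT hC
      have a3 := cy.two_le_nu hG.sn
      obtain ⟨w, w1, -, w3⟩ := cy.exists_inverting hn.card_odd (by omega)
      exact ⟨w, w1, w3 y (self_mem_Cen y)⟩
    · exact h.exists_inverting hG.sn (fun e => by
        have := orderOf_le_of_pow_eq_one two_pos (show y ^ 2 = 1 by rw [sq, e]); omega) hn
  obtain ⟨τ, hτ⟩ := hy.mon_of_conj inj (hwy ▸ inv_mem hy.mem)
  obtain ⟨e, he⟩ : Mo ρ w (swap 0 2) := by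
    obtain ⟨c, -, k⟩ := hy.inv.uniq (hwy ▸ hτ.conj hy)
    have a := k 0; have b := k 1; have c := k 2
    have : ∀ τ : Perm (Fin 3), τ * τ = 1 → τ = swap 0 2 ∨ τ⁻¹ 1 = 1 ∧ τ⁻¹ 2 = 2 ∨ τ⁻¹ 0 = 0 ∧ τ⁻¹ 2 = 1 ∨
      τ⁻¹ 0 = 1 ∧ τ⁻¹ 2 = 2 := by decide
    rcases this τ ((hτ.mul hτ).uniq (hw.1 ▸ Mo.one)) with e | ⟨e1, e2⟩ | ⟨e1, e2⟩ | ⟨e1, e2⟩
    · exact e ▸ hτ
    · exfalso; rw [e1] at b; rw [e2] at c; simp at b c; rw [← c] at b; field_simp at b
      have := orderOf_le_of_pow_eq_one two_pos b; omega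
    all_goals exfalso; rw [e1] at a; rw [e2] at c; simp at a c; rw [← c] at a; field_simp at a; exact l3 a
  have e2 : e 1 * e 1 = e 0 * e 2 := by
    obtain ⟨c, -, k⟩ := (he.mul he).of_eq_one hw.1
    have a := congrFun (congrFun k 0) 0; have b := congrFun (congrFun k 1) 1
    simp [mono_mul, mono_apply, swap_apply_def] at a b
    rw [b, ← a, mul_comm]
  have e0 := mono_ne he.det_ne
  obtain ⟨a0, b0, c0, hx0⟩ := mU.1 (self_mem_Cen x)
  obtain ⟨a1, b1⟩ := hG.up_ne hx0 hx.1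
  obtain ⟨β, hβ⟩ := IsAlgClosed.exists_eq_mul_self (2 / a0)
  rw [div_eq_iff a1] at hβ
  refine conic_of (S := !![0, 0, -b0; 0, a0, 0; -b0, 0, 0]) (g := diagonal ![1, β, 1 / b0]) ?_ ?_ ?_
  rotate_left
  · have : β ≠ 0 := by rintro rfl; simp [h2] at hβ
    simp [Fin.prod_univ_three, this, b1]
  · ext i j; fin_cases i <;> fin_cases j <;> simp [mul_apply, Fin.sum_univ_three, S0, diagonal] <;>
      field_simp
    grind
  set H := TS ρ (RingHom.id K) !![0, 0, -b0; 0, a0, 0; -b0, 0, 0]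
  have UH : Cen x ≤ H := fun n hn => by
    obtain ⟨a, b, c, k⟩ := mU.1 hn
    have k1 := key _ _ _ _ k
    have k2 := hG.up_ratio hx0 k
    refine mem_TS k one_ne_zero ?_
    ext i j; fin_cases i <;> fin_cases j <;> simp [mul_apply, Fin.sum_univ_three] <;> grind
  have yH : y ∈ H := mem_TS hy (mul_ne_zero l0 l0) (by
    ext i j; fin_cases i <;> fin_cases j <;> simp [mul_apply, Fin.sum_univ_three, diagonal] <;> ring)
  have wH : w ∈ H := mem_TS he (mul_ne_zero (e0 1) (e0 1)) (by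
    ext i j; fin_cases i <;> fin_cases j <;> simp [mul_apply, Fin.sum_univ_three, mono_apply, swap_apply_def] <;>
      grind)
  have NH : normalizer (Cen x : Set G) ≤ H := fun n hn => by
    obtain ⟨d, hd⟩ := (hG.mem_norm_up ux hx.1).1 hn
    obtain ⟨j, hj⟩ := hB n d hd
    simpa using mul_mem (UH hj) (pow_mem yH j)
  have wN : w ∉ normalizer (Cen x : Set G) := fun k => by
    obtain ⟨d, a, b, c, hd⟩ := (hG.mem_norm_up ux hx.1).1 k
    obtain ⟨c, -, k⟩ := hd.uniq he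
    exact e0 0 (by simpa [mono_apply] using congrFun (congrFun k 2) 0)
  have pd : p ∣ Nat.card (Cen x) := by
    rw [← orderOf_eq_prime hx.2 hx.1]; exact (Cen x).orderOf_dvd_natCard (self_mem_Cen x)
  have sj := (Function.Injective.bijective_of_nat_card_le
    (f := fun o : Option (Cen x) => ((o.elim 1 fun n => n * w : G) : G ⧸ normalizer (Cen x : Set G))) (by
      have k : ∀ n : Cen x, (n : G) * w ∉ normalizer (Cen x : Set G) := fun n k =>
        wN ((mul_mem_cancel_left (le_normalizer n.2)).1 k)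
      rintro (_ | a) (_ | b) e <;> have e' := QuotientGroup.eq.1 e <;> simp only [Option.elim] at e'
      · rfl
      · exact absurd (by simpa using e') (k b)
      · exact absurd (by simpa using inv_mem e') (k a)
      · rw [show ((a : G) * w)⁻¹ * (b * w) = w⁻¹ * ((a : G)⁻¹ * b) * w⁻¹⁻¹ by group] at e'
        have m := mul_mem (inv_mem a.2) b.2
        by_contra ne
        exact wN (inv_mem_iff.1 (cc.mem_normalizer m (fun k => ne (congrArg some (Subtype.ext
          (inv_mul_eq_one.1 k)))) (cc.mem_of_norm Fact.out pd e' (by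
            rw [conj_pow, hG.un_cen hx m]; group))))) (by
      have := (normalizer (Cen x : Set G)).card_mul_index
      rw [card_normalizer_eq, hg] at this
      rw [Finite.card_option, ← index, Nat.eq_of_mul_eq_mul_left (Nat.mul_pos Nat.card_pos (by omega)) this])).2
  refine (eq_top_iff' _).2 fun g => ?_
  obtain ⟨o, ho⟩ := sj g
  have := NH (QuotientGroup.eq.1 ho)
  refine (mul_mem_cancel_left (inv_mem ?_)).1 this
  cases o
  exacts [one_mem _, mul_mem (UH (Subtype.prop _)) wH]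

end Cfsg.Agent.H8.M3
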