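import Cfsg.Agent.H8.M3M

/-! Normal form for the exceptional groups. -/

set_option autoImplicit false
set_option linter.unusedSectionVars false

namespace Cfsg.Agent.H8.M3
open Matrix Equiv Subgroup
open scoped MatrixGroups

universe u
variable {K : Type*} [Field K] {G : Type u} [Group G]
variable {ρ : G →* PGL(3, K)} {x y z s t u n r w m : G} {p k : ℕ} {d : Fin 3 → K} {σ τ : Perm (Fin 3)}
variable {κ μ : K}

def Pw : Mt K := !![1, 0, 0; 0, 0, 1; 0, 1, 0]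
def Py : Mt K := !![0, 1, 0; 1, 0, 0; 0, 0, 1]
def Rk (κ μ : K) : Mt K := !![0, κ, κ; μ, 1, -1; μ, -1, 1]

theorem Pw_mono : (Pw : Mt K) = mono (swap 1 2) 1 := by
  ext i j; fin_cases i <;> fin_cases j <;> simp [Pw, mono_apply, swap_apply_def]

theorem Py_mono : (Py : Mt K) = mono (swap 0 1) 1 := by
  ext i j; fin_cases i <;> fin_cases j <;> simp [Py, mono_apply, swap_apply_def]

noncomputable def dgGL (d : Fin 3 → K) (hd : ∀ i, d i ≠ 0) : GL (Fin 3) K :=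
  GeneralLinearGroup.mkOfDetNeZero (diagonal d) (by simp [Fin.prod_univ_three, hd])

theorem Rep.cjd {A : Mt K} (h : Rep ρ x A) (hd : ∀ i, d i ≠ 0) :
    Rep (M3.cjr ρ (dgGL d hd)) x (of fun i j => A i j * d j / d i) := h.cjr (by
  ext i j
  have := hd i
  change (A * diagonal d) i j = (diagonal d * (of fun i j => A i j * d j / d i) : Mt K) i j
  simp only [mul_diagonal, diagonal_mul, of_apply]; field_simp)

theorem Dg.cjd {e : Fin 3 → K} (hd : ∀ i, d i ≠ 0) : Dg (M3.cjr ρ (dgGL d hd)) x e ↔ Dg ρ x e := by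
  rw [Dg, rep_cjr, show ((dgGL d hd : GL (Fin 3) K) : Mt K) * diagonal e = diagonal e * dgGL d hd from
    commute_diagonal _ _, mul_assoc, Units.mul_inv, mul_one, Dg]

theorem Mo.cjd (h : Mo ρ x σ) (hd : ∀ i, d i ≠ 0) : Mo (M3.cjr ρ (dgGL d hd)) x σ := by
  obtain ⟨e, h⟩ := h
  refine ⟨fun j => e j * d j / d (σ j), (h.cjd hd).congr ?_⟩
  ext i j; simp only [mono_apply, of_apply]; split_ifs with k <;> simp [k]

theorem Tor_cjd (hd : ∀ i, d i ≠ 0) : Tor (M3.cjr ρ (dgGL d hd)) = Tor ρ :=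
  Subgroup.ext fun _ => exists_congr fun _ => Dg.cjd hd

/-- normal form -/
structure N2 (ρ : G →* PGL(3, K)) (t u w y r : G) (κ μ : K) : Prop extends NF ρ t u where
  w0 : Rep ρ w Pw
  y0 : Rep ρ y Py
  r0 : Rep ρ r (Rk κ μ)
  km : κ * μ = 2

theorem step_gen {C : Mt K} {τ τ' a b c : K} {n : ℕ} (h1 : C.trace = τ) (h2 : e2 C = τ') (h3 : C.det = 1)
    (h : C ^ n = a • (C * C) + b • C + c • 1) :
    C ^ (n + 1) = (a * τ + b) • (C * C) + (c - a * τ') • C + a • 1 := by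
  rw [pow_succ, h, add_mul, add_mul, Matrix.smul_mul, Matrix.smul_mul, Matrix.smul_mul, cayley, h1, h2, h3]
  simp only [one_mul]; module

variable [Finite G] [IsAlgClosed K] [Fact p.Prime] [CharP K p] {c ω l : K}

theorem NF.cjd (h : NF ρ t u) (hd : ∀ i, d i ≠ 0) : NF (M3.cjr ρ (dgGL d hd)) t u :=
  ⟨⟨cjr_inj h.inj _, h.two, (Dg.cjd hd).2 h.t0, (Dg.cjd hd).2 h.u0⟩, fun x hx =>
    (h.mono x hx).imp ((Tor_cjd hd).ge ·) (·.cjd hd), h.conj, by rw [Tor_cjd, h.card]⟩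

theorem VF.rk_form (h : VF ρ t u) (hw : Rep ρ w Pw) (w2 : IsInv w) (hr : IsInv r) (h1 : r ∈ Cen w)
    (h2 : r * t = w * t * r) : ∃ κ μ, κ * μ = 2 ∧ Rep ρ r (Rk κ μ) := by
  obtain ⟨A, hA⟩ := exists_rep ρ r
  have e1 := w2.bt h.inj h1 _ _ hw hA
  obtain ⟨c, -, e2⟩ := hA.of_mul_eq h.t0 (hw.mul h.t0) hA h2
  obtain ⟨s, -, e3⟩ := (hA.mul hA).of_eq_one hr.1
  rw [diagonal_vec3, Pw, mul_fin_three] at e2
  have c1 : c = -1 := by
    have := congrArg (fun X => trace (X * A⁻¹)) e2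
    simp only [Matrix.smul_mul, mul_assoc _ A, hA.mul_inv] at this
    rw [trace_mul_cycle, mul_eq_one_comm.1 hA.mul_inv] at this
    simp [trace_fin_three] at this; exact this.symm
  subst c1
  have hd := hA.det_ne
  have two := h.two
  have a := fun i j => congrFun (congrFun e1 i) j
  have b := fun i j => congrFun (congrFun e2 i) j
  have a1 := a 0 1; have a2 := a 1 1; have a3 := a 1 2; have b1 := b 0 0; have b2 := b 1 0
  have b3 := b 1 1; have c := congrFun (congrFun e3 1) 2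
  simp [Pw, mul_apply, Fin.sum_univ_three, vecMul, dotProduct] at a1 a2 a3 b1 b2 b3 c
  rw [det_fin_three] at hd
  have z0 : A 1 1 ≠ 0 := by grind
  refine ⟨A 0 1 / A 1 1, A 1 0 / A 1 1, by field_simp; grind, (hA.smul (inv_ne_zero z0)).congr ?_⟩
  ext i j; fin_cases i <;> fin_cases j <;> simp [Rk] <;> field_simp <;> grind

theorem HB.exists_n2 (hG : HB p ρ) (h : NF ρ t u) : ∃ d hd w y r κ μ,
    N2 (M3.cjr ρ (dgGL d hd)) t u w y r κ μ := by
  obtain ⟨w, hw⟩ := h.exists_sw12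
  obtain ⟨w, hw, w2⟩ := hG.exists_w h.toVF hw
  obtain ⟨y, hy⟩ := h.exists_sw01
  have hy' := ((hw.mul hy).mul hw).mul (hw.mul hy).inv
  have y2 : w * y * w * (w * y)⁻¹ * (w * y * w * (w * y)⁻¹) = 1 := by
    rw [← MulAut.conj_apply, ← map_mul, w2, map_one]
  rw [show swap 1 2 * swap 0 1 * swap 1 2 * (swap 1 2 * swap 0 1)⁻¹ = (swap 0 1 : Perm (Fin 3)) by decide]
    at hy'
  generalize w * y * w * (w * y)⁻¹ = y at hy' y2
  have wi : IsInv w := ⟨w2, fun e => sw_not hw (e ▸ one_mem _)⟩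
  obtain ⟨e, he⟩ := hw
  obtain ⟨f, hf⟩ := hy'
  have e0 := mono_ne he.det_ne; have f0 := mono_ne hf.det_ne
  obtain ⟨c, -, k⟩ := (he.mul he).of_eq_one w2
  obtain ⟨c', -, k'⟩ := (hf.mul hf).of_eq_one y2
  have a := congrFun (congrFun k 0) 0; have b := congrFun (congrFun k 1) 1
  have a' := congrFun (congrFun k' 0) 0; have b' := congrFun (congrFun k' 2) 2
  simp [mono_mul, mono_apply, swap_apply_def] at a b a' b'
  have x0 := e0 0; have x1 := e0 1; have x2 := e0 2; have y0 := f0 0; have y1 := f0 1; have y2 := f0 2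
  have hd : ∀ i, ![1, f 0 / f 2, f 0 / f 2 * (e 1 / e 0)] i ≠ 0 := fun i => by fin_cases i <;> simp [*]
  have h' := h.cjd hd
  have hw : Rep _ w Pw := ((he.cjd hd).smul (inv_ne_zero x0)).congr (by
    ext i j; fin_cases i <;> fin_cases j <;> simp [Pw, mono_apply, swap_apply_def] <;> field_simp
    grind)
  have hy : Rep _ y Py := ((hf.cjd hd).smul (inv_ne_zero y2)).congr (by
    ext i j; fin_cases i <;> fin_cases j <;> simp [Py, mono_apply, swap_apply_def] <;> field_simp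
    grind)
  obtain ⟨g, hg⟩ := h.conj w wi
  have wt := h.sw_cen ⟨e, he⟩
  have m1 : g⁻¹ * t * g ∈ Cen t := (mem_Cen_conj g).1 (hg ▸ mem_Cen_comm.1 wt)
  have i1 : IsInv (g⁻¹ * t * g) := by simpa using h.it.conj g⁻¹
  obtain ⟨b, b1, b2, b3⟩ : ∃ b ∈ Cen t, IsInv b ∧ b * (g⁻¹ * t * g) * b⁻¹ = t * (g⁻¹ * t * g) := by
    rcases h.mono _ m1 with k | k
    · refine ⟨w, wt, wi, ?_⟩
      rcases (h.inv k i1.1).resolve_left i1.2 with k | k | k
      · have : w = t := by rw [← hg]; nth_rw 1 [← k]; group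
        exact absurd (this ▸ h.t0.mem) (sw_not ⟨e, he⟩)
      · rw [k, h.sw_u ⟨e, he⟩]
      · rw [k, ← mul_assoc, ← mem_Cen.1 wt, mul_assoc t, mul_assoc t, h.sw_u ⟨e, he⟩]
    · refine ⟨u, mem_Cen.2 h.comm, h.iu, ?_⟩
      have := h.sw_u k
      generalize g⁻¹ * t * g = a at *
      rw [mul_inv_eq_iff_eq_mul] at this ⊢
      rw [mul_assoc, this, ← mul_assoc, ← mul_assoc, h.it.1, one_mul]
  obtain ⟨κ, μ, r1, r2⟩ := h'.rk_form hw wi (b2.conj g) (hg ▸ (conj_mem_Cen g).2 b1) (by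
    rw [← mul_inv_eq_iff_eq_mul, ← hg, show g * b * g⁻¹ * t * (g * b * g⁻¹)⁻¹ =
      g * (b * (g⁻¹ * t * g) * b⁻¹) * g⁻¹ by group, b3]; group)
  exact ⟨_, hd, w, y, _, κ, μ, h', hw, hy, r2, r1⟩

theorem N2.w_mo (h : N2 ρ t u w y r κ μ) : Mo ρ w (swap 1 2) := ⟨1, h.w0.congr Pw_mono⟩
theorem N2.y_mo (h : N2 ρ t u w y r κ μ) : Mo ρ y (swap 0 1) := ⟨1, h.y0.congr Py_mono⟩
theorem N2.k0 (h : N2 ρ t u w y r κ μ) : κ ≠ 0 := fun e => h.two (by rw [← h.km, e, zero_mul])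
theorem N2.m0 (h : N2 ρ t u w y r κ μ) : μ ≠ 0 := fun e => h.two (by rw [← h.km, e, mul_zero])

theorem N2.w2 (h : N2 ρ t u w y r κ μ) : w * w = 1 := ((h.w0.mul h.w0).congr (B := (1 : K) • 1) (by
  ext i j; fin_cases i <;> fin_cases j <;> simp [Pw, mul_fin_three])).eq_one h.inj

theorem N2.y2 (h : N2 ρ t u w y r κ μ) : IsInv y := ⟨((h.y0.mul h.y0).congr (B := (1 : K) • 1) (by
  ext i j; fin_cases i <;> fin_cases j <;> simp [Py, mul_fin_three])).eq_one h.inj,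
  fun e => absurd (h.y_mo.uniq (e ▸ Mo.one)) (by decide)⟩

theorem N2.r2 (h : N2 ρ t u w y r κ μ) : r * r = 1 := ((h.r0.mul h.r0).congr (B := (4 : K) • 1) (by
  have := h.km
  ext i j; fin_cases i <;> fin_cases j <;> simp [Rk, mul_fin_three] <;> grind)).eq_one h.inj

theorem N2.r_not (h : N2 ρ t u w y r κ μ) : r ∉ Mon ρ := fun ⟨σ, e, he⟩ => by
  obtain ⟨c, -, k⟩ := he.uniq h.r0
  have a := congrFun (congrFun k 0) 1; have b := congrFun (congrFun k 0) 2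
  have := h.k0
  simp [Rk, mono_apply] at a b
  split_ifs at a b with a' b'
  · exact absurd (σ.injective (a'.symm.trans b')) (by decide)
  all_goals contradiction

theorem N2.neg (h : N2 ρ t u w y r κ μ) : N2 ρ t u w y (t * r * t) (-κ) (-μ) :=
  ⟨h.toNF, h.w0, h.y0, ((Rep.mul h.t0 h.r0).mul h.t0).congr (by
    simp [diagonal_vec3, Rk, mul_fin_three]), by rw [neg_mul_neg, h.km]⟩

theorem om_ne (hω : ω ^ 2 + ω + 1 = 0) : ∀ i, ![1, ω, ω] i ≠ 0 := fun i => by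
  have : ω ≠ 0 := by rintro rfl; simp at hω
  fin_cases i <;> simp [this]

theorem N2.twist (h : N2 ρ t u w y r κ μ) (hω : ω ^ 2 + ω + 1 = 0) (hz : Dg ρ z ![1, ω, ω ^ 2]) :
    N2 (M3.cjr ρ (dgGL _ (om_ne hω))) t u w (y * z) r (κ * ω) (μ * ω ^ 2) := by
  have w0 : ω ≠ 0 := by rintro rfl; simp at hω
  refine ⟨h.toNF.cjd _, (h.w0.cjd _).congr ?_, (((h.y0.mul hz).cjd _).smul w0).congr ?_,
    (h.r0.cjd _).congr ?_, by linear_combination ω ^ 3 * h.km + 2 * (ω - 1) * hω⟩ <;>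
  ext i j <;> fin_cases i <;> fin_cases j <;> simp [Pw, Py, Rk, diagonal_vec3, mul_fin_three, w0] <;>
    field_simp <;> grind

theorem N2.pow (h : N2 ρ t u w y r κ μ) {n : ℕ} (e : (r * y) ^ n = 1) :
    (n = 3 → κ + μ = -1) ∧ (n = 4 → κ + μ = 1) ∧ (n = 5 → (κ + μ) ^ 2 = 5) ∧
      (n = 6 → κ + μ = -1 ∨ κ + μ = 3) := by
  have h2 := h.two; have km := h.km; have k0 := h.k0
  obtain ⟨c, -, e⟩ := (((h.r0.mul h.y0).smul (inv_ne_zero h2)).pow n).of_eq_one e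
  obtain ⟨τ, hτ⟩ : ∃ τ, κ + μ = 2 * τ - 1 := ⟨(κ + μ + 1) / 2, by field_simp; ring⟩
  generalize hC : (2 : K)⁻¹ • (Rk κ μ * Py) = C at e
  simp only [Rk, Py, mul_fin_three] at hC
  have t1 : C.trace = τ := by rw [← hC]; simp [trace_fin_three]; field_simp; linear_combination hτ
  have t2 : e2 C = τ := by
    rw [← hC]; simp [e2, trace_fin_three, adjugate_fin_three]; field_simp; linear_combination km + 2 * hτ
  have t3 : C.det = 1 := by rw [← hC]; simp [det_fin_three]; field_simp; linear_combination 4 * km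
  have key : ∀ a b d : K, C ^ n = a • (C * C) + b • C + d • 1 → a = 0 ∧ b = 0 := fun a b d k => by
    rw [e, ← hC] at k
    have a1 := congrFun (congrFun k 0) 1; have a2 := congrFun (congrFun k 0) 2
    simp [mul_fin_three, h2, k0, h.m0] at a1 a2
    simpa [a1, k0, h2] using a2
  have p3 := step_gen (n := 2) (a := 1) (b := 0) (c := 0) t1 t2 t3 (by simp [sq])
  have p4 := step_gen t1 t2 t3 p3
  have p5 := step_gen t1 t2 t3 p4
  have p6 := step_gen t1 t2 t3 p5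
  rw [hτ]
  refine ⟨?_, ?_, ?_, ?_⟩ <;> rintro rfl
  · have := key _ _ _ p3; grind
  · have := key _ _ _ p4; grind
  · have := key _ _ _ p5; grind
  · have := key _ _ _ p6; grind

theorem N2.ord7 (h : N2 ρ t u w y r κ μ) (e : κ + μ = -1) : orderOf (r * y * (t * u)) = 7 := by
  have h2 := h.two; have km := h.km; have k0 := h.k0
  have hr := ((h.r0.mul h.y0).mul h.tu).smul (neg_ne_zero.2 (inv_ne_zero h2))
  generalize hC : -(2 : K)⁻¹ • (Rk κ μ * Py * diagonal ![1, -1, 1]) = C at hr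
  simp only [Rk, Py, diagonal_vec3, mul_fin_three] at hC
  have t1 : C.trace = μ := by rw [← hC]; simp [trace_fin_three]; field_simp; linear_combination -e
  have t2 : e2 C = κ := by
    rw [← hC]; simp [e2, trace_fin_three, adjugate_fin_three]; field_simp; linear_combination - km - 2 * e
  have t3 : C.det = 1 := by rw [← hC]; simp [det_fin_three]; field_simp; linear_combination 4 * km
  have p7 := step_gen t1 t2 t3 (step_gen t1 t2 t3 (step_gen t1 t2 t3 (step_gen t1 t2 t3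
    (step_gen (n := 2) (a := 1) (b := 0) (c := 0) t1 t2 t3 (by simp [sq])))))
  have : Fact (Nat.Prime 7) := ⟨by decide⟩
  refine orderOf_eq_prime (((hr.pow 7).congr (B := (1 : K) • 1) (p7.trans ?_)).eq_one h.inj) fun k => ?_
  · rw [show ∀ a b d : K, a = 0 → b = 0 → d = 1 → a • (C * C) + b • C + d • 1 = (1 : K) • 1 by
      rintro _ _ _ rfl rfl rfl; simp] <;> grind
  · obtain ⟨c, -, k⟩ := hr.of_eq_one k
    have := congrFun (congrFun (hC.trans k) 0) 2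
    simp [k0, h2] at this

theorem HB.nf_ord (hG : HB p ρ) (h : NF ρ t u) (hx : ¬ NI x) :
    x ^ 4 = 1 ∨ (x ^ 6 = 1 ∧ Nat.card (Tor ρ) ≠ 4) := by
  obtain ⟨g, hg⟩ := not_ni_conj h.conj hx
  have k : ∀ n : ℕ, (g * x * g⁻¹) ^ n = 1 → x ^ n = 1 := fun n e => by
    rwa [conj_pow, mul_inv_eq_one, mul_eq_left] at e
  have k4 : ∀ a : G, a ^ 4 = a * a * (a * a) := fun a => by rw [← sq, ← sq, ← pow_mul]
  rcases h.mono _ hg with e | e
  · by_cases c4 : Nat.card (Tor ρ) = 4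
    · exact Or.inl (k 4 (congrArg Subtype.val (c4 ▸ pow_card_eq_one' (x := (⟨_, e⟩ : Tor ρ)))))
    · exact Or.inr ⟨k 6 (by rw [← hG.nf_cube h e, ← sq, ← pow_mul]), c4⟩
  · refine Or.inl (k 4 ?_)
    rcases hG.sw_sq h.t0 e with e | e <;> rw [k4, e]
    exacts [one_mul 1, h.it.1]

theorem HB.real_odd (hG : HB p ρ) (h1 : x ≠ 1) (hn : NI x) (hs : ¬ Sp ρ x) (hw : IsInv w)
    (e : w * x * w⁻¹ = x⁻¹) : ∃ a ν n, a * ν * n = Nat.card G ∧ a % 2 = 1 ∧ 2 ∣ ν ∧ ν ∣ a - 1 ∧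
      (∀ r : ℕ, r.Prime → r ∣ a → n % r = 1) ∧ x ^ a = 1 ∧
      ((Un p x ∧ p ∣ a) ∨ (ν = 2 ∧ ¬ p ∣ a)) := by
  have cc : CC x := by
    by_cases hu : Un p x
    exacts [hG.un_cc hu, ⟨h1, fun z hz z1 => (hG.ns_mem h1 hn hu hs hz z1).2.2⟩]
  have o := hn.card_odd
  have n2 : 2 ∣ nu x := by
    have := (normalizer (Cen x : Set G)).orderOf_dvd_natCard (cc.mem_normalizer (self_mem_Cen x) h1
      (e ▸ inv_mem (self_mem_Cen x)))
    rw [hw.orderOf, card_normalizer_eq] at this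
    exact (Nat.prime_two.dvd_mul.1 this).resolve_left (by omega)
  refine ⟨_, _, _, by rw [← card_normalizer_eq, card_mul_index], o, n2, cc.nu_dvd,
    fun r => cc.index_mod, congrArg Subtype.val (pow_card_eq_one' (x := (⟨x, self_mem_Cen x⟩ : Cen x))), ?_⟩
  by_cases hu : Un p x
  · exact Or.inl ⟨hu, by
      rw [← orderOf_eq_prime hu.2 hu.1]; exact (Cen x).orderOf_dvd_natCard (self_mem_Cen x)⟩
  · refine Or.inr ⟨by have := hG.ns_nu h1 hn hu hs; have := cc.two_le_nu hG.sn; omega, fun k => ?_⟩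
    obtain ⟨⟨y, hy⟩, e⟩ := exists_prime_orderOf_dvd_card' (G := Cen x) p k
    rw [← orderOf_coe] at e
    exact hu ⟨h1, hG.un_cen ⟨fun k => (Fact.out : p.Prime).one_lt.ne (by simpa [k] using e),
      e ▸ pow_orderOf_eq_one y⟩ (mem_Cen_comm.1 hy)⟩

theorem pow_of_dvd {a b : ℕ} (h : x ^ a = 1) (e : a ∣ b) : x ^ b = 1 := by
  obtain ⟨c, rfl⟩ := e; rw [pow_mul, h, one_pow]

theorem num_real {a ν n N : ℕ} {U : Prop} (h0 : a * ν * n = N) (h1 : a % 2 = 1) (h2 : 2 ∣ ν) (h3 : ν ∣ a - 1)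
    (h4 : ∀ r : ℕ, r.Prime → r ∣ a → n % r = 1) (h5 : (U ∧ p ∣ a) ∨ (ν = 2 ∧ ¬ p ∣ a)) (a1 : a ≠ 1) :
    (N = 168 → a = 3) ∧ (N = 360 → a = 5 ∨ (U ∧ (p = 3 ∨ p = 5))) ∧ (N = 2520 → p = 5 → U) := by
  have a3 := h4 3 (by decide); have a5 := h4 5 (by decide); have a7 := h4 7 (by decide)
  have hp : p.Prime := Fact.out
  have k : ∀ M, N = 8 * M → a ∣ M := fun M e =>
    Nat.Coprime.dvd_of_dvd_mul_left (Nat.Coprime.pow_right 3 (Nat.coprime_two_right.2 (Nat.odd_iff.2 h1)))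
      ⟨ν * n, by rw [← mul_assoc, h0, e]⟩
  have l := Nat.le_of_dvd (by omega) h3
  refine ⟨fun e => ?_, fun e => ?_, fun e e' => ?_⟩
  · have := Nat.mem_divisors.2 ⟨k 21 e, by decide⟩
    rw [show Nat.divisors 21 = {1, 3, 7, 21} by decide] at this
    simp only [Finset.mem_insert, Finset.mem_singleton] at this
    rcases this with rfl | rfl | rfl | rfl <;> try omega
    all_goals interval_cases ν <;> omega
  · rcases h5 with ⟨u, d⟩ | ⟨rfl, -⟩
    · refine Or.inr ⟨u, ?_⟩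
      rcases hp.dvd_mul.1 (show p ∣ 3 ^ 2 * 5 from d.trans (k 45 e)) with d | d
      · exact Or.inl ((Nat.prime_dvd_prime_iff_eq hp (by decide)).1 (hp.dvd_of_dvd_pow d))
      · exact Or.inr ((Nat.prime_dvd_prime_iff_eq hp (by decide)).1 d)
    · have := Nat.mem_divisors.2 ⟨k 45 e, by decide⟩
      rw [show Nat.divisors 45 = {1, 3, 5, 9, 15, 45} by decide] at this
      simp only [Finset.mem_insert, Finset.mem_singleton] at this
      rcases this with rfl | rfl | rfl | rfl | rfl | rfl <;> omega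
  · rcases h5 with ⟨u, d⟩ | ⟨rfl, d⟩
    · exact u
    · subst e'
      have := Nat.mem_divisors.2 ⟨Nat.Coprime.dvd_of_dvd_mul_left
        ((Nat.Prime.coprime_iff_not_dvd hp).2 d).symm (show a ∣ 5 * 63 from k 315 e), by decide⟩
      rw [show Nat.divisors 63 = {1, 3, 7, 9, 21, 63} by decide] at this
      simp only [Finset.mem_insert, Finset.mem_singleton] at this
      rcases this with rfl | rfl | rfl | rfl | rfl | rfl <;> omega

theorem HB.real_ord (hG : HB p ρ) (h : NF ρ t u) (hw : IsInv w) (e : w * x * w⁻¹ = x⁻¹) :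
    (x ^ 4 = 1 ∨ (x ^ 6 = 1 ∧ Nat.card (Tor ρ) ≠ 4)) ∨ (x ^ 3 = 1 ∧ Sp ρ x) ∨
    ((Nat.card G = 168 → x ^ 3 = 1) ∧ (Nat.card G = 360 → x ^ 5 = 1 ∨ (x ^ 3 = 1 ∧ p = 3)) ∧
      (Nat.card G = 2520 → p = 5 → x ^ 5 = 1)) := by
  by_cases hn : NI x
  swap
  · exact Or.inl (hG.nf_ord h hn)
  by_cases h1 : x = 1
  · exact Or.inl (Or.inl (by rw [h1, one_pow]))
  by_cases hs : Sp ρ x
  · exact Or.inr (Or.inl ⟨hs.choose_spec.choose_spec.2.pow_three hG.inj hs.choose_spec.choose_spec.1, hs⟩)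
  obtain ⟨a, ν, n, a0, a1, a2, a3, a4, a5, a6⟩ := hG.real_odd h1 hn hs hw e
  obtain ⟨b1, b2, b3⟩ := num_real a0 a1 a2 a3 a4 a6 (by rintro rfl; exact h1 (by simpa using a5))
  refine Or.inr (Or.inr ⟨fun e => b1 e ▸ a5, fun e => ?_, fun e e' => e' ▸ (b3 e e').2⟩)
  rcases b2 e with rfl | ⟨u, rfl | rfl⟩
  exacts [Or.inl a5, Or.inr ⟨u.2, rfl⟩, Or.inl u.2]

theorem N2.inv_ry (h : N2 ρ t u w y r κ μ) : y * (r * y) * y⁻¹ = (r * y)⁻¹ := by
  rw [_root_.mul_inv_rev, inv_eq_of_mul_eq_one_right h.r2, h.y2.inv_eq, mul_assoc, mul_assoc, h.y2.1, mul_one]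

theorem HB.sig (hG : HB p ρ) (h : N2 ρ t u w y r κ μ) :
    (Nat.card (Tor ρ) = 4 → Nat.card G = 168 → κ + μ = 1 ∨ κ + μ = -1) ∧
    (Nat.card (Tor ρ) = 4 → Nat.card G = 360 → (κ + μ) ^ 2 = 5) ∧
    (Nat.card G = 2520 → p = 5 → κ + μ = 1 ∨ κ + μ = -1 ∨ κ + μ = 3 ∨ κ + μ = 0) := by
  have k := hG.real_ord h.toNF h.y2 h.inv_ry
  have p3 := fun e => (h.pow (n := 3) e).1 rfl
  have p4 := fun e => (h.pow (n := 4) e).2.1 rfl
  have p5 := fun e => (h.pow (n := 5) e).2.2.1 rfl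
  have p6 := fun e => (h.pow (n := 6) e).2.2.2 rfl
  refine ⟨fun c e => ?_, fun c e => ?_, fun e e' => ?_⟩
  · rcases k with (k | k) | k | k
    exacts [Or.inl (p4 k), absurd c k.2, Or.inr (p3 k.1), Or.inr (p3 (k.1 e))]
  · have a : κ + μ ≠ -1 := fun k => by
      have := orderOf_dvd_natCard (r * y * (t * u)); rw [h.ord7 k, e] at this; omega
    have b : κ + μ ≠ 1 := fun k => by
      have := orderOf_dvd_natCard (t * r * t * y * (t * u))
      rw [h.neg.ord7 (by linear_combination -k), e] at this; omega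
    rcases k with (k | k) | k | k
    exacts [absurd (p4 k) b, absurd c k.2, absurd (p3 k.1) a, (k.2.1 e).elim p5 fun k => absurd (p3 k.1) a]
  · rcases k with (k | k) | k | k
    · exact Or.inl (p4 k)
    · exact Or.inr ((p6 k.1).imp_right Or.inl)
    · exact Or.inr (Or.inl (p3 k.1))
    · subst e'
      have h5 : (5 : K) = 0 := by exact_mod_cast CharP.cast_eq_zero K 5
      exact Or.inr (Or.inr (Or.inr (pow_eq_zero_iff two_ne_zero |>.1 ((p5 (k.2.2 e rfl)).trans h5))))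

theorem N2.s_ord (h : N2 ρ t u w y r κ μ) : orderOf (w * y) = 3 := by
  have : Fact (Nat.Prime 3) := ⟨Nat.prime_three⟩
  refine orderOf_eq_prime ((((h.w0.mul h.y0).pow 3).congr (B := (1 : K) • 1) ?_).eq_one h.inj)
    fun e => absurd ((h.w_mo.mul h.y_mo).uniq (e ▸ Mo.one)) (by decide)
  ext i j; fin_cases i <;> fin_cases j <;> simp [Pw, Py, mul_fin_three, pow_succ]

theorem N2.w_inv (h : N2 ρ t u w y r κ μ) : IsInv w := ⟨h.w2, fun e => sw_not h.w_mo (e ▸ one_mem _)⟩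

theorem HB.sp360 (hG : HB p ρ) (h : N2 ρ t u w y r κ μ) (c4 : Nat.card (Tor ρ) = 4) (c : Nat.card G = 360)
    (hp : p ≠ 3) :
    Sp ρ (w * y) := by
  have o := h.s_ord
  have k : ∀ n, (w * y) ^ n = 1 → 3 ∣ n := fun n e => o ▸ orderOf_dvd_of_pow_eq_one e
  by_contra hs
  have h1 : w * y ≠ 1 := fun e => by simp [e] at o
  have e : w * (w * y) * w⁻¹ = (w * y)⁻¹ := by
    rw [← mul_assoc, h.w2, one_mul, _root_.mul_inv_rev, h.y2.inv_eq]
  by_cases hn : NI (w * y)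
  · obtain ⟨a, ν, n, a0, a1, a2, a3, a4, a5, a6⟩ := hG.real_odd h1 hn hs h.w_inv e
    rcases (num_real a0 a1 a2 a3 a4 a6 (by rintro rfl; exact h1 (by simpa using a5))).2.1 c with
      rfl | ⟨u, rfl | rfl⟩
    exacts [absurd (k _ a5) (by decide), hp rfl, absurd (k _ u.2) (by decide)]
  · exact (hG.nf_ord h.toNF hn).elim (fun e => absurd (k _ e) (by decide)) fun e => e.2 c4

theorem SN.card_le (hG : SN G) {H : Subgroup G} (h : H ≠ ⊤) : Nat.card G ≤ H.index.factorial := by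
  obtain ⟨f, hf⟩ := H3.exists_inj_perm H rfl ((hG.normal_cases _ inferInstance).resolve_right
    fun e => h (top_le_iff.1 (e ▸ normalCore_le H)))
  have := Nat.card_le_card_of_injective f hf
  rwa [Nat.card_perm, Nat.card_fin] at this

theorem N2.cen_le (h : N2 ρ t u w y r κ μ) {H : Subgroup G} (hT : Tor ρ ≤ H) (hw : w ∈ H) : Cen t ≤ H :=
  fun a ha => (h.mono a ha).elim (hT ·) fun k => (mul_mem_cancel_left hw).1 (hT (sw_mul h.w_mo k))

theorem HB.gen4 (hG : HB p ρ) (h : N2 ρ t u w y r κ μ) (c4 : Nat.card (Tor ρ) = 4)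
    (c : Nat.card G = 168 ∨ Nat.card G = 360) {H : Subgroup G} (ht : t ∈ H) (hu : u ∈ H) (hw : w ∈ H)
    (hy : y ∈ H) (hr : r ∈ H) : H = ⊤ := by
  have T : Tor ρ ≤ H := fun a ha => by
    rcases hG.tor4 h.toVF c4 ha with rfl | rfl | rfl | rfl
    exacts [one_mem _, ht, hu, mul_mem ht hu]
  have a1 := card_dvd_of_le (h.cen_le (le_inf T Tor_le_Mon) ⟨hw, h.w_mo.mem⟩)
  have a2 := (H ⊓ Mon ρ).orderOf_dvd_natCard ⟨mul_mem hw hy, (h.w_mo.mul h.y_mo).mem⟩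
  rw [h.s_ord] at a2
  rw [h.card, c4] at a1
  obtain ⟨j, a3⟩ := card_dvd_of_le (inf_le_left : H ⊓ Mon ρ ≤ H)
  have a4 : j ≠ 1 := by
    rintro rfl
    exact h.r_not ((eq_of_le_of_card_ge (inf_le_left : H ⊓ Mon ρ ≤ H) (by omega)).ge hr).2
  obtain ⟨i, a5⟩ := Nat.Coprime.mul_dvd_of_dvd_of_dvd (by decide) a1 a2
  by_contra ne
  have b1 := hG.sn.five_le ne
  have b2 := hG.sn.card_le ne
  have b3 := H.card_mul_index
  rw [a3, a5] at b3
  have b4 : H.index ∣ Nat.card G / 24 := ⟨i * j, by rw [← b3]; ring_nf; omega⟩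
  have j0 : j ≠ 0 := by rintro rfl; omega
  have i0 : i ≠ 0 := by rintro rfl; omega
  have : 2 ≤ i * j := by nlinarith [Nat.pos_of_ne_zero i0, show 2 ≤ j by omega]
  rw [mul_assoc (4 * 2 * 3)] at b3
  generalize i * j = m at *
  have b5 : H.index ≤ 7 := by rcases c with c | c <;> nlinarith
  rcases c with c | c <;> rw [c] at b2 b3 b4 <;> generalize H.index = n at * <;> interval_cases n <;>
    first | omega | exact absurd b2 (by decide)

theorem N2.bt (h : N2 ρ t u w y r κ μ) (hω : ω ^ 2 + ω + 1 = 0) (hz : Dg ρ z ![1, ω, ω ^ 2]) :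
    Bt ρ z (w * y) (ω ^ 2) := Bt.of hz (h.w0.mul h.y0) (by
  ext i j; fin_cases i <;> fin_cases j <;> simp [Pw, Py, diagonal_vec3, mul_fin_three] <;> grind)

theorem HB.gen12 (hG : HB p ρ) (h : N2 ρ t u w y r κ μ) (c12 : Nat.card (Tor ρ) = 12)
    (c : Nat.card G = 2520) (hω : ω ^ 2 + ω + 1 = 0) (h5 : (5 : K) = 0) (hz : Dg ρ z ![1, ω, ω ^ 2])
    (e1 : κ = 4 * ω + 2) (e2 : μ = ω + 3) {H : Subgroup G} (ht : t ∈ H) (hu : u ∈ H) (hw : w ∈ H)
    (hy : y ∈ H) (hr : r ∈ H) (hz' : z ∈ H) : H = ⊤ := by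
  have h3 : ω ^ 2 ≠ 1 := fun e => one_ne_zero (α := K) (by grind)
  have hb := h.bt hω hz
  have T : Tor ρ ≤ H := fun a ha => by
    obtain ⟨d, hd⟩ := mul_mem ha ha
    have e := (hd.pow 3).of_eq_one (hG.nf_cube h.toNF ha)
    obtain ⟨i, hi⟩ := hG.tor_cube hω hz hd (e 1 0) (e 2 0)
    have a3 : a ^ 3 * a ^ 3 = 1 := by rw [← hG.nf_cube h.toNF ha, ← sq, ← sq, ← pow_mul, ← pow_mul]
    have : a ^ 3 ∈ H := by
      rcases h.inv (pow_mem ha 3) a3 with k | k | k | k <;> rw [k]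
      exacts [one_mem _, ht, hu, mul_mem ht hu]
    rwa [pow_succ, sq, hi, mul_mem_cancel_left (pow_mem hz' i)] at this
  have a1 := card_dvd_of_le (h.cen_le T hw)
  have a2 := card_dvd_of_le (show RR z (w * y) ≤ H from fun a ha => by
    obtain ⟨i, j, rfl⟩ := hG.rr_cases hb h3 ha
    exact mul_mem (pow_mem hz' _) (pow_mem (mul_mem hw hy) _))
  have a3 := H.orderOf_dvd_natCard (mul_mem (mul_mem hr (mul_mem hy hz')) (mul_mem ht hu))
  rw [(h.twist hω hz).ord7 (by grind)] at a3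
  rw [h.card, c12] at a1
  rw [hG.card_rr hb h3] at a2
  by_contra ne
  have b1 := hG.sn.five_le ne
  have b2 := hG.sn.card_le ne
  have b3 := H.card_mul_index
  obtain ⟨i, a5⟩ : 504 ∣ Nat.card H := by omega
  rw [a5, c] at b3
  have i0 : i ≠ 0 := by rintro rfl; omega
  have b5 : H.index ≤ 5 := by nlinarith [Nat.pos_of_ne_zero i0]
  rw [c, show H.index = 5 by omega] at b2
  exact absurd b2 (by decide)

theorem HB.norm12 (hG : HB p ρ) (h : N2 ρ t u w y r κ μ) (c : Nat.card G = 2520) (hp : p = 5)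
    (hω : ω ^ 2 + ω + 1 = 0) (hz : Dg ρ z ![1, ω, ω ^ 2]) : ∃ g y r, N2 (M3.cjr ρ g) t u w y r (4 * ω + 2) (ω + 3) ∧
      Dg (M3.cjr ρ g) z ![1, ω, ω ^ 2] ∧ Tor (M3.cjr ρ g) = Tor ρ := by
  have h5 : (5 : K) = 0 := by subst hp; exact_mod_cast CharP.cast_eq_zero K 5
  have k : ∀ {ρ : G →* PGL(3, K)} {y κ μ}, HB p ρ → N2 ρ t u w y r κ μ → κ + μ ≠ 0 → (κ + μ) ^ 2 = 1 :=
    fun hG h e => by
      have a := (hG.sig h).2.2 c hp; have b := (hG.sig h.neg).2.2 c hp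
      grind
  have k' : ∀ {ρ : G →* PGL(3, K)} {y κ μ}, N2 ρ t u w y r κ μ → κ + μ = 0 →
      ∃ r, N2 ρ t u w y r (4 * ω + 2) (ω + 3) := fun {ρ y κ μ} h e => by
    have km := h.km
    rcases mul_eq_zero.1 (show (κ - (4 * ω + 2)) * (κ + (4 * ω + 2)) = 0 by grind) with a | a
    · exact ⟨r, by rwa [show 4 * ω + 2 = κ by grind, show ω + 3 = μ by grind]⟩
    · exact ⟨_, by rw [show 4 * ω + 2 = -κ by grind, show ω + 3 = -μ by grind]; exact h.neg⟩
  have h1 := h.twist hω hz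
  have z1 := (Dg.cjd (om_ne hω)).2 hz
  have h2 := h1.twist hω z1
  have z2 := (Dg.cjd (om_ne hω)).2 z1
  by_cases e0 : κ + μ = 0
  · obtain ⟨r, a⟩ := k' h e0
    exact ⟨1, y, r, by rw [cjr_one]; exact ⟨a, hz, rfl⟩⟩
  by_cases e1 : κ * ω + μ * ω ^ 2 = 0
  · obtain ⟨r, a⟩ := k' h1 e1
    exact ⟨_, _, r, a, z1, Tor_cjd _⟩
  by_cases e2 : κ * ω * ω + μ * ω ^ 2 * ω ^ 2 = 0
  · obtain ⟨r, a⟩ := k' h2 e2
    exact ⟨_, _, r, by rw [← cjr_cjr]; exact ⟨a, z2, (Tor_cjd _).trans (Tor_cjd _)⟩⟩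
  have a0 := k hG h e0; have a1 := k (hG.cjr _) h1 e1; have a2 := k ((hG.cjr _).cjr _) h2 e2
  have : κ * ω * ω + μ * ω ^ 2 * ω ^ 2 = -(κ + μ) - (κ * ω + μ * ω ^ 2) := by
    linear_combination (κ + μ * (ω ^ 2 - ω + 1)) * hω
  rw [this] at a2
  generalize κ + μ = a at *
  generalize κ * ω + μ * ω ^ 2 = b at *
  exact absurd (show (1 : K) = 0 by grind) one_ne_zero

theorem N2.conic (h : N2 ρ t u w y r κ κ)
    (hg : ∀ H : Subgroup G, t ∈ H → u ∈ H → w ∈ H → y ∈ H → r ∈ H → H = ⊤) : Conic ρ := by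
  have km := h.km
  refine conic_diag (s := 1) (hg _ (mem_TS h.t0 one_ne_zero ?_) (mem_TS h.u0 one_ne_zero ?_)
    (mem_TS h.w0 one_ne_zero ?_) (mem_TS h.y0 one_ne_zero ?_) (mem_TS (c := 4) h.r0 (by
      have := mul_ne_zero h.two h.two; grind) ?_)) (by simp) h.two <;>
  ext i j <;> fin_cases i <;> fin_cases j <;> simp [Pw, Py, Rk, diagonal_vec3, mul_apply, Fin.sum_univ_three] <;>
    grind

/-- the exceptional configurations -/
def Ex4 (ρ : G →* PGL(3, K)) (t u w y r : G) (κ μ : K) : Prop :=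
  N2 ρ t u w y r κ μ ∧ κ ≠ μ ∧ Nat.card (Tor ρ) = 4 ∧
    (∀ H : Subgroup G, t ∈ H → u ∈ H → w ∈ H → y ∈ H → r ∈ H → H = ⊤) ∧
    ((Nat.card G = 168 ∧ κ + μ = -1) ∨ (Nat.card G = 360 ∧ (κ + μ) ^ 2 = 5 ∧ Sp ρ (w * y)))

def Ex12 (ρ : G →* PGL(3, K)) (t u w y r z : G) (ω : K) : Prop :=
  N2 ρ t u w y r (4 * ω + 2) (ω + 3) ∧ ω ^ 2 + ω + 1 = 0 ∧ (5 : K) = 0 ∧ Dg ρ z ![1, ω, ω ^ 2] ∧
    (∀ H : Subgroup G, t ∈ H → u ∈ H → w ∈ H → y ∈ H → r ∈ H → z ∈ H → H = ⊤) ∧ Nat.card G = 2520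

theorem HB.final (hG : HB p ρ) : Conic ρ ∨ (∃ g t u w y r κ μ, Ex4 (M3.cjr ρ g) t u w y r κ μ) ∨
    ∃ g t u w y r z ω, Ex12 (M3.cjr ρ g) t u w y r z ω := by
  rcases hG.local with ⟨g, t, u, a, b, c, d, e, -⟩ | ⟨g, t, u, a, b, c⟩ | ⟨g, t, u, z, ω, a, b, c, d, e, f⟩ |
    ⟨t, m, k, x, a, b, c, d, e⟩
  · exact Or.inl ((hG.cjr g).conic60 a b c d e).of_cjr
  · obtain ⟨d, hd, w, y, r, κ, μ, h⟩ := (hG.cjr g).exists_n2 a
    rw [← Tor_cjd hd] at b
    rw [cjr_cjr] at h b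
    have hG' := hG.cjr (g * dgGL d hd)
    have gen : ∀ {r κ μ}, N2 (M3.cjr ρ (g * dgGL d hd)) t u w y r κ μ → ∀ H : Subgroup G, _ :=
      fun h H => hG'.gen4 (H := H) h b c
    by_cases e : κ = μ
    · subst e; exact Or.inl (h.conic (gen h)).of_cjr
    refine Or.inr (Or.inl ⟨g * dgGL d hd, t, u, w, y, ?_⟩)
    rcases c with c | c
    · rcases (hG'.sig h).1 b c with k | k
      · exact ⟨_, _, _, h.neg, by simpa using e, b, gen h.neg, Or.inl ⟨c, by linear_combination -k⟩⟩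
      · exact ⟨_, _, _, h, e, b, gen h, Or.inl ⟨c, k⟩⟩
    · have k := (hG'.sig h).2.1 b c
      refine ⟨_, _, _, h, e, b, gen h, Or.inr ⟨c, k, hG'.sp360 h b c ?_⟩⟩
      rintro rfl
      have h3 : (3 : K) = 0 := by exact_mod_cast CharP.cast_eq_zero K 3
      exact e (sub_eq_zero.1 (pow_eq_zero_iff two_ne_zero |>.1 (by linear_combination k - 4 * h.km - h3)))
  · obtain ⟨d', hd, w, y, r, κ, μ, h⟩ := (hG.cjr g).exists_n2 a
    obtain ⟨g', y, r, h1, h2, h3⟩ := ((hG.cjr g).cjr _).norm12 h e f c ((Dg.cjd hd).2 d)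
    rw [Tor_cjd] at h3
    rw [cjr_cjr, cjr_cjr] at h1 h2 h3
    have h5 : (5 : K) = 0 := by subst f; exact_mod_cast CharP.cast_eq_zero K 5
    exact Or.inr (Or.inr ⟨_, t, u, w, y, r, z, ω, h1, c, h5, h2, fun H =>
      (hG.cjr _).gen12 h1 (h3 ▸ b) e c h5 h2 rfl rfl, e⟩)
  · exact Or.inl (hG.conic2T a b c d e)

end Cfsg.Agent.H8.M3
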