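import Cfsg.Agent.H8.M3N

/-! Normalisers and centralisers. -/

set_option autoImplicit false
set_option linter.unusedSectionVars false

namespace Cfsg.Agent.H8.M3
open Matrix Equiv Subgroup
open scoped MatrixGroups

universe u
variable {K : Type*} [Field K] {G : Type u} [Group G] {p : ℕ} {κ μ ω : K}
variable [Finite G] [IsAlgClosed K] [Fact p.Prime] [CharP K p]

section
variable {ρ : G →* PGL(3, K)} {x y z t u r w : G}

theorem NF.rr2 (h : NF ρ t u) {κ' μ' : K} (h1 : Rep ρ x (Rk κ μ)) (h2 : Rep ρ y (Rk κ' μ')) :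
    μ * κ' = 2 ∨ μ * κ' = -2 := by
  have k := h1.mul h2
  have : x * y ∈ Cen t := mem_Cen.2 (Rep.comm h.inj h.t0 k (by
    simp only [Rk, diagonal_vec3, mul_fin_three]; simp))
  rcases h.mono _ this with ⟨d, e⟩ | ⟨d, e⟩ <;> obtain ⟨c, -, e⟩ := Rep.uniq e k
  · have := congrFun (congrFun e 1) 2
    simp [Rk, mul_fin_three] at this
    exact Or.inl (by linear_combination this)
  · have := congrFun (congrFun e 1) 1
    simp [Rk, mul_fin_three, mono_apply] at this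
    exact Or.inr (by linear_combination this)

theorem HB.conj_all (hG : HB p ρ) : ∃ t : G, IsInv t ∧ ∀ r, IsInv r → ∃ g, g * t * g⁻¹ = r := by
  rcases hG.local with ⟨g, t, u, a, -, -, -, e, -⟩ | ⟨g, t, u, a, -⟩ | ⟨g, t, u, z, ω, a, -⟩ |
    ⟨t, m, k, x, a, -⟩
  exacts [⟨t, a.it, e⟩, ⟨t, a.it, a.conj⟩, ⟨t, a.it, a.conj⟩, ⟨t, a.inv, a.conj hG.sn⟩]

theorem trace_of_conj {A D D' : Mt K} {c : K} (hA : A.det ≠ 0) (e : A * D = c • (D' * A)) :
    D.trace = c * D'.trace := by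
  have := congrArg (fun X => trace (X * A⁻¹)) e
  have i := mul_nonsing_inv _ (Ne.isUnit hA)
  simp only [Matrix.smul_mul, mul_assoc _ A, i] at this
  rw [trace_mul_cycle, mul_eq_one_comm.1 i] at this
  simpa using this

theorem HB.schur (hG : HB p ρ) {C : Mt K} (h : ∀ x A, Rep ρ x A → C * A = A * C) : ∃ c : K, C = c • 1 := by
  obtain ⟨t, ht, hI⟩ := hG.conj_all
  obtain ⟨u, hu, hne, hc⟩ := hG.second_inv ht
  obtain ⟨g, h1, h2⟩ := hG.inv_frame2 ht hu hne.symm (mem_Cen.1 hc)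
  have hV : VF (M3.cjr ρ g) t u := ⟨(hG.cjr g).inj, (hG.inv_rep hu).1, h1, h2⟩
  have h' : ∀ x A, Rep (M3.cjr ρ g) x A → ((g⁻¹ : GL (Fin 3) K) : Mt K) * C * g * A =
      A * (((g⁻¹ : GL (Fin 3) K) : Mt K) * C * g) := fun x A hA => by
    have := congrArg (fun X => ((g⁻¹ : GL (Fin 3) K) : Mt K) * X * g) (h _ _ (rep_cjr.1 hA))
    simpa [mul_assoc] using this
  suffices ∃ c : K, ((g⁻¹ : GL (Fin 3) K) : Mt K) * C * g = c • 1 by
    obtain ⟨c, e⟩ := this
    have := congrArg (fun X => (g : Mt K) * X * ((g⁻¹ : GL (Fin 3) K) : Mt K)) e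
    exact ⟨c, by simpa [mul_assoc] using this⟩
  generalize ((g⁻¹ : GL (Fin 3) K) : Mt K) * C * g = D at h'
  have two := hV.two
  have a := h' _ _ h1; have b := h' _ _ h2
  have a' := fun i j => congrFun (congrFun a i) j
  have b' := fun i j => congrFun (congrFun b i) j
  have a1 := a' 0 1; have a2 := a' 0 2; have a3 := a' 1 0; have a4 := a' 2 0; have a5 := b' 1 2
  have a6 := b' 2 1
  simp at a1 a2 a3 a4 a5 a6
  obtain ⟨k, hk⟩ := hI u hu
  obtain ⟨k', hk'⟩ := hI _ hV.itu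
  obtain ⟨A, hA⟩ := exists_rep (M3.cjr ρ g) k
  obtain ⟨B, hB⟩ := exists_rep (M3.cjr ρ g) k'
  obtain ⟨c, -, e⟩ := hA.of_mul_eq h1 h2 hA (mul_inv_eq_iff_eq_mul.1 hk)
  obtain ⟨c', -, e'⟩ := hB.of_mul_eq h1 hV.tu hB (mul_inv_eq_iff_eq_mul.1 hk')
  have c1 := trace_of_conj hA.det_ne e; have c2 := trace_of_conj hB.det_ne e'
  have e0 := congrFun (congrFun e 0) 0; have e1 := congrFun (congrFun e 1) 0
  have e2 := congrFun (congrFun e' 0) 0; have e3 := congrFun (congrFun e' 2) 0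
  have f1 := congrFun (congrFun (h' _ _ hA) 2) 0; have f2 := congrFun (congrFun (h' _ _ hB) 1) 0
  have dA := hA.det_ne; have dB := hB.det_ne
  rw [det_fin_three] at dA dB
  simp [Fin.sum_univ_three] at c1 c2 e0 e1 e2 e3
  clear hI h h' a b a' b'
  simp only [mul_apply, Fin.sum_univ_three] at f1 f2
  have A0 : A 2 0 ≠ 0 := by grind
  have B0 : B 1 0 ≠ 0 := by grind
  refine ⟨D 0 0, ?_⟩
  ext i j; fin_cases i <;> fin_cases j <;> simp <;> grind
end

variable {ρ : G →* PGL(3, K)} {S : Subgroup G} {t u w y r z : S} {a : G}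

theorem SN.bt_one (hS : SN S) (h : ∀ x ∈ S, a * x = x * a) {x : G} (hx : x ∈ S) : Bt ρ a x 1 := by
  choose c hc using fun x : S => exists_bt (ρ := ρ) (h x x.2)
  have := hS.hom_eq_one (MonoidHom.toHomUnits ⟨⟨c, (hc 1).uniq Bt.one⟩, fun x y =>
    (hc (x * y)).uniq ((hc x).mul (hc y))⟩) ⟨x, hx⟩
  exact (show c ⟨x, hx⟩ = 1 from congrArg Units.val this) ▸ hc ⟨x, hx⟩

theorem HB.cent (hρ : Function.Injective ρ) (hG : HB p (ρ.comp S.subtype)) (h : ∀ x ∈ S, a * x = x * a) :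
    a = 1 := by
  obtain ⟨C, hC⟩ := exists_rep ρ a
  obtain ⟨c, rfl⟩ := hG.schur (C := C) fun x A hA => by simpa using hG.sn.bt_one h x.2 _ _ hC hA
  exact hC.eq_one hρ

variable [S.Normal]

theorem HB.typeA (hρ : Function.Injective ρ) (hG : HB p (ρ.comp S.subtype))
    (h : N2 (ρ.comp S.subtype) t u w y r κ μ) (h1 : a * t * a⁻¹ = t) (h2 : a * u * a⁻¹ = u) : a ∈ S := by
  have hV : VF ρ (t : G) u := ⟨hρ, h.two, h.t0, h.u0⟩
  obtain ⟨b, c, ha⟩ := mem_Tor'.1 (hV.cen2 (mem_Cen.2 (mul_inv_eq_iff_eq_mul.1 h1).symm)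
    (mem_Cen.2 (mul_inv_eq_iff_eq_mul.1 h2).symm))
  have b0 : b ≠ 0 := by simpa using ha.ne 1
  have c0 : c ≠ 0 := by simpa using ha.ne 2
  have hd : Dg (ρ.comp S.subtype) (MulAut.conjNormal a w * w) ![1, b / c, c / b] :=
    Rep.congr (((Rep.mul ha h.w0).mul ha.inv).mul h.w0) (by
      ext i j; fin_cases i <;> fin_cases j <;> simp [Pw, mul_apply, Fin.sum_univ_three, diagonal, div_eq_mul_inv])
  have e6 := ((hd.mul hd).pow 3).of_eq_one (hG.nf_cube h.toNF hd.mem) 1 0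
  have key : ∀ (g : S) (e : K), Dg ρ (g * a) ![1, e, e] → a ∈ S := fun g e k => by
    have e0 : e ≠ 0 := by simpa using k.ne 1
    have k2 : Rep (ρ.comp S.subtype) (MulAut.conjNormal (g * a) r) (Rk (κ / e) (μ * e)) :=
      Rep.congr ((Rep.mul k h.r0).mul k.inv) (by
        ext i j; fin_cases i <;> fin_cases j <;> simp [Rk, mul_apply, Fin.sum_univ_three, diagonal] <;>
          field_simp)
    have km := h.km; have two := h.two
    refine (mul_mem_cancel_left g.2).1 ?_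
    rcases h.rr2 h.r0 k2 with k3 | k3 <;> field_simp at k3
    · rw [k.eq_one hρ (by simp; grind) (by simp; grind)]; exact one_mem _
    · rw [k.eq hρ h.t0 1 (fun i => by fin_cases i <;> simp <;> grind)]; exact t.2
  simp at e6
  field_simp at e6
  rcases mul_eq_zero.1 (show (b ^ 3 - c ^ 3) * (b ^ 3 + c ^ 3) = 0 by linear_combination e6) with e | e
  · exact key _ (b * b / c) ((Dg.mul (show Dg ρ ((_ * w : S) : G) _ from hd) ha).congr fun i => by
      fin_cases i <;> simp <;> field_simp; linear_combination -e)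
  · have hd' := Dg.mul hd h.u0
    exact key (_ * u) (b * b / c) (by
      refine (Dg.mul (show Dg ρ ((_ * u : S) : G) _ from hd') ha).congr fun i => ?_
      fin_cases i <;> simp <;> field_simp; linear_combination -e)

theorem conjN_eq {x y : S} : MulAut.conjNormal a x = y ↔ a * x * a⁻¹ = y := Subtype.ext_iff

theorem HB.norm_step (hρ : Function.Injective ρ) (hG : HB p (ρ.comp S.subtype))
    (h : N2 (ρ.comp S.subtype) t u w y r κ μ) (a : G) : a ∈ S ∨ ∃ g ∈ S, g * a * t * (g * a)⁻¹ = t ∧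
      Mo (ρ.comp S.subtype) (MulAut.conjNormal (g * a) u) (swap 1 2) := by
  have iv : ∀ (a : G) {x : S}, IsInv x → IsInv (MulAut.conjNormal a x) := fun a x hx =>
    ⟨by rw [← map_mul, hx.1, map_one], fun e => hx.2 (by simpa using e)⟩
  obtain ⟨g, hg⟩ := h.conj _ (iv a h.it)
  have e1 : (g : G)⁻¹ * a * t * ((g : G)⁻¹ * a)⁻¹ = t := by
    have := congrArg Subtype.val hg
    simp only [coe_mul, coe_inv, MulAut.conjNormal_apply] at this
    rw [show (g : G)⁻¹ * a * t * ((g : G)⁻¹ * a)⁻¹ = (g : G)⁻¹ * (a * t * a⁻¹) * g by group, ← this]; group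
  have e2 := conjN_eq.2 e1
  have m : MulAut.conjNormal ((g : G)⁻¹ * a) u ∈ Cen t := mem_Cen.2 (by
    rw [← e2, ← map_mul, ← map_mul, h.comm])
  rcases h.mono _ m with k | k
  · left
    refine (mul_mem_cancel_left (inv_mem g.2)).1 ?_
    generalize (g : G)⁻¹ * a = a at *
    rcases (h.inv k (iv a h.iu).1).resolve_left (iv a h.iu).2 with k | k | k
    · exact absurd ((MulAut.conjNormal a).injective (e2.trans k.symm)) h.tne
    · exact hG.typeA hρ h e1 (conjN_eq.1 k)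
    · have wt := mem_Cen.1 (h.sw_cen h.w_mo)
      refine (mul_mem_cancel_left w.2).1 (hG.typeA hρ h (conjN_eq.1 ?_) (conjN_eq.1 ?_)) <;>
        rw [map_mul, MulAut.mul_apply, MulAut.conjNormal_val, MulAut.conj_apply]
      · rw [e2, ← wt, mul_inv_cancel_right]
      · rw [k, ← mul_assoc, ← wt, mul_assoc t, mul_assoc t, h.sw_u h.w_mo, ← mul_assoc, h.it.1, one_mul]
  · exact Or.inr ⟨_, inv_mem g.2, e1, k⟩

theorem Ex12.norm (hρ : Function.Injective ρ) (hG : HB p (ρ.comp S.subtype))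
    (h : Ex12 (ρ.comp S.subtype) t u w y r z ω) : S = ⊤ := by
  obtain ⟨h, hω, h5, hz, -⟩ := h
  refine (eq_top_iff' _).2 fun a => (hG.norm_step hρ h a).resolve_right ?_
  rintro ⟨g, -, e1, e2⟩
  generalize g * a = a at *
  have e1 := conjN_eq.2 e1
  have z3 : z ^ 3 = 1 := (hz.pow 3).eq_one h.inj (by simp; grind) (by simp; grind)
  have z1 : z ≠ 1 := fun e => one_ne_zero (α := K) (by have := hz.of_eq_one e 0 1; simp at this; grind)
  have z3' : MulAut.conjNormal a z ^ 3 = 1 := by rw [← map_pow, z3, map_one]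
  have z1' : MulAut.conjNormal a z ≠ 1 := fun e => z1 (by simpa using e)
  have m : MulAut.conjNormal a z ∈ Cen t := mem_Cen.2 (by
    rw [← e1, ← map_mul, ← map_mul, Dg.comm h.inj h.t0 hz])
  have cm : MulAut.conjNormal a u * MulAut.conjNormal a z * (MulAut.conjNormal a u)⁻¹ =
      MulAut.conjNormal a z := by
    rw [← map_mul, Dg.comm h.inj h.u0 hz, map_mul, mul_inv_cancel_right]
  generalize MulAut.conjNormal a z = v at *
  have vt : v * v ≠ t := fun e => sq_ne_of_cube z3' z1' (by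
    rw [pow_succ, sq, e] at z3'
    rw [← inv_eq_of_mul_eq_one_right z3', h.it.inv_eq, h.it.1])
  rcases h.mono _ m with k | k
  · obtain ⟨b, c, k⟩ := mem_Tor'.1 k
    obtain ⟨e, -, k'⟩ := k.uniq (cm ▸ sw12_conj e2 k)
    have a0 := k' 0; have a1 := k' 1
    simp at a0 a1
    rw [← a0, one_mul] at a1
    subst a1
    rcases hG.dg_t h.t0 k with k | k
    exacts [z1' k.2, sq_ne_of_cube z3' z1' (k.2 ▸ h.it.1)]
  · exact (hG.sw_sq h.t0 k).elim (sq_ne_of_cube z3' z1') vt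

theorem HB.sw_inv {G : Type u} [Group G] [Finite G] {ρ : G →* PGL(3, K)} {t u w y r x : G} (hG : HB p ρ)
    (h : N2 ρ t u w y r κ μ) (c4 : Nat.card (Tor ρ) = 4) (hx : Mo ρ x (swap 1 2)) (x2 : x * x = 1) :
    x = w ∨ x = w * t := by
  have e : x = w * (w * x) := by rw [← mul_assoc, h.w2, one_mul]
  have a := h.sw_sq h.w_mo
  rw [h.w2, one_mul] at a
  rcases hG.tor4 h.toVF c4 (sw_mul h.w_mo hx) with k | k | k | k <;> rw [k] at e
  · exact Or.inl (by simpa using e)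
  · exact Or.inr e
  · exact absurd (a ▸ e ▸ x2) h.it.2
  · refine absurd ?_ h.it.2
    have b := h.sw_sq hx
    rw [x2, one_mul, e, mul_assoc w, mul_assoc t, h.iu.1, mul_one, mul_assoc, ← mul_assoc t,
      mem_Cen.1 (h.sw_cen h.w_mo), mul_assoc, h.it.1, mul_one, h.w2] at b
    exact b.symm

theorem HB.typeB (hρ : Function.Injective ρ) (hG : HB p (ρ.comp S.subtype))
    (h : N2 (ρ.comp S.subtype) t u w y r κ μ) (c4 : Nat.card (Tor (ρ.comp S.subtype)) = 4) (ha : a ∉ S) :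
    ∃ g ∈ S, g * a * t * (g * a)⁻¹ = t ∧ g * a * u * (g * a)⁻¹ = w ∧ g * a * w * (g * a)⁻¹ = u := by
  have iv : ∀ (a : G) {x : S}, IsInv x → IsInv (MulAut.conjNormal a x) := fun a x hx =>
    ⟨by rw [← map_mul, hx.1, map_one], fun e => hx.2 (by simpa using e)⟩
  have wt := mem_Cen.1 (h.sw_cen h.w_mo)
  have cj : ∀ (g x : S) (a : G), MulAut.conjNormal (g * a) x = g * MulAut.conjNormal a x * g⁻¹ :=
    fun g x a => by rw [map_mul, MulAut.mul_apply, MulAut.conjNormal_val, MulAut.conj_apply]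
  have wu := h.sw_u h.w_mo
  obtain ⟨g, hg, e1, e2⟩ : ∃ g ∈ S, MulAut.conjNormal (g * a) t = t ∧ MulAut.conjNormal (g * a) u = w := by
    obtain ⟨g, hg, e1, e2⟩ := (hG.norm_step hρ h a).resolve_left ha
    have e1 := conjN_eq.2 e1
    rcases hG.sw_inv h c4 e2 (iv _ h.iu).1 with k | k
    · exact ⟨g, hg, e1, k⟩
    · refine ⟨u * g, mul_mem u.2 hg, by rw [mul_assoc, cj, e1, ← h.comm, mul_inv_cancel_right], ?_⟩
      rw [mul_inv_eq_iff_eq_mul] at wu
      rw [mul_assoc, cj, k, mul_inv_eq_iff_eq_mul, wu, ← wt, ← mul_assoc, ← h.comm]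
  have m : MulAut.conjNormal (g * a) w ∈ Cen t := mem_Cen.2 (by rw [← e1, ← map_mul, ← map_mul, wt])
  rcases h.mono _ m with k | k
  · rcases (h.inv k (iv _ h.w_inv).1).resolve_left (iv _ h.w_inv).2 with k | k | k
    · exact absurd ((MulAut.conjNormal _).injective (k.trans e1.symm) ▸ h.t0.mem) (sw_not h.w_mo)
    · exact ⟨g, hg, conjN_eq.1 e1, conjN_eq.1 e2, conjN_eq.1 k⟩
    · refine ⟨w * g, mul_mem w.2 hg, conjN_eq.1 ?_, conjN_eq.1 ?_, conjN_eq.1 ?_⟩ <;> rw [mul_assoc, cj]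
      · rw [e1, ← wt, mul_inv_cancel_right]
      · rw [e2, mul_inv_cancel_right]
      · rw [k, ← mul_assoc, ← wt, mul_assoc t, mul_assoc t, wu, ← mul_assoc, h.it.1, one_mul]
  · refine absurd ?_ h.une
    have : w * u = u * w := (MulAut.conjNormal (g * a)).injective (by
      rw [map_mul (MulAut.conjNormal (g * a)), map_mul (MulAut.conjNormal (g * a)), e2]
      rcases hG.sw_inv h c4 k (iv _ h.w_inv).1 with k | k <;> rw [k]
      rw [mul_assoc, wt])
    rw [← wu, this, mul_inv_cancel_right]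

theorem HB.typeB_sq (hρ : Function.Injective ρ) (hG : HB p (ρ.comp S.subtype))
    (h : N2 (ρ.comp S.subtype) t u w y r κ μ) (h1 : a * t * a⁻¹ = t) (h2 : a * u * a⁻¹ = w)
    (h3 : a * w * a⁻¹ = u) : κ * κ = 2 ∨ κ * κ = -2 := by
  have two := h.two
  obtain ⟨B, hB⟩ := (T0.cen hρ two (t := (t : G)) h.t0).le (mem_Cen.2 (mul_inv_eq_iff_eq_mul.1 h1).symm)
  obtain ⟨c, -, e⟩ := hB.of_mul_eq h.u0 h.w0 hB (mul_inv_eq_iff_eq_mul.1 h2)
  obtain ⟨c', -, e'⟩ := hB.of_mul_eq h.w0 h.u0 hB (mul_inv_eq_iff_eq_mul.1 h3)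
  have e0 := congrFun (congrFun e 0) 0; have e1 := congrFun (congrFun e 1) 1
  have e2 := congrFun (congrFun e 1) 2; have e3 := congrFun (congrFun e' 0) 0
  have e4 := congrFun (congrFun e' 1) 1
  simp [blk, Pw, diagonal_vec3, mul_fin_three] at e0 e1 e2 e3 e4
  obtain ⟨β, hβ⟩ : ∃ β, blk (B : M2 K) = !![1, 0, 0; 0, β, β; 0, β, -β] := ⟨B 0 0, by
    ext i j; fin_cases i <;> fin_cases j <;> simp [blk] <;> grind⟩
  rw [hβ] at hB
  have β0 : β ≠ 0 := by rintro rfl; exact hB.det_ne (by simp [det_fin_three])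
  have m : a * a ∈ S := hG.typeA hρ h (by
    rw [show a * a * t * (a * a)⁻¹ = a * (a * t * a⁻¹) * a⁻¹ by group, h1, h1]) (by
    rw [show a * a * u * (a * a)⁻¹ = a * (a * u * a⁻¹) * a⁻¹ by group, h2, h3])
  have k1 := hG.dg_t h.t0 (x := ⟨_, m⟩) (a := 1) (e := 2 * β * β) ((hB.mul hB).congr (by
    ext i j; fin_cases i <;> fin_cases j <;> simp [mul_fin_three] <;> ring))
  have k2 : Rep (ρ.comp S.subtype) (MulAut.conjNormal a y) (Rk β⁻¹ (2 * β)) :=
    ((Rep.mul hB h.y0).mul (hB.inv (B := !![2, 0, 0; 0, β⁻¹, β⁻¹; 0, β⁻¹, -β⁻¹]) two (by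
      ext i j; fin_cases i <;> fin_cases j <;> simp [mul_fin_three, β0] <;> ring))).congr (by
      ext i j; fin_cases i <;> fin_cases j <;> simp [mul_fin_three, β0, Py, Rk] <;> ring)
  have k3 := h.rr2 k2 h.r0
  grind

theorem Ex4.norm (hρ : Function.Injective ρ) (hG : HB p (ρ.comp S.subtype))
    (h : Ex4 (ρ.comp S.subtype) t u w y r κ μ) : S = ⊤ ∨ (p = 5 ∧ Nat.card S = 360 ∧ S.index = 2) := by
  obtain ⟨h, ne, c4, -, e⟩ := h
  by_cases hS : S = ⊤
  · exact Or.inl hS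
  obtain ⟨a, ha⟩ : ∃ a, a ∉ S := by simpa [eq_top_iff'] using hS
  obtain ⟨g, hg, e1, e2, e3⟩ := hG.typeB hρ h c4 ha
  have km := h.km; have k0 := h.k0
  have k : κ + μ = 0 := by
    rcases hG.typeB_sq hρ h e1 e2 e3 with k | k
    · exact absurd (mul_left_cancel₀ k0 (k.trans km.symm)) ne
    · exact mul_left_cancel₀ k0 (by linear_combination k + km)
  rw [k] at e
  obtain ⟨c, e, -⟩ := e.resolve_left (by simp)
  refine Or.inr ⟨(Nat.prime_dvd_prime_iff_eq Fact.out Nat.prime_five).1 ((CharP.cast_eq_zero_iff K p 5).1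
    (by simpa using e.symm)), c, index_eq_two_iff.2 ⟨a, fun b => ?_⟩⟩
  by_cases hb : b ∈ S
  · exact Or.inr ⟨hb, fun k => ha ((mul_mem_cancel_left hb).1 k)⟩
  refine Or.inl ⟨?_, hb⟩
  obtain ⟨g', hg', f1, f2, -⟩ := hG.typeB hρ h c4 (a := b⁻¹) (by simpa using hb)
  have := hG.typeA hρ h (a := (g' * b⁻¹)⁻¹ * (g * a)) (by
    rw [show (g' * b⁻¹)⁻¹ * (g * a) * t * ((g' * b⁻¹)⁻¹ * (g * a))⁻¹ =
      (g' * b⁻¹)⁻¹ * (g * a * t * (g * a)⁻¹) * (g' * b⁻¹) by group, e1]; nth_rw 1 [← f1]; group) (by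
    rw [show (g' * b⁻¹)⁻¹ * (g * a) * u * ((g' * b⁻¹)⁻¹ * (g * a))⁻¹ =
      (g' * b⁻¹)⁻¹ * (g * a * u * (g * a)⁻¹) * (g' * b⁻¹) by group, e2, ← f2]; group)
  rwa [show (g' * b⁻¹)⁻¹ * (g * a) = b * (g'⁻¹ * g) * b⁻¹ * (b * a) by group, mul_mem_cancel_left
    (Normal.conj_mem inferInstance _ (mul_mem (inv_mem hg') hg) b)] at this

end Cfsg.Agent.H8.M3
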