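import Cfsg.Agent.H8.M3O
import Cfsg.Agent.H8.M3P

/-! Fields of definition of the exceptional groups. -/

set_option autoImplicit false
set_option linter.unusedSectionVars false

namespace Cfsg.Agent.H8.M3
open Matrix Equiv Subgroup
open scoped MatrixGroups

universe u
variable {K : Type*} [Field K] {G : Type u} [Group G] {p : ℕ} {κ μ ω : K}
variable {ρ : G →* PGL(3, K)} {x y z t u r w : G}
variable [Finite G] [IsAlgClosed K] [Fact p.Prime] [CharP K p]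

theorem exists_root (f : Polynomial K) (h : f.degree ≠ 0) : ∃ a, f.eval a = 0 := IsAlgClosed.exists_root f h

theorem char_of_mod {q n r : ℕ} (hq : q = p ^ n) (hr : r.Prime) (h : q % r = 0) : (r : K) = 0 := by
  have := (Nat.prime_dvd_prime_iff_eq hr Fact.out).1 (hr.dvd_of_dvd_pow (hq ▸ Nat.dvd_of_mod_eq_zero h))
  subst this; exact CharP.cast_eq_zero K r

theorem frob7 {φ : K →+* K} {q n : ℕ} (hq : q = p ^ n) (hφ : ∀ x, φ x = x ^ q) (h : κ + μ = -1)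
    (km : κ * μ = 2) (ne : κ ≠ μ) : ((q % 7 = 1 ∨ q % 7 = 2 ∨ q % 7 = 4) ∧ φ κ = κ) ∨
      ((q % 7 = 3 ∨ q % 7 = 5 ∨ q % 7 = 6) ∧ φ κ = μ) := by
  obtain ⟨ζ, hζ⟩ : ∃ ζ : K, ζ ^ 6 + ζ ^ 5 + ζ ^ 4 + ζ ^ 3 + ζ ^ 2 + ζ + 1 = 0 := by
    have := exists_root (K := K) (Polynomial.X ^ 6 + Polynomial.X ^ 5 + Polynomial.X ^ 4 +
      Polynomial.X ^ 3 + Polynomial.X ^ 2 + Polynomial.X + 1) (by
        rw [show Polynomial.degree _ = 6 by compute_degree!]; decide)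
    simp only [Polynomial.eval_add, Polynomial.eval_pow, Polynomial.eval_X, Polynomial.eval_one] at this
    exact this
  have z7 : ζ ^ 7 = 1 := by linear_combination (ζ - 1) * hζ
  have e : φ ζ = ζ ^ (q % 7) := by rw [hφ, pow_eq_pow_mod _ z7]
  have h0 : q % 7 ≠ 0 := fun k => by
    have : (7 : K) = 0 := by exact_mod_cast char_of_mod (K := K) hq (by decide) k
    exact ne (sub_eq_zero.1 (pow_eq_zero_iff two_ne_zero |>.1
      (by linear_combination (κ + μ - 1) * h - 4 * km - this)))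
  have hm : μ = -1 - κ := by linear_combination h
  have k : κ = ζ + ζ ^ 2 + ζ ^ 4 ∨ κ = -1 - (ζ + ζ ^ 2 + ζ ^ 4) := by
    refine (mul_eq_zero.1 (show (κ - (ζ + ζ ^ 2 + ζ ^ 4)) * (κ - (-1 - (ζ + ζ ^ 2 + ζ ^ 4))) = 0 from ?_)).imp
      sub_eq_zero.1 sub_eq_zero.1
    subst hm; grind
  have := Nat.mod_lt q (show 0 < 7 by decide)
  subst hm
  clear hφ km ne h
  generalize q % 7 = j at *
  interval_cases j <;> rcases k with rfl | rfl <;> simp [e] <;> grind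

theorem frob5 {φ : K →+* K} {q n : ℕ} {s : K} (hq : q = p ^ n) (hφ : ∀ x, φ x = x ^ q) (h : s ^ 2 = 5)
    (h5 : p ≠ 5) : ((q % 5 = 1 ∨ q % 5 = 4) ∧ φ s = s) ∨ ((q % 5 = 2 ∨ q % 5 = 3) ∧ φ s = -s) := by
  obtain ⟨ζ, hζ⟩ : ∃ ζ : K, ζ ^ 4 + ζ ^ 3 + ζ ^ 2 + ζ + 1 = 0 := by
    have := exists_root (K := K) (Polynomial.X ^ 4 + Polynomial.X ^ 3 + Polynomial.X ^ 2 +
      Polynomial.X + 1) (by rw [show Polynomial.degree _ = 4 by compute_degree!]; decide)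
    simp only [Polynomial.eval_add, Polynomial.eval_pow, Polynomial.eval_X, Polynomial.eval_one] at this
    exact this
  have z5 : ζ ^ 5 = 1 := by linear_combination (ζ - 1) * hζ
  have e : φ ζ = ζ ^ (q % 5) := by rw [hφ, pow_eq_pow_mod _ z5]
  have h0 : q % 5 ≠ 0 := fun k => h5 ((Nat.prime_dvd_prime_iff_eq Fact.out Nat.prime_five).1
    ((CharP.cast_eq_zero_iff K p 5).1 (char_of_mod hq Nat.prime_five k)))
  have k : s = 1 + 2 * (ζ + ζ ^ 4) ∨ s = -(1 + 2 * (ζ + ζ ^ 4)) := sq_eq_sq_iff_eq_or_eq_neg.1 (by grind)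
  have := Nat.mod_lt q (show 0 < 5 by decide)
  have a2 : φ 2 = 2 := map_ofNat φ 2
  clear hφ h
  generalize q % 5 = j at *
  interval_cases j <;> rcases k with rfl | rfl <;> simp [e, a2] <;> grind

theorem frob3 {φ : K →+* K} {q n : ℕ} {d : K} (hq : q = p ^ n) (hφ : ∀ x, φ x = x ^ q) (h : d ^ 2 = -3)
    (h0 : d ≠ 0) : (q % 3 = 1 ∧ φ d = d) ∨ (q % 3 = 2 ∧ φ d = -d) := by
  obtain ⟨ζ, hζ⟩ : ∃ ζ : K, ζ ^ 2 + ζ + 1 = 0 := by
    have := exists_root (K := K) (Polynomial.X ^ 2 + Polynomial.X + 1) (by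
      rw [show Polynomial.degree _ = 2 by compute_degree!]; decide)
    simp only [Polynomial.eval_add, Polynomial.eval_pow, Polynomial.eval_X, Polynomial.eval_one] at this
    exact this
  have z3 : ζ ^ 3 = 1 := by linear_combination (ζ - 1) * hζ
  have e : φ ζ = ζ ^ (q % 3) := by rw [hφ, pow_eq_pow_mod _ z3]
  have h0 : q % 3 ≠ 0 := fun k => by
    have : (3 : K) = 0 := by exact_mod_cast char_of_mod (K := K) hq Nat.prime_three k
    exact h0 (pow_eq_zero_iff two_ne_zero |>.1 (by linear_combination h - this))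
  have k : d = 1 + 2 * ζ ∨ d = -(1 + 2 * ζ) := sq_eq_sq_iff_eq_or_eq_neg.1 (by grind)
  have := Nat.mod_lt q (show 0 < 3 by decide)
  have a2 : φ 2 = 2 := map_ofNat φ 2
  clear hφ h
  generalize q % 3 = j at *
  interval_cases j <;> rcases k with rfl | rfl <;> simp [e, a2] <;> grind

/-- projective invariant -/
noncomputable def inv3 (M : Mt K) : K := M.trace ^ 3 / M.det

theorem inv3_smul {c : K} (hc : c ≠ 0) (M : Mt K) : inv3 (c • M) = inv3 M := by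
  simp [inv3, mul_pow, mul_div_mul_left _ _ (pow_ne_zero 3 hc)]

theorem inv3_conj (g : GL (Fin 3) K) (M : Mt K) :
    inv3 ((g : Mt K) * M * ((g⁻¹ : GL (Fin 3) K) : Mt K)) = inv3 M := by
  rw [inv3, trace_units_conj, det_units_conj, inv3]

/-- `E` contains the invariants -/
structure Fld (ρ : G →* PGL(3, K)) (E : Subfield K) : Prop where
  tr : ∀ x M, Rep ρ x M → inv3 M ∈ E
  bt : ∀ x y c, Bt ρ x y c → c ∈ E

theorem Fld.cjr {E : Subfield K} (h : Fld ρ E) (g : GL (Fin 3) K) : Fld (cjr ρ g) E :=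
  ⟨fun x M k => inv3_conj g M ▸ h.tr x _ (rep_cjr.1 k), fun x y c k => h.bt x y c k.of_cjr⟩

/-- field data of the exceptional groups -/
structure Ex (ρ : G →* PGL(3, K)) (κ μ : K) : Prop where
  km : κ * μ = 2
  two : (2 : K) ≠ 0
  ne : κ ≠ μ
  fs : ∀ φ : K →+* K, φ κ = κ → FS ρ φ = ⊤
  ts : ∀ φ : K →+* K, φ κ = μ → TS ρ φ 1 = ⊤
  mem : ∀ E, Fld ρ E → κ ∈ E ∧ μ ∈ E

theorem N2.fs (h : N2 ρ t u w y r κ μ) {φ : K →+* K} (e : φ κ = κ) :
    t ∈ FS ρ φ ∧ u ∈ FS ρ φ ∧ w ∈ FS ρ φ ∧ y ∈ FS ρ φ ∧ r ∈ FS ρ φ := by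
  have e' : φ μ = μ := mul_left_cancel₀ h.k0 (by rw [← e, ← map_mul, e, h.km, map_ofNat])
  refine ⟨⟨_, 1, one_ne_zero, h.t0, ?_⟩, ⟨_, 1, one_ne_zero, h.u0, ?_⟩, ⟨_, 1, one_ne_zero, h.w0, ?_⟩,
    ⟨_, 1, one_ne_zero, h.y0, ?_⟩, ⟨_, 1, one_ne_zero, h.r0, ?_⟩⟩ <;>
  ext i j <;> fin_cases i <;> fin_cases j <;> simp [Pw, Py, Rk, e, e']

theorem N2.ts (h : N2 ρ t u w y r κ μ) {φ : K →+* K} (e : φ κ = μ) :
    t ∈ TS ρ φ 1 ∧ u ∈ TS ρ φ 1 ∧ w ∈ TS ρ φ 1 ∧ y ∈ TS ρ φ 1 ∧ r ∈ TS ρ φ 1 := by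
  have km := h.km
  have e' : φ μ = κ := mul_left_cancel₀ h.m0 (by rw [← e, ← map_mul, e, km, map_ofNat, mul_comm, km])
  refine ⟨mem_TS h.t0 one_ne_zero ?_, mem_TS h.u0 one_ne_zero ?_, mem_TS h.w0 one_ne_zero ?_,
    mem_TS h.y0 one_ne_zero ?_, mem_TS (c := 4) h.r0 (by have := mul_ne_zero h.two h.two; grind) ?_⟩ <;>
  ext i j <;> fin_cases i <;> fin_cases j <;>
    simp [Pw, Py, Rk, e, e', diagonal_vec3, mul_apply, Fin.sum_univ_three] <;> grind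

theorem N2.inv_plus (h : N2 ρ t u w y r κ μ) : ∃ M M', Rep ρ (r * y) M ∧ M * M' = 1 ∧
    inv3 M = (κ + μ + 1) ^ 3 / 8 ∧ inv3 M' = (κ + μ + 1) ^ 3 / 8 := by
  have km := h.km; have h2 := h.two
  have h4 : (4 : K) ≠ 0 := by have := mul_ne_zero h2 h2; grind
  refine ⟨_, (4 : K)⁻¹ • (Py * Rk κ μ), h.r0.mul h.y0, ?_, ?_, ?_⟩
  · ext i j; fin_cases i <;> fin_cases j <;> simp [Py, Rk, mul_fin_three] <;> field_simp <;> grind
  · rw [inv3]; congr 1 <;> simp [Py, Rk, mul_fin_three, trace_fin_three, det_fin_three]; grind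
  · rw [inv3_smul (inv_ne_zero h4), inv3]
    congr 1 <;> simp [Py, Rk, mul_fin_three, trace_fin_three, det_fin_three] <;> grind

theorem Ex4.ex (h : Ex4 ρ t u w y r κ μ) : Ex ρ κ μ := by
  obtain ⟨h, ne, -, gen, e⟩ := h
  have km := h.km; have h2 := h.two
  have h8 : (8 : K) ≠ 0 := by have := pow_ne_zero 3 h2; grind
  refine ⟨km, h2, ne, fun φ e => ?_, fun φ e => ?_, fun E hE => ?_⟩
  · obtain ⟨a, b, c, d, e⟩ := h.fs e; exact gen _ a b c d e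
  · obtain ⟨a, b, c, d, e⟩ := h.ts e; exact gen _ a b c d e
  rcases e with ⟨-, e⟩ | ⟨-, e, a, c, hc, hb⟩
  · have := hE.tr _ _ ((h.r0.mul h.y0).mul h.tu)
    rw [show inv3 (Rk κ μ * Py * diagonal ![1, -1, 1]) = 2 - μ by
      rw [inv3, show (Rk κ μ * Py * diagonal ![1, -1, 1] : Mt K).det = -8 by
        simp [Py, Rk, diagonal_vec3, mul_fin_three, det_fin_three]; grind, div_eq_iff (neg_ne_zero.2 h8)]
      simp [Py, Rk, diagonal_vec3, mul_fin_three, trace_fin_three]; grind] at this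
    have m : μ ∈ E := by simpa using sub_mem (ofNat_mem E 2) this
    exact ⟨by rw [show κ = -1 - μ by grind]; exact sub_mem (neg_mem (one_mem _)) m, m⟩
  · obtain ⟨M, -, a1, -, a2, -⟩ := h.inv_plus
    have b1 := hE.tr _ _ a1
    rw [a2, show (κ + μ + 1) ^ 3 / 8 = κ + μ + 2 by rw [div_eq_iff h8]; grind] at b1
    have b2 : κ + μ ∈ E := by simpa using sub_mem b1 (ofNat_mem E 2)
    have b3 : 2 * c + 1 ∈ E := add_mem (mul_mem (ofNat_mem E 2) (hE.bt _ _ _ hb)) (one_mem _)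
    have c3 := hb.cube
    have b4 : κ - μ ∈ E := by
      rcases sq_eq_sq_iff_eq_or_eq_neg.1 (show (κ - μ) ^ 2 = (2 * c + 1) ^ 2 by grind) with k | k <;> rw [k]
      exacts [b3, neg_mem b3]
    exact ⟨by rw [show κ = (κ + μ + (κ - μ)) / 2 by field_simp; ring]; exact div_mem (add_mem b2 b4) (ofNat_mem E 2),
      by rw [show μ = (κ + μ - (κ - μ)) / 2 by field_simp; ring]; exact div_mem (sub_mem b2 b4) (ofNat_mem E 2)⟩

theorem Ex12.ex (h : Ex12 ρ t u w y r z ω) : Ex ρ (4 * ω + 2) (ω + 3) := by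
  obtain ⟨h, hω, h5, hz, gen, -⟩ := h
  refine ⟨h.km, h.two, fun e => one_ne_zero (α := K) (by grind), fun φ e => ?_, fun φ e => ?_, fun E hE => ?_⟩
  · obtain ⟨a, b, c, d, f⟩ := h.fs e
    simp only [map_add, map_mul, map_ofNat] at e
    have : φ ω = ω := by grind
    exact gen _ a b c d f ⟨_, 1, one_ne_zero, hz, by ext i j; fin_cases i <;> fin_cases j <;> simp [this]⟩
  · obtain ⟨a, b, c, d, f⟩ := h.ts e
    simp only [map_add, map_mul, map_ofNat] at e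
    have : φ ω = ω ^ 2 := by grind
    refine gen _ a b c d f (mem_TS hz one_ne_zero ?_)
    ext i j; fin_cases i <;> fin_cases j <;> simp [this, diagonal_vec3, mul_apply, Fin.sum_univ_three] <;> grind
  · have : ω ∈ E := by
      rw [show ω = ω ^ 2 * ω ^ 2 by grind]
      exact mul_mem (hE.bt _ _ _ (h.bt hω hz)) (hE.bt _ _ _ (h.bt hω hz))
    exact ⟨add_mem (mul_mem (ofNat_mem E 4) this) (ofNat_mem E 2), add_mem this (ofNat_mem E 3)⟩

/-- the points permuted by `A₇` -/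
def pts (ω : K) : Fin 105 → Fin 3 → K := fun i => (vc vA7 i).ev 0 ω

def Pres (ω : K) : Submonoid (Mt K) where
  carrier := {M | ∀ i, ∃ j, ∃ c : K, M *ᵥ pts ω i = c • pts ω j}
  mul_mem' := fun {A B} ha hb i => by
    obtain ⟨j, c, e⟩ := hb i
    obtain ⟨k, d, f⟩ := ha j
    exact ⟨k, c * d, by rw [← mulVec_mulVec, e, mulVec_smul, f, smul_smul]⟩
  one_mem' := fun i => ⟨i, 1, by simp⟩

theorem Pres_smul {A : Mt K} (h : A ∈ Pres ω) (c : K) : c • A ∈ Pres ω := fun i => by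
  obtain ⟨j, d, e⟩ := h i
  exact ⟨j, c * d, by rw [smul_mulVec, e, smul_smul]⟩

theorem pres_gn (hω : ω ^ 2 + ω + 1 = 0) (h5 : (5 : K) = 0) (a : Fin 6) :
    (gn ⟨2, 0, 4, 0⟩ ⟨3, 0, 1, 0⟩ a).ev 0 ω ∈ Pres ω := fun i =>
  ⟨_, tabA7.pres ⟨by simp, by simp; linear_combination hω, by simpa using h5⟩ a i⟩

def nz (x : Z4) : Bool := (x.a * x.a - x.a * x.c + x.c * x.c) % 5 != 0

theorem nz_sound [CharP K 5] (hω : ω ^ 2 + ω + 1 = 0) {x : Z4} (h : nz x = true) : x.ev 0 ω ≠ 0 := fun e => by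
  simp only [nz, bne_iff_ne] at h
  refine h (Int.emod_eq_zero_of_dvd ((CharP.intCast_eq_zero_iff K 5 _).1 ?_))
  simp only [Z4.ev] at e
  push_cast
  linear_combination (x.a + x.c * ω ^ 2) * e - (x.a * x.c + x.c * x.c * (ω - 1)) * hω

theorem not_pres [CharP K 5] (hω : ω ^ 2 + ω + 1 = 0) :
    !![1, 0, 0; 0, 2, 1 + 3 * ω; 0, 2 + 3 * ω, 2] ∉ Pres ω := fun h => by
  have h5 : (5 : K) = 0 := by exact_mod_cast CharP.cast_eq_zero K 5
  have hP : Par.Ok ⟨0, 0, -1, -1, 5⟩ 0 ω := ⟨by simp, by simp; linear_combination hω, by simpa using h5⟩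
  obtain ⟨j, c, e⟩ := h 1
  have k : ∀ j : Fin 105, nz (vc vA7 j).1 = true ∨ nz (Par.cr ⟨0, 0, -1, -1, 5⟩ ⟨2, 0, 0, 0⟩ ⟨2, 0, 3, 0⟩
    (vc vA7 j).2.1 (vc vA7 j).2.2) = true := by decide +kernel
  have e0 := congrFun e 0; have e1 := congrFun e 1; have e2 := congrFun e 2
  rw [pts, show vc vA7 (1 : Fin 105) = (z0, z1, z0) from rfl] at e0 e1 e2
  simp only [pts, V3.ev, mulVec, dotProduct, Fin.sum_univ_three] at e0 e1 e2
  rcases k j with k | k <;> have k := nz_sound hω k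
  · simp [Z4.ev, z0, z1] at e0 e1 e2 k
    grind
  · rw [Par.cr, ev_sub, ev_mul hP, ev_mul hP] at k
    simp [z0, z1] at e1 e2
    generalize Z4.ev 0 ω (vc vA7 j).2.1 = a at *
    generalize Z4.ev 0 ω (vc vA7 j).2.2 = b at *
    simp [Z4.ev] at e1 e2 k
    grind

theorem Ex4.pres [CharP K 5] (h : Ex4 ρ t u w y r κ μ) (e : κ + μ = -1) :
    ∃ d hd ω, ω ^ 2 + ω + 1 = 0 ∧ (∀ x A, Rep (cjr ρ (dgGL d hd)) x A → A ∈ Pres ω) ∧
      (∀ φ : K →+* K, φ κ = κ → FS (cjr ρ (dgGL d hd)) φ = ⊤) ∧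
      (∀ φ : K →+* K, φ κ = μ → TS (cjr ρ (dgGL d hd)) φ 1 = ⊤) ∧
      (∀ φ : K →+* K, φ κ = κ → φ ω = ω) ∧ (∀ φ : K →+* K, φ κ = μ → φ ω = ω ^ 2) := by
  have h5 : (5 : K) = 0 := by exact_mod_cast CharP.cast_eq_zero K 5
  have hx := h.ex
  obtain ⟨h, -, -, gen, -⟩ := h
  have km := h.km
  obtain ⟨ω, hk⟩ : ∃ ω, ω = 2 * κ - 2 := ⟨_, rfl⟩
  have hω : ω ^ 2 + ω + 1 = 0 := by grind
  have w0 : ω ≠ 0 := by rintro rfl; simp at hω
  have hd : ∀ i, ![1, ω ^ 2, ω ^ 2] i ≠ 0 := fun i => by fin_cases i <;> simp [w0]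
  have f1 : ∀ φ : K →+* K, φ κ = κ → φ ω = ω := fun φ e => by simp [hk, e, map_ofNat]
  have f2 : ∀ φ : K →+* K, φ κ = μ → φ ω = ω ^ 2 := fun φ e => by simp [hk, e, map_ofNat]; grind
  refine ⟨_, hd, ω, hω, fun x A hA => ?_, fun φ e => (eq_top_iff' _).2 fun x => ?_,
    fun φ e => (eq_top_iff' _).2 fun x => ?_, f1, f2⟩
  · obtain ⟨a0, a1, a2, a3, a4, a5⟩ := gn_ev (α := 0) (β := ω) ⟨2, 0, 4, 0⟩ ⟨3, 0, 1, 0⟩
    have b := pres_gn hω h5
    have b0 := a0 ▸ b 0; have b1 := a1 ▸ b 1; have b2 := a2 ▸ b 2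
    have b3 := Pres_smul (mul_mem (a3 ▸ b 3) (a5 ▸ b 5)) ω; have b4 := a4 ▸ b 4
    obtain ⟨B, hB, k⟩ := (gen (toSub ⟨⟨{x | ∃ A, Rep (cjr ρ (dgGL _ hd)) x A ∧ A ∈ Pres ω},
      fun ⟨A, a, a'⟩ ⟨B, b, b'⟩ => ⟨_, a.mul b, mul_mem a' b'⟩⟩, _, Rep.one, one_mem _⟩)
      ⟨_, (Dg.cjd hd).2 h.t0, b0⟩ ⟨_, (Dg.cjd hd).2 h.u0, b1⟩ ⟨_, (h.w0.cjd hd).congr (by
        ext i j; fin_cases i <;> fin_cases j <;> simp [Pw, w0]), b2⟩ ⟨_, (h.y0.cjd hd).congr (by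
        ext i j; fin_cases i <;> fin_cases j <;> simp [Py, diagonal_vec3, mul_fin_three] <;> field_simp <;>
          grind), b3⟩ ⟨_, (h.r0.cjd hd).congr (by
        ext i j; fin_cases i <;> fin_cases j <;> simp [Rk, Z4.ev, w0] <;> field_simp <;> grind), b4⟩).ge
      (mem_top x)
    obtain ⟨c, -, rfl⟩ := hB.uniq hA
    exact Pres_smul k c
  · obtain ⟨A, c, hc, a, b⟩ := (hx.fs φ e).ge (mem_top x)
    refine ⟨_, c, hc, a.cjd hd, ?_⟩
    ext i j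
    have := congrFun (congrFun b i) j
    simp only [map_apply, Matrix.smul_apply, smul_eq_mul] at this
    fin_cases i <;> fin_cases j <;> simp [f1 φ e] at this ⊢ <;> rw [this] <;> ring
  · have := TS_cjr (dgGL _ hd) ((hx.ts φ e).ge (mem_top x))
    rwa [show ((dgGL _ hd : GL (Fin 3) K) : Mt K)ᵀ * 1 * ((dgGL _ hd : GL (Fin 3) K) : Mt K).map φ = 1 by
      change (diagonal _)ᵀ * 1 * (diagonal _).map φ = 1
      ext i j; fin_cases i <;> fin_cases j <;> simp [f2 φ e, diagonal_vec3, mul_apply, Fin.sum_univ_three] <;>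
        grind] at this

end Cfsg.Agent.H8.M3
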