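import Cfsg.Agent.H8.M3Q
import Cfsg.Agent.H8.M3PartA
import Cfsg.Agent.H7.AschSubfield

/-! Transfer from the algebraic closure to `GL₃(F)`. -/

set_option autoImplicit false
set_option linter.unusedSectionVars false

namespace Cfsg.Agent.H8.M3
open Matrix Equiv Subgroup Cfsg.Geo
open scoped MatrixGroups

universe u
variable {F K : Type*} [Field F] [Field K] [Algebra F K] [IsAlgClosed K] {G : Type u} [Group G] {p : ℕ} {κ μ ω : K}
variable {ρ : G →* PGL(3, K)} {x y : G} {P H : Subgroup (GL (Fin 3) F)} {g : GL (Fin 3) K}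
  {A B : GL (Fin 3) F} {φ : K →+* K} {σ : F →+* F}

local notation "ι" => algebraMap F K

/-- extension of scalars, in the frame `g` -/
noncomputable def lf (g : GL (Fin 3) K) : GL (Fin 3) F →* GL (Fin 3) K :=
  (MulAut.conj g⁻¹).toMonoidHom.comp (GeneralLinearGroup.map ι)

theorem lf_val : (lf g A : Mt K) = (g⁻¹ : GL (Fin 3) K) * (A : Mt F).map ι * g := by
  simp only [lf, MonoidHom.comp_apply, MulEquiv.coe_toMonoidHom, MulAut.conj_apply, inv_inv]; rfl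

theorem mul_lf : (g : Mt K) * lf g A = (A : Mt F).map ι * g := by
  rw [lf_val, mul_assoc, Units.mul_inv_cancel_left]

theorem lf_one : (lf (1 : GL (Fin 3) K) A : Mt K) = (A : Mt F).map ι := by simp [lf_val]

theorem lf_trace : (lf g A : Mt K).trace = ι (A : Mt F).trace := by
  rw [lf_val, trace_units_conj', AddMonoidHom.map_trace]

theorem lf_det : (lf g A : Mt K).det = ι (A : Mt F).det := by
  rw [lf_val, det_units_conj', RingHom.map_det]; rfl

theorem lf_smul {c : K} (h : (lf g A : Mt K) = c • lf g B) : ∃ d : F, ι d = c ∧ (A : Mt F) = d • B := by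
  have e : (A : Mt F).map ι = c • (B : Mt F).map ι := by
    rw [← (Units.isUnit g).mul_left_inj, Matrix.smul_mul, ← mul_lf, ← mul_lf, h, Matrix.mul_smul]
  obtain ⟨i, j, k⟩ := H7.exists_entry_ne_zero B.ne_zero
  have e' : ∀ i j, ι ((A : Mt F) i j) = c * ι ((B : Mt F) i j) := fun i j => congrFun (congrFun e i) j
  have : ι ((A : Mt F) i j / (B : Mt F) i j) = c := by
    rw [map_div₀, e', mul_div_cancel_right₀ _ ((_root_.map_ne_zero _).2 k)]
  exact ⟨_, this, by ext a b; exact (ι).injective (by rw [e', ← this, ← map_mul]; rfl)⟩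

theorem smul_lf {d : F} (h : (A : Mt F) = d • B) : (lf g A : Mt K) = ι d • lf g B := by
  rw [lf_val, lf_val, h, ← Matrix.smul_mul, ← Matrix.mul_smul]; congr 2; ext i j; simp

noncomputable def pj (g : GL (Fin 3) K) : GL (Fin 3) F →* PGL(3, K) := ProjGenLinGroup.mk.comp (lf g)

theorem pj_eq_one : pj g A = 1 ↔ A ∈ scalars (Fin 3) F := by
  rw [← map_one (pj (F := F) g), eq_comm, H7.mem_scalars_iff_isScal]
  refine mk_eq_iff.trans ?_
  refine ⟨fun ⟨c, _, e⟩ => (lf_smul e).imp fun _ h => h.2, fun ⟨d, e⟩ => ⟨_, (_root_.map_ne_zero _).2 ?_, smul_lf e⟩⟩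
  rintro rfl
  exact A.ne_zero (by simpa using e)

theorem rep_lf : Rep ρ x (lf g A) ↔ pj g A = ρ x :=
  ⟨fun ⟨_, a, b⟩ => by rwa [Units.ext a] at b, fun h => ⟨_, rfl, h⟩⟩

/-- `G` is the projective image of `P` -/
structure Lift (ρ : G →* PGL(3, K)) (P : Subgroup (GL (Fin 3) F)) (g : GL (Fin 3) K) : Prop where
  ex : ∀ x, ∃ A ∈ P, Rep ρ x (lf g A)
  all : ∀ A ∈ P, ∃ x, Rep ρ x (lf g A)

theorem rep_cjr_lf (k : GL (Fin 3) K) : Rep (cjr ρ k) x (lf (g * k) A) ↔ Rep ρ x (lf g A) := by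
  rw [rep_cjr, ← Units.val_mul, ← Units.val_mul, show k * lf (g * k) A * k⁻¹ = lf g A by simp [lf, mul_assoc]]

theorem Lift.cjr (h : Lift ρ P g) (k : GL (Fin 3) K) : Lift (cjr ρ k) P (g * k) :=
  ⟨by simpa only [rep_cjr_lf] using h.ex, by simpa only [rep_cjr_lf] using h.all⟩

theorem Lift.rep (h : Lift ρ P g) {M : Mt K} (hM : Rep ρ x M) :
    ∃ A ∈ P, ∃ c : K, c ≠ 0 ∧ Rep ρ x (lf g A) ∧ M = c • lf g A :=
  let ⟨A, a, b⟩ := h.ex x; let ⟨c, d, e⟩ := b.uniq hM; ⟨A, a, c, d, b, e⟩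

theorem Lift.equiv (h : Lift ρ P g) (hρ : Function.Injective ρ) : Nonempty (ModSc P ≃* G) := by
  let ψ : P →* PGL(3, K) := (pj g).comp P.subtype
  have e1 : (scalars (Fin 3) F).subgroupOf P = ψ.ker := Subgroup.ext fun _ => pj_eq_one.symm
  have e2 : ψ.range = ρ.range := Subgroup.ext fun z =>
    ⟨fun ⟨A, a⟩ => let ⟨x, b⟩ := h.all A.1 A.2; ⟨x, (rep_lf.1 b).symm.trans a⟩,
      fun ⟨x, a⟩ => let ⟨A, b, c⟩ := h.ex x; ⟨⟨A, b⟩, (rep_lf.1 c).trans a⟩⟩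
  exact ⟨(QuotientGroup.quotientMulEquivOfEq e1).trans ((QuotientGroup.quotientKerEquivRange ψ).trans
    ((MulEquiv.subgroupCongr e2).trans (MonoidHom.ofInjective hρ).symm))⟩

theorem lift_map (H : Subgroup (GL (Fin 3) F)) (g : GL (Fin 3) K) : Lift (H.map (pj g)).subtype H g :=
  ⟨fun ⟨_, A, a, b⟩ => ⟨A, a, rep_lf.2 b⟩, fun A a => ⟨⟨_, A, a, rfl⟩, rep_lf.2 rfl⟩⟩

/-- the image of a subgroup -/
noncomputable def sub (ρ : G →* PGL(3, K)) (P : Subgroup (GL (Fin 3) F)) (g : GL (Fin 3) K) : Subgroup G :=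
  (P.map (pj g)).comap ρ

theorem mem_sub : x ∈ sub ρ P g ↔ ∃ A ∈ P, Rep ρ x (lf g A) := by simp only [rep_lf]; rfl

theorem Lift.sub (h : Lift ρ H g) (hP : P ≤ H) : Lift (ρ.comp (sub ρ P g).subtype) P g :=
  ⟨fun x => mem_sub.1 x.2, fun A a => let ⟨x, b⟩ := h.all A (hP a); ⟨⟨x, mem_sub.2 ⟨A, a, b⟩⟩, b⟩⟩

theorem Rep.lf_inv (h : Rep ρ x (lf g A)) : Rep ρ x⁻¹ (lf g A⁻¹) :=
  rep_lf.2 (by rw [map_inv, map_inv, rep_lf.1 h])

theorem Rep.lf_mul (h : Rep ρ x (lf g A)) (h' : Rep ρ y (lf g B)) : Rep ρ (x * y) (lf g (A * B)) := by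
  rw [map_mul]; exact h.mul h'

theorem Lift.normal (h : Lift ρ H g) (hP : ∀ a ∈ H, ∀ b ∈ P, a * b * a⁻¹ ∈ P) : (M3.sub ρ P g).Normal :=
  ⟨fun x hx y => by
    obtain ⟨A, a, b⟩ := mem_sub.1 hx
    obtain ⟨B, c, d⟩ := h.ex y
    exact mem_sub.2 ⟨_, hP B c A a, (d.lf_mul b).lf_mul d.lf_inv⟩⟩

theorem Lift.fld (h : Lift ρ P g) : Fld ρ (ι).fieldRange := by
  refine ⟨fun x M hM => ?_, fun x y c hc => ?_⟩
  · obtain ⟨A, -, c, hc, -, rfl⟩ := h.rep hM
    exact ⟨(A : Mt F).trace ^ 3 / (A : Mt F).det, by rw [inv3_smul hc, inv3, lf_trace, lf_det]; simp⟩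
  · obtain ⟨A, -, a⟩ := h.ex x
    obtain ⟨B, -, b⟩ := h.ex y
    have := hc _ _ a b
    rw [← Units.val_mul, ← Units.val_mul, ← map_mul, ← map_mul] at this
    exact (lf_smul this).imp fun _ h => h.1

theorem perfect_eq (hP : ⁅P, P⁆ = P) {L R : GL (Fin 3) F → Mt K} (hL : ∀ A B, L (A * B) = L B * L A)
    (hR : ∀ A B, R (A * B) = R A * R B) {v : Mt K} (hv : v ≠ 0)
    (h : ∀ A ∈ P, ∃ c : K, c ≠ 0 ∧ L A * v * R A = c • v) (hA : A ∈ P) : L A * v * R A = v := by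
  choose c h0 hc using h
  let χ : P →* Kˣ := MonoidHom.mk' (fun A => Units.mk0 _ (h0 A.1 A.2)) fun A B => Units.ext
    (smul_left_injective K hv (by
      change c _ (A * B).2 • v = (c _ A.2 * c _ B.2) • v
      rw [← hc, coe_mul, hL, hR, ← smul_smul, ← hc _ B.2, ← Matrix.smul_mul, ← Matrix.mul_smul, ← hc _ A.2]
      simp only [mul_assoc]))
  have := Abelianization.commutator_subset_ker χ ((isPerfect_iff.2 hP).mem_commutator (g := ⟨A, hA⟩))
  rw [hc A hA, show c A hA = 1 from congrArg Units.val this, one_smul]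

theorem Lift.fs (h : Lift ρ P g) (hP : ⁅P, P⁆ = P) (hφ : FS ρ φ = ⊤) (hA : A ∈ P) :
    (lf g A : Mt K).map φ = lf g A := by
  have := perfect_eq hP (L := fun A => (lf g A⁻¹ : Mt K)) (R := fun A => (lf g A : Mt K).map φ)
    (fun A B => by rw [_root_.mul_inv_rev, map_mul, Units.val_mul])
    (fun A B => by rw [map_mul, Units.val_mul, Matrix.map_mul]) one_ne_zero (fun A a => by
      obtain ⟨x, b⟩ := h.all A a
      obtain ⟨c, c0, e⟩ := FS.all (hφ.ge (mem_top x)) b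
      exact ⟨c, c0, by rw [e, mul_one, Matrix.mul_smul, map_inv, Units.inv_mul]⟩) hA
  rwa [mul_one, map_inv, Units.inv_mul_eq_one, eq_comm] at this

theorem Lift.ts (h : Lift ρ P g) (hP : ⁅P, P⁆ = P) {S : Mt K} (hS : S ≠ 0) (hφ : TS ρ φ S = ⊤) (hA : A ∈ P) :
    (lf g A : Mt K)ᵀ * S * (lf g A : Mt K).map φ = S :=
  perfect_eq hP (L := fun A => (lf g A : Mt K)ᵀ) (R := fun A => (lf g A : Mt K).map φ)
    (fun A B => by rw [map_mul, Units.val_mul, transpose_mul])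
    (fun A B => by rw [map_mul, Units.val_mul, Matrix.map_mul]) hS
    (fun A a => let ⟨x, b⟩ := h.all A a; TS.all (hφ.ge (mem_top x)) b) hA

theorem map_lin (l : K →ₗ[F] F) (X Y : Mt F) (S : Mt K) :
    (X.map ι * S * Y.map ι).map l = X * S.map l * Y := by
  ext i j
  simp only [map_apply, mul_apply, Finset.sum_mul, map_sum]
  refine Finset.sum_congr rfl fun a _ => Finset.sum_congr rfl fun b _ => ?_
  rw [mul_comm, ← Algebra.smul_def, ← Algebra.smul_def, map_smul, map_smul, mul_comm]; rfl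

theorem Lift.form (h : Lift ρ P g) (hP : ⁅P, P⁆ = P) {S : Mt K} (hS : S ≠ 0) (hφ : TS ρ φ S = ⊤)
    (hσ : ∀ x, φ (ι x) = ι (σ x)) :
    ∃ T : Mt F, T ≠ 0 ∧ (∀ A ∈ P, H7.tw σ T A = T) ∧ (φ = RingHom.id K → Sᵀ = S → Tᵀ = T) := by
  have h' := h.cjr g⁻¹
  rw [mul_inv_cancel] at h'
  obtain ⟨S', e⟩ : ∃ S', S' = ((g⁻¹ : GL (Fin 3) K) : Mt K)ᵀ * S * ((g⁻¹ : GL (Fin 3) K) : Mt K).map φ := ⟨_, rfl⟩
  have h0 : S' ≠ 0 := fun k => hS (by
    rw [show S = (g : Mt K)ᵀ * S' * (g : Mt K).map φ by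
      rw [e, ← mul_assoc, ← mul_assoc, ← transpose_mul, mul_assoc, ← Matrix.map_mul]; simp, k]; simp)
  obtain ⟨i, j, k⟩ := H7.exists_entry_ne_zero h0
  obtain ⟨l, hl⟩ := Module.Projective.exists_dual_ne_zero F k
  refine ⟨S'.map l, fun k => hl (congrFun (congrFun k i) j), fun A a => ?_, fun k1 k2 => ?_⟩
  · have := h'.ts hP h0 ((eq_top_iff' _).2 fun x => e ▸ TS_cjr g⁻¹ (hφ.ge (mem_top x))) a
    rw [lf_one, ← transpose_map, show ((A : Mt F).map ι).map φ = ((A : Mt F).map σ).map ι by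
      ext a b; exact hσ _] at this
    rw [H7.tw, ← map_lin, this]
  · rw [← transpose_map, e, k1]; simp [k2, mul_assoc]

theorem core_card_le [Fintype F] (hc : IsResidualCore H P) [Fact p.Prime] [CharP F p] {n : ℕ} (hn : n ≠ 0)
    (e : ∀ A ∈ P, (A : Mt F).trace ^ p ^ n = (A : Mt F).trace) : Fintype.card F ≤ p ^ n := by
  obtain ⟨τ, hτ⟩ := H7.exists_powHom (F := F) (p := p) (k := n)
  by_contra! k
  obtain ⟨a, ha⟩ := H7.exists_pow_ne (Nat.one_lt_pow hn (Fact.out : p.Prime).one_lt) k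
  exact hc.no_subfield _ (H7.fixField_ne_top ⟨a, by rwa [hτ]⟩) ((H7.absIrr_iff.2 hc.absIrred).realisableOver _
    fun A a => H7.mem_fixField.2 (by rw [hτ, e A a]))

theorem Lift.card_le [Fintype F] (h : Lift ρ P g) (hc : IsResidualCore H P) (hφ : FS ρ φ = ⊤)
    [Fact p.Prime] [CharP F p] {n : ℕ} (hn : n ≠ 0) (e : ∀ x, φ x = x ^ p ^ n) : Fintype.card F ≤ p ^ n :=
  core_card_le hc hn fun A a => (ι).injective (by
    rw [map_pow, ← e, ← lf_trace (g := g), AddMonoidHom.map_trace, h.fs hc.perfect hφ a])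

theorem Lift.not_conic (h : Lift ρ P g) (hc : IsResidualCore H P) (h2 : (2 : K) ≠ 0) (e : Conic ρ) :
    ∃ Q, IsNondegenerateQuadraticForm Q ∧ FixesQuadForm (matrixSet P) Q := by
  obtain ⟨k, e⟩ := e
  obtain ⟨T, a, b, c⟩ := (h.cjr k).form (σ := RingHom.id F) hc.perfect
    (fun e => by simpa [S0] using congrFun (congrFun e 0) 2) e fun _ => rfl
  refine ⟨_, H7.isQuad_diag (H7.isSymmetricForm_gform ((H7.absIrr_iff.2 hc.absIrred).1.det_gram_ne_zero _ a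
    fun A h => ⟨1, by rw [b A h, one_smul]⟩) (c rfl (by ext i j; fin_cases i <;> fin_cases j <;> rfl)))
    fun e => h2 (by rw [← map_ofNat (ι) 2, e, map_zero]), ?_⟩
  rintro _ ⟨A, h, rfl⟩ v
  exact (H7.gform_tw _ _ _ _ _).trans (by rw [b A h])

theorem exists_unitary [Fintype F] {q : ℕ} (hF : Fintype.card F = q ^ 2) (hσ : ∀ x, σ x = x ^ q) (hP : H7.Irr P)
    {T : Mt F} (h0 : T ≠ 0) (h : ∀ A ∈ P, H7.tw σ T A = T) :
    ∃ (σ : F ≃+* F) (f : _), IsUnitaryForm σ f ∧ FixesForm (matrixSet P) f := by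
  have h1 := H7.qHom_invol hF hσ
  obtain ⟨a, ha⟩ := H7.qHom_ne hF hσ
  obtain ⟨T, h0, h, e⟩ := H7.exists_herm h1 ⟨a, ha⟩ h0 h
  let τ : F ≃+* F := RingEquiv.ofRingHom σ σ (RingHom.ext h1) (RingHom.ext h1)
  refine ⟨τ, _, H7.isUnitaryForm_gform (fun k => ha (DFunLike.congr_fun k a)) h1
    (hP.det_gram_ne_zero σ h0 fun A k => ⟨1, by rw [h A k, one_smul]⟩) e, ?_⟩
  rintro _ ⟨A, k, rfl⟩ u v
  exact (H7.gform_tw σ _ _ _ _).trans (by rw [h A k]; rfl)

theorem mem_range_of_pow [Fintype F] {a : K} (h : a ^ Fintype.card F = a) : ∃ b, ι b = a := by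
  have := (FiniteField.isSplittingField_sub F F).splits
  rw [Algebra.algebraMap_self, Polynomial.map_id] at this
  exact this.mem_range_of_isRoot (FiniteField.X_pow_card_sub_X_ne_zero _ Fintype.one_lt_card) (by simp [h])

theorem mem_SL : A ∈ specialLinear (Fin 3) F ↔ (A : Mt F).det = 1 := by
  rw [specialLinear, MonoidHom.mem_ker, ← Units.val_eq_one]; rfl

theorem mem_GU {q : ℕ} (hσ : ∀ x, σ x = x ^ q) : A ∈ GU 3 F q ↔ (A : Mt F)ᵀ * (A : Mt F).map σ = 1 := by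
  have e : hermForm 3 F q = H7.gform σ 1 := by ext u v; simp [hermForm, H7.gform, dotProduct, hσ]
  change (∀ u v, hermForm 3 F q ((A : Mt F) *ᵥ u) ((A : Mt F) *ᵥ v) = _) ↔ _
  simp only [e, H7.gform_tw, H7.tw, mul_one]
  exact ⟨H7.gform_ext, fun h _ _ => by rw [h]⟩

end Cfsg.Agent.H8.M3
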