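import Cfsg.Agent.H8.M3R

/-! Case analysis for simple subgroups of `PSL₃(F)`. -/

set_option autoImplicit false
set_option linter.unusedSectionVars false

namespace Cfsg.Agent.H8.M3
open Matrix Equiv Subgroup Cfsg.Geo
open scoped MatrixGroups commutatorElement

universe u
variable {F K : Type*} [Field F] [Field K] [Algebra F K] [IsAlgClosed K] {G : Type u} [Group G] {p : ℕ} {κ μ ω : K}
variable {ρ : G →* PGL(3, K)} {x y t u w r : G} {P H Q : Subgroup (GL (Fin 3) F)} {g : GL (Fin 3) K}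
  {A B : GL (Fin 3) F} {φ : K →+* K} {σ : F →+* F}

local notation "ι" => algebraMap F K

theorem comm_central {X : Type*} [Group X] {z : X} (hz : ∀ g, z * g = g * z) (a b : X) : ⁅z * a, b⁆ = ⁅a, b⁆ := by
  rw [commutatorElement_def, commutatorElement_def, mul_assoc z, mul_assoc z, hz]; group

theorem Lift.comm_le (h : Lift ρ P g) (hQ : M3.sub ρ Q g = ⊤) : ⁅P, P⁆ ≤ ⁅Q, Q⁆ := by
  have k : ∀ A ∈ P, ∃ z B, B ∈ Q ∧ (∀ g, z * g = g * z) ∧ A = z * B := fun A a => by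
    obtain ⟨x, b⟩ := h.all A a
    obtain ⟨B, c, d⟩ := mem_sub.1 (hQ.ge (mem_top x))
    exact ⟨A * B⁻¹, B, c, H7.scalars_comm ((pj_eq_one (g := g)).1 (by
      rw [map_mul, map_inv, rep_lf.1 b, rep_lf.1 d, mul_inv_cancel])), by simp⟩
  refine commutator_le.2 fun A a B b => ?_
  obtain ⟨z, A, a', hz, rfl⟩ := k A a
  obtain ⟨w, B, b', hw, rfl⟩ := k B b
  rw [comm_central hz, ← commutatorElement_inv, comm_central hw, commutatorElement_inv]
  exact commutator_mem_commutator a' b'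

theorem comm_le_self {X : Type*} [Group X] (Q : Subgroup X) : ⁅Q, Q⁆ ≤ Q :=
  commutator_le.2 fun _ a _ b => mul_mem (mul_mem (mul_mem a b) (inv_mem a)) (inv_mem b)

theorem lf_sq : ((lf g A : Mt K) - 1) * (lf g A - 1) = 0 ↔ ((A : Mt F) - 1) * (A - 1) = 0 := by
  let f : Mt F →+* Mt K := (H7.cj g⁻¹ : Mt K →+* Mt K).comp (ι).mapMatrix
  have e : (lf g A : Mt K) = f A := by simp [lf_val, f, H7.cj_apply]
  rw [e, ← map_one f, ← map_sub, ← map_mul, map_eq_zero_iff f f.injective]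

theorem lf_eq_one (h : (lf g A : Mt K) = 1) : A = 1 := by
  obtain ⟨d, a, b⟩ := lf_smul (c := 1) (B := 1) (h.trans (by simp))
  rw [(ι).injective (a.trans (map_one _).symm)] at b
  exact Units.ext (by simpa using b)

theorem SN.of_equiv {X : Type*} [Group X] (h : SN G) (e : X ≃* G) : SN X :=
  ⟨have := h.simple; e.isSimpleGroup, fun k => h.nc fun a b => e.symm.injective (by rw [map_mul, map_mul, k])⟩

variable [Finite G] [Fact p.Prime] [CharP K p]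

theorem Lift.tri (hA : PartA F) (h : Lift ρ P g) (hρ : Function.Injective ρ) (hG : SN G) (hP : ⁅P, P⁆ = P)
    (hS : P ≤ specialLinear (Fin 3) F) (hi : ActsIrreducibly (matrixSet P) ∨ (2 : F) ≠ 0) : HB p ρ ∨
    (∃ g F₀, IsSL3 P g F₀) ∨ (∃ g F₁ q, IsSU3 P g F₁ q) ∨ ((2 : F) = 0 ∧
      Nonempty (ModSc P ≃* alternatingGroup (Fin 6)) ∧ ∀ A ∈ P, (A : Mt F).trace ^ 4 = (A : Mt F).trace) := by
  refine or_iff_not_imp_left.2 fun k => ?_
  obtain ⟨e⟩ := h.equiv hρ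
  refine hA P (le_antisymm (hP.ge.trans ((h.comm_le ?_).trans (comm_le_self _)))
    ((closure_le _).2 fun _ h => h.1)) hi (hG.of_equiv e).simple (hG.of_equiv e).nc
  have hn : (M3.sub ρ (closure {g | g ∈ P ∧ IsTv3 g}) g).Normal := h.normal fun a ha b hb => by
    induction hb using closure_induction with
    | mem b hb => exact subset_closure ⟨mul_mem (mul_mem ha hb.1) (inv_mem ha), conj_ne_one hb.2.1, by
        rw [← H7.cj_val, ← map_one (H7.cj a), ← map_sub, ← map_mul, hb.2.2, map_zero]⟩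
    | one => simp
    | mul b c _ _ h1 h2 => simpa [mul_assoc] using mul_mem h1 h2
    | inv b _ h1 => simpa [mul_assoc] using inv_mem h1
  refine (hG.normal_cases _ hn).resolve_left fun k0 => k (NE.hb p ⟨hρ, hG, fun x N hx hN => ?_⟩)
  obtain ⟨A, a, c, c0, b, e⟩ := h.rep hx
  have c3 : c ^ 3 = 1 := by
    obtain ⟨v, f, h1, rfl⟩ := exists_vv_of_sq hN
    have := congrArg det e
    rw [det_smul, lf_det, mem_SL.1 (hS a)] at this
    simp [det_fin_three, dotProduct, Fin.sum_univ_three] at this h1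
    linear_combination h1 - this
  have key : ∀ (n : ℕ), (n : K) ≠ 0 → c ^ n = 1 → N = 0 := fun n h1 h2 => by
    have e1 : (lf g (A ^ n) : Mt K) = 1 + (n : K) • N := by
      rw [map_pow, Units.val_pow_eq_pow_val, ← one_smul K (_ ^ n), ← h2, ← smul_pow, ← e]
      clear h1 h2
      induction n with
      | zero => simp
      | succ n ih => rw [pow_succ, ih]; simp [add_mul, mul_add, hN, add_smul, add_assoc, add_comm N]
    by_cases h3 : A ^ n = 1
    · simpa [h3, h1] using e1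
    have : x ^ n = 1 := mem_bot.1 (k0.le (mem_sub.2 ⟨A ^ n, subset_closure ⟨pow_mem a n, h3,
      (lf_sq (g := g)).1 (by rw [e1]; simp [hN])⟩, by rw [map_pow]; exact b.pow n⟩))
    obtain ⟨d, -, f⟩ := (hx.pow n).of_eq_one this
    rw [e, smul_pow, h2, one_smul, ← Units.val_pow_eq_pow_val, ← map_pow, e1, ← eq_sub_iff_add_eq',
      show d • (1 : Mt K) - 1 = (d - 1) • 1 by rw [sub_smul, one_smul], ← eq_inv_smul_iff₀ h1, smul_smul] at f
    rw [f] at hN ⊢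
    simpa using hN
  by_cases h3 : (3 : K) = 0
  · exact key 1 (by simp) (by rw [pow_one, ← sub_eq_zero, ← pow_eq_zero_iff three_ne_zero]; grind)
  · exact key 3 (by simpa using h3) c3

theorem eq_of_cast {n : ℕ} (hn : n.Prime) (h : (n : K) = 0) : p = n :=
  (Nat.prime_dvd_prime_iff_eq Fact.out hn).1 ((CharP.cast_eq_zero_iff K p n).1 h)

theorem summ {S : Subgroup G} [S.Normal] (hρ : Function.Injective ρ) (hb : HB p (ρ.comp S.subtype)) :
    Conic (ρ.comp S.subtype) ∨ ∃ k κ μ, Ex (cjr (ρ.comp S.subtype) k) κ μ ∧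
    ((S = ⊤ ∧ κ + μ = -1 ∧ Nat.card G = 168 ∧ Nonempty (S ≃* PSL(3, ZMod 2)) ∧ Nonempty (G ≃* PSL(2, ZMod 7)) ∧
      ∃ t u w y r, Ex4 (cjr (ρ.comp S.subtype) k) t u w y r κ μ) ∨
    ((κ + μ) ^ 2 = 5 ∧ ((Nonempty (S ≃* alternatingGroup (Fin 6)) ∧
      ((S = ⊤ ∧ Nonempty (G ≃* alternatingGroup (Fin 6))) ∨ (p = 5 ∧ S.index = 2)) ∧
      ∃ x M M', Rep (cjr (ρ.comp S.subtype) k) x M ∧ M * M' = 1 ∧ inv3 M = κ + μ + 2 ∧ inv3 M' = κ + μ + 2) ∨
      (p = 5 ∧ S = ⊤ ∧ Nonempty (S ≃* alternatingGroup (Fin 7)) ∧ Nonempty (G ≃* alternatingGroup (Fin 7)))))) := by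
  have e : S = ⊤ → Nonempty (G ≃* S) := fun h => ⟨((MulEquiv.subgroupCongr h).trans topEquiv).symm⟩
  rcases hb.final with h | ⟨k, t, u, w, y, r, κ, μ, h⟩ | ⟨k, t, u, w, y, r, z, ω, h⟩
  · exact Or.inl h
  · refine Or.inr ⟨k, κ, μ, h.ex, ?_⟩
    have hn := Ex4.norm (ρ := cjr ρ k) (cjr_inj hρ k) (hb.cjr k) h
    rcases h.2.2.2.2 with ⟨c, s⟩ | ⟨c, s, -⟩
    · have h1 := hn.resolve_right fun h => by omega
      obtain ⟨f⟩ := e h1
      exact Or.inl ⟨h1, s, (Nat.card_congr f.toEquiv).trans c, h.isoL32 hb.sn c,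
        (h.isoL27 c).map f.trans, _, _, _, _, _, h⟩
    · obtain ⟨M, M', a1, a2, a3, a4⟩ := h.1.inv_plus
      have h8 : (8 : K) ≠ 0 := by have := pow_ne_zero 3 h.1.two; grind
      rw [show (κ + μ + 1) ^ 3 / 8 = κ + μ + 2 by rw [div_eq_iff h8]; grind] at a3 a4
      exact Or.inr ⟨s, Or.inl ⟨h.isoA6 c, hn.imp (fun h1 => ⟨h1, (e h1).elim fun f => (h.isoA6 c).map f.trans⟩)
        fun h => ⟨h.1, h.2.2⟩, _, _, _, a1, a2, a3, a4⟩⟩
  · have hn := Ex12.norm (ρ := cjr ρ k) (cjr_inj hρ k) (hb.cjr k) h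
    have h5 := h.2.2.1
    exact Or.inr ⟨k, _, _, h.ex, Or.inr ⟨by grind, Or.inr ⟨eq_of_cast (K := K) Nat.prime_five (by simpa using h5),
      hn, h.isoA7, (e hn).elim fun f => h.isoA7.map f.trans⟩⟩⟩

theorem Ex.k0 (h : Ex ρ κ μ) : κ ≠ 0 := fun e => h.two (by rw [← h.km, e, zero_mul])
theorem Ex.m0 (h : Ex ρ κ μ) : μ ≠ 0 := fun e => h.two (by rw [← h.km, e, mul_zero])
theorem Ex.fix (h : Ex ρ κ μ) (e : φ κ = κ) : φ μ = μ :=
  mul_left_cancel₀ h.k0 (by rw [← e, ← map_mul, e, h.km, map_ofNat])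
theorem Ex.swap (h : Ex ρ κ μ) (e : φ κ = μ) : φ μ = κ :=
  mul_left_cancel₀ h.m0 (by rw [← e, ← map_mul, e, h.km, map_ofNat, mul_comm, h.km])

theorem Ex.frob {q n : ℕ} (h : Ex ρ κ μ) (hq : q = p ^ n) (hφ : ∀ x, φ x = x ^ q) (s : (κ + μ) ^ 2 = 5) :
    (φ κ = κ ∧ q % 3 = 1 ∧ (p = 5 ∨ q % 5 = 1 ∨ q % 5 = 4)) ∨
    (φ κ = μ ∧ q % 3 = 2 ∧ (p = 5 ∨ q % 5 = 1 ∨ q % 5 = 4)) ∨
    (φ (κ + μ) ≠ κ + μ ∧ φ (φ κ) = κ ∧ q % 3 ≠ 0 ∧ (q % 5 = 2 ∨ q % 5 = 3)) := by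
  have km := h.km; have h2 := h.two
  have h3 := frob3 (d := κ - μ) hq hφ (by grind) (sub_ne_zero.2 h.ne)
  have a2 : φ 2 = 2 := map_ofNat φ 2
  have key : ∀ a b : K, φ (κ + μ) = a → φ (κ - μ) = b → 2 * φ κ = a + b := fun a b h h' => by
    rw [← h, ← h', ← map_add, ← a2, ← map_mul]; congr 1; ring
  have hs : ((p = 5 ∨ q % 5 = 1 ∨ q % 5 = 4) ∧ φ (κ + μ) = κ + μ) ∨
      ((q % 5 = 2 ∨ q % 5 = 3) ∧ φ (κ + μ) = -(κ + μ) ∧ κ + μ ≠ 0) := by
    by_cases h5 : p = 5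
    · have : (5 : K) = 0 := by simpa [h5] using CharP.cast_eq_zero K p
      rw [show κ + μ = 0 by grind]; exact Or.inl ⟨Or.inl h5, map_zero _⟩
    · exact (frob5 hq hφ s h5).imp (fun h => ⟨Or.inr h.1, h.2⟩) fun h => ⟨h.1, h.2, fun e =>
        h5 (eq_of_cast (K := K) Nat.prime_five (by rw [e] at s; simpa using s.symm))⟩
  rcases hs with ⟨a, b⟩ | ⟨a, b, c⟩
  · rcases h3 with ⟨c, d⟩ | ⟨c, d⟩
    · exact Or.inl ⟨mul_left_cancel₀ h2 (by rw [key _ _ b d]; ring), c, a⟩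
    · exact Or.inr (Or.inl ⟨mul_left_cancel₀ h2 (by rw [key _ _ b d]; ring), c, a⟩)
  · refine Or.inr (Or.inr ⟨fun e => c (by grind), mul_left_cancel₀ h2 ?_, by omega, a⟩)
    rw [← a2, ← map_mul]
    rcases h3 with ⟨-, d⟩ | ⟨-, d⟩ <;> rw [key _ _ b d, map_add] <;> simp only [map_neg, b, d, a2] <;> ring

variable [Fintype F] [CharP F p]

theorem Lift.fix_mem (h : Lift ρ P g) (hx : Ex ρ κ μ) (hφ : ∀ x, φ x = x ^ Fintype.card F) : φ κ = κ := by
  obtain ⟨a, rfl⟩ := (hx.mem _ h.fld).1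
  rw [hφ, ← map_pow, FiniteField.pow_card]

theorem Lift.sizes (h : Lift ρ P g) (hc : IsResidualCore H P) (hx : Ex ρ κ μ) (hφ : ∀ x, φ x = x ^ p) :
    (φ κ = κ → Fintype.card F = p) ∧ (φ κ ≠ κ → φ (φ κ) = κ → Fintype.card F = p ^ 2) ∧
    (φ κ = μ → Fintype.card F = p ^ 2 ∧
      ∃ (σ : F ≃+* F) (f : _), IsUnitaryForm σ f ∧ FixesForm (matrixSet P) f) := by
  obtain ⟨⟨n, n0⟩, hp, hn⟩ := FiniteField.card F p
  have k1 := Nat.pow_le_pow_iff_right (n := n) (m := 1) hp.one_lt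
  have k2 := Nat.pow_le_pow_iff_right (n := n) (m := 2) hp.one_lt
  simp only [PNat.mk_coe] at hn
  have a : φ κ ≠ κ → φ (φ κ) = κ → Fintype.card F = p ^ 2 := fun e1 e2 => by
    have := h.card_le hc (hx.fs (φ.comp φ) e2) (p := p) two_ne_zero fun x => by simp [hφ, ← pow_mul, sq]
    rw [hn, k2] at this
    obtain rfl | rfl : n = 1 ∨ n = 2 := by omega
    exacts [absurd (h.fix_mem hx (by simpa [hn] using hφ)) e1, hn]
  refine ⟨fun e => ?_, a, fun e => ?_⟩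
  · have := h.card_le hc (hx.fs φ e) (p := p) one_ne_zero (by simpa using hφ)
    rw [hn, k1] at this
    rw [hn, show n = 1 by omega, pow_one]
  · have b := a (e ▸ hx.ne.symm) (by rw [e, hx.swap e])
    obtain ⟨σ, hσ⟩ := H7.exists_qHom b
    obtain ⟨T, c, d, -⟩ := h.form (σ := σ) hc.perfect one_ne_zero (hx.ts φ e) fun x => by rw [hφ, hσ, map_pow]
    exact ⟨b, exists_unitary b hσ (H7.absIrr_iff.2 hc.absIrred).1 c d⟩

theorem lf_unitary {q : ℕ} (hσ : ∀ x, σ x = x ^ q) (hφ : ∀ x, φ x = x ^ q) :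
    A ∈ GU 3 F q ↔ ((A : Mt F).map ι)ᵀ * ((A : Mt F).map ι).map φ = 1 := by
  rw [mem_GU hσ, show ((A : Mt F).map ι).map φ = ((A : Mt F).map σ).map ι by
    ext a b; simp [hσ, hφ], ← transpose_map, ← Matrix.map_mul, ← Matrix.map_one ι (map_zero _) (map_one _)]
  exact (map_injective (ι).injective).eq_iff.symm

theorem Lift.uni (h : Lift ρ P g) {q : ℕ} (hσ : ∀ x, σ x = x ^ q) (hφ : ∀ x, φ x = x ^ q) (hP : P ≤ GU 3 F q)
    {M M' : Mt K} (hM : Rep ρ x M) (e : M * M' = 1) : φ (inv3 M) = inv3 M' := by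
  obtain ⟨A, a, c, c0, -, rfl⟩ := h.rep hM
  have e1 : M' = c⁻¹ • lf g A⁻¹ := by
    rw [← inv_eq_right_inv e]; refine inv_eq_right_inv ?_; simp [smul_smul, c0]
  have e2 : ((A : Mt F).map ι).map φ = (((A⁻¹ : GL (Fin 3) F) : Mt F).map ι)ᵀ := by
    rw [← inv_eq_right_inv ((lf_unitary hσ hφ).1 (hP a))]; refine inv_eq_right_inv ?_
    rw [← transpose_mul, ← Matrix.map_mul]; simp
  rw [e1, inv3_smul c0, inv3_smul (inv_ne_zero c0), inv3, inv3, lf_trace, lf_det, lf_trace, lf_det,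
    map_div₀, map_pow, AddMonoidHom.map_trace, AddMonoidHom.map_trace, RingHom.map_det, RingHom.map_det,
    AddMonoidHom.map_trace, RingHom.map_det, ← trace_transpose (Matrix.map _ ι), ← det_transpose ((ι).mapMatrix _)]
  exact congrArg (fun M : Mt K => M.trace ^ 3 / M.det) e2

theorem Lift.transport (h : Lift ρ P g) (hb : HB p ρ) (hP : ⁅P, P⁆ = P) {q : ℕ} (hF : Fintype.card F = q ^ 2)
    (hφ : ∀ x, φ x = x ^ q) (hU : P ≤ GU 3 F q) (h1 : FS ρ (φ.comp φ) = ⊤) (h2 : TS ρ φ 1 = ⊤) {Y : Mt K}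
    (y1 : Y.map (φ.comp φ) = Y) (y2 : Yᵀ * Y.map φ = 1) (y3 : Y.det = 1) :
    ∃ A ∈ GU 3 F q ⊓ specialLinear (Fin 3) F, lf g A = Y := by
  obtain ⟨σ, hσ⟩ := H7.exists_qHom hF
  have hψ : ∀ x, (φ.comp φ) x = x ^ Fintype.card F := fun x => by simp [hφ, hF, ← pow_mul, sq]
  generalize φ.comp φ = ψ at *
  have hg := Units.isUnit g
  obtain ⟨c, hc⟩ := hb.schur (C := (g⁻¹ : GL (Fin 3) K) * (g : Mt K).map ψ) fun x M hM => by
    obtain ⟨A, a, c, -, -, rfl⟩ := h.rep hM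
    have := congrArg (Matrix.map · ψ) (mul_lf (g := g) (A := A))
    simp only [Matrix.map_mul, h.fs hP h1 a] at this
    rw [show ((A : Mt F).map ι).map ψ = (A : Mt F).map ι by
      ext a b; simp only [map_apply, hψ, ← map_pow, FiniteField.pow_card]] at this
    rw [Matrix.mul_smul, Matrix.smul_mul, mul_assoc, this, lf_val]; simp only [mul_assoc, Units.mul_inv_cancel_left]
  obtain ⟨d, hd⟩ := hb.schur (C := ((g : Mt K)ᵀ * (g : Mt K).map φ)ᵀ) fun x M hM => by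
    obtain ⟨A, a, c, -, -, rfl⟩ := h.rep hM
    have e1 := h.ts hP one_ne_zero h2 a
    have e2 : (lf g A : Mt K)ᵀ * ((g : Mt K)ᵀ * (g : Mt K).map φ) * (lf g A : Mt K).map φ =
        (g : Mt K)ᵀ * (g : Mt K).map φ := by
      rw [← mul_assoc, ← transpose_mul, mul_assoc, ← Matrix.map_mul, mul_lf, transpose_mul, Matrix.map_mul,
        mul_assoc, ← mul_assoc ((A : Mt F).map ι)ᵀ, (lf_unitary hσ hφ).1 (hU a), one_mul]
    rw [mul_one, mul_eq_one_comm] at e1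
    rw [Matrix.mul_smul, Matrix.smul_mul, ← transpose_transpose (lf g A : Mt K), ← transpose_mul, ← transpose_mul]
    conv_rhs => rw [← e2, mul_assoc, e1, mul_one]
  rw [Units.inv_mul_eq_iff_eq_mul, Matrix.mul_smul, mul_one] at hc
  rw [← transpose_inj, transpose_transpose, transpose_smul, transpose_one] at hd
  obtain ⟨M, e⟩ : ∃ M : Mt K, M * g = g * Y := ⟨g * Y * (g⁻¹ : GL (Fin 3) K), by simp⟩
  have c0 : c ≠ 0 := by
    rintro rfl; exact H7.det_map_ne_zero ψ g.det_ne_zero (by simp [hc])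
  have e1 : M.map ψ = M := by
    have := congrArg (Matrix.map · ψ) e
    simp only [Matrix.map_mul, y1, hc, Matrix.mul_smul, Matrix.smul_mul] at this
    rw [← e] at this
    exact hg.mul_right_cancel (smul_right_injective _ c0 this)
  choose M0 h0 using fun i j => mem_range_of_pow (F := F) (a := M i j) (by
    rw [← hψ]; exact congrFun (congrFun e1 i) j)
  have e2 : (of M0).map ι = M := by ext i j; exact h0 i j
  have e3 : (of M0).det = 1 := (ι).injective (by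
    have := congrArg det e
    rw [det_mul, det_mul, y3, mul_comm] at this
    rw [RingHom.map_det, map_one, ← mul_left_cancel₀ g.det_ne_zero this, ← e2]; rfl)
  refine ⟨GeneralLinearGroup.mkOfDetNeZero (of M0) (e3 ▸ one_ne_zero), ⟨(lf_unitary hσ hφ).2 ?_, mem_SL.2 e3⟩,
    hg.mul_left_cancel (by rw [mul_lf, ← e, ← e2]; rfl)⟩
  change ((of M0).map ι)ᵀ * ((of M0).map ι).map φ = 1
  refine H7.mul_left_cancel_det (z := (g : Mt K)ᵀ) (by rw [det_transpose]; exact g.det_ne_zero) (H7.mul_right_cancel_det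
    (H7.det_map_ne_zero φ g.det_ne_zero) ?_)
  rw [e2, ← mul_assoc, ← transpose_mul, mul_assoc, ← Matrix.map_mul, e, transpose_mul, Matrix.map_mul, mul_assoc,
    ← mul_assoc (g : Mt K)ᵀ, mul_one, hd, Matrix.smul_mul, one_mul, Matrix.mul_smul, y2]

theorem not_max5 [CharP K 5] [CharP F 5] [Fact (Nat.Prime 5)] (hF : Fintype.card F = 5 ^ 2) (h : Lift ρ P g) (h' : Lift ρ H g)
    (hb : HB 5 ρ) (hP : ⁅P, P⁆ = P) (hPH : P ≤ H) (hH : IsMaximalIn (GU 3 F 5 ⊓ specialLinear (Fin 3) F) H)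
    (hx : Ex4 ρ t u w y r κ μ) (e : κ + μ = -1) : False := by
  obtain ⟨d, hd, ω, hω, hp, f1, f2, f3, f4⟩ := hx.pres e
  have h5 : (5 : K) = 0 := by exact_mod_cast CharP.cast_eq_zero K 5
  obtain ⟨φ, hφ⟩ : ∃ φ : K →+* K, ∀ x, φ x = x ^ 5 := ⟨frobenius K 5, fun _ => rfl⟩
  have a1 : φ κ = μ := ((frob7 (pow_one 5).symm hφ e hx.1.km hx.2.1).resolve_left (by simp)).2
  have a2 : (φ.comp φ) κ = κ := by rw [RingHom.comp_apply, a1, hx.ex.swap a1]
  have tr := @Lift.transport _ _ _ _ _ _ _ _ _ _ _ _ _ _ _ _ _ _ (h.cjr _) (hb.cjr _) hP _ hF hφ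
    (hPH.trans (hH.1.le.trans inf_le_left)) (f1 _ a2) (f2 _ a1)
  have b1 := f3 _ a2; have b2 := f4 _ a1
  rcases hH.2 (toSub ((Pres ω).comap ((Units.coeHom _).comp (lf (g * dgGL d hd)))) ⊓ _)
    (le_inf (fun A a => let ⟨x, b⟩ := (h'.cjr _).all A a; hp x _ b) hH.1.le) inf_le_right with k | k
  · obtain ⟨A, a, b⟩ := tr (Y := diagonal ![1, ω, ω ^ 2])
      (by ext i j; fin_cases i <;> fin_cases j <;> simp [b1, -RingHom.coe_comp])
      (by ext i j; fin_cases i <;> fin_cases j <;> simp [b2, diagonal_vec3, mul_apply, Fin.sum_univ_three] <;> grind)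
      (by simp [Fin.prod_univ_three]; grind)
    obtain ⟨x, c⟩ := (h'.cjr (dgGL d hd)).all A (k.le ⟨by
      change (lf (g * dgGL d hd) A).1 ∈ Pres ω
      rw [b, show ω ^ 2 = -1 - ω by grind, ← (gn_ev (α := 0) ⟨2, 0, 4, 0⟩ ⟨3, 0, 1, 0⟩).2.2.2.2.2]
      exact pres_gn hω h5 5, a⟩)
    rw [b] at c
    have c1 : x ∈ Tor ρ := (Tor_cjd hd).le (Dg.mem c)
    have c2 := pow_card_eq_one' (x := (⟨x, c1⟩ : Tor ρ))
    rw [hx.2.2.1] at c2
    have := (Dg.pow c 4).of_eq_one (congrArg Subtype.val c2) 0 1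
    simp at this
    exact one_ne_zero (α := K) (by grind)
  · obtain ⟨A, a, b⟩ := tr (Y := !![1, 0, 0; 0, 2, 1 + 3 * ω; 0, 2 + 3 * ω, 2])
      (by ext i j; fin_cases i <;> fin_cases j <;> simp [b1, map_ofNat, -RingHom.coe_comp])
      (by ext i j; fin_cases i <;> fin_cases j <;> simp [b2, map_ofNat, mul_apply, Fin.sum_univ_three] <;> grind)
      (by simp [det_fin_three]; grind)
    exact not_pres hω (b ▸ (k.ge a).1)

end Cfsg.Agent.H8.M3
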