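import Cfsg.Agent.H8.M3S
import Cfsg.Agent.H7.PA9
import Cfsg.Agent.H7.Subf
import Cfsg.Agent.H7.Q4
import Cfsg.Agent.H1.Conic3

/-! Subgroups of `PSL₃(q)`, `q` odd, without elementary abelian normal subgroups. -/

set_option autoImplicit false
set_option linter.unusedSectionVars false

namespace Cfsg.Agent.H8.M3
open Matrix Equiv Subgroup Cfsg.Geo
open scoped MatrixGroups commutatorElement

universe u
variable {F K : Type*} [Field F] [Field K] [Algebra F K] [IsAlgClosed K] {G : Type u} [Group G] {p : ℕ}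
variable {ρ : G →* PGL(3, K)} {P H : Subgroup (GL (Fin 3) F)} {g : GL (Fin 3) K} {S : Subgroup G}

theorem Lift.exists_core (h : Lift ρ H g) (hρ : Function.Injective ρ) (hS : SN S) : ∃ P ≤ H,
    Lift (ρ.comp S.subtype) P g ∧ ⁅P, P⁆ = P ∧ (S.Normal → H7.NormG H P) := by
  obtain ⟨Q, hQ⟩ : ∃ Q : Subgroup (GL (Fin 3) F), ∀ A, A ∈ Q ↔ A ∈ H ∧ ∃ x ∈ S, Rep ρ x (lf g A) :=
    ⟨H ⊓ (S.map ρ).comap (pj g), fun A => by simp only [rep_lf, eq_comm (a := pj g A)]; rfl⟩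
  have l : Lift (ρ.comp S.subtype) Q g := ⟨fun x => let ⟨A, a, b⟩ := h.ex x; ⟨A, (hQ A).2 ⟨a, x, x.2, b⟩, b⟩,
    fun A a => let ⟨_, x, b, c⟩ := (hQ A).1 a; ⟨⟨x, b⟩, c⟩⟩
  have e : M3.sub (ρ.comp S.subtype) ⁅Q, Q⁆ g = ⊤ := by
    refine (hS.normal_cases _ (l.normal ((H7.NormG.self Q).commutator (H7.NormG.self Q)))).resolve_left
      fun k => hS.nc fun a b => commutatorElement_eq_one_iff_mul_comm.1 (mem_bot.1 (k.le ?_))
    obtain ⟨A, a1, a2⟩ := l.ex a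
    obtain ⟨B, b1, b2⟩ := l.ex b
    exact mem_sub.2 ⟨_, commutator_mem_commutator a1 b1, ((a2.lf_mul b2).lf_mul a2.lf_inv).lf_mul b2.lf_inv⟩
  refine ⟨⁅Q, Q⁆, (comm_le_self Q).trans fun A a => ((hQ A).1 a).1, ⟨fun x => mem_sub.1 (e.ge (mem_top x)),
    fun A a => l.all A (comm_le_self Q a)⟩, le_antisymm (comm_le_self _) (l.comm_le e), fun hn => ?_⟩
  have : H7.NormG H Q := fun A a B b => by
    obtain ⟨b1, y, b2, b3⟩ := (hQ B).1 b
    obtain ⟨x, c⟩ := h.all A a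
    exact (hQ _).2 ⟨mul_mem (mul_mem a b1) (inv_mem a), _, hn.conj_mem y b2 x, (c.lf_mul b3).lf_mul c.lf_inv⟩
  exact this.commutator this

theorem Lift.cent (h : Lift ρ H g) (hρ : Function.Injective ρ) (l : Lift (ρ.comp S.subtype) P g) (hP : ⁅P, P⁆ = P)
    (hi : H7.AbsIrr P) {a : G} (ha : ∀ x ∈ S, a * x = x * a) : a = 1 := by
  obtain ⟨A, -, b⟩ := h.ex a
  refine hρ ((rep_lf.1 b).symm.trans ((pj_eq_one.2 ((H7.mem_scalars_iff_isScal _).2 (hi.2 _ fun B c => ?_))).trans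
    (map_one ρ).symm))
  have := perfect_eq hP (L := fun B => (lf g B⁻¹ : Mt K)) (R := fun B => (lf g B : Mt K))
    (fun A B => by rw [_root_.mul_inv_rev, map_mul, Units.val_mul]) (fun A B => by rw [map_mul, Units.val_mul])
    (lf g A).ne_zero (fun B c => by
      obtain ⟨x, d⟩ := l.all B c
      have d : Rep ρ x (lf g B) := d
      exact b.uniq (by simpa [mul_assoc, ha x x.2] using (d.lf_inv.mul b).mul d)) c
  rw [← Units.val_mul, ← Units.val_mul, ← map_mul, ← map_mul] at this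
  obtain ⟨d, e, f⟩ := lf_smul (this.trans (one_smul K _).symm)
  rw [(algebraMap F K).injective (e.trans (map_one _).symm), one_smul, ← Units.ext_iff] at f
  rw [← Units.val_mul, ← Units.val_mul, ← inv_mul_eq_iff_eq_mul.1 ((mul_assoc _ _ _).symm.trans f)]

variable [Finite G] [Fact p.Prime] [CharP K p]

theorem Lift.conic (l : Lift ρ P 1) (hb : HB p ρ) (hP : ⁅P, P⁆ = P) (hn : H7.NormG H P) (h : Conic ρ) :
    ∃ S : Mt K, Sᵀ = S ∧ S.det ≠ 0 ∧ ∀ A ∈ H, ∃ c : K, (lf 1 A).1ᵀ * S * (lf 1 A).1 = c • S := by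
  have h2 := (hb.inv_rep hb.exists_inv.choose_spec).1
  obtain ⟨k, h⟩ := h
  obtain ⟨S, e⟩ : ∃ S, S = ((k⁻¹ : GL (Fin 3) K) : Mt K)ᵀ * S0 * ((k⁻¹ : GL (Fin 3) K) : Mt K).map (RingHom.id K) :=
    ⟨_, rfl⟩
  have h0 : S.det ≠ 0 := e ▸ H7.det_tw_ne_zero _ (by simpa [S0, det_fin_three] using h2) (k⁻¹).det_ne_zero
  have h1 : ∀ B ∈ P, (lf 1 B).1ᵀ * S * (lf 1 B).1 = S := fun B b => by
    simpa using l.ts (φ := RingHom.id K) hP (S := S) (by rintro rfl; simp at h0) ((eq_top_iff' _).2 fun x => by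
      have := TS_cjr k⁻¹ (h.ge (mem_top x))
      rwa [cjr_cjr, mul_inv_cancel, cjr_one, ← e] at this) b
  refine ⟨S, ?_, h0, fun A a => ?_⟩
  · have : (S0 : Mt K)ᵀ = S0 := by ext i j; fin_cases i <;> fin_cases j <;> rfl
    rw [e]; simp [this, mul_assoc]
  obtain ⟨c, hc⟩ := hb.schur (C := S⁻¹ * ((lf 1 A).1ᵀ * S * (lf 1 A).1)) fun x M hM => by
    obtain ⟨B, b, c, -, -, rfl⟩ := l.rep hM
    have e1 := congrArg (fun M => (lf 1 A).1ᵀ * M * (lf 1 A).1) (h1 _ (hn A a B b))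
    simp only [← mul_assoc, ← transpose_mul] at e1
    rw [mul_assoc, ← Units.val_mul, ← map_mul, inv_mul_cancel_right, map_mul, Units.val_mul, transpose_mul] at e1
    rw [Matrix.mul_smul, Matrix.smul_mul]; congr 1
    refine H7.mul_left_cancel_det (z := (lf 1 B).1ᵀ * S) (by
      rw [det_mul, det_transpose]; exact mul_ne_zero (lf 1 B).det_ne_zero h0) ?_
    rw [← mul_assoc _ (lf 1 B).1, h1 B b, mul_nonsing_inv_cancel_left _ _ h0.isUnit, mul_assoc, mul_assoc,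
      mul_nonsing_inv_cancel_left _ _ h0.isUnit]
    simpa only [mul_assoc] using e1
  exact ⟨c, by rw [← mul_nonsing_inv_cancel_left S (_ * S * _) h0.isUnit, hc, Matrix.mul_smul, mul_one]⟩

theorem exists_lift (K : Type*) [Field K] [Algebra F K] [IsAlgClosed K] (H : Subgroup PSL(3, F)) :
    ∃ (ρ : H →* PGL(3, K)) (H' : Subgroup (GL (Fin 3) F)), Function.Injective ρ ∧ Lift ρ H' 1 ∧
      H' ≤ specialLinear (Fin 3) F ∧ ∀ A : SL(3, F), SpecialLinearGroup.toGL A ∈ H' ↔ (A : PSL(3, F)) ∈ H := by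
  have e : center SL(3, F) = ((pj (1 : GL (Fin 3) K)).comp SpecialLinearGroup.toGL).ker := Subgroup.ext fun A => by
    rw [MonoidHom.mem_ker, MonoidHom.comp_apply, pj_eq_one, ← SpecialLinearGroup.toGL_mem_center_iff,
      GeneralLinearGroup.center_eq_range_scalar]; rfl
  refine ⟨(QuotientGroup.lift _ _ e.le).comp H.subtype, (H.comap (QuotientGroup.mk' _)).map SpecialLinearGroup.toGL,
    ((QuotientGroup.injective_lift_iff _ _ e.le).2 e).comp H.subtype_injective, ⟨fun ⟨x, hx⟩ => ?_, ?_⟩, ?_,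
    fun A => mem_map_iff_mem SpecialLinearGroup.toGL_injective⟩
  · obtain ⟨A, rfl⟩ := QuotientGroup.mk_surjective x
    exact ⟨_, ⟨A, hx, rfl⟩, rep_lf.2 rfl⟩
  · rintro _ ⟨A, a, rfl⟩; exact ⟨⟨A, a⟩, rep_lf.2 rfl⟩
  · rintro _ ⟨A, a, rfl⟩; exact mem_SL.2 A.2

theorem main3 [Fintype F] (p α : ℕ) [Fact p.Prime] (hp : p ≠ 2) (hF : Fintype.card F = p ^ α)
    (H : Subgroup PSL(3, F)) (hH : H ≠ ⊥) (hN : NoEA H) : Cl14 p α H ∨ Cl56 p α H ∨
    ((p ^ α) ^ 3 % 7 = 1 ∧ Nonempty (H ≃* PSL(2, ZMod 7))) ∨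
    (p = 5 ∧ Even α ∧ (Nonempty (H ≃* alternatingGroup (Fin 6)) ∨ Nonempty (H ≃* alternatingGroup (Fin 7)) ∨
      ∃ L : Subgroup H, L.index = 2 ∧ Nonempty (L ≃* alternatingGroup (Fin 6)))) ∨
    ((p ^ α % 30 = 1 ∨ p ^ α % 30 = 19) ∧ Nonempty (H ≃* alternatingGroup (Fin 6))) := by
  obtain ⟨r, _, n, hr, hn⟩ := FiniteField.card' F
  obtain rfl : r = p := (Nat.prime_dvd_prime_iff_eq hr Fact.out).1
    (hr.dvd_of_dvd_pow (hF ▸ hn ▸ dvd_pow_self r n.ne_zero))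
  have h2 : (2 : F) ≠ 0 := fun e => hp ((Nat.prime_dvd_prime_iff_eq hr Nat.prime_two).1
    ((CharP.cast_eq_zero_iff F r 2).1 (by simpa using e)))
  obtain ⟨ρ, H', i1, l1, hS, hm⟩ := exists_lift (AlgebraicClosure F) H
  have := (nontrivial_iff_ne_bot H).2 hH
  have key : ∀ S : Subgroup H, SN S → ∃ P ≤ H', Lift (ρ.comp S.subtype) P 1 ∧ ⁅P, P⁆ = P ∧
      (S.Normal → H7.NormG H' P) ∧ (HB r (ρ.comp S.subtype) ∨ (∃ g F₀, IsSL3 P g F₀) ∨ ∃ g F₁ q, IsSU3 P g F₁ q) :=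
    fun S s => let ⟨P, a, b, c, d⟩ := l1.exists_core i1 s
      ⟨P, a, b, c, d, (b.tri (H7.partA F) (i1.comp S.subtype_injective) s c (a.trans hS) (Or.inr h2)).imp_right
        (Or.imp_right (Or.resolve_right · fun h => h2 h.1))⟩
  obtain ⟨S, hn, s1, s2⟩ := H7.socle hN fun S s1 s2 a ha => by
    obtain ⟨P, -, b, c, -, h | ⟨_, _, h⟩ | ⟨_, _, _, h⟩⟩ := key S ⟨s1, s2⟩
    exacts [HB.cent i1 h ha, l1.cent i1 b c (H7.absIrr_isSL3 h2 h) ha, l1.cent i1 b c (H7.absIrr_isSU3 h2 h) ha]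
  obtain ⟨P, a, l, c, d, hb | h⟩ := key S ⟨s1, s2⟩
  swap
  · exact Or.inl (H7.subfPart F r α hp hF H P h (fun A h => (hm A).1 (a h)) fun A h => d hn _ ((hm A).2 h))
  rcases summ i1 hb with h | ⟨k, κ, μ, hx, h⟩
  · obtain ⟨T, t1, t2, t3⟩ := l.conic hb c (d hn) h
    exact Or.inr (Or.inl (H1.conicPart F r α hp hF H hH hN T t1 t2 fun A h => by
      have := t3 _ ((hm A).2 h)
      rwa [lf_one] at this))
  have hφ : ∀ x, iterateFrobenius (AlgebraicClosure F) r α x = x ^ r ^ α := fun _ => rfl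
  have e := (l.cjr k).fix_mem hx (hF ▸ hφ)
  have ho : r ^ α % 2 = 1 := Nat.odd_iff.1 (hr.odd_of_ne_two hp).pow
  refine Or.inr (Or.inr ?_)
  rcases h with ⟨-, h1, -, -, h3, -⟩ | ⟨h1, h⟩
  · obtain ⟨h, -⟩ := (frob7 rfl hφ h1 hx.km hx.ne).resolve_right fun h => hx.ne (e.symm.trans h.2)
    exact Or.inl ⟨by rcases h with h | h | h <;> rw [Nat.pow_mod, h], h3⟩
  obtain ⟨-, h3, h4⟩ := ((hx.frob rfl hφ h1).imp_right (Or.resolve_right · fun h => h.1 (by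
    rw [map_add, e, hx.fix e]))).resolve_right fun h => hx.ne (e.symm.trans h.1)
  by_cases h5 : r = 5
  · refine Or.inr (Or.inl ⟨h5, ?_, ?_⟩)
    · by_contra k
      obtain ⟨m, rfl⟩ := Nat.not_even_iff_odd.1 k
      simp [h5, pow_succ, pow_mul, Nat.mul_mod, Nat.pow_mod] at h3
    · rcases h with ⟨b, ⟨-, c⟩ | ⟨-, c⟩, -⟩ | ⟨-, -, -, b⟩
      exacts [Or.inl c, Or.inr (Or.inr ⟨S, c, b⟩), Or.inr (Or.inl b)]
  · obtain ⟨-, h, -⟩ := h.resolve_right fun h => h5 h.1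
    exact Or.inr (Or.inr ⟨by omega, (h.resolve_right fun h => h5 h.1).2⟩)

end Cfsg.Agent.H8.M3
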